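import Mathlib
import Cfsg.Agent.Base

/-! Linear algebra helpers: nondegenerate subspaces, orthogonal splitting, gluing. -/

set_option autoImplicit false

namespace H37.Ore

open Module

variable {F V : Type*} [Field F] [AddCommGroup V] [Module F V]

/-- The form is nondegenerate on the subspace. -/
def ND (B : LinearMap.BilinForm F V) (W : Submodule F V) : Prop :=
  ∀ x ∈ W, (∀ y ∈ W, B x y = 0) → x = 0

/-- The part of `W` orthogonal to `X`. -/
def pp (B : LinearMap.BilinForm F V) (W X : Submodule F V) : Submodule F V :=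
  W ⊓ B.orthogonal X

variable {B : LinearMap.BilinForm F V}

theorem mem_pp {W X : Submodule F V} {y : V} :
    y ∈ pp B W X ↔ y ∈ W ∧ ∀ x ∈ X, B x y = 0 := Iff.rfl

theorem pp_le (W X : Submodule F V) : pp B W X ≤ W := inf_le_left

theorem ND.disjoint_pp {X : Submodule F V} (hB : B.IsRefl) (hX : ND B X) (W : Submodule F V) :
    Disjoint X (pp B W X) := by
  rw [Submodule.disjoint_def]
  intro x hx hx'
  exact hX x hx fun y hy => hB _ _ (hx'.2 y hy)

theorem ND.decomp [FiniteDimensional F V] {X W : Submodule F V} (hB : B.IsRefl) (hX : ND B X)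
    (hXW : X ≤ W) {w : V} (hw : w ∈ W) : ∃ x ∈ X, ∃ y ∈ pp B W X, w = x + y := by
  have hn : (B.restrict X).Nondegenerate := by
    refine (LinearMap.IsRefl.nondegenerate_iff_separatingLeft ?_).mpr ?_
    · intro x y h; exact hB _ _ h
    · intro x hx
      exact Subtype.ext (hX x x.2 fun y hy => hx ⟨y, hy⟩)
  have hc := LinearMap.BilinForm.isCompl_orthogonal_of_restrict_nondegenerate hB hn
  have : w ∈ X ⊔ B.orthogonal X := by rw [hc.sup_eq_top]; trivial
  obtain ⟨x, hx, y, hy, rfl⟩ := Submodule.mem_sup.mp this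
  refine ⟨x, hx, y, ⟨?_, hy⟩, rfl⟩
  have := W.sub_mem hw (hXW hx)
  simpa using this

theorem ND.sup_pp [FiniteDimensional F V] {X W : Submodule F V} (hB : B.IsRefl) (hX : ND B X)
    (hXW : X ≤ W) : X ⊔ pp B W X = W := by
  apply le_antisymm (sup_le hXW (pp_le _ _))
  intro w hw
  obtain ⟨x, hx, y, hy, rfl⟩ := hX.decomp hB hXW hw
  exact Submodule.add_mem_sup hx hy

theorem ND.pp [FiniteDimensional F V] {X W : Submodule F V} (hB : B.IsRefl) (hX : ND B X)
    (hXW : X ≤ W) (hW : ND B W) : ND B (pp B W X) := by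
  intro y hy h
  refine hW y hy.1 fun w hw => ?_
  obtain ⟨x, hx, z, hz, rfl⟩ := hX.decomp hB hXW hw
  rw [map_add, hB _ _ (hy.2 x hx), h z hz, add_zero]

theorem finrank_sup_of_disjoint [FiniteDimensional F V] {X Y : Submodule F V}
    (h : Disjoint X Y) : finrank F ↥(X ⊔ Y) = finrank F X + finrank F Y := by
  rw [← Submodule.finrank_sup_add_finrank_inf_eq, h.eq_bot, finrank_bot, add_zero]

theorem ND.finrank_pp [FiniteDimensional F V] {X W : Submodule F V} (hB : B.IsRefl) (hX : ND B X)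
    (hXW : X ≤ W) : finrank F X + finrank F (Ore.pp B W X) = finrank F W := by
  rw [← finrank_sup_of_disjoint (hX.disjoint_pp hB W), hX.sup_pp hB hXW]

theorem ND.sup {X Y : Submodule F V} (hB : B.IsRefl) (hX : ND B X) (hY : ND B Y)
    (h : ∀ x ∈ X, ∀ y ∈ Y, B x y = 0) : ND B (X ⊔ Y) := by
  intro w hw hw'
  obtain ⟨x, hx, y, hy, rfl⟩ := Submodule.mem_sup.mp hw
  have h1 : x = 0 := hX x hx fun z hz => by
    have := hw' z (Submodule.mem_sup_left hz)
    rwa [map_add, LinearMap.add_apply, hB _ _ (h z hz y hy), add_zero] at this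
  have h2 : y = 0 := hY y hy fun z hz => by
    have := hw' z (Submodule.mem_sup_right hz)
    rwa [map_add, LinearMap.add_apply, h x hx z hz, zero_add] at this
  rw [h1, h2, add_zero]

theorem ND.disjoint {X Y : Submodule F V} (hX : ND B X) (hB : B.IsRefl)
    (h : ∀ x ∈ X, ∀ y ∈ Y, B x y = 0) : Disjoint X Y := by
  rw [Submodule.disjoint_def]
  intro x hx hx'
  exact hX x hx fun y hy => hB _ _ (h y hy x hx')

theorem exists_glue {V' : Type*} [AddCommGroup V'] [Module F V'] {X Y : Submodule F V}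
    (h : Disjoint X Y) (f g : V →ₗ[F] V') :
    ∃ k : V →ₗ[F] V', (∀ x ∈ X, k x = f x) ∧ ∀ y ∈ Y, k y = g y := by
  obtain ⟨Z, hZ, hYZ⟩ := h.exists_isCompl
  refine ⟨LinearMap.ofIsCompl hYZ (f.domRestrict Z) (g.domRestrict Y), fun x hx => ?_,
    fun y hy => ?_⟩
  · exact LinearMap.ofIsCompl_apply_left hYZ ⟨x, hZ hx⟩
  · exact LinearMap.ofIsCompl_apply_right hYZ ⟨y, hy⟩

/-- Dimension of the part of `W` killed by `a`. -/
noncomputable def dm (W : Submodule F V) (a : V →ₗ[F] V) : ℕ :=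
  finrank F ↥(W ⊓ LinearMap.ker a)

theorem dm_congr {W : Submodule F V} {a b : V →ₗ[F] V} (h : ∀ x ∈ W, a x = 0 ↔ b x = 0) :
    dm W a = dm W b := by
  have : W ⊓ LinearMap.ker a = W ⊓ LinearMap.ker b := by
    ext x
    simp only [Submodule.mem_inf, LinearMap.mem_ker]
    exact and_congr_right fun hx => h x hx
  rw [dm, dm, this]

theorem inf_ker_sup {X Y : Submodule F V} (h : Disjoint X Y) {a : V →ₗ[F] V}
    (hX : ∀ x ∈ X, a x ∈ X) (hY : ∀ y ∈ Y, a y ∈ Y) :
    (X ⊔ Y) ⊓ LinearMap.ker a = (X ⊓ LinearMap.ker a) ⊔ (Y ⊓ LinearMap.ker a) := by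
  apply le_antisymm
  · rintro w ⟨hw, hw'⟩
    obtain ⟨x, hx, y, hy, rfl⟩ := Submodule.mem_sup.mp hw
    have h0 : a x + a y = 0 := by simpa using hw'
    have h1 : a x = 0 := by
      refine Submodule.disjoint_def.mp h _ (hX x hx) ?_
      rw [eq_neg_of_add_eq_zero_left h0]; exact Y.neg_mem (hY y hy)
    rw [h1, zero_add] at h0
    exact Submodule.add_mem_sup ⟨hx, h1⟩ ⟨hy, h0⟩
  · exact sup_le (inf_le_inf_right _ le_sup_left) (inf_le_inf_right _ le_sup_right)

theorem dm_sup [FiniteDimensional F V] {X Y : Submodule F V} (h : Disjoint X Y) {a : V →ₗ[F] V}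
    (hX : ∀ x ∈ X, a x ∈ X) (hY : ∀ y ∈ Y, a y ∈ Y) : dm (X ⊔ Y) a = dm X a + dm Y a := by
  rw [dm, inf_ker_sup h hX hY,
    finrank_sup_of_disjoint (h.mono inf_le_left inf_le_left)]
  rfl

theorem dm_bot (a : V →ₗ[F] V) : dm (⊥ : Submodule F V) a = 0 := by
  simp [dm]

theorem dm_le [FiniteDimensional F V] (W : Submodule F V) (a : V →ₗ[F] V) :
    dm W a ≤ finrank F W := Submodule.finrank_mono inf_le_left

/-- Rank-nullity relative to a subspace. -/
theorem dm_add_finrank_map [FiniteDimensional F V] (W : Submodule F V) (a : V →ₗ[F] V) :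
    dm W a + finrank F (W.map a) = finrank F W := by
  have h := LinearMap.finrank_range_add_finrank_ker (a.domRestrict W)
  rw [LinearMap.range_domRestrict, LinearMap.ker_domRestrict] at h
  rw [dm, ← h, add_comm]
  congr 1
  rw [← Submodule.finrank_map_subtype_eq W, Submodule.map_comap_subtype]

theorem dm_eq_zero {W : Submodule F V} {a : V →ₗ[F] V} (h : ∀ x ∈ W, a x = 0 → x = 0) :
    dm W a = 0 := by
  have : W ⊓ LinearMap.ker a = ⊥ := by
    rw [eq_bot_iff]; rintro x ⟨hx, hx'⟩; exact h x hx hx'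
  rw [dm, this, finrank_bot]

theorem dm_eq_one {W : Submodule F V} {a : V →ₗ[F] V} {c : V} (hc : c ≠ 0) (hcW : c ∈ W)
    (hac : a c = 0) (h : ∀ x ∈ W, a x = 0 → ∃ s : F, x = s • c) : dm W a = 1 := by
  have : W ⊓ LinearMap.ker a = Submodule.span F {c} := by
    apply le_antisymm
    · rintro x ⟨hx, hx'⟩
      obtain ⟨s, rfl⟩ := h x hx hx'
      exact Submodule.smul_mem _ _ (Submodule.mem_span_singleton_self c)
    · rw [Submodule.span_singleton_le_iff_mem]; exact ⟨hcW, hac⟩
  rw [dm, this, finrank_span_singleton hc]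

end H37.Ore
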