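import Mathlib
import Cfsg.Agent.Base
import Cfsg.Agent.Lib.Ore.Lin

/-! More linear algebra helpers. -/

set_option autoImplicit false

namespace H37.Ore

open Module

variable {F V : Type*} [Field F] [AddCommGroup V] [Module F V] {B : LinearMap.BilinForm F V}

theorem exists_factor {U V' : Type*} [AddCommGroup U] [Module F U] [AddCommGroup V'] [Module F V']
    (φ : U →ₗ[F] V) (ψ : U →ₗ[F] V') (h : ∀ x, φ x = 0 → ψ x = 0) :
    ∃ σ : V →ₗ[F] V', ∀ x, σ (φ x) = ψ x := by
  obtain ⟨g, hg⟩ := LinearMap.exists_extend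
    (((LinearMap.ker φ).liftQ ψ fun x hx => h x hx).comp φ.quotKerEquivRange.symm.toLinearMap)
  refine ⟨g, fun x => ?_⟩
  have := LinearMap.congr_fun hg ⟨φ x, LinearMap.mem_range_self φ x⟩
  simp only [LinearMap.comp_apply, Submodule.subtype_apply, LinearEquiv.coe_coe,
    LinearMap.quotKerEquivRange_symm_apply_image, Submodule.mkQ_apply] at this
  exact this

theorem ND.finrank_pp' [FiniteDimensional F V] {X W : Submodule F V} (hB : B.IsRefl)
    (hW : ND B W) (hXW : X ≤ W) : finrank F X + finrank F (Ore.pp B W X) = finrank F W := by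
  have hr : (B.restrict W).IsRefl := fun x y h => hB _ _ h
  have h := LinearMap.BilinForm.finrank_add_finrank_orthogonal hr (X.comap W.subtype)
  have h0 : X.comap W.subtype ⊓ (B.restrict W).orthogonal ⊤ = ⊥ := by
    rw [eq_bot_iff]
    rintro x ⟨-, hx⟩
    exact Subtype.ext (hW x x.2 fun y hy => hB _ _ (hx ⟨y, hy⟩ trivial))
  rw [h0, finrank_bot, add_zero] at h
  rw [← h]
  congr 1
  · exact (Submodule.comapSubtypeEquivOfLe hXW).finrank_eq.symm
  · have : Ore.pp B W X =
        ((B.restrict W).orthogonal (X.comap W.subtype)).map W.subtype := by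
      ext y
      constructor
      · rintro ⟨hy, hy'⟩
        exact ⟨⟨y, hy⟩, fun x hx => hy' x hx, rfl⟩
      · rintro ⟨y, hy, rfl⟩
        exact ⟨y.2, fun x hx => hy ⟨x, hXW hx⟩ hx⟩
    rw [this, Submodule.finrank_map_subtype_eq W]

theorem rep_pair [FiniteDimensional F V] {X Y : Submodule F V}
    (h1 : ∀ x ∈ X, (∀ y ∈ Y, B x y = 0) → x = 0) (h2 : ∀ y ∈ Y, (∀ x ∈ X, B x y = 0) → y = 0)
    (φ : V →ₗ[F] F) : ∃ x ∈ X, ∀ y ∈ Y, B x y = φ y := by
  let a : X →ₗ[F] Dual F Y := (B.domRestrict₁₂ X Y)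
  let b : Y →ₗ[F] Dual F X := (B.domRestrict₁₂ X Y).flip
  have ha : Function.Injective a := by
    rw [← LinearMap.ker_eq_bot, LinearMap.ker_eq_bot']
    intro x hx
    exact Subtype.ext (h1 x x.2 fun y hy => LinearMap.congr_fun hx ⟨y, hy⟩)
  have hb : Function.Injective b := by
    rw [← LinearMap.ker_eq_bot, LinearMap.ker_eq_bot']
    intro y hy
    exact Subtype.ext (h2 y y.2 fun x hx => LinearMap.congr_fun hy ⟨x, hx⟩)
  have e1 := LinearMap.finrank_le_finrank_of_injective ha
  have e2 := LinearMap.finrank_le_finrank_of_injective hb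
  rw [Subspace.dual_finrank_eq] at e1 e2
  have hs : Function.Surjective a :=
    (LinearMap.injective_iff_surjective_of_finrank_eq_finrank
      (by rw [Subspace.dual_finrank_eq]; omega)).mp ha
  obtain ⟨x, hx⟩ := hs (φ.domRestrict Y)
  exact ⟨x, x.2, fun y hy => LinearMap.congr_fun hx ⟨y, hy⟩⟩

theorem exists_idem_pow {R : Type*} [Monoid R] [Finite R] (a : R) :
    ∃ m, 0 < m ∧ a ^ m * a ^ m = a ^ m := by
  have key : ∀ i j : ℕ, i < j → a ^ i = a ^ j → ∃ m, 0 < m ∧ a ^ m * a ^ m = a ^ m := by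
    intro i j hij h
    obtain ⟨d, rfl⟩ := Nat.exists_eq_add_of_lt hij
    have h1 : ∀ c n, i ≤ n → a ^ (n + c * (d + 1)) = a ^ n := by
      intro c n hn
      induction c with
      | zero => simp
      | succ c ih =>
        obtain ⟨e, rfl⟩ := Nat.exists_eq_add_of_le hn
        rw [show i + e + (c + 1) * (d + 1) = (i + d + 1) + (e + c * (d + 1)) by ring, pow_add, ← h,
          ← pow_add, ← add_assoc, ih]
    refine ⟨(i + 1) * (d + 1), by positivity, ?_⟩
    rw [← pow_add]
    exact h1 _ _ (by nlinarith)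
  obtain ⟨i, j, hij, h⟩ := Finite.exists_ne_map_eq_of_infinite fun n : ℕ => a ^ n
  rcases lt_or_gt_of_ne hij with h' | h'
  · exact key i j h' h
  · exact key j i h' h.symm

end H37.Ore
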