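import Mathlib
import Cfsg.Agent.Base
import Cfsg.Agent.Lib.Ore.Lin2

/-! An isometry seen as a module structure over a ring with involution; inverting involutions. -/

set_option autoImplicit false

namespace H37.Ore

open Module Polynomial

/-- A space with a reflexive form and an isometry `t`, as a module over a ring generated by `t`. -/
structure Ctx (F V R : Type*) [Field F] [AddCommGroup V] [Module F V] [CommRing R] [Algebra F R]
    [Module R V] [IsScalarTower F R V] where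
  bar : R →ₐ[F] R
  t : R
  t' : R
  htt : t * t' = 1
  bar_t : bar t = t'
  bar_t' : bar t' = t
  gen : ∀ r, ∃ p : F[X], r = aeval t p
  B : LinearMap.BilinForm F V
  ε : F
  hε : ε * ε = 1
  adj : ∀ r x y, B (r • x) y = B x (bar r • y)
  sym : ∀ x y, B x y = ε * B y x

variable {F V R : Type*} [Field F] [AddCommGroup V] [Module F V] [CommRing R] [Algebra F R]
  [Module R V] [IsScalarTower F R V]

/-- Multiplication by a ring element. -/
def Lm (F V : Type*) {R : Type*} [Field F] [AddCommGroup V] [Module F V] [CommRing R]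
    [Algebra F R] [Module R V] [IsScalarTower F R V] (r : R) : V →ₗ[F] V where
  toFun x := r • x
  map_add' := smul_add r
  map_smul' c x := smul_comm r c x

@[simp] theorem Lm_apply (r : R) (x : V) : Lm F V r x = r • x := rfl

/-- Invariant subspaces. -/
def Iv (R : Type*) [CommRing R] [Module R V] (W : Submodule F V) : Prop :=
  ∀ r : R, ∀ x ∈ W, r • x ∈ W

/-- The cyclic subspace. -/
def cyc (F : Type*) {V : Type*} (R : Type*) [Field F] [AddCommGroup V] [Module F V] [CommRing R]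
    [Algebra F R] [Module R V] [IsScalarTower F R V] (v : V) : Submodule F V where
  carrier := {x | ∃ r : R, r • v = x}
  add_mem' := by rintro _ _ ⟨r, rfl⟩ ⟨s, rfl⟩; exact ⟨r + s, add_smul _ _ _⟩
  zero_mem' := ⟨0, zero_smul _ _⟩
  smul_mem' := by rintro c _ ⟨r, rfl⟩; exact ⟨c • r, smul_assoc _ _ _⟩

theorem mem_cyc {v x : V} : x ∈ cyc F R v ↔ ∃ r : R, r • v = x := Iff.rfl

theorem smul_mem_cyc (r : R) (v : V) : r • v ∈ cyc F R v := ⟨r, rfl⟩

theorem self_mem_cyc (v : V) : v ∈ cyc F R v := ⟨1, one_smul _ _⟩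

theorem iv_cyc (v : V) : Iv R (cyc F R v) := by
  rintro r _ ⟨s, rfl⟩; exact ⟨r * s, mul_smul _ _ _⟩

theorem Iv.cyc_le {W : Submodule F V} (hW : Iv R W) {v : V} (hv : v ∈ W) : cyc F R v ≤ W := by
  rintro _ ⟨r, rfl⟩; exact hW r v hv

omit [Algebra F R] [IsScalarTower F R V] in
theorem Iv.sup {X Y : Submodule F V} (hX : Iv R X) (hY : Iv R Y) : Iv R (X ⊔ Y) := by
  intro r w hw
  obtain ⟨x, hx, y, hy, rfl⟩ := Submodule.mem_sup.mp hw
  rw [smul_add]
  exact Submodule.add_mem_sup (hX r x hx) (hY r y hy)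

omit [Algebra F R] [IsScalarTower F R V] in
theorem iv_top : Iv R (⊤ : Submodule F V) := fun _ _ _ => trivial

omit [Algebra F R] [IsScalarTower F R V] in
theorem iv_bot : Iv R (⊥ : Submodule F V) := fun r x hx => by
  rw [Submodule.mem_bot] at hx ⊢; rw [hx, smul_zero]

theorem Iv.inf_ker {W : Submodule F V} (hW : Iv R W) (a : R) :
    Iv R (W ⊓ LinearMap.ker (Lm F V a)) := by
  rintro r x ⟨hx, hx'⟩
  refine ⟨hW r x hx, ?_⟩
  have h : a • x = 0 := hx'
  change a • r • x = 0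
  rw [smul_comm, h, smul_zero]

theorem mem_cyc_sup {u v x : V} :
    x ∈ cyc F R u ⊔ cyc F R v ↔ ∃ r s : R, r • u + s • v = x := by
  rw [Submodule.mem_sup]
  constructor
  · rintro ⟨_, ⟨r, rfl⟩, _, ⟨s, rfl⟩, rfl⟩; exact ⟨r, s, rfl⟩
  · rintro ⟨r, s, rfl⟩; exact ⟨_, ⟨r, rfl⟩, _, ⟨s, rfl⟩, rfl⟩

theorem algebraMap_smul' (c : F) (x : V) : (algebraMap F R c) • x = c • x := algebraMap_smul R c x

namespace Ctx

variable (C : Ctx F V R)

theorem bar_bar (r : R) : C.bar (C.bar r) = r := by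
  obtain ⟨p, rfl⟩ := C.gen r
  rw [← aeval_algHom_apply, ← aeval_algHom_apply, C.bar_t, C.bar_t']

theorem isRefl : C.B.IsRefl := fun x y h => by rw [C.sym, h, mul_zero]

theorem adj' (r : R) (x y : V) : C.B x (r • y) = C.B (C.bar r • x) y := by
  rw [C.adj, C.bar_bar]

theorem ε_ne : C.ε ≠ 0 := fun h => by simpa [h] using C.hε

theorem T_bar (v : V) (x : R) : C.B v (C.bar x • v) = C.ε * C.B v (x • v) := by
  rw [← C.adj, C.sym]

theorem iv_pp {W X : Submodule F V} (hW : Iv R W) (hX : Iv R X) : Iv R (pp C.B W X) := by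
  rintro r y ⟨hy, hy'⟩
  refine ⟨hW r y hy, fun x hx => ?_⟩
  change C.B x (r • y) = 0
  rw [C.adj']
  exact hy' _ (hX _ x hx)

/-- An involution of `W` reversing the form and semilinear for the ring involution. -/
structure Inv (W : Submodule F V) (σ : V →ₗ[F] V) : Prop where
  mem : ∀ x ∈ W, σ x ∈ W
  sq : ∀ x ∈ W, σ (σ x) = x
  iso : ∀ x ∈ W, ∀ y ∈ W, C.B (σ x) (σ y) = C.B y x
  semi : ∀ r : R, ∀ x ∈ W, σ (r • x) = C.bar r • σ x

variable {C}

theorem Inv.mono {W X : Submodule F V} {σ : V →ₗ[F] V} (h : C.Inv W σ) (hXW : X ≤ W)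
    (hX : ∀ x ∈ X, σ x ∈ X) : C.Inv X σ :=
  ⟨hX, fun x hx => h.sq x (hXW hx), fun x hx y hy => h.iso x (hXW hx) y (hXW hy),
    fun r x hx => h.semi r x (hXW hx)⟩

theorem Inv.congr {W : Submodule F V} {σ τ : V →ₗ[F] V} (h : C.Inv W σ) (hW : Iv R W)
    (e : ∀ x ∈ W, τ x = σ x) : C.Inv W τ :=
  ⟨fun x hx => by rw [e x hx]; exact h.mem x hx,
    fun x hx => by rw [e x hx, e _ (h.mem x hx), h.sq x hx],
    fun x hx y hy => by rw [e x hx, e y hy, h.iso x hx y hy],
    fun r x hx => by rw [e x hx, e _ (hW r x hx), h.semi r x hx]⟩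

theorem Inv.neg {W : Submodule F V} {σ : V →ₗ[F] V} (h : C.Inv W σ) : C.Inv W (-σ) :=
  ⟨fun x hx => W.neg_mem (h.mem x hx), fun x hx => by simp [h.sq x hx],
    fun x hx y hy => by simp [h.iso x hx y hy], fun r x hx => by simp [h.semi r x hx]⟩

theorem Inv.mul {W : Submodule F V} {σ : V →ₗ[F] V} (h : C.Inv W σ) (hW : Iv R W) {c : R}
    (hc : ∀ x ∈ W, (c * C.bar c) • x = x) : C.Inv W (σ ∘ₗ Lm F V c) := by
  refine ⟨fun x hx => h.mem _ (hW c x hx), fun x hx => ?_, fun x hx y hy => ?_, fun r x hx => ?_⟩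
  · simp only [LinearMap.comp_apply, Lm_apply]
    rw [h.semi c x hx, ← mul_smul, hc _ (h.mem x hx), h.sq x hx]
  · simp only [LinearMap.comp_apply, Lm_apply]
    rw [h.iso _ (hW c x hx) _ (hW c y hy), C.adj, ← mul_smul, mul_comm, hc x hx]
  · simp only [LinearMap.comp_apply, Lm_apply]
    rw [smul_comm c r x, h.semi r _ (hW c x hx)]

theorem Inv.shift {W : Submodule F V} {σ : V →ₗ[F] V} (h : C.Inv W σ) (hW : Iv R W) :
    C.Inv W (σ ∘ₗ Lm F V C.t) :=
  h.mul hW fun x _ => by rw [C.bar_t, C.htt, one_smul]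

theorem inv_bot (σ : V →ₗ[F] V) : C.Inv ⊥ σ := by
  refine ⟨fun x hx => ?_, fun x hx => ?_, fun x hx y _ => ?_, fun r x hx => ?_⟩ <;>
    rw [Submodule.mem_bot] at hx <;> simp [hx]

theorem Inv.sup {X Y : Submodule F V} {σ : V →ₗ[F] V} (hX : C.Inv X σ) (hY : C.Inv Y σ)
    (h : ∀ x ∈ X, ∀ y ∈ Y, C.B x y = 0) : C.Inv (X ⊔ Y) σ := by
  refine ⟨fun w hw => ?_, fun w hw => ?_, fun w hw w' hw' => ?_, fun r w hw => ?_⟩
  all_goals obtain ⟨x, hx, y, hy, rfl⟩ := Submodule.mem_sup.mp hw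
  · rw [map_add]; exact Submodule.add_mem_sup (hX.mem x hx) (hY.mem y hy)
  · rw [map_add, map_add, hX.sq x hx, hY.sq y hy]
  · obtain ⟨x', hx', y', hy', rfl⟩ := Submodule.mem_sup.mp hw'
    simp only [map_add, LinearMap.add_apply, hX.iso x hx x' hx', hY.iso y hy y' hy',
      h _ (hX.mem x hx) _ (hY.mem y' hy'), C.isRefl _ _ (h _ (hX.mem x' hx') _ (hY.mem y hy)),
      h x' hx' y hy, C.isRefl _ _ (h x hx y' hy')]
  · rw [smul_add, map_add, map_add, hX.semi r x hx, hY.semi r y hy, smul_add]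

theorem Inv.glue {X Y : Submodule F V} {σ τ : V →ₗ[F] V} (hX : C.Inv X σ) (hY : C.Inv Y τ)
    (iX : Iv R X) (iY : Iv R Y) (hd : Disjoint X Y) (h : ∀ x ∈ X, ∀ y ∈ Y, C.B x y = 0) :
    ∃ k, C.Inv (X ⊔ Y) k ∧ (∀ x ∈ X, k x = σ x) ∧ ∀ y ∈ Y, k y = τ y := by
  obtain ⟨k, h1, h2⟩ := exists_glue hd σ τ
  exact ⟨k, (hX.congr iX h1).sup (hY.congr iY h2) h, h1, h2⟩

variable (C)

theorem exists_sl2 {u v u' v' : V}
    (h : ∀ r s : R, r • u + s • v = 0 → C.bar r • u' + C.bar s • v' = 0) :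
    ∃ σ : V →ₗ[F] V, ∀ r s : R, σ (r • u + s • v) = C.bar r • u' + C.bar s • v' := by
  let φ : (R × R) →ₗ[F] V :=
    { toFun := fun p => p.1 • u + p.2 • v
      map_add' := fun p q => by simp only [Prod.fst_add, Prod.snd_add, add_smul]; abel
      map_smul' := fun c p => by simp [smul_add] }
  let ψ : (R × R) →ₗ[F] V :=
    { toFun := fun p => C.bar p.1 • u' + C.bar p.2 • v'
      map_add' := fun p q => by simp only [Prod.fst_add, Prod.snd_add, map_add, add_smul]; abel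
      map_smul' := fun c p => by simp [smul_add] }
  obtain ⟨σ, hσ⟩ := exists_factor φ ψ fun p hp => h p.1 p.2 hp
  exact ⟨σ, fun r s => hσ (r, s)⟩

theorem exists_inv_two {u v u' v' : V} (hN : ND C.B (cyc F R u ⊔ cyc F R v))
    {a b c d : R} (hu' : u' = a • u + b • v) (hv' : v' = c • u + d • v)
    (su : C.bar a • u' + C.bar b • v' = u) (sv : C.bar c • u' + C.bar d • v' = v)
    (h1 : ∀ x : R, C.B u' (x • u') = C.B u (x • u)) (h2 : ∀ x : R, C.B v' (x • v') = C.B v (x • v))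
    (h3 : ∀ x : R, C.B u' (x • v') = C.B v (x • u)) :
    ∃ σ, C.Inv (cyc F R u ⊔ cyc F R v) σ ∧
      ∀ r s : R, σ (r • u + s • v) = C.bar r • u' + C.bar s • v' := by
  have h4 : ∀ x : R, C.B v' (x • u') = C.B u (x • v) := fun x => by
    rw [C.sym, C.adj, h3, ← C.adj, ← C.sym]
  have key : ∀ r s r' s' : R, C.B (C.bar r • u' + C.bar s • v') (C.bar r' • u' + C.bar s' • v') =
      C.B (r' • u + s' • v) (r • u + s • v) := by
    intro r s r' s'
    simp only [map_add, LinearMap.add_apply, C.adj, C.bar_bar, ← mul_smul, h1, h2, h3, h4]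
    simp only [mul_comm]
    ring
  have hm : ∀ r s : R, C.bar r • u' + C.bar s • v' ∈ cyc F R u ⊔ cyc F R v := fun r s =>
    mem_cyc_sup.mpr ⟨C.bar r * a + C.bar s * c, C.bar r * b + C.bar s * d, by
      rw [hu', hv']; module⟩
  have hsq : ∀ r s : R, C.bar (C.bar r * a + C.bar s * c) • u' +
      C.bar (C.bar r * b + C.bar s * d) • v' = r • u + s • v := by
    intro r s
    simp only [map_add, map_mul, C.bar_bar]
    conv_rhs => rw [← su, ← sv]
    module
  obtain ⟨σ, hσ⟩ := C.exists_sl2 (u := u) (v := v) (u' := u') (v' := v') (by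
    intro r s h
    refine hN _ (hm r s) fun y hy => ?_
    obtain ⟨r', s', rfl⟩ := mem_cyc_sup.mp hy
    rw [← hsq, key, h, map_zero])
  refine ⟨σ, ⟨fun w hw => ?_, fun w hw => ?_, fun w hw w' hw' => ?_, fun x w hw => ?_⟩, hσ⟩
  all_goals obtain ⟨r, s, rfl⟩ := mem_cyc_sup.mp hw
  · rw [hσ]; exact hm r s
  · rw [hσ, show C.bar r • u' + C.bar s • v' = (C.bar r * a + C.bar s * c) • u +
      (C.bar r * b + C.bar s * d) • v by rw [hu', hv']; module, hσ, hsq]
  · obtain ⟨r', s', rfl⟩ := mem_cyc_sup.mp hw'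
    rw [hσ, hσ, key]
  · rw [smul_add, ← mul_smul, ← mul_smul, hσ, hσ, map_mul, map_mul]; module

theorem cyc_zero : cyc F R (0 : V) = ⊥ := by
  rw [eq_bot_iff]; rintro _ ⟨r, rfl⟩; simp

theorem exists_inv_cyc {v : V} (hN : ND C.B (cyc F R v)) :
    ∃ σ, C.Inv (cyc F R v) σ ∧ ∀ r : R, σ (r • v) = C.bar r • v := by
  have e : cyc F R v ⊔ cyc F R (0 : V) = cyc F R v := by rw [cyc_zero, sup_bot_eq]
  obtain ⟨σ, h, h'⟩ := C.exists_inv_two (u := v) (v := 0) (u' := v) (v' := 0) (by rwa [e])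
    (a := 1) (b := 0) (c := 0) (d := 0) (by simp) (by simp) (by simp) (by simp) (by simp)
    (by simp) (by simp)
  rw [e] at h
  exact ⟨σ, h, fun r => by simpa using h' r 0⟩

end Ctx

end H37.Ore
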