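import Mathlib
import Cfsg.Agent.Base
import Cfsg.Agent.Lib.Ore.Blk

/-! Primary components and cyclic or bicyclic blocks. -/

set_option autoImplicit false

namespace H37.Ore

open Module Polynomial

variable {F V R : Type*} [Field F] [AddCommGroup V] [Module F V] [CommRing R] [Algebra F R]
  [Module R V] [IsScalarTower F R V]

namespace Ctx

variable (C : Ctx F V R)

/-- `t - e`. -/
def N (e : F) : R := C.t - algebraMap F R e

/-- `t + t⁻¹`. -/
def η : R := C.t + C.t'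

/-- `t - t⁻¹`. -/
def j : R := C.t - C.t'

theorem bar_η : C.bar C.η = C.η := by rw [η, map_add, C.bar_t, C.bar_t', add_comm]

theorem bar_j : C.bar C.j = -C.j := by rw [j, map_sub, C.bar_t, C.bar_t', neg_sub]

theorem bar_aeval (p : F[X]) : C.bar (aeval C.η p) = aeval C.η p := by
  rw [← aeval_algHom_apply, C.bar_η]

theorem j_sq : C.j * C.j = aeval C.η (X ^ 2 - 4 : F[X]) := by
  simp only [map_sub, map_pow, aeval_X, map_ofNat, η, j]
  linear_combination (-4) * C.htt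

theorem bar_N {e : F} (he : e * e = 1) :
    C.bar (C.N e) = -(algebraMap F R e * C.t') * C.N e := by
  have h : algebraMap F R e * algebraMap F R e = 1 := by rw [← map_mul, he, map_one]
  simp only [N, map_sub, C.bar_t, AlgHom.commutes]
  linear_combination (algebraMap F R e) * C.htt - C.t' * h

theorem j_eq {e : F} (he : e * e = 1) :
    C.j = C.t' * (C.N e + algebraMap F R (2 * e)) * C.N e := by
  have h : algebraMap F R e * algebraMap F R e = 1 := by rw [← map_mul, he, map_one]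
  simp only [N, j, map_mul, map_ofNat]
  linear_combination (-C.t) * C.htt + C.t' * h

theorem η_sub {e : F} (he : e * e = 1) :
    C.η - algebraMap F R (2 * e) = C.t' * C.N e * C.N e := by
  have h : algebraMap F R e * algebraMap F R e = 1 := by rw [← map_mul, he, map_one]
  simp only [N, η, map_mul, map_ofNat]
  linear_combination (-C.t + 2 * algebraMap F R e) * C.htt - C.t' * h

theorem layer0 (e : F) (r : R) : ∃ c : F, ∃ r', r = algebraMap F R c + C.N e * r' := by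
  obtain ⟨p, rfl⟩ := C.gen r
  obtain ⟨q, hq⟩ := X_sub_C_dvd_sub_C_eval (p := p) (a := e)
  refine ⟨p.eval e, aeval C.t q, ?_⟩
  have := congrArg (aeval C.t) hq
  simp only [map_sub, map_mul, aeval_X, aeval_C] at this
  rw [N, ← this]; ring

theorem layer (e : F) (k : ℕ) (r s : R) :
    (C.N e ^ (k + 1) ∣ r ∧ C.N e ^ (k + 1) ∣ s) ∨ ∃ m : R, ∃ c c' : F, (c ≠ 0 ∨ c' ≠ 0) ∧
      C.N e ^ (k + 1) ∣ m * r - algebraMap F R c * C.N e ^ k ∧
      C.N e ^ (k + 1) ∣ m * s - algebraMap F R c' * C.N e ^ k := by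
  have step : ∀ (k : ℕ) (r s : R), (C.N e ^ (k + 1) ∣ C.N e ^ k * r ∧
      C.N e ^ (k + 1) ∣ C.N e ^ k * s) ∨ ∃ m : R, ∃ c c' : F, (c ≠ 0 ∨ c' ≠ 0) ∧
      C.N e ^ (k + 1) ∣ m * (C.N e ^ k * r) - algebraMap F R c * C.N e ^ k ∧
      C.N e ^ (k + 1) ∣ m * (C.N e ^ k * s) - algebraMap F R c' * C.N e ^ k := by
    intro k r s
    obtain ⟨c, r', rfl⟩ := C.layer0 e r
    obtain ⟨c', s', rfl⟩ := C.layer0 e s
    by_cases h : c = 0 ∧ c' = 0
    · left
      rw [h.1, h.2]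
      exact ⟨⟨r', by simp; ring⟩, ⟨s', by simp; ring⟩⟩
    · right
      exact ⟨1, c, c', by tauto, ⟨r', by ring⟩, ⟨s', by ring⟩⟩
  induction k with
  | zero => simpa using step 0 r s
  | succ k ih =>
    rcases ih with ⟨⟨r', rfl⟩, ⟨s', rfl⟩⟩ | ⟨m, c, c', h, ⟨r', h1⟩, ⟨s', h2⟩⟩
    · exact step (k + 1) r' s'
    · right
      exact ⟨C.N e * m, c, c', h, ⟨r', by linear_combination C.N e * h1⟩,
        ⟨s', by linear_combination C.N e * h2⟩⟩

theorem smul_eq_of_dvd {a r s : R} {v : V} (hv : a • v = 0) (h : a ∣ r - s) : r • v = s • v := by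
  obtain ⟨m, hm⟩ := h
  rw [← sub_eq_zero, ← sub_smul, hm, mul_comm, mul_smul, hv, smul_zero]

theorem smul_eq_zero_of_dvd {a r : R} {v : V} (hv : a • v = 0) (h : a ∣ r) : r • v = 0 := by
  obtain ⟨m, rfl⟩ := h
  rw [mul_comm, mul_smul, hv, smul_zero]

/-- Module form of the layer lemma. -/
theorem layer2 (e : F) (k : ℕ) {u v : V} (hu : C.N e ^ (k + 1) • u = 0)
    (hv : C.N e ^ (k + 1) • v = 0) (r s : R) :
    (C.N e ^ (k + 1) ∣ r ∧ C.N e ^ (k + 1) ∣ s) ∨ ∃ m : R, ∃ c c' : F, (c ≠ 0 ∨ c' ≠ 0) ∧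
      m • (r • u + s • v) = c • C.N e ^ k • u + c' • C.N e ^ k • v := by
  rcases C.layer e k r s with h | ⟨m, c, c', h, h1, h2⟩
  · exact Or.inl h
  · refine Or.inr ⟨m, c, c', h, ?_⟩
    rw [smul_add, ← mul_smul, ← mul_smul, smul_eq_of_dvd hu h1, smul_eq_of_dvd hv h2, mul_smul,
      mul_smul, algebraMap_smul, algebraMap_smul]

theorem layer1 (e : F) (k : ℕ) {v : V} (hv : C.N e ^ (k + 1) • v = 0) (r : R) :
    C.N e ^ (k + 1) ∣ r ∨ ∃ m : R, ∃ c : F, c ≠ 0 ∧ m • r • v = c • C.N e ^ k • v := by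
  rcases C.layer e k r r with h | ⟨m, c, c', h | h, h1, h2⟩
  · exact Or.inl h.1
  · exact Or.inr ⟨m, c, h, by rw [← mul_smul, smul_eq_of_dvd hv h1, mul_smul, algebraMap_smul]⟩
  · exact Or.inr ⟨m, c', h, by rw [← mul_smul, smul_eq_of_dvd hv h2, mul_smul, algebraMap_smul]⟩

theorem t_soc {e : F} {w : V} (hw : C.N e • w = 0) : C.t • w = e • w := by
  rw [N, sub_smul, algebraMap_smul, sub_eq_zero] at hw; exact hw

theorem t'_soc {e : F} (he : e * e = 1) {w : V} (hw : C.N e • w = 0) : C.t' • w = e • w := by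
  have h : C.t' • C.t • w = w := by rw [← mul_smul, mul_comm, C.htt, one_smul]
  rw [C.t_soc hw, smul_comm] at h
  conv_rhs => rw [← h]
  rw [smul_smul, he, one_smul]

theorem soc {e : F} (he : e * e = 1) (r : R) : ∃ c : F, ∀ w : V, C.N e • w = 0 →
    r • w = c • w ∧ C.bar r • w = c • w := by
  obtain ⟨c, r', rfl⟩ := C.layer0 e r
  refine ⟨c, fun w hw => ⟨?_, ?_⟩⟩
  · rw [add_smul, algebraMap_smul, mul_comm, mul_smul, hw, smul_zero, add_zero]
  · rw [map_add, map_mul, AlgHom.commutes, C.bar_N he, add_smul, algebraMap_smul, mul_comm,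
      mul_smul, mul_smul, hw, smul_zero, smul_zero, add_zero]

theorem N_pow_succ (e : F) (k : ℕ) (v : V) : C.N e • C.N e ^ k • v = C.N e ^ (k + 1) • v := by
  rw [← mul_smul, pow_succ']

theorem bar_N_pow {e : F} (he : e * e = 1) (k : ℕ) {v : V} (hv : C.N e ^ (k + 1) • v = 0) :
    C.bar (C.N e ^ k) • v = (-1 : F) ^ k • C.N e ^ k • v := by
  have hw : C.N e • C.N e ^ k • v = 0 := by rw [C.N_pow_succ, hv]
  have h1 : ∀ i : ℕ, (-(algebraMap F R e * C.t')) ^ i • C.N e ^ k • v =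
      (-1 : F) ^ i • C.N e ^ k • v := by
    intro i
    induction i with
    | zero => simp
    | succ i ih =>
      rw [pow_succ', mul_smul, ih, smul_comm, neg_smul, mul_smul, C.t'_soc he hw, algebraMap_smul,
        smul_smul e e, he, one_smul, pow_succ, mul_smul, neg_smul, one_smul]
  rw [map_pow, C.bar_N he, mul_pow, mul_smul, h1]

theorem bar_N_pow_zero {e : F} (he : e * e = 1) (k : ℕ) {v : V} (hv : C.N e ^ k • v = 0) :
    C.bar (C.N e ^ k) • v = 0 := by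
  rw [map_pow, C.bar_N he, mul_pow, mul_smul, hv, smul_zero]

theorem B_N_pow {e : F} (he : e * e = 1) (k : ℕ) (u : V) {v : V} (hv : C.N e ^ (k + 1) • v = 0) :
    C.B (C.N e ^ k • u) v = (-1 : F) ^ k * C.B u (C.N e ^ k • v) := by
  rw [C.adj, C.bar_N_pow he k hv, map_smul, smul_eq_mul]

theorem rad_smul {W : Submodule F V} (hW : Iv R W) {x : V} (h : ∀ y ∈ W, C.B x y = 0) (m : R) :
    ∀ y ∈ W, C.B (m • x) y = 0 := fun y hy => by rw [C.adj]; exact h _ (hW _ y hy)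

theorem nd_B1 {e : F} {k : ℕ} {v : V} (hv : C.N e ^ (k + 1) • v = 0)
    (h : C.B v (C.N e ^ k • v) ≠ 0) : ND C.B (cyc F R v) := by
  rintro _ ⟨r, rfl⟩ hr
  rcases C.layer1 e k hv r with h1 | ⟨m, c, hc, h1⟩
  · exact smul_eq_zero_of_dvd hv h1
  · have := C.isRefl _ _ (C.rad_smul (iv_cyc v) hr m v (self_mem_cyc v))
    rw [h1, map_smul, smul_eq_mul] at this
    exact absurd this (mul_ne_zero hc h)

/-- Data of a bicyclic block. -/
structure IsB2 (e : F) (k : ℕ) (u v : V) : Prop where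
  hu : C.N e ^ (k + 1) • u = 0
  hv : C.N e ^ (k + 1) • v = 0
  uv : C.B u (C.N e ^ k • v) = 1
  vu : C.B v (C.N e ^ k • u) = -1
  uu : C.B u (C.N e ^ k • u) = 0
  vv : C.B v (C.N e ^ k • v) = 0

variable {C}

theorem IsB2.ind {e : F} {k : ℕ} {u v : V} (h : C.IsB2 e k u v) {a b : F}
    (hab : a • C.N e ^ k • u + b • C.N e ^ k • v = 0) : a = 0 ∧ b = 0 := by
  have h1 := congrArg (C.B u) hab
  have h2 := congrArg (C.B v) hab
  simp only [map_add, map_smul, h.uv, h.vu, h.uu, h.vv, smul_eq_mul, map_zero] at h1 h2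
  exact ⟨by linear_combination -h2, by linear_combination h1⟩

theorem IsB2.rad {e : F} {k : ℕ} {u v : V} (h : C.IsB2 e k u v) {r s : R}
    (hr : ∀ y ∈ cyc F R u ⊔ cyc F R v, C.B (r • u + s • v) y = 0) :
    C.N e ^ (k + 1) ∣ r ∧ C.N e ^ (k + 1) ∣ s := by
  rcases C.layer2 e k h.hu h.hv r s with h1 | ⟨m, c, c', hc, h1⟩
  · exact h1
  · have h2 := C.rad_smul ((iv_cyc u).sup (iv_cyc v)) hr m
    have h3 := C.isRefl _ _ (h2 u (Submodule.mem_sup_left (self_mem_cyc u)))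
    have h4 := C.isRefl _ _ (h2 v (Submodule.mem_sup_right (self_mem_cyc v)))
    simp only [h1, map_add, map_smul, h.uv, h.vu, h.uu, h.vv, smul_eq_mul] at h3 h4
    exfalso
    rcases hc with hc | hc
    · exact hc (by linear_combination -h4)
    · exact hc (by linear_combination h3)

theorem IsB2.nd {e : F} {k : ℕ} {u v : V} (h : C.IsB2 e k u v) :
    ND C.B (cyc F R u ⊔ cyc F R v) := by
  intro w hw hr
  obtain ⟨r, s, rfl⟩ := mem_cyc_sup.mp hw
  obtain ⟨h1, h2⟩ := h.rad hr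
  rw [smul_eq_zero_of_dvd h.hu h1, smul_eq_zero_of_dvd h.hv h2, add_zero]

theorem IsB2.free {e : F} {k : ℕ} {u v : V} (h : C.IsB2 e k u v) {r s : R}
    (hr : r • u + s • v = 0) : C.N e ^ (k + 1) ∣ r ∧ C.N e ^ (k + 1) ∣ s :=
  h.rad fun y _ => by rw [hr]; simp

theorem IsB2.T_nd {e : F} {k : ℕ} {u v : V} (h : C.IsB2 e k u v) {s : R}
    (hs : ∀ x : R, C.B u ((s * x) • v) = 0) : C.N e ^ (k + 1) ∣ s := by
  rcases C.layer1 e k h.hv s with h1 | ⟨m, c, hc, h1⟩
  · exact h1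
  · have := hs m
    rw [mul_comm, mul_smul, h1, map_smul, h.uv, smul_eq_mul, mul_one] at this
    exact absurd this hc

theorem IsB2.symm {e : F} {k : ℕ} {u v : V} (h : C.IsB2 e k u v) : C.IsB2 e k v (-u) :=
  ⟨h.hv, by rw [smul_neg, h.hu, neg_zero], by simp [h.vu], by simp [h.uv], h.vv, by simp [h.uu]⟩

/-- Every functional killing `N^(k+1) R` is represented by the pairing of the two generators. -/
theorem IsB2.rep [FiniteDimensional F V] {e : F} (he : e * e = 1) {k : ℕ} {u v : V}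
    (h : C.IsB2 e k u v) (φ : R →ₗ[F] F) (hφ : ∀ x, φ (C.N e ^ (k + 1) * x) = 0) :
    ∃ α : R, ∀ x, C.B u ((α * x) • v) = φ x := by
  let L : R →ₗ[F] V :=
    { toFun := fun r => r • v
      map_add' := fun r s => add_smul r s v
      map_smul' := fun c r => smul_assoc c r v }
  obtain ⟨ψ, hψ⟩ := exists_factor L φ (fun x hx => by
    obtain ⟨y, rfl⟩ := (h.free (r := 0) (s := x) (by rw [zero_smul, zero_add]; exact hx)).2
    exact hφ y)
  obtain ⟨_, ⟨a, rfl⟩, ha⟩ := rep_pair (B := C.B) (X := cyc F R u) (Y := cyc F R v) (by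
    rintro _ ⟨r, rfl⟩ hr
    have : C.N e ^ (k + 1) ∣ C.bar r := h.T_nd fun x => by
      rw [mul_smul, ← C.adj]; exact hr _ ⟨x, rfl⟩
    obtain ⟨y, hy⟩ := this
    rw [← C.bar_bar r, hy, map_mul, mul_comm, mul_smul, C.bar_N_pow_zero he _ h.hu, smul_zero])
    (by
    rintro _ ⟨r, rfl⟩ hr
    refine smul_eq_zero_of_dvd h.hv (h.T_nd fun x => ?_)
    rw [mul_comm, mul_smul, C.adj']
    exact hr _ ⟨_, rfl⟩) ψ
  refine ⟨C.bar a, fun x => ?_⟩
  rw [mul_smul, ← C.adj, ha _ ⟨x, rfl⟩]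
  exact hψ x

theorem IsB2.exists_d [FiniteDimensional F V] {e : F} (he : e * e = 1) {k : ℕ} {u v : V}
    (h : C.IsB2 e k u v) : ∃ d : R, (∀ x, C.B u ((d * x) • v) = C.ε * C.B u (C.bar x • v)) ∧
      (d * C.bar d) • v = v := by
  let φ : R →ₗ[F] F :=
    { toFun := fun x => C.ε * C.B u (C.bar x • v)
      map_add' := fun r s => by simp only [map_add, add_smul]; ring
      map_smul' := fun c r => by simp only [map_smul, smul_assoc, smul_eq_mul, RingHom.id_apply]; ring }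
  obtain ⟨d, hd⟩ := h.rep he φ (fun x => by
    change C.ε * C.B u (C.bar _ • v) = 0
    rw [map_mul, mul_comm (C.bar _), mul_smul, C.bar_N_pow_zero he _ h.hv]; simp)
  have hd' : ∀ x, C.B u ((d * x) • v) = C.ε * C.B u (C.bar x • v) := hd
  refine ⟨d, hd', ?_⟩
  have := smul_eq_zero_of_dvd h.hv (h.T_nd (s := d * C.bar d - 1) fun x => by
    rw [sub_mul, sub_smul, map_sub, mul_assoc, hd', map_mul, C.bar_bar, hd', C.bar_bar,
      ← mul_assoc, C.hε]; simp)
  rwa [sub_smul, one_smul, sub_eq_zero] at this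

theorem exists_inv_diag {u v : V} (hN : ND C.B (cyc F R u ⊔ cyc F R v)) {d : R}
    (hd : ∀ x, C.B u ((d * x) • v) = C.ε * C.B u (C.bar x • v)) (hdd : (d * C.bar d) • v = v) :
    ∃ σ, C.Inv (cyc F R u ⊔ cyc F R v) σ ∧
      ∀ r s : R, σ (r • u + s • v) = C.bar r • u + C.bar s • d • v := by
  refine C.exists_inv_two hN (a := 1) (b := 0) (c := 0) (d := d) (by simp) (by simp) (by simp)
    (by simp [← mul_smul, mul_comm, hdd]) (fun _ => rfl) (fun x => ?_) (fun x => ?_)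
  · rw [C.adj, ← mul_smul, ← mul_smul, show C.bar d * x * d = x * (d * C.bar d) by ring, mul_smul,
      hdd]
  · rw [← mul_smul, mul_comm, hd, ← C.adj, ← C.sym]

variable (C)

theorem soc_aux {e : F} (he : e * e = 1) (k : ℕ) (r s : R) :
    (∃ a b : F, ∀ w : V, C.N e ^ (k + 1) • w = 0 →
      r • w = a • C.N e ^ k • w ∧ s • w = b • C.N e ^ k • w) ∨
    ∃ m : R, ∃ c c' : F, (c ≠ 0 ∨ c' ≠ 0) ∧ ∀ w : V, C.N e ^ (k + 1) • w = 0 →
      m • C.N e • r • w = c • C.N e ^ k • w ∧ m • C.N e • s • w = c' • C.N e ^ k • w := by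
  have left : ∀ r s : R, ∃ a b : F, ∀ w : V, C.N e ^ (k + 1) • w = 0 →
      (C.N e ^ k * r) • w = a • C.N e ^ k • w ∧ (C.N e ^ k * s) • w = b • C.N e ^ k • w := by
    intro r s
    obtain ⟨a, ha⟩ := C.soc he r
    obtain ⟨b, hb⟩ := C.soc he s
    refine ⟨a, b, fun w hw => ?_⟩
    rw [← C.N_pow_succ] at hw
    rw [mul_comm, mul_comm _ s, mul_smul, mul_smul, (ha _ hw).1, (hb _ hw).1]
    exact ⟨rfl, rfl⟩
  rcases k with _ | k
  · left; simpa using left r s
  · rcases C.layer e k r s with ⟨⟨r', rfl⟩, ⟨s', rfl⟩⟩ | ⟨m, c, c', h, ⟨r', h1⟩, ⟨s', h2⟩⟩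
    · exact Or.inl (left r' s')
    · refine Or.inr ⟨m, c, c', h, fun w hw => ⟨?_, ?_⟩⟩
      · rw [← mul_smul, ← mul_smul, ← algebraMap_smul R c, ← mul_smul]
        exact smul_eq_of_dvd hw ⟨r', by linear_combination C.N e * h1⟩
      · rw [← mul_smul, ← mul_smul, ← algebraMap_smul R c', ← mul_smul]
        exact smul_eq_of_dvd hw ⟨s', by linear_combination C.N e * h2⟩

theorem soc_cyc {e : F} (he : e * e = 1) {k : ℕ} {v : V} (hv : C.N e ^ (k + 1) • v = 0)
    (hv' : C.N e ^ k • v ≠ 0) {r : R} (hr : C.N e • r • v = 0) :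
    ∃ a : F, r • v = a • C.N e ^ k • v := by
  rcases C.soc_aux he k r r with ⟨a, b, h⟩ | ⟨m, c, c', hc, h⟩
  · exact ⟨a, (h v hv).1⟩
  · obtain ⟨h1, h2⟩ := h v hv
    rw [hr, smul_zero] at h1 h2
    rcases hc with hc | hc
    · exact absurd h1.symm (smul_ne_zero hc hv')
    · exact absurd h2.symm (smul_ne_zero hc hv')

variable {C} in
theorem IsB2.soc {e : F} (he : e * e = 1) {k : ℕ} {u v : V} (h : C.IsB2 e k u v) {r s : R}
    (hr : C.N e • (r • u + s • v) = 0) :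
    ∃ a b : F, r • u + s • v = a • C.N e ^ k • u + b • C.N e ^ k • v := by
  rcases C.soc_aux he k r s with ⟨a, b, h'⟩ | ⟨m, c, c', hc, h'⟩
  · exact ⟨a, b, by rw [(h' u h.hu).1, (h' v h.hv).2]⟩
  · have := h.ind (a := c) (b := c') (by
      rw [← (h' u h.hu).1, ← (h' v h.hv).2, ← smul_add, ← smul_add, hr, smul_zero])
    tauto

theorem decomp_η (s : R) : ∃ a b : F[X], s = aeval C.η a + aeval C.η b * C.t := by
  obtain ⟨p, rfl⟩ := C.gen s
  induction p using Polynomial.induction_on' with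
  | add p q hp hq =>
    obtain ⟨a, b, h⟩ := hp
    obtain ⟨a', b', h'⟩ := hq
    exact ⟨a + a', b + b', by rw [map_add, h, h', map_add, map_add]; ring⟩
  | monomial n c =>
    induction n with
    | zero => exact ⟨Polynomial.C c, 0, by simp⟩
    | succ n ih =>
      obtain ⟨a, b, h⟩ := ih
      refine ⟨-b, a + b * X, ?_⟩
      rw [← monomial_mul_X, map_mul, h, aeval_X]
      simp only [map_add, map_neg, map_mul, aeval_X, η]
      linear_combination (-aeval (C.t + C.t') b) * C.htt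

theorem ann_B0 {h : F[X]} (hh : Irreducible h) (hc : IsCoprime h (X ^ 2 - 4)) {k : ℕ} {v : V}
    (hv : aeval C.η h ^ (k + 1) • v = 0) {r : R} (hr : C.B v ((aeval C.η h ^ k * r) • v) ≠ 0)
    {a b : F[X]} (hs : ∀ x : R, C.B v (((aeval C.η a + aeval C.η b * C.t) * x) • v) = 0) :
    h ^ (k + 1) ∣ a ∧ h ^ (k + 1) ∣ b := by
  let I : Ideal R :=
    { carrier := {s | ∀ x : R, C.B v ((s * x) • v) = 0}
      add_mem' := fun {s s'} h1 h2 x => by rw [add_mul, add_smul, map_add, h1 x, h2 x, add_zero]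
      zero_mem' := fun x => by simp
      smul_mem' := fun c s h1 x => by
        rw [smul_eq_mul, mul_comm c, mul_assoc]; exact h1 _ }
  have hbar : ∀ s ∈ I, C.bar s ∈ I := fun s h1 x => by
    rw [← C.bar_bar x, ← map_mul, C.T_bar, h1, mul_zero]
  let J : Ideal F[X] := I.comap (aeval C.η : F[X] →ₐ[F] R)
  have hJ : ∀ p, p ∈ J ↔ aeval C.η p ∈ I := fun p => Iff.rfl
  have h1 : h ^ (k + 1) ∈ J := fun x => by
    rw [map_pow, mul_comm, mul_smul, hv, smul_zero, map_zero]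
  have h2 : h ^ k ∉ J := fun h' => hr (by have := h' r; rwa [map_pow] at this)
  have h3 : ∀ p ∈ J, h ^ (k + 1) ∣ p := by
    obtain ⟨g, hg⟩ := (IsPrincipalIdealRing.principal J).principal
    have hg' : ∀ p, p ∈ J ↔ g ∣ p := fun p => by rw [hg]; exact Ideal.mem_span_singleton
    obtain ⟨i, hi, ha⟩ := (dvd_prime_pow hh.prime _).mp ((hg' _).mp h1)
    intro p hp
    rcases hi.lt_or_eq with hi | rfl
    · exact absurd ((hg' _).mpr (ha.dvd.trans (pow_dvd_pow _ (by omega)))) h2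
    · exact ha.symm.dvd.trans ((hg' _).mp hp)
  have hsI : aeval C.η a + aeval C.η b * C.t ∈ I := hs
  have hb : b ∈ J := by
    have h4 := I.mul_mem_left C.j (I.sub_mem hsI (hbar _ hsI))
    rw [map_add, map_mul, C.bar_aeval, C.bar_aeval, C.bar_t] at h4
    have h5 : b * (X ^ 2 - 4) ∈ J := by
      rw [hJ, map_mul, ← C.j_sq]
      convert h4 using 1
      rw [j]; ring
    obtain ⟨c1, c2, hc'⟩ := (hc.pow_left (m := k + 1))
    have := J.add_mem (J.mul_mem_left (b * c1) h1) (J.mul_mem_left c2 h5)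
    convert this using 1
    linear_combination (-b) * hc'
  have ha : a ∈ J := by
    have := I.sub_mem hsI (I.mul_mem_right C.t ((hJ b).mp hb))
    rw [hJ]; simpa using this
  exact ⟨h3 a ha, h3 b hb⟩

theorem nd_B0 {h : F[X]} (hh : Irreducible h) (hc : IsCoprime h (X ^ 2 - 4)) {k : ℕ} {v : V}
    (hv : aeval C.η h ^ (k + 1) • v = 0) {r : R} (hr : C.B v ((aeval C.η h ^ k * r) • v) ≠ 0) :
    ND C.B (cyc F R v) := by
  rintro _ ⟨s, rfl⟩ hs
  obtain ⟨a, b, rfl⟩ := C.decomp_η s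
  obtain ⟨⟨a', rfl⟩, ⟨b', rfl⟩⟩ := C.ann_B0 hh hc hv hr (a := a) (b := b) fun x => by
    have := hs _ (smul_mem_cyc (C.bar x) v)
    rw [C.adj, ← mul_smul] at this
    rw [← C.bar_bar (_ * x), C.T_bar, map_mul, this, mul_zero]
  refine smul_eq_zero_of_dvd hv ⟨aeval C.η a' + aeval C.η b' * C.t, ?_⟩
  simp only [map_mul, map_pow]; ring

theorem j_inj {h : F[X]} (hc : IsCoprime h (X ^ 2 - 4)) {k : ℕ} {x : V}
    (hx : aeval C.η h ^ k • x = 0) (hj : C.j • x = 0) : x = 0 := by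
  obtain ⟨c1, c2, hc'⟩ := (hc.pow_left (m := k))
  have := congrArg (fun p => aeval C.η p • x) hc'
  simp only [map_add, map_mul, map_pow, ← C.j_sq, add_smul, mul_smul, hx, hj, smul_zero, map_one,
    one_smul, add_zero] at this
  exact this.symm

theorem prim [Finite R] {W : Submodule F V} (hW : Iv R W) (hN : ND C.B W) {a u : R}
    (ha : C.bar a = u * a) {x : V} (hx : x ∈ W) (hx0 : x ≠ 0) (hax : a • x = 0) :
    ∃ W' ≤ W, Iv R W' ∧ ND C.B W' ∧ ∃ k, (∀ y ∈ W', a ^ (k + 1) • y = 0) ∧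
      (∃ y ∈ W', a ^ k • y ≠ 0) ∧ ∀ y ∈ W, ∀ i, a ^ i • y = 0 → y ∈ W' := by
  classical
  obtain ⟨m, hm, he⟩ := exists_idem_pow a
  have h3 : ∀ y ∈ W, ∀ i, a ^ i • y = 0 → y ∈ W ⊓ LinearMap.ker (Lm F V (a ^ m)) := by
    intro y hy i hi
    refine ⟨hy, ?_⟩
    have : ∀ n, (a ^ m) ^ (n + 1) = a ^ m := fun n => by
      induction n with
      | zero => simp
      | succ n ih => rw [pow_succ, ih, he]
    change a ^ m • y = 0
    rw [← this i, ← pow_mul]
    exact smul_eq_zero_of_dvd hi (pow_dvd_pow _ (by nlinarith))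
  have hex : ∃ n, ∀ y ∈ W ⊓ LinearMap.ker (Lm F V (a ^ m)), a ^ n • y = 0 := ⟨m, fun y hy => hy.2⟩
  have hx' := h3 x hx 1 (by rw [pow_one, hax])
  refine ⟨W ⊓ LinearMap.ker (Lm F V (a ^ m)), inf_le_left, hW.inf_ker _, ?_, Nat.find hex - 1,
    ?_, ?_, h3⟩
  · intro y hy h
    refine hN y hy.1 fun z hz => ?_
    have h1 := h (z - a ^ m • z) ⟨W.sub_mem hz (hW _ z hz), by
      change a ^ m • (z - a ^ m • z) = 0
      rw [smul_sub, ← mul_smul, he, sub_self]⟩
    have h2 : a ^ m • y = 0 := hy.2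
    rwa [map_sub, C.adj', map_pow, ha, mul_pow, mul_smul, h2, smul_zero, map_zero,
      LinearMap.zero_apply, sub_zero] at h1
  · have : Nat.find hex ≠ 0 := fun h0 => hx0 (by
      have := Nat.find_spec hex x hx'
      rwa [h0, pow_zero, one_smul] at this)
    rw [Nat.sub_add_cancel (by omega)]
    exact Nat.find_spec hex
  · have : Nat.find hex ≠ 0 := fun h0 => hx0 (by
      have := Nat.find_spec hex x hx'
      rwa [h0, pow_zero, one_smul] at this)
    have := Nat.find_min hex (m := Nat.find hex - 1) (by omega)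
    push Not at this
    exact this

theorem exists_irr [Finite R] {W : Submodule F V} (hW : Iv R W) (h0 : W ≠ ⊥) :
    (∃ e : F, e * e = 1 ∧ ∃ x ∈ W, x ≠ 0 ∧ C.N e • x = 0) ∨
    ∃ h : F[X], Irreducible h ∧ IsCoprime h (X ^ 2 - 4) ∧ ∃ x ∈ W, x ≠ 0 ∧ aeval C.η h • x = 0 := by
  have key : ∀ p : F[X], p ≠ 0 → ∀ x ∈ W, x ≠ 0 → aeval C.η p • x = 0 →
      ∃ h : F[X], Irreducible h ∧ ∃ x ∈ W, x ≠ 0 ∧ aeval C.η h • x = 0 := by
    intro p
    induction p using WfDvdMonoid.induction_on_irreducible with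
    | zero => exact fun h => absurd rfl h
    | unit u hu =>
      intro _ x _ hx0 h
      exact absurd ((hu.map (aeval C.η)).smul_eq_zero.mp h) hx0
    | mul a i ha hi ih =>
      intro _ x hx hx0 h
      by_cases h' : aeval C.η a • x = 0
      · exact ih ha x hx hx0 h'
      · exact ⟨i, hi, _, hW _ x hx, h', by rwa [map_mul, mul_smul] at h⟩
  obtain ⟨x, hx, hx0⟩ := Submodule.exists_mem_ne_zero_of_ne_bot h0
  have : Module.Finite F R := Module.Finite.of_finite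
  obtain ⟨p, hp0, hp⟩ := IsAlgebraic.of_finite F C.η
  obtain ⟨h, hh, y, hy, hy0, hhy⟩ := key p hp0 x hx hx0 (by rw [hp, zero_smul])
  by_cases hc : IsCoprime h (X ^ 2 - 4)
  · exact Or.inr ⟨h, hh, hc, y, hy, hy0, hhy⟩
  left
  have hd : h ∣ X ^ 2 - 4 := by
    by_contra hd; exact hc (hh.coprime_iff_not_dvd.mpr hd)
  have fin : ∀ e : F, e * e = 1 → h ∣ X - Polynomial.C (2 * e) →
      ∃ e : F, e * e = 1 ∧ ∃ x ∈ W, x ≠ 0 ∧ C.N e • x = 0 := by
    intro e he ⟨q, hq⟩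
    have h1 : (C.t' * C.N e * C.N e) • y = 0 := by
      rw [← C.η_sub he]
      have := congrArg (aeval C.η) hq
      rw [map_sub, aeval_X, aeval_C, map_mul (aeval C.η)] at this
      rw [this, mul_comm, mul_smul, hhy, smul_zero]
    have h2 : C.N e • C.N e • y = 0 := by
      have := congrArg (C.t • ·) h1
      simpa only [← mul_smul, ← mul_assoc, C.htt, one_mul, smul_zero] using this
    by_cases h3 : C.N e • y = 0
    · exact ⟨e, he, y, hy, hy0, h3⟩
    · exact ⟨e, he, _, hW _ y hy, h3, h2⟩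
  have : (X ^ 2 - 4 : F[X]) = (X - Polynomial.C (2 * 1)) * (X - Polynomial.C (2 * -1)) := by
    simp only [map_mul, map_neg, map_one, map_ofNat]; ring
  rw [this] at hd
  rcases hh.prime.dvd_or_dvd hd with hd | hd
  · exact fin 1 (by simp) hd
  · exact fin (-1) (by simp) hd

theorem exists_B0 {W : Submodule F V} (hW : Iv R W) (hN : ND C.B W) {h : F[X]}
    (hc : IsCoprime h (X ^ 2 - 4)) {k : ℕ} (h1 : ∀ y ∈ W, aeval C.η h ^ (k + 1) • y = 0)
    (h2 : ∃ y ∈ W, aeval C.η h ^ k • y ≠ 0) :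
    ∃ v ∈ W, ∃ r : R, C.B v ((aeval C.η h ^ k * r) • v) ≠ 0 := by
  by_contra H
  push Not at H
  obtain ⟨y, hy, hy0⟩ := h2
  have key : ∀ r : R, (aeval C.η h ^ k * r) • y + C.ε • (aeval C.η h ^ k * C.bar r) • y = 0 := by
    intro r
    refine hN _ (W.add_mem (hW _ y hy) (W.smul_mem _ (hW _ y hy))) fun x hx => C.isRefl _ _ ?_
    have := H (x + y) (W.add_mem hx hy) r
    simp only [smul_add, map_add, LinearMap.add_apply, H x hx r, H y hy r] at this
    rw [C.sym y, C.adj, map_mul, map_pow, C.bar_aeval] at this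
    rw [map_add, LinearMap.BilinForm.smul_right]
    linear_combination this
  have hz : aeval C.η h ^ 1 • aeval C.η h ^ k • y = 0 := by
    rw [← mul_smul, ← pow_add, add_comm, h1 y hy]
  refine hy0 (C.j_inj hc hz ?_)
  rcases mul_self_eq_one_iff.mp C.hε with hε | hε
  · refine C.j_inj hc (k := 1) (by rw [smul_comm, hz, smul_zero]) ?_
    have := key (C.j * C.t)
    rw [hε, one_smul, ← add_smul, map_mul, C.bar_j, C.bar_t] at this
    rw [← mul_smul, ← mul_smul, ← this]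
    congr 1
    rw [j]; ring
  · have := key C.t
    rw [hε, neg_smul, one_smul, ← neg_smul, ← add_smul, C.bar_t] at this
    rw [← mul_smul, ← this]
    congr 1
    rw [j]; ring

theorem exists_B2 {W : Submodule F V} (hW : Iv R W) (hN : ND C.B W) {e : F}
    {k : ℕ} (h1 : ∀ y ∈ W, C.N e ^ (k + 1) • y = 0) {y : V} (hy : y ∈ W)
    (hy0 : C.N e ^ k • y ≠ 0) (h3 : ∀ x ∈ W, C.B x (C.N e ^ k • x) = 0) :
    ∃ u ∈ W, C.IsB2 e k u y := by
  have : ∃ x ∈ W, C.B x (C.N e ^ k • y) ≠ 0 := by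
    by_contra H
    push Not at H
    exact hy0 (hN _ (hW _ y hy) fun x hx => C.isRefl _ _ (H x hx))
  obtain ⟨x, hx, hxy⟩ := this
  have hu := W.smul_mem (C.B x (C.N e ^ k • y))⁻¹ hx
  have huv : C.B ((C.B x (C.N e ^ k • y))⁻¹ • x) (C.N e ^ k • y) = 1 := by
    rw [LinearMap.BilinForm.smul_left, inv_mul_cancel₀ hxy]
  refine ⟨_, hu, h1 _ hu, h1 y hy, huv, ?_, h3 _ hu, h3 y hy⟩
  have := h3 _ (W.add_mem hu hy)
  rw [smul_add, map_add, map_add, LinearMap.add_apply, LinearMap.add_apply, h3 _ hu, h3 y hy,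
    huv] at this
  linear_combination this

/-- Existence of a block in a nonzero invariant nondegenerate subspace. -/
theorem exists_block [Finite R] {W : Submodule F V} (hW : Iv R W) (hN : ND C.B W) (h0 : W ≠ ⊥) :
    (∃ e : F, e * e = 1 ∧ ∃ k, ∃ v ∈ W, C.N e ^ (k + 1) • v = 0 ∧ C.B v (C.N e ^ k • v) ≠ 0) ∨
    (∃ e : F, e * e = 1 ∧ ∃ k, ∃ u ∈ W, ∃ v ∈ W, C.IsB2 e k u v) ∨
    ∃ h : F[X], Irreducible h ∧ IsCoprime h (X ^ 2 - 4) ∧ ∃ k, ∃ v ∈ W,
      aeval C.η h ^ (k + 1) • v = 0 ∧ ∃ r : R, C.B v ((aeval C.η h ^ k * r) • v) ≠ 0 := by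
  rcases C.exists_irr hW h0 with ⟨e, he, x, hx, hx0, hx1⟩ | ⟨h, hh, hc, x, hx, hx0, hx1⟩
  · obtain ⟨W', hle, hW', hN', k, h1, ⟨y, hy, hy0⟩, -⟩ := C.prim hW hN (C.bar_N he) hx hx0 hx1
    by_cases h3 : ∀ x ∈ W', C.B x (C.N e ^ k • x) = 0
    · obtain ⟨u, hu, h⟩ := C.exists_B2 hW' hN' h1 hy hy0 h3
      exact Or.inr (Or.inl ⟨e, he, k, u, hle hu, y, hle hy, h⟩)
    · push Not at h3
      obtain ⟨v, hv, h⟩ := h3
      exact Or.inl ⟨e, he, k, v, hle hv, h1 v hv, h⟩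
  · obtain ⟨W', hle, hW', hN', k, h1, h2, -⟩ := C.prim hW hN (u := 1)
      (by rw [C.bar_aeval, one_mul]) hx hx0 hx1
    obtain ⟨v, hv, r, hr⟩ := C.exists_B0 hW' hN' hc h1 h2
    exact Or.inr (Or.inr ⟨h, hh, hc, k, v, hle hv, h1 v hv, r, hr⟩)

end Ctx

end H37.Ore
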