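import Mathlib
import Cfsg.Agent.Base
import Cfsg.Agent.Lib.Ore.Lin2
import Cfsg.Agent.Lib.Orth12.Geom

/-! Counting solutions of quadratic equations over finite fields of odd order. -/

set_option autoImplicit false

namespace H37.Ore

open Module QuadraticMap H12

variable {F V : Type*} [Field F] [AddCommGroup V] [Module F V]

/-- Number of solutions of `Q x = c`. -/
noncomputable def cnt (Q : QuadraticForm F V) (c : F) : ℕ := Nat.card {x // Q x = c}

/-- The radical of the polar form. -/
def rad (Q : QuadraticForm F V) : Submodule F V := LinearMap.ker (polarBilin Q)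

variable {Q : QuadraticForm F V}

theorem mem_rad {x : V} : x ∈ rad Q ↔ ∀ y, polar Q x y = 0 := by
  simp [rad, LinearMap.ext_iff]

theorem Q_rad (h2 : (2 : F) ≠ 0) {x : V} (hx : x ∈ rad Q) : Q x = 0 := by
  have := mem_rad.mp hx x
  rw [B_self] at this
  exact (mul_eq_zero.mp this).resolve_left h2

theorem nondeg_restrict_of_nd {T : Submodule F V} (hT : ND (polarBilin Q) T) :
    Nondeg (Q.restrict T) := fun x hx => Subtype.ext (hT x x.2 fun y hy => hx ⟨y, hy⟩)

theorem univ [Finite F] [FiniteDimensional F V] {T : Submodule F V} (hT : ND (polarBilin Q) T)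
    (h : 2 ≤ finrank F T) (c : F) : ∃ a ∈ T, Q a = c := by
  obtain ⟨a, ha⟩ := (nondeg_restrict_of_nd hT).universal h c
  exact ⟨a, a.2, ha⟩

theorem exists_compl_rad (Q : QuadraticForm F V) [FiniteDimensional F V] :
    ∃ U : Submodule F V, ND (polarBilin Q) U ∧ finrank F (rad Q) + finrank F U = finrank F V := by
  obtain ⟨U, hU⟩ := (rad Q).exists_isCompl
  refine ⟨U, fun x hx h => ?_, Submodule.finrank_add_eq_of_isCompl hU⟩
  refine Submodule.disjoint_def.mp hU.disjoint x (mem_rad.mpr fun y => ?_) hx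
  have : y ∈ rad Q ⊔ U := by rw [hU.sup_eq_top]; trivial
  obtain ⟨r, hr, u, hu, rfl⟩ := Submodule.mem_sup.mp this
  rw [polar_add_right, polar_comm, mem_rad.mp hr, zero_add]
  exact h u hu

theorem exists_hyp_of_rad [Finite F] [FiniteDimensional F V]
    (h : finrank F (rad Q) + 3 ≤ finrank F V) : ∃ e f, IsHyp Q e f := by
  obtain ⟨U, hU, hd⟩ := exists_compl_rad Q
  obtain ⟨e, f, h'⟩ := (nondeg_restrict_of_nd hU).exists_hyp_of_three_le (by omega)
  exact ⟨e, f, h'.he, h'.hf, h'.hef⟩

theorem finrank_rad_perp [FiniteDimensional F V] {e f : V} (h : IsHyp Q e f) :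
    finrank F (rad (Q.restrict (perp Q e f))) ≤ finrank F (rad Q) := by
  rw [← Submodule.finrank_map_subtype_eq]
  apply Submodule.finrank_mono
  rintro _ ⟨x, hx, rfl⟩
  refine mem_rad.mpr fun y => ?_
  have := mem_rad.mp hx ⟨_, h.pr_mem y⟩
  exact (IsHyp.B_pr x.2 y).symm.trans this

variable [Finite F] [FiniteDimensional F V]

theorem card_eq (V : Type*) [AddCommGroup V] [Module F V] [FiniteDimensional F V] :
    Nat.card V = Nat.card F ^ finrank F V := Module.natCard_eq_pow_finrank

theorem cnt_hyp {e f : V} (h : IsHyp Q e f) (c : F) :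
    cnt Q c = (Nat.card F - 1) * Nat.card F ^ (finrank F V - 2) +
      Nat.card F * cnt (Q.restrict (perp Q e f)) c := by
  have : Finite V := Module.finite_of_finite F
  let φ : (Fˣ × perp Q e f) ⊕ (F × {v : perp Q e f // Q.restrict _ v = c}) → {x // Q x = c} :=
    fun z => match z with
    | .inl (a, v) => ⟨(a : F) • e + ((c - Q v) / a) • f + v, by
        rw [h.Q_comb' _ _ v.2]; field_simp; ring⟩
    | .inr (b, v) => ⟨(0 : F) • e + b • f + v.1, by
        rw [h.Q_comb' _ _ v.1.2, zero_mul, zero_add]; exact v.2⟩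
  have inj : ∀ {a b a' b' : F} {v v' : perp Q e f}, a • e + b • f + v = a' • e + b' • f + v' →
      a = a' ∧ b = b' ∧ v = v' := by
    intro a b a' b' v v' hh
    have h1 : a = a' := by rw [← h.B_f_comb a b v.2, hh, h.B_f_comb _ _ v'.2]
    have h3 : b = b' := by rw [← h.B_e_comb a b v.2, hh, h.B_e_comb _ _ v'.2]
    subst h1 h3
    exact ⟨rfl, rfl, Subtype.ext (add_left_cancel hh)⟩
  have hφ : Function.Bijective φ := by
    constructor
    · rintro (⟨a, v⟩ | ⟨b, v⟩) (⟨a', v'⟩ | ⟨b', v'⟩) hh <;>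
        obtain ⟨h1, h3, h4⟩ := inj (congrArg Subtype.val hh)
      · rw [Units.ext h1, h4]
      · exact (a.ne_zero h1).elim
      · exact (a'.ne_zero h1.symm).elim
      · rw [h3, Subtype.ext h4]
    · rintro ⟨x, hx⟩
      obtain ⟨a, b, w, hw, rfl⟩ := h.decomp x
      have hx' := hx
      rw [h.Q_comb' _ _ hw] at hx'
      by_cases ha : a = 0
      · subst ha
        exact ⟨.inr (b, ⟨⟨w, hw⟩, by simpa using hx'⟩), rfl⟩
      · refine ⟨.inl (Units.mk0 a ha, ⟨w, hw⟩), Subtype.ext ?_⟩
        change a • e + ((c - Q w) / a) • f + w = _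
        rw [show (c - Q w) / a = b by field_simp; linear_combination -hx']
  rw [cnt, ← Nat.card_eq_of_bijective φ hφ, Nat.card_sum, Nat.card_prod, Nat.card_prod,
    Nat.card_units, card_eq (F := F) (perp Q e f), ← h.finrank_perp]
  rfl

theorem one_lt_q : 1 < Nat.card F := Finite.one_lt_card

theorem cnt_ge_two (h2 : (2 : F) ≠ 0) (h : finrank F (rad Q) + 2 ≤ finrank F V) {c : F}
    (hc : c ≠ 0) : (Nat.card F - 1) * Nat.card F ^ (finrank F V - 2) ≤ cnt Q c := by
  have : Finite V := Module.finite_of_finite F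
  by_cases hh : ∃ e f, IsHyp Q e f
  · obtain ⟨e, f, hh⟩ := hh
    rw [cnt_hyp hh]; omega
  have hd : finrank F (rad Q) = finrank F V - 2 := by
    by_contra h'
    exact hh (exists_hyp_of_rad (by omega))
  obtain ⟨U, hU, hd'⟩ := exists_compl_rad Q
  obtain ⟨v, hv⟩ := (nondeg_restrict_of_nd hU).universal (by omega) c
  obtain ⟨w, hvw, hw⟩ := (nondeg_restrict_of_nd hU).exists_orth_Q_ne h2 (by omega)
    (v := v) (by rw [hv]; exact hc)
  replace hv : Q v = c := hv
  replace hvw : polar Q (v : V) w = 0 := hvw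
  replace hw : Q w ≠ 0 := hw
  have han : ∀ t : F, c + Q w * t ^ 2 ≠ 0 := by
    intro t ht
    obtain ⟨a, b, -, h'⟩ := exists_hyp_of_B_ne (Q := Q) (u := v + t • (w : V)) (w := v) (by
      rw [Q_add, Q_smul, B_smul_right, hvw, hv]; linear_combination ht) (by
      rw [polar_add_left, B_smul_left, polar_comm Q (w : V), hvw, B_self, hv]
      simpa using ⟨h2, hc⟩)
    exact hh ⟨_, _, h'⟩
  let φ : F × rad Q → {x // Q x = c} := fun p =>
    ⟨((c - Q w * p.1 ^ 2) / (c + Q w * p.1 ^ 2)) • v + ((2 * c * p.1) / (c + Q w * p.1 ^ 2)) • w +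
      p.2, by
      have := han p.1
      rw [Q_add, polar_comm, mem_rad.mp p.2.2, Q_rad h2 p.2.2, Q_add, Q_smul, Q_smul, B_smul_left,
        B_smul_right, hvw, hv]
      field_simp; ring⟩
  have hφ : Function.Injective φ := by
    rintro ⟨t, r⟩ ⟨t', r'⟩ hh
    have h0 := congrArg Subtype.val hh
    simp only [φ] at h0
    have h1 := congrArg (polar Q (v : V)) h0
    have h3 := congrArg (polar Q (w : V)) h0
    simp only [polar_add_right, B_smul_right, hvw, polar_comm Q (w : V) (v : V), B_self, hv,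
      polar_comm Q _ (r : V), polar_comm Q _ (r' : V), mem_rad.mp r.2, mem_rad.mp r'.2, mul_zero,
      add_zero, zero_add] at h1 h3
    have h4 := mul_right_cancel₀ (mul_ne_zero h2 hc) h1
    have h5 := mul_right_cancel₀ (mul_ne_zero h2 hw) h3
    have e1 := han t
    have e2 := han t'
    have h6 : c + Q w * t ^ 2 = c + Q w * t' ^ 2 := by
      rw [div_eq_div_iff e1 e2] at h4
      exact mul_left_cancel₀ (mul_ne_zero h2 hc) (by linear_combination -h4)
    have h7 : t = t' := by
      rw [h6, div_left_inj' e2] at h5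
      exact mul_left_cancel₀ (mul_ne_zero h2 hc) h5
    subst h7
    rw [Subtype.ext (add_left_cancel h0)]
  have := Nat.card_le_card_of_injective φ hφ
  rw [Nat.card_prod, card_eq (F := F) (rad Q), hd] at this
  exact le_trans (Nat.mul_le_mul_right _ (by omega)) this

theorem cnt_zero_ge (h2 : (2 : F) ≠ 0) (Q : QuadraticForm F V) :
    Nat.card F ^ (finrank F V - 2) ≤ cnt Q 0 := by
  have : Finite V := Module.finite_of_finite F
  have hq := one_lt_q (F := F)
  by_cases h : finrank F (rad Q) + 3 ≤ finrank F V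
  · obtain ⟨e, f, hh⟩ := exists_hyp_of_rad h
    rw [cnt_hyp hh]
    exact le_add_right (Nat.le_mul_of_pos_left _ (by omega))
  · let φ : rad Q → {x // Q x = 0} := fun r => ⟨r, Q_rad h2 r.2⟩
    have := Nat.card_le_card_of_injective φ fun r r' hh =>
      Subtype.ext (congrArg (fun z : {x // Q x = 0} => z.1) hh)
    rw [card_eq (F := F) (rad Q)] at this
    exact le_trans (Nat.pow_le_pow_right (by omega) (by omega)) this

theorem cnt_ge_four (h2 : (2 : F) ≠ 0) (h : finrank F (rad Q) + 4 ≤ finrank F V) {c : F}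
    (hc : c ≠ 0) : (Nat.card F - 1) * Nat.card F ^ (finrank F V - 2) +
      Nat.card F * ((Nat.card F - 1) * Nat.card F ^ (finrank F V - 4)) ≤ cnt Q c := by
  obtain ⟨e, f, hh⟩ := exists_hyp_of_rad (Q := Q) (by omega)
  have h1 := finrank_rad_perp hh
  have h3 := hh.finrank_perp
  have h4 := cnt_ge_two (Q := Q.restrict (perp Q e f)) h2 (by omega) hc
  rw [show finrank F (perp Q e f) - 2 = finrank F V - 4 by omega] at h4
  rw [cnt_hyp hh]
  gcongr

theorem cnt_zero_ge_three (h2 : (2 : F) ≠ 0) (h : finrank F (rad Q) + 3 ≤ finrank F V) :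
    (Nat.card F - 1) * Nat.card F ^ (finrank F V - 2) +
      Nat.card F * Nat.card F ^ (finrank F V - 4) ≤ cnt Q 0 := by
  obtain ⟨e, f, hh⟩ := exists_hyp_of_rad h
  have h3 := hh.finrank_perp
  have h4 := cnt_zero_ge h2 (Q.restrict (perp Q e f))
  rw [show finrank F (perp Q e f) - 2 = finrank F V - 4 by omega] at h4
  rw [cnt_hyp hh]
  gcongr

theorem cnt_le_one (h2 : (2 : F) ≠ 0) (hQ : Nondeg Q) (h : 1 ≤ finrank F V) (c : F) :
    cnt Q c ≤ 2 * Nat.card F ^ (finrank F V - 1) := by
  classical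
  have : Finite V := Module.finite_of_finite F
  have : Nontrivial V := Module.nontrivial_of_finrank_pos (R := F) (by omega)
  obtain ⟨v0, hv0⟩ := exists_ne (0 : V)
  obtain ⟨v, hv⟩ := hQ.exists_Q_ne hv0
  let P := LinearMap.ker (polarBilin Q v)
  have hP : finrank F P = finrank F V - 1 := by
    have h1 := (polarBilin Q v).finrank_range_add_finrank_ker
    have h3 : LinearMap.range (polarBilin Q v) = ⊤ := by
      rw [LinearMap.range_eq_top]
      intro a
      refine ⟨(a / (2 * Q v)) • v, ?_⟩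
      rw [polarBilin_apply_apply, B_smul_right, B_self]; field_simp
    rw [h3, finrank_top, finrank_self] at h1
    exact Nat.eq_sub_of_add_eq' h1
  let co : V → F := fun x => polar Q v x / (2 * Q v)
  have hm : ∀ x, x - co x • v ∈ P := fun x => by
    change polar Q v _ = 0
    rw [polar_sub_right, B_smul_right, B_self]; simp only [co]; field_simp; ring
  have hQx : ∀ x, Q x = co x ^ 2 * Q v + Q (x - co x • v) := fun x => by
    have h1 : polar Q v (x - co x • v) = 0 := hm x
    conv_lhs => rw [show x = co x • v + (x - co x • v) by abel]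
    rw [Q_add, Q_smul, B_smul_left, h1]; ring
  let sq : V → F := fun w => if h : ∃ a, a ^ 2 * Q v + Q w = c then h.choose else 0
  have hsq : ∀ x, Q x = c → co x = sq (x - co x • v) ∨ co x = -sq (x - co x • v) := by
    intro x hx
    have hex : ∃ a, a ^ 2 * Q v + Q (x - co x • v) = c := ⟨co x, by rw [← hQx, hx]⟩
    have h1 := hex.choose_spec
    have h3 : sq (x - co x • v) = hex.choose := dif_pos hex
    rw [h3, ← sq_eq_sq_iff_eq_or_eq_neg]
    exact mul_right_cancel₀ hv (by rw [hQx] at hx; linear_combination hx - h1)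
  let φ : {x // Q x = c} → Bool × P := fun x =>
    (decide (co x = sq (x - co x • v)), ⟨x - co x • v, hm x⟩)
  have hφ : Function.Injective φ := by
    rintro ⟨x, hx⟩ ⟨y, hy⟩ hh
    simp only [φ, Prod.mk.injEq, decide_eq_decide, Subtype.mk.injEq] at hh
    obtain ⟨h1, h3⟩ := hh
    have h4 : co x = co y := by
      have e1 := hsq x hx
      have e2 := hsq y hy
      rw [h3] at h1 e1
      by_cases h5 : co x = sq (y - co y • v)
      · rw [h5, ← h1.mp h5]
      · rw [e1.resolve_left h5, ← e2.resolve_left fun h6 => h5 (h1.mpr h6)]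
    rw [h4] at h3
    exact Subtype.ext (sub_left_injective h3)
  have := Nat.card_le_card_of_injective φ hφ
  rwa [Nat.card_prod, card_eq (F := F) P, hP, Nat.card_eq_fintype_card (α := Bool),
    Fintype.card_bool] at this

theorem cnt_le_three (h2 : (2 : F) ≠ 0) (hQ : Nondeg Q) (h : 3 ≤ finrank F V) (c : F) :
    cnt Q c ≤ (Nat.card F - 1) * Nat.card F ^ (finrank F V - 2) +
      Nat.card F * (2 * Nat.card F ^ (finrank F V - 3)) := by
  obtain ⟨e, f, hh⟩ := hQ.exists_hyp_of_three_le h
  have h3 := hh.finrank_perp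
  have h4 := cnt_le_one h2 (hh.nondeg_perp hQ) (by omega) c
  rw [show finrank F (perp Q e f) - 1 = finrank F V - 3 by omega] at h4
  rw [cnt_hyp hh]
  gcongr

theorem double_count (Q β : QuadraticForm F V) (c : F) :
    ∃ l : F, Nat.card F * cnt (Q + l • β) c + cnt β 0 ≤
      Nat.card F * Nat.card {x // Q x = c ∧ β x = 0} + Nat.card F ^ finrank F V := by
  classical
  have : Finite V := Module.finite_of_finite F
  have := Fintype.ofFinite V
  have := Fintype.ofFinite F
  obtain ⟨l, -, hl⟩ := Finset.exists_min_image Finset.univ (fun l : F => cnt (Q + l • β) c)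
    Finset.univ_nonempty
  refine ⟨l, ?_⟩
  have h1 : Nat.card F * cnt (Q + l • β) c ≤ ∑ m : F, cnt (Q + m • β) c := by
    rw [Nat.card_eq_fintype_card, ← Finset.card_univ, ← smul_eq_mul]
    exact Finset.card_nsmul_le_sum _ _ _ hl
  have hc : ∀ p : V → Prop, Nat.card {x // p x} = ∑ x : V, if p x then 1 else 0 := fun p => by
    rw [Nat.card_eq_fintype_card, Fintype.card_subtype, Finset.card_filter]
  refine le_trans (Nat.add_le_add_right h1 _) ?_
  simp only [cnt, hc]
  rw [Finset.sum_comm, ← card_eq V, Nat.card_eq_fintype_card (α := V), Finset.mul_sum,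
    ← Finset.sum_add_distrib, Fintype.card_eq_sum_ones, ← Finset.sum_add_distrib]
  refine Finset.sum_le_sum fun x _ => ?_
  by_cases hb : β x = 0
  · by_cases hq : Q x = c <;> simp [hb, hq]
  · simp only [hb, and_false, if_false, mul_zero, add_zero, zero_add]
    rw [← Finset.card_filter, Finset.card_le_one]
    intro a ha b hb'
    simp only [Finset.mem_filter, add_apply, smul_apply,
      smul_eq_mul] at ha hb'
    exact mul_right_cancel₀ hb (by linear_combination ha.2 - hb'.2)

theorem sv_arith {q a b N : ℕ} (hq : 3 ≤ q) (hab : 1 ≤ a + b)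
    (h1 : q * ((q - 1) * q ^ (a + b + 6 - 2) + q * ((q - 1) * q ^ (a + b + 6 - 4))) +
      ((q - 1) * q ^ (a + b + 6 - 2) + q * q ^ (a + b + 6 - 4)) ≤ q * N + q ^ (a + b + 6))
    (h2 : N ≤ 2 * (((q - 1) * q ^ (a + 3 - 2) + q * (2 * q ^ (a + 3 - 3))) +
      ((q - 1) * q ^ (b + 3 - 2) + q * (2 * q ^ (b + 3 - 3))))) : False := by
  obtain ⟨p, rfl⟩ : ∃ p, q = p + 1 := ⟨q - 1, by omega⟩
  simp only [Nat.add_sub_cancel, show a + b + 6 - 2 = a + b + 4 by omega,
    show a + b + 6 - 4 = a + b + 2 by omega, show a + 3 - 2 = a + 1 by omega,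
    show b + 3 - 2 = b + 1 by omega, pow_add] at h1 h2
  set x := (p + 1) ^ a with hx
  set y := (p + 1) ^ b with hy
  have hx1 : 1 ≤ x := Nat.one_le_pow _ _ (by omega)
  have hy1 : 1 ≤ y := Nat.one_le_pow _ _ (by omega)
  have hxy : p + 1 ≤ x ∨ p + 1 ≤ y := by
    rcases Nat.eq_zero_or_pos a with h | h
    · right; exact Nat.le_self_pow (by omega) _
    · left; exact Nat.le_self_pow (by omega) _
  have h3 : p ^ 2 * (p + 1) ^ 2 * (x * y) ≤ N := by
    have : (p + 1) * (p ^ 2 * (p + 1) ^ 2 * (x * y)) ≤ (p + 1) * N := by nlinarith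
    exact Nat.le_of_mul_le_mul_left this (by omega)
  have h4 : p ^ 2 * (p + 1) * (x * y) ≤ 2 * (p + 2) * (x + y) := by
    have : (p + 1) * (p ^ 2 * (p + 1) * (x * y)) ≤ (p + 1) * (2 * (p + 2) * (x + y)) := by
      nlinarith
    exact Nat.le_of_mul_le_mul_left this (by omega)
  have h5 : 3 * (x + y) ≤ 4 * (x * y) := by
    rcases hxy with h | h <;> nlinarith
  have h6 : 3 * (p + 2) ≤ p ^ 2 * (p + 1) := by nlinarith
  have h7 : 0 < x * y := by positivity
  nlinarith

end H37.Ore
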