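import Mathlib
import Cfsg.Agent.Base
import Cfsg.Agent.Lib.Ore.Blk2

/-! Balanced inverting involutions in odd characteristic. -/

set_option autoImplicit false

namespace H37.Ore

open Module Polynomial

section Lin

variable {F V : Type*} [Field F] [AddCommGroup V] [Module F V] {B : LinearMap.BilinForm F V}

/-- Eigenspace inside a subspace. -/
def eig (W : Submodule F V) (σ : V →ₗ[F] V) (s : F) : Submodule F V :=
  W ⊓ LinearMap.ker (σ - s • LinearMap.id)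

theorem mem_eig {W : Submodule F V} {σ : V →ₗ[F] V} {s : F} {x : V} :
    x ∈ eig W σ s ↔ x ∈ W ∧ σ x = s • x := by
  simp [eig, sub_eq_zero]

theorem eig_le (W : Submodule F V) (σ : V →ₗ[F] V) (s : F) : eig W σ s ≤ W := inf_le_left

/-- The integral trace of an involution. -/
noncomputable def tau (W : Submodule F V) (σ : V →ₗ[F] V) : ℤ :=
  (finrank F (eig W σ 1) : ℤ) - finrank F (eig W σ (-1))

theorem eig_congr {W : Submodule F V} {σ τ : V →ₗ[F] V} (h : ∀ x ∈ W, σ x = τ x) (s : F) :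
    eig W σ s = eig W τ s := by
  ext x
  simp only [mem_eig]
  exact and_congr_right fun hx => by rw [h x hx]

theorem tau_congr {W : Submodule F V} {σ τ : V →ₗ[F] V} (h : ∀ x ∈ W, σ x = τ x) :
    tau W σ = tau W τ := by
  rw [tau, tau, eig_congr h, eig_congr h]

theorem eig_neg (W : Submodule F V) (σ : V →ₗ[F] V) (s : F) : eig W (-σ) s = eig W σ (-s) := by
  ext x
  simp only [mem_eig, LinearMap.neg_apply, neg_smul, neg_eq_iff_eq_neg]

theorem tau_neg (W : Submodule F V) (σ : V →ₗ[F] V) : tau W (-σ) = -tau W σ := by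
  rw [tau, tau, eig_neg, eig_neg, neg_neg]; ring

theorem tau_bot (σ : V →ₗ[F] V) : tau (⊥ : Submodule F V) σ = 0 := by
  have : ∀ s, finrank F (eig (⊥ : Submodule F V) σ s) = 0 := fun s => dm_bot _
  simp [tau, this]

theorem finrank_eig_sup [FiniteDimensional F V] {X Y : Submodule F V} (h : Disjoint X Y)
    {σ : V →ₗ[F] V} (hX : ∀ x ∈ X, σ x ∈ X) (hY : ∀ y ∈ Y, σ y ∈ Y) (s : F) :
    finrank F (eig (X ⊔ Y) σ s) = finrank F (eig X σ s) + finrank F (eig Y σ s) :=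
  dm_sup h (fun x hx => X.sub_mem (hX x hx) (X.smul_mem s hx))
    (fun y hy => Y.sub_mem (hY y hy) (Y.smul_mem s hy))

theorem tau_sup [FiniteDimensional F V] {X Y : Submodule F V} (h : Disjoint X Y)
    {σ : V →ₗ[F] V} (hX : ∀ x ∈ X, σ x ∈ X) (hY : ∀ y ∈ Y, σ y ∈ Y) :
    tau (X ⊔ Y) σ = tau X σ + tau Y σ := by
  simp only [tau, finrank_eig_sup h hX hY]; push_cast; ring

theorem eq_zero_of_eig (h2 : (2 : F) ≠ 0) {σ : V →ₗ[F] V} {s : F} (hs : s * s = 1) {x : V}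
    (h : σ x = s • x) (h' : σ x = (-s) • x) : x = 0 := by
  have : (2 * s) • x = 0 := by
    rw [h, neg_smul] at h'
    rw [two_mul, add_smul]
    exact add_eq_zero_iff_eq_neg.mpr h'
  exact (smul_eq_zero.mp this).resolve_left (mul_ne_zero h2 fun h => by simp [h] at hs)

theorem finrank_eig_one {W : Submodule F V} {σ : V →ₗ[F] V} {s : F} {c : V} (hc : c ≠ 0)
    (hcW : c ∈ W) (hσ : σ c = s • c) (h : ∀ x ∈ W, σ x = s • x → ∃ a : F, x = a • c) :
    finrank F (eig W σ s) = 1 :=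
  dm_eq_one hc hcW (by simp [hσ]) fun x hx hx' => h x hx (by simpa [sub_eq_zero] using hx')

theorem finrank_eig_zero {W : Submodule F V} {σ : V →ₗ[F] V} {s : F}
    (h : ∀ x ∈ W, σ x = s • x → x = 0) : finrank F (eig W σ s) = 0 :=
  dm_eq_zero fun x hx hx' => h x hx (by simpa [sub_eq_zero] using hx')

theorem tau_line (h2 : (2 : F) ≠ 0) {K : Submodule F V} {σ : V →ₗ[F] V} {c : V} (hc : c ≠ 0)
    (hcK : c ∈ K) (hσ : σ c = c) (h : ∀ x ∈ K, ∃ a : F, x = a • c) : tau K σ = 1 := by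
  rw [tau, finrank_eig_one hc hcK (by simpa using hσ) fun x hx _ => h x hx, finrank_eig_zero]
  · simp
  · intro x hx hx'
    obtain ⟨a, rfl⟩ := h x hx
    exact eq_zero_of_eig h2 (s := 1) (by simp) (by rw [map_smul, hσ, one_smul]) hx'

theorem tau_line' (h2 : (2 : F) ≠ 0) {K : Submodule F V} {σ : V →ₗ[F] V} {c : V} (hc : c ≠ 0)
    (hcK : c ∈ K) (hσ : σ c = -c) (h : ∀ x ∈ K, ∃ a : F, x = a • c) : tau K σ = -1 := by
  have := tau_line h2 (σ := -σ) hc hcK (by simp [hσ]) h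
  rw [tau_neg] at this
  omega

theorem tau_plane (h2 : (2 : F) ≠ 0) {K : Submodule F V} {σ : V →ₗ[F] V} {c c' : V} (hc : c ≠ 0)
    (hc' : c' ≠ 0) (hcK : c ∈ K) (hcK' : c' ∈ K) (hσ : σ c = c) (hσ' : σ c' = -c')
    (h : ∀ x ∈ K, ∃ a b : F, x = a • c + b • c') : tau K σ = 0 := by
  rw [tau, finrank_eig_one hc hcK (by simpa using hσ), finrank_eig_one hc' hcK' (by simpa using hσ')]
  · simp
  · intro x hx hx'
    obtain ⟨a, b, rfl⟩ := h x hx
    refine ⟨b, ?_⟩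
    rw [map_add, map_smul, map_smul, hσ, hσ'] at hx'
    have : a • c = 0 := eq_zero_of_eig h2 (σ := LinearMap.id) (s := 1) (by simp) (by simp) (by
      simp only [LinearMap.id_apply]
      linear_combination (norm := module) hx')
    rw [this, zero_add]
  · intro x hx hx'
    obtain ⟨a, b, rfl⟩ := h x hx
    refine ⟨a, ?_⟩
    rw [map_add, map_smul, map_smul, hσ, hσ'] at hx'
    have : b • c' = 0 := eq_zero_of_eig h2 (σ := LinearMap.id) (s := 1) (by simp) (by simp) (by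
      simp only [LinearMap.id_apply]
      linear_combination (norm := module) -hx')
    rw [this, add_zero]

theorem tau_plane' (h2 : (2 : F) ≠ 0) {K : Submodule F V} {σ : V →ₗ[F] V} {c c' : V} (hc : c ≠ 0)
    (hc' : c' ≠ 0) (hcK : c ∈ K) (hcK' : c' ∈ K) {s : F} (hs : s * s = 1) (hσ : σ c = s • c)
    (hσ' : σ c' = (-s) • c') (h : ∀ x ∈ K, ∃ a b : F, x = a • c + b • c') : tau K σ = 0 := by
  rcases mul_self_eq_one_iff.mp hs with rfl | rfl
  · exact tau_plane h2 hc hc' hcK hcK' (by simpa using hσ) (by simpa using hσ') h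
  · exact tau_plane h2 hc' hc hcK' hcK (by simpa using hσ') (by simpa using hσ) fun x hx => by
      obtain ⟨a, b, rfl⟩ := h x hx
      exact ⟨b, a, add_comm _ _⟩

/-- An isometric involution of a subspace. -/
structure SI (B : LinearMap.BilinForm F V) (W : Submodule F V) (σ : V →ₗ[F] V) : Prop where
  mem : ∀ x ∈ W, σ x ∈ W
  sq : ∀ x ∈ W, σ (σ x) = x
  iso : ∀ x ∈ W, ∀ y ∈ W, B (σ x) (σ y) = B x y

theorem eig_decomp (h2 : (2 : F) ≠ 0) {W : Submodule F V} {σ : V →ₗ[F] V}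
    (hm : ∀ x ∈ W, σ x ∈ W) (hsq : ∀ x ∈ W, σ (σ x) = x) {s : F}
    (hs : s * s = 1) {x : V} (hx : x ∈ W) :
    ∃ y ∈ eig W σ s, ∃ z ∈ eig W σ (-s), x = y + z := by
  refine ⟨(2 : F)⁻¹ • (x + s • σ x), mem_eig.mpr ⟨W.smul_mem _ (W.add_mem hx
    (W.smul_mem _ (hm x hx))), ?_⟩, (2 : F)⁻¹ • (x - s • σ x), mem_eig.mpr ⟨W.smul_mem _
    (W.sub_mem hx (W.smul_mem _ (hm x hx))), ?_⟩, ?_⟩
  · rw [map_smul, map_add, map_smul, hsq x hx]
    match_scalars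
    · linear_combination (-2⁻¹) * hs
    · ring
  · rw [map_smul, map_sub, map_smul, hsq x hx]
    match_scalars
    · linear_combination (-2⁻¹) * hs
    · ring
  · match_scalars
    · field_simp; ring
    · ring

theorem disjoint_eig (h2 : (2 : F) ≠ 0) (W : Submodule F V) (σ : V →ₗ[F] V) {s : F}
    (hs : s * s = 1) : Disjoint (eig W σ s) (eig W σ (-s)) := by
  rw [Submodule.disjoint_def]
  intro x hx hx'
  exact eq_zero_of_eig h2 hs (mem_eig.mp hx).2 (mem_eig.mp hx').2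

theorem finrank_eig_add [FiniteDimensional F V] (h2 : (2 : F) ≠ 0) {W : Submodule F V}
    {σ : V →ₗ[F] V} (hm : ∀ x ∈ W, σ x ∈ W) (hsq : ∀ x ∈ W, σ (σ x) = x) {s : F}
    (hs : s * s = 1) : finrank F (eig W σ s) + finrank F (eig W σ (-s)) = finrank F W := by
  rw [← finrank_sup_of_disjoint (disjoint_eig h2 W σ hs)]
  have : eig W σ s ⊔ eig W σ (-s) = W := by
    apply le_antisymm (sup_le (eig_le _ _ _) (eig_le _ _ _))
    intro x hx
    obtain ⟨y, hy, z, hz, rfl⟩ := eig_decomp h2 hm hsq hs hx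
    exact Submodule.add_mem_sup hy hz
  rw [this]

theorem SI.orth (h2 : (2 : F) ≠ 0) {W : Submodule F V} {σ : V →ₗ[F] V} (h : SI B W σ) {s : F}
    (hs : s * s = 1) {x y : V} (hx : x ∈ eig W σ s) (hy : y ∈ eig W σ (-s)) : B x y = 0 := by
  rw [mem_eig] at hx hy
  have := h.iso x hx.1 y hy.1
  rw [hx.2, hy.2, LinearMap.BilinForm.smul_left, LinearMap.BilinForm.smul_right] at this
  have h3 : 2 * B x y = 0 := by linear_combination -this - B x y * hs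
  exact (mul_eq_zero.mp h3).resolve_left h2

theorem SI.nd (h2 : (2 : F) ≠ 0) {W : Submodule F V} {σ : V →ₗ[F] V} (h : SI B W σ)
    (hN : ND B W) {s : F} (hs : s * s = 1) : ND B (eig W σ s) := by
  intro x hx hx'
  refine hN x (eig_le _ _ _ hx) fun w hw => ?_
  obtain ⟨y, hy, z, hz, rfl⟩ := eig_decomp h2 h.mem h.sq hs hw
  rw [map_add, hx' y hy, h.orth h2 hs hx hz, add_zero]

end Lin

variable {F V R : Type*} [Field F] [AddCommGroup V] [Module F V] [CommRing R] [Algebra F R]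
  [Module R V] [IsScalarTower F R V]

namespace Ctx

variable {C : Ctx F V R}

theorem symm (hε : C.ε = 1) (x y : V) : C.B x y = C.B y x := by rw [C.sym, hε, one_mul]

theorem Inv.si (hε : C.ε = 1) {W : Submodule F V} {σ : V →ₗ[F] V} (h : C.Inv W σ) :
    SI C.B W σ :=
  ⟨h.mem, h.sq, fun x hx y hy => by rw [h.iso x hx y hy, symm hε]⟩

theorem Inv.j_mem {W : Submodule F V} {σ : V →ₗ[F] V} (h : C.Inv W σ) (hW : Iv R W) {s : F}
    {x : V} (hx : x ∈ eig W σ s) : C.j • x ∈ eig W σ (-s) := by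
  rw [mem_eig] at hx ⊢
  refine ⟨hW _ x hx.1, ?_⟩
  rw [h.semi _ x hx.1, hx.2, C.bar_j, smul_comm, neg_smul, neg_smul, smul_neg]

theorem Inv.tau_eq [FiniteDimensional F V] (hε : C.ε = 1) (h2 : (2 : F) ≠ 0) {W : Submodule F V}
    {σ : V →ₗ[F] V} (h : C.Inv W σ) (hW : Iv R W) (hN : ND C.B W) :
    tau W σ = tau (W ⊓ LinearMap.ker (Lm F V C.j)) σ := by
  have hs := h.si hε
  have h1 := dm_add_finrank_map (eig W σ 1) (Lm F V C.j)
  have h3 := (hs.nd h2 hN (s := -1) (by simp)).finrank_pp' (X := (eig W σ 1).map (Lm F V C.j))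
    C.isRefl (by rintro _ ⟨x, hx, rfl⟩; exact h.j_mem hW hx)
  have e1 : eig W σ 1 ⊓ LinearMap.ker (Lm F V C.j) = eig (W ⊓ LinearMap.ker (Lm F V C.j)) σ 1 := by
    simp only [eig]; ac_rfl
  have e2 : pp C.B (eig W σ (-1)) ((eig W σ 1).map (Lm F V C.j)) =
      eig (W ⊓ LinearMap.ker (Lm F V C.j)) σ (-1) := by
    ext y
    rw [mem_pp, mem_eig (W := W ⊓ _)]
    constructor
    · rintro ⟨hy, hy'⟩
      refine ⟨⟨(mem_eig.mp hy).1, ?_⟩, (mem_eig.mp hy).2⟩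
      have hj := h.j_mem hW hy
      rw [neg_neg] at hj
      refine hs.nd h2 hN (s := 1) (by simp) _ hj fun x hx => C.isRefl _ _ ?_
      have := hy' _ ⟨x, hx, rfl⟩
      rw [Lm_apply, C.adj, C.bar_j, neg_smul, map_neg, neg_eq_zero] at this
      exact this
    · rintro ⟨⟨hy, hy'⟩, hy''⟩
      refine ⟨mem_eig.mpr ⟨hy, hy''⟩, ?_⟩
      rintro _ ⟨x, hx, rfl⟩
      have : C.j • y = 0 := hy'
      rw [Lm_apply, C.adj, C.bar_j, neg_smul, this, neg_zero, map_zero]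
  rw [dm, e1] at h1
  rw [e2] at h3
  rw [tau, tau]
  omega

theorem Inv.tau_zero [FiniteDimensional F V] (hε : C.ε = 1) (h2 : (2 : F) ≠ 0) {W : Submodule F V}
    {σ : V →ₗ[F] V} (h : C.Inv W σ) (hW : Iv R W) (hN : ND C.B W)
    (hj : ∀ x ∈ W, C.j • x = 0 → x = 0) : tau W σ = 0 := by
  have : W ⊓ LinearMap.ker (Lm F V C.j) = ⊥ := by
    rw [eq_bot_iff]; rintro x ⟨hx, hx'⟩; exact hj x hx hx'
  rw [h.tau_eq hε h2 hW hN, this, tau_bot]

variable (C) in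
theorem N_of_j (h2 : (2 : F) ≠ 0) {e : F} (he : e * e = 1) {k : ℕ} {x : V}
    (hx : C.N e ^ k • x = 0) (hj : C.j • x = 0) : C.N e • x = 0 := by
  have h1 : C.N e • C.N e • x = (-(2 * e)) • C.N e • x := by
    have := congrArg (C.t • ·) hj
    simp only [C.j_eq he, ← mul_smul, ← mul_assoc, C.htt, one_mul, smul_zero] at this
    rw [mul_smul, add_smul, algebraMap_smul] at this
    rw [neg_smul]
    exact eq_neg_of_add_eq_zero_left this
  have h3 : ∀ i : ℕ, C.N e ^ i • C.N e • x = (-(2 * e)) ^ i • C.N e • x := by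
    intro i
    induction i with
    | zero => simp
    | succ i ih => rw [pow_succ', mul_smul, ih, smul_comm, h1, smul_smul, pow_succ]
  have := h3 k
  rw [smul_comm, hx, smul_zero] at this
  refine (smul_eq_zero.mp this.symm).resolve_left (pow_ne_zero _ (neg_ne_zero.mpr
    (mul_ne_zero h2 fun h => by simp [h] at he)))

variable (C) in
theorem j_of_N {e : F} (he : e * e = 1) {x : V} (hx : C.N e • x = 0) : C.j • x = 0 := by
  rw [C.j_eq he, mul_smul, hx, smul_zero]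

theorem Inv.tau_B1 [FiniteDimensional F V] (hε : C.ε = 1) (h2 : (2 : F) ≠ 0) {e : F}
    (he : e * e = 1) {k : ℕ} {v : V} (hv : C.N e ^ (k + 1) • v = 0)
    (hv' : C.B v (C.N e ^ k • v) ≠ 0) {σ : V →ₗ[F] V} (h : C.Inv (cyc F R v) σ) :
    (σ (C.N e ^ k • v) = C.N e ^ k • v → tau (cyc F R v) σ = 1) ∧
      (σ (C.N e ^ k • v) = -(C.N e ^ k • v) → tau (cyc F R v) σ = -1) := by
  have h0 : C.N e ^ k • v ≠ 0 := fun h => hv' (by rw [h, map_zero])
  have hK : C.N e ^ k • v ∈ cyc F R v ⊓ LinearMap.ker (Lm F V C.j) :=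
    ⟨smul_mem_cyc _ _, C.j_of_N he (by rw [C.N_pow_succ, hv])⟩
  have hK' : ∀ x ∈ cyc F R v ⊓ LinearMap.ker (Lm F V C.j), ∃ a : F, x = a • C.N e ^ k • v := by
    rintro _ ⟨⟨r, rfl⟩, hx⟩
    exact C.soc_cyc he hv h0 (C.N_of_j h2 he (k := k + 1) (by rw [smul_comm, hv, smul_zero]) hx)
  rw [h.tau_eq hε h2 (iv_cyc v) (C.nd_B1 hv hv')]
  exact ⟨fun h1 => tau_line h2 h0 hK h1 hK', fun h1 => tau_line' h2 h0 hK h1 hK'⟩

theorem IsB2.ne_u {e : F} {k : ℕ} {u v : V} (h : C.IsB2 e k u v) : C.N e ^ k • u ≠ 0 :=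
  fun h0 => by simpa [h0] using h.vu

theorem IsB2.ne_v {e : F} {k : ℕ} {u v : V} (h : C.IsB2 e k u v) : C.N e ^ k • v ≠ 0 :=
  fun h0 => by simpa [h0] using h.uv

theorem Inv.tau_B2 [FiniteDimensional F V] (hε : C.ε = 1) (h2 : (2 : F) ≠ 0) {e : F}
    (he : e * e = 1) {k : ℕ} {u v : V} (hb : C.IsB2 e k u v) {σ : V →ₗ[F] V}
    (h : C.Inv (cyc F R u ⊔ cyc F R v) σ) {s : F} (hs : s * s = 1)
    (h1 : σ (C.N e ^ k • u) = s • C.N e ^ k • u) (h1' : σ (C.N e ^ k • v) = (-s) • C.N e ^ k • v) :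
    tau (cyc F R u ⊔ cyc F R v) σ = 0 := by
  rw [h.tau_eq hε h2 ((iv_cyc u).sup (iv_cyc v)) hb.nd]
  refine tau_plane' h2 hb.ne_u hb.ne_v ⟨Submodule.mem_sup_left (smul_mem_cyc _ _),
    C.j_of_N he (by rw [C.N_pow_succ, hb.hu])⟩ ⟨Submodule.mem_sup_right (smul_mem_cyc _ _),
    C.j_of_N he (by rw [C.N_pow_succ, hb.hv])⟩ hs h1 h1' ?_
  rintro x ⟨hx, hx'⟩
  obtain ⟨r, s, rfl⟩ := mem_cyc_sup.mp hx
  exact hb.soc he (C.N_of_j h2 he (k := k + 1) (by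
    rw [smul_add, smul_comm, hb.hu, smul_comm _ s, hb.hv, smul_zero, smul_zero, add_zero]) hx')

theorem IsB2.exists_inv [FiniteDimensional F V] {e : F}
    (he : e * e = 1) {k : ℕ} {u v : V} (hb : C.IsB2 e k u v) :
    ∃ σ, C.Inv (cyc F R u ⊔ cyc F R v) σ ∧ σ (C.N e ^ k • u) = (-1 : F) ^ k • C.N e ^ k • u ∧
      σ (C.N e ^ k • v) = (-(-1 : F) ^ k) • C.N e ^ k • v := by
  obtain ⟨d, hd, hdd⟩ := hb.exists_d he
  obtain ⟨σ, hσ, hσ'⟩ := exists_inv_diag hb.nd hd hdd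
  refine ⟨σ, hσ, ?_, ?_⟩
  · have := hσ' (C.N e ^ k) 0
    rwa [zero_smul, add_zero, map_zero, zero_smul, add_zero, C.bar_N_pow he k hb.hu] at this
  · have := hσ' 0 (C.N e ^ k)
    rw [zero_smul, zero_add, map_zero, zero_smul, zero_add, smul_comm,
      C.bar_N_pow he k hb.hv, smul_comm] at this
    obtain ⟨c, hc⟩ := C.soc he d
    have hc' := (hc (C.N e ^ k • v) (by rw [C.N_pow_succ, hb.hv])).1
    have h1 := hd (C.N e ^ k)
    rw [mul_smul, hc', C.bar_N_pow he k hb.hv, LinearMap.BilinForm.smul_right,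
      LinearMap.BilinForm.smul_right, hb.uv] at h1
    have h3 := hb.vu
    rw [C.sym, C.B_N_pow he k u hb.hv, hb.uv] at h3
    rw [this, hc', smul_smul]
    congr 1
    linear_combination (-1) ^ k * h1 + (-1) ^ k * h3

/-- The possible pairs of traces on a block. -/
def Good (C : Ctx F V R) (X : Submodule F V) (a b : ℤ) : Prop :=
  ∃ σ, C.Inv X σ ∧ tau X σ = a + b ∧ tau X (σ ∘ₗ Lm F V C.t) = a - b

theorem Good.neg {X : Submodule F V} {a b : ℤ} (h : C.Good X a b) : C.Good X (-a) (-b) := by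
  obtain ⟨σ, h1, h2, h3⟩ := h
  refine ⟨-σ, h1.neg, by rw [tau_neg, h2]; ring, by rw [LinearMap.neg_comp, tau_neg, h3]; ring⟩

theorem good_B1 [FiniteDimensional F V] (hε : C.ε = 1) (h2 : (2 : F) ≠ 0) {e : F}
    (he : e * e = 1) {k : ℕ} {v : V} (hv : C.N e ^ (k + 1) • v = 0)
    (hv' : C.B v (C.N e ^ k • v) ≠ 0) : ∃ σ, C.Inv (cyc F R v) σ ∧
      σ (C.N e ^ k • v) = C.N e ^ k • v ∧ tau (cyc F R v) σ = 1 ∧
      (e = 1 → tau (cyc F R v) (σ ∘ₗ Lm F V C.t) = 1) ∧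
      (e = -1 → tau (cyc F R v) (σ ∘ₗ Lm F V C.t) = -1) := by
  have : ∃ σ, C.Inv (cyc F R v) σ ∧ σ (C.N e ^ k • v) = C.N e ^ k • v := by
    obtain ⟨σ, hσ, hσ'⟩ := C.exists_inv_cyc (C.nd_B1 hv hv')
    have := hσ' (C.N e ^ k)
    rw [C.bar_N_pow he k hv] at this
    rcases neg_one_pow_eq_or F k with h | h
    · exact ⟨σ, hσ, by rw [this, h, one_smul]⟩
    · exact ⟨-σ, hσ.neg, by simp [this, h]⟩
  obtain ⟨σ, hσ, hσ'⟩ := this
  have ht : (σ ∘ₗ Lm F V C.t) (C.N e ^ k • v) = e • C.N e ^ k • v := by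
    rw [LinearMap.comp_apply, Lm_apply, C.t_soc (by rw [C.N_pow_succ, hv]), map_smul, hσ']
  refine ⟨σ, hσ, hσ', (hσ.tau_B1 hε h2 he hv hv').1 hσ', fun h => ?_, fun h => ?_⟩
  · exact ((hσ.shift (iv_cyc v)).tau_B1 hε h2 he hv hv').1 (by rw [ht, h, one_smul])
  · exact ((hσ.shift (iv_cyc v)).tau_B1 hε h2 he hv hv').2 (by rw [ht, h, neg_smul, one_smul])

theorem good_B2 [FiniteDimensional F V] (hε : C.ε = 1) (h2 : (2 : F) ≠ 0) {e : F}
    (he : e * e = 1) {k : ℕ} {u v : V} (hb : C.IsB2 e k u v) :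
    ∃ σ, C.Inv (cyc F R u ⊔ cyc F R v) σ ∧ σ (C.N e ^ k • u) = (-1 : F) ^ k • C.N e ^ k • u ∧
      σ (C.N e ^ k • v) = (-(-1 : F) ^ k) • C.N e ^ k • v ∧ tau (cyc F R u ⊔ cyc F R v) σ = 0 ∧
      tau (cyc F R u ⊔ cyc F R v) (σ ∘ₗ Lm F V C.t) = 0 := by
  obtain ⟨σ, hσ, h1, h3⟩ := hb.exists_inv he
  have hs : ((-1 : F) ^ k) * (-1) ^ k = 1 := by rw [← mul_pow]; simp
  refine ⟨σ, hσ, h1, h3, hσ.tau_B2 hε h2 he hb hs h1 h3,
    (hσ.shift ((iv_cyc u).sup (iv_cyc v))).tau_B2 hε h2 he hb (s := e * (-1) ^ k)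
      (by linear_combination ((-1) ^ k * (-1) ^ k) * he + hs) ?_ ?_⟩
  · rw [LinearMap.comp_apply, Lm_apply, C.t_soc (by rw [C.N_pow_succ, hb.hu]), map_smul, h1,
      smul_smul]
  · rw [LinearMap.comp_apply, Lm_apply, C.t_soc (by rw [C.N_pow_succ, hb.hv]), map_smul, h3,
      smul_smul, mul_neg]

theorem tau_B0 [FiniteDimensional F V] (hε : C.ε = 1) (h2 : (2 : F) ≠ 0) {h : F[X]}
    (hc : IsCoprime h (X ^ 2 - 4)) {k : ℕ} {v : V} (hv : aeval C.η h ^ (k + 1) • v = 0)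
    (hN : ND C.B (cyc F R v)) {σ : V →ₗ[F] V} (hσ : C.Inv (cyc F R v) σ) :
    tau (cyc F R v) σ = 0 :=
  hσ.tau_zero hε h2 (iv_cyc v) hN (by
    rintro _ ⟨r, rfl⟩ hx
    exact C.j_inj hc (k := k + 1) (by rw [smul_comm, hv, smul_zero]) hx)

theorem cyc_ne_bot {v : V} (hv : v ≠ 0) : cyc F R v ≠ ⊥ := fun h =>
  hv (by have := self_mem_cyc (F := F) (R := R) v; rwa [h] at this)

theorem exists_good_block [FiniteDimensional F V] [Finite R] (hε : C.ε = 1) (h2 : (2 : F) ≠ 0)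
    {W : Submodule F V} (hW : Iv R W) (hN : ND C.B W) (h0 : W ≠ ⊥) :
    ∃ X ≤ W, X ≠ ⊥ ∧ Iv R X ∧ ND C.B X ∧ (C.Good X 0 0 ∨ C.Good X 1 0 ∨ C.Good X 0 1) := by
  rcases C.exists_block hW hN h0 with ⟨e, he, k, v, hv, h1, h3⟩ | ⟨e, he, k, u, hu, v, hv, hb⟩ |
    ⟨h, hh, hc, k, v, hv, h1, r, hr⟩
  · obtain ⟨σ, hσ, -, t1, t2, t3⟩ := good_B1 hε h2 he h1 h3
    refine ⟨_, hW.cyc_le hv, cyc_ne_bot (by rintro rfl; simp at h3), iv_cyc v, C.nd_B1 h1 h3,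
      Or.inr ?_⟩
    rcases mul_self_eq_one_iff.mp he with h | h
    · exact Or.inl ⟨σ, hσ, by simpa using t1, by simpa using t2 h⟩
    · exact Or.inr ⟨σ, hσ, by simpa using t1, by simpa using t3 h⟩
  · obtain ⟨σ, hσ, -, -, t1, t2⟩ := good_B2 hε h2 he hb
    refine ⟨_, sup_le (hW.cyc_le hu) (hW.cyc_le hv), fun h => cyc_ne_bot (F := F) (R := R)
      (v := u) (by rintro rfl; simpa using hb.ne_u) (le_bot_iff.mp (h ▸ le_sup_left)),
      (iv_cyc u).sup (iv_cyc v), hb.nd, Or.inl ⟨σ, hσ, by simpa using t1, by simpa using t2⟩⟩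
  · have hN' := C.nd_B0 hh hc h1 hr
    obtain ⟨σ, hσ, -⟩ := C.exists_inv_cyc hN'
    exact ⟨_, hW.cyc_le hv, cyc_ne_bot (by rintro rfl; simp at hr), iv_cyc v, hN', Or.inl
      ⟨σ, hσ, by simpa using tau_B0 hε h2 hc h1 hN' hσ,
        by simpa using tau_B0 hε h2 hc h1 hN' (hσ.shift (iv_cyc v))⟩⟩

theorem Inv.glue_tau [FiniteDimensional F V] {X Y : Submodule F V} {σ τ : V →ₗ[F] V}
    (hX : C.Inv X σ) (hY : C.Inv Y τ) (iX : Iv R X) (iY : Iv R Y) (nX : ND C.B X)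
    (h : ∀ x ∈ X, ∀ y ∈ Y, C.B x y = 0) :
    ∃ k, C.Inv (X ⊔ Y) k ∧ (∀ x ∈ X, k x = σ x) ∧ (∀ y ∈ Y, k y = τ y) ∧
      tau (X ⊔ Y) k = tau X σ + tau Y τ ∧ tau (X ⊔ Y) (k ∘ₗ Lm F V C.t) =
        tau X (σ ∘ₗ Lm F V C.t) + tau Y (τ ∘ₗ Lm F V C.t) := by
  have hd := nX.disjoint C.isRefl h
  obtain ⟨k, hk, h1, h2⟩ := hX.glue hY iX iY hd h
  have hX' := hX.congr iX h1
  have hY' := hY.congr iY h2
  refine ⟨k, hk, h1, h2, ?_, ?_⟩
  · rw [tau_sup hd hX'.mem hY'.mem, tau_congr h1, tau_congr h2]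
  · rw [tau_sup hd (hX'.shift iX).mem (hY'.shift iY).mem,
      tau_congr (σ := k ∘ₗ Lm F V C.t) (τ := σ ∘ₗ Lm F V C.t) fun x hx => h1 _ (iX _ x hx),
      tau_congr (σ := k ∘ₗ Lm F V C.t) (τ := τ ∘ₗ Lm F V C.t) fun x hx => h2 _ (iY _ x hx)]

theorem Good.sup [FiniteDimensional F V] {X Y : Submodule F V} {a b a' b' : ℤ}
    (hX : C.Good X a b) (hY : C.Good Y a' b') (iX : Iv R X) (iY : Iv R Y) (nX : ND C.B X)
    (h : ∀ x ∈ X, ∀ y ∈ Y, C.B x y = 0) : C.Good (X ⊔ Y) (a + a') (b + b') := by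
  obtain ⟨σ, h1, h2, h3⟩ := hX
  obtain ⟨τ, h4, h5, h6⟩ := hY
  obtain ⟨k, hk, -, -, t1, t2⟩ := h1.glue_tau h4 iX iY nX h
  exact ⟨k, hk, by rw [t1, h2, h5]; ring, by rw [t2, h3, h6]; ring⟩

theorem bal [FiniteDimensional F V] [Finite R] (hε : C.ε = 1) (h2 : (2 : F) ≠ 0)
    {sa sb : ℤ} (ha : sa = 1 ∨ sa = -1) (hb : sb = 1 ∨ sb = -1) {W : Submodule F V}
    (hW : Iv R W) (hN : ND C.B W) :
    ∃ a b, (a = 0 ∨ a = sa) ∧ (b = 0 ∨ b = sb) ∧ C.Good W a b := by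
  induction hn : finrank F W using Nat.strong_induction_on generalizing W with
  | _ n ih =>
  by_cases h0 : W = ⊥
  · subst h0
    exact ⟨0, 0, Or.inl rfl, Or.inl rfl, 0, inv_bot _, by simp [tau_bot], by simp [tau_bot]⟩
  obtain ⟨X, hle, hX0, iX, nX, hX⟩ := exists_good_block hε h2 hW hN h0
  have hd := nX.finrank_pp C.isRefl hle
  have hpos : 0 < finrank F X := by
    rw [pos_iff_ne_zero, Ne, Submodule.finrank_eq_zero]; exact hX0
  obtain ⟨a, b, ha', hb', hY⟩ := ih _ (by omega) (C.iv_pp hW iX) (nX.pp C.isRefl hle hN) rfl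
  have key : ∀ a' b', C.Good X a' b' → C.Good W (a' + a) (b' + b) := fun a' b' h => by
    have := h.sup hY iX (C.iv_pp hW iX) nX fun x hx y hy => hy.2 x hx
    rwa [nX.sup_pp C.isRefl hle] at this
  rcases hX with hX | hX | hX
  · exact ⟨_, _, by omega, by omega, key _ _ hX⟩
  · by_cases h : 1 + a = 0 ∨ 1 + a = sa
    · exact ⟨_, _, h, by omega, key _ _ hX⟩
    · exact ⟨_, _, by omega, by omega, key _ _ hX.neg⟩
  · by_cases h : 1 + b = 0 ∨ 1 + b = sb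
    · exact ⟨_, _, by omega, h, key _ _ hX⟩
    · exact ⟨_, _, by omega, by omega, key _ _ hX.neg⟩

end Ctx

end H37.Ore
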