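import Mathlib
import Cfsg.Agent.Base
import Cfsg.Agent.Lib.Ore.OddBal
import Cfsg.Agent.Lib.Ore.Count
import Cfsg.Agent.Lib.QF.OmegaGeom
import Cfsg.Agent.Lib.QF.Disc

/-! Conjugacy of involutions of orthogonal groups in odd characteristic, fixing given vectors. -/

set_option autoImplicit false

namespace H37.Ore

open Module QuadraticMap H12

variable {F V : Type*} [Field F] [AddCommGroup V] [Module F V] {Q : QuadraticForm F V}

/-- Being a commutator of two elements of `Ω`. -/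
def IsComm (Q : QuadraticForm F V) (g : O Q) : Prop :=
  ∃ a ∈ Om Q, ∃ b ∈ Om Q, g = a * b * a⁻¹ * b⁻¹

theorem isComm_of {σ₁ σ₂ x z : O Q} (h1 : σ₁ * σ₁ = 1) (hx : x ∈ Om Q) (hc : x * σ₁ = σ₂ * x)
    (hz : z * x = x * z) (hσ : σ₁ * z ∈ Om Q) : IsComm Q (σ₁ * σ₂) := by
  refine ⟨σ₁ * z, hσ, x, hx, ?_⟩
  have h2 : σ₂ = x * σ₁ * x⁻¹ := by rw [hc]; group
  have h3 : σ₁⁻¹ = σ₁ := inv_eq_of_mul_eq_one_right h1
  rw [h2, mul_assoc σ₁ z x, hz, mul_inv_rev, h3]; group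

/-- Eigenspace of an isometry. -/
abbrev E (σ : O Q) (s : F) : Submodule F V := eig ⊤ (σ.1 : V →ₗ[F] V) s

theorem mem_E {σ : O Q} {s : F} {x : V} : x ∈ E σ s ↔ σ.1 x = s • x := by
  simp [mem_eig]

theorem sq_apply {σ : O Q} (h : σ * σ = 1) (x : V) : σ.1 (σ.1 x) = x := by
  rw [← O.mul_apply, h, O.one_apply]

theorem si_O {σ : O Q} (h : σ * σ = 1) : SI (polarBilin Q) ⊤ (σ.1 : V →ₗ[F] V) :=
  ⟨fun _ _ => trivial, fun x _ => sq_apply h x, fun x _ y _ => O.map_B σ x y⟩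

theorem nd_top (hQ : Nondeg Q) : ND (polarBilin Q) ⊤ := fun x _ h => hQ x fun y => h y trivial

theorem nd_E (hQ : Nondeg Q) (h2 : (2 : F) ≠ 0) {σ : O Q} (h : σ * σ = 1) {s : F}
    (hs : s * s = 1) : ND (polarBilin Q) (E σ s) := (si_O h).nd h2 (nd_top hQ) hs

theorem E_orth (h2 : (2 : F) ≠ 0) {σ : O Q} (h : σ * σ = 1) {s : F} (hs : s * s = 1) {x y : V}
    (hx : x ∈ E σ s) (hy : y ∈ E σ (-s)) : polar Q x y = 0 := (si_O h).orth h2 hs hx hy

theorem E_decomp (h2 : (2 : F) ≠ 0) {σ : O Q} (h : σ * σ = 1) {s : F} (hs : s * s = 1) (x : V) :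
    ∃ y ∈ E σ s, ∃ z ∈ E σ (-s), x = y + z :=
  eig_decomp h2 (si_O h).mem (si_O h).sq hs trivial

theorem finrank_E_add [FiniteDimensional F V] (h2 : (2 : F) ≠ 0) {σ : O Q} (h : σ * σ = 1)
    {s : F} (hs : s * s = 1) : finrank F (E σ s) + finrank F (E σ (-s)) = finrank F V := by
  rw [finrank_eig_add h2 (si_O h).mem (si_O h).sq hs, finrank_top]

theorem mov_eq (h2 : (2 : F) ≠ 0) {σ : O Q} (h : σ * σ = 1) : mov σ = E σ (-1) := by
  ext x
  rw [mem_mov, mem_E]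
  constructor
  · rintro ⟨y, rfl⟩
    rw [map_sub, sq_apply h]; simp
  · intro hx
    refine ⟨(2 : F)⁻¹ • x, ?_⟩
    rw [map_smul, hx]
    match_scalars
    field_simp; ring

theorem dk_invol [FiniteDimensional F V] (hQ : Nondeg Q) (hG : Good Q) (h2 : (2 : F) ≠ 0)
    {σ : O Q} (h : σ * σ = 1) : dk hQ hG σ = (-1) ^ finrank F (E σ (-1)) := by
  rw [dk_apply, mov_eq h2 h]

theorem spin_invol [Fintype F] [DecidableEq F] [FiniteDimensional F V] (hQ : Nondeg Q)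
    (hG : Good Q) (h2 : (2 : F) ≠ 0) {σ : O Q} (h : σ * σ = 1) {d : ℕ} (b : Fin d → V)
    (hb : LinearIndependent F b) (hs : Submodule.span F (Set.range b) = E σ (-1)) :
    (spin hQ hG σ : ℤ) = quadraticChar F (2 ^ d * H66.gramDet Q b) := by
  have hbE : ∀ i, σ.1 (b i) = -b i := fun i => by
    have : b i ∈ E σ (-1) := hs ▸ Submodule.subset_span ⟨i, rfl⟩
    simpa [mem_E] using this
  have hfun : (fun i => b i - σ.1 (b i)) = (fun _ : Fin d => Units.mk0 (2 : F) h2) • b := by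
    funext i
    simp [hbE, two_smul, Units.smul_def]
  have hw : IsWall σ b := by
    refine ⟨by rw [hfun]; exact hb.units_smul _, ?_⟩
    rw [mov_eq h2 h, ← hs, hfun]
    apply le_antisymm
    · rw [Submodule.span_le]
      rintro _ ⟨i, rfl⟩
      exact Submodule.smul_mem _ (2 : F) (Submodule.subset_span ⟨i, rfl⟩)
    · rw [Submodule.span_le]
      rintro _ ⟨i, rfl⟩
      have := Submodule.smul_mem (Submodule.span F (Set.range
        ((fun _ : Fin d => Units.mk0 (2 : F) h2) • b))) (2 : F)⁻¹ (Submodule.subset_span ⟨i, rfl⟩)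
      simpa [Units.smul_def, smul_smul, inv_mul_cancel₀ h2] using this
  rw [coe_spin, hw.spinFun_eq]
  congr 1
  have : wallMat σ b = (2 : F) • Matrix.of fun i j => polar Q (b i) (b j) := by
    ext i j
    simp [wallMat, hbE, two_mul]
  rw [this, Matrix.det_smul, Fintype.card_fin]
  rfl

theorem comm_of_map (hQ : Nondeg Q) (h2 : (2 : F) ≠ 0) {σ₁ σ₂ x : O Q} (h₁ : σ₁ * σ₁ = 1)
    (h₂ : σ₂ * σ₂ = 1) {s : F} (hs : s * s = 1) (ha : ∀ m ∈ E σ₁ s, x.1 m ∈ E σ₂ s)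
    (hb : ∀ m ∈ E σ₂ s, ∃ m' ∈ E σ₁ s, x.1 m' = m) : x * σ₁ = σ₂ * x := by
  refine O.ext fun v => ?_
  obtain ⟨y, hy, z, hz, rfl⟩ := E_decomp h2 h₁ hs v
  have hz' : x.1 z ∈ E σ₂ (-s) := by
    obtain ⟨p, hp, m, hm, h⟩ := E_decomp h2 h₂ hs (x.1 z)
    have : p = 0 := nd_E hQ h2 h₂ hs p hp fun w hw => by
      obtain ⟨w', hw', rfl⟩ := hb w hw
      have h1 := O.map_B x w' z
      rw [E_orth h2 h₁ hs hw' hz, h, polar_add_right, E_orth h2 h₂ hs hw hm, add_zero,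
        polar_comm] at h1
      exact h1
    rw [h, this, zero_add]; exact hm
  simp only [O.mul_apply, map_add, mem_E.mp hy, mem_E.mp hz, mem_E.mp (ha y hy), mem_E.mp hz',
    map_smul]

theorem map_E {σ₁ σ₂ x : O Q} (h : x * σ₁ = σ₂ * x) {s : F} {m : V} (hm : m ∈ E σ₁ s) :
    x.1 m ∈ E σ₂ s := by
  rw [mem_E] at hm ⊢
  rw [← O.mul_apply, ← h, O.mul_apply, hm, map_smul]

theorem spin_invol' [Fintype F] [DecidableEq F] [FiniteDimensional F V] (hQ : Nondeg Q)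
    (hG : Good Q) (h2 : (2 : F) ≠ 0) {σ : O Q} (h : σ * σ = 1) {d : ℕ}
    (b : Basis (Fin d) F (E σ (-1))) :
    (spin hQ hG σ : ℤ) = quadraticChar F (2 ^ d * H66.gramDet (Q.restrict (E σ (-1))) b) := by
  have := spin_invol hQ hG h2 h ((E σ (-1)).subtype ∘ b)
    (b.linearIndependent.map' _ (Submodule.ker_subtype _)) (by
      rw [Set.range_comp, ← Submodule.map_span, b.span_eq, Submodule.map_subtype_top])
  rw [this]
  rfl

theorem exists_iso_sub [Fintype F] [DecidableEq F] [FiniteDimensional F V] (h2 : (2 : F) ≠ 0)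
    {U W : Submodule F V} (hU : ND (polarBilin Q) U) (hW : ND (polarBilin Q) W) {d : ℕ}
    (b : Basis (Fin d) F U) (c : Basis (Fin d) F W)
    (e : quadraticChar F (2 ^ d * H66.gramDet (Q.restrict U) b) =
      quadraticChar F (2 ^ d * H66.gramDet (Q.restrict W) c)) :
    ∃ Φ : U ≃ₗ[F] W, ∀ x, Q (Φ x) = Q x := by
  have n1 := nondeg_iff.mp (nondeg_restrict_of_nd hU)
  have n2 := nondeg_iff.mp (nondeg_restrict_of_nd hW)
  have g1 := H66.gramDet_ne_zero n1 b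
  have g2 := H66.gramDet_ne_zero n2 c
  refine H66.exists_equiv_of_isSquare_gramDet h2 n1 n2
    (by rw [finrank_eq_card_basis b, finrank_eq_card_basis c]) b c ?_
  rw [map_mul, map_mul] at e
  have e2 := mul_left_cancel₀ (by
    rw [Ne, quadraticChar_eq_zero_iff]; exact pow_ne_zero _ h2) e
  rw [← quadraticChar_one_iff_isSquare (mul_ne_zero g1 g2), map_mul, e2, ← pow_two,
    quadraticChar_sq_one g2]

theorem exists_O_map [FiniteDimensional F V] (hQ : Nondeg Q) {U W : Submodule F V}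
    (Φ : U ≃ₗ[F] W) (hΦ : ∀ x, Q (Φ x) = Q x) :
    ∃ g : O Q, (∀ m ∈ U, g.1 m ∈ W) ∧ ∀ m ∈ W, ∃ m' ∈ U, g.1 m' = m := by
  obtain ⟨g, hg, hgu⟩ := H28.witt_quad Q (nondeg_iff.mp hQ).1 U
    (W.subtype ∘ₗ Φ.toLinearMap) (W.injective_subtype.comp Φ.injective) hΦ
  refine ⟨⟨g, hg⟩, fun m hm => ?_, fun m hm => ?_⟩
  · have := hgu ⟨m, hm⟩
    change g m ∈ _
    rw [this]; exact (Φ _).2
  · refine ⟨Φ.symm ⟨m, hm⟩, (Φ.symm _).2, ?_⟩
    change g _ = m
    rw [hgu]; simp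

theorem exists_conj [Fintype F] [DecidableEq F] [FiniteDimensional F V] (hQ : Nondeg Q)
    (hG : Good Q) (h2 : (2 : F) ≠ 0) {σ₁ σ₂ : O Q} (h₁ : σ₁ * σ₁ = 1) (h₂ : σ₂ * σ₂ = 1)
    (hd : finrank F (E σ₁ (-1)) = finrank F (E σ₂ (-1))) (hsp : spin hQ hG σ₁ = spin hQ hG σ₂) :
    ∃ x : O Q, x * σ₁ = σ₂ * x := by
  have e1 := spin_invol' hQ hG h2 h₁ (Module.finBasisOfFinrankEq F _ hd)
  have e2 := spin_invol' hQ hG h2 h₂ (Module.finBasis F _)
  rw [hsp, e2] at e1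
  obtain ⟨Φ, hΦ⟩ := exists_iso_sub h2 (nd_E hQ h2 h₁ (s := -1) (by simp))
    (nd_E hQ h2 h₂ (s := -1) (by simp)) _ _ e1.symm
  obtain ⟨g, h3, h4⟩ := exists_O_map hQ Φ hΦ
  exact ⟨g, comm_of_map hQ h2 h₁ h₂ (s := -1) (by simp) h3 h4⟩

theorem witt_eig [FiniteDimensional F V] (hQ : Nondeg Q) (h2 : (2 : F) ≠ 0) {σ : O Q}
    (h : σ * σ = 1) {s : F} (hs : s * s = 1) {ι : Type} [Finite ι] {u u' : ι → V}
    (hu : ∀ i, u i ∈ E σ s) (hu' : ∀ i, u' i ∈ E σ s) (li : LinearIndependent F u)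
    (li' : LinearIndependent F u') (hB : ∀ i j, polar Q (u' i) (u' j) = polar Q (u i) (u j)) :
    ∃ k : O Q, k * σ = σ * k ∧ (∀ i, k.1 (u i) = u' i) ∧ ∀ x ∈ E σ (-s), k.1 x = x := by
  let b := Module.finBasis F (E σ (-s))
  let b' := (E σ (-s)).subtype ∘ b
  have hb' : LinearIndependent F b' := b.linearIndependent.map' _ (Submodule.ker_subtype _)
  have hsp : Submodule.span F (Set.range b') = E σ (-s) := by
    rw [Set.range_comp, ← Submodule.map_span, b.span_eq, Submodule.map_subtype_top]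
  have hbE : ∀ i, b' i ∈ E σ (-s) := fun i => (b i).2
  have key : ∀ {u : ι → V}, (∀ i, u i ∈ E σ s) → LinearIndependent F u →
      LinearIndependent F (Sum.elim u b') := fun {u} hu li => li.sum_type hb' (by
    rw [hsp]
    refine (disjoint_eig h2 _ _ hs).mono_left ?_
    rw [Submodule.span_le]; rintro _ ⟨i, rfl⟩; exact hu i)
  obtain ⟨g, hg, hgu⟩ := H28.witt_quad_family Q (nondeg_iff.mp hQ).1 _ _ (key hu li) (key hu' li')
    (by
      rintro (i | i) (j | j) _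
      · exact hB i j
      · simp only [Sum.elim_inl, Sum.elim_inr]
        rw [E_orth h2 h hs (hu i) (hbE j), E_orth h2 h hs (hu' i) (hbE j)]
      · simp only [Sum.elim_inl, Sum.elim_inr]
        rw [polar_comm, E_orth h2 h hs (hu' j) (hbE i), polar_comm, E_orth h2 h hs (hu j) (hbE i)]
      · rfl)
    (by
      rintro (i | i)
      · have := hB i i
        rw [B_self, B_self] at this
        exact mul_left_cancel₀ h2 this
      · rfl)
  have hfix : ∀ x ∈ E σ (-s), g x = x := by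
    intro x hx
    rw [← hsp] at hx
    induction hx using Submodule.span_induction with
    | mem x hx => obtain ⟨i, rfl⟩ := hx; exact hgu (.inr i)
    | zero => simp
    | add x y _ _ hx hy => rw [map_add, hx, hy]
    | smul a x _ hx => rw [map_smul, hx]
  exact ⟨⟨g, hg⟩, comm_of_map hQ h2 h h (s := -s) (by simpa using hs)
    (fun m hm => by change g m ∈ _; rw [hfix m hm]; exact hm)
    (fun m hm => ⟨m, hm, hfix m hm⟩), fun i => hgu (.inl i), hfix⟩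

theorem conj_fix [FiniteDimensional F V] (hQ : Nondeg Q) (h2 : (2 : F) ≠ 0) {σ₁ σ₂ y : O Q}
    (h₂ : σ₂ * σ₂ = 1) (hy : y * σ₁ = σ₂ * y) {s : F} (hs : s * s = 1) {ι κ : Type} [Finite ι]
    [Finite κ] {u u' : ι → V} {w w' : κ → V}
    (hu : ∀ i, u i ∈ E σ₁ s) (hu' : ∀ i, u' i ∈ E σ₂ s) (li : LinearIndependent F u)
    (li' : LinearIndependent F u') (hB : ∀ i j, polar Q (u' i) (u' j) = polar Q (u i) (u j))
    (hw : ∀ i, w i ∈ E σ₁ (-s)) (hw' : ∀ i, w' i ∈ E σ₂ (-s)) (lw : LinearIndependent F w)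
    (lw' : LinearIndependent F w') (hBw : ∀ i j, polar Q (w' i) (w' j) = polar Q (w i) (w j)) :
    ∃ x : O Q, x * σ₁ = σ₂ * x ∧ (∀ i, x.1 (u i) = u' i) ∧ ∀ i, x.1 (w i) = w' i := by
  obtain ⟨k, hk, hku, hkf⟩ := witt_eig hQ h2 h₂ hs (u := fun i => y.1 (u i)) (u' := u')
    (fun i => map_E hy (hu i)) hu' (li.map' y.1.toLinearMap y.1.ker) li'
    (fun i j => by rw [O.map_B, hB])
  obtain ⟨k', hk', hkw, hkf'⟩ := witt_eig hQ h2 h₂ (s := -s) (by simpa using hs)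
    (u := fun i => y.1 (w i)) (u' := w')
    (fun i => map_E hy (hw i)) hw' (lw.map' y.1.toLinearMap y.1.ker) lw'
    (fun i j => by rw [O.map_B, hBw])
  refine ⟨k' * k * y, by rw [mul_assoc, hy, mul_assoc, ← mul_assoc k, hk, mul_assoc, ← mul_assoc,
    hk', mul_assoc, mul_assoc], fun i => ?_, fun i => ?_⟩
  · rw [O.mul_apply, O.mul_apply, hku, hkf' _ (by rw [neg_neg]; exact hu' i)]
  · rw [O.mul_apply, O.mul_apply, hkf _ (map_E hy (hw i)), hkw]

theorem exists_Om_fix [Fintype F] [DecidableEq F] [FiniteDimensional F V] (hQ : Nondeg Q)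
    (hG : Good Q) {σ₁ σ₂ x : O Q} (hx : x * σ₁ = σ₂ * x) {ι : Type*} {w : ι → V}
    (hw : ∀ i, x.1 (w i) = w i)
    (h : ∀ c : F, c ≠ 0 → ∃ a, Q a = c ∧ (σ₁.1 a = a ∨ σ₁.1 a = -a) ∧ ∀ i, polar Q (w i) a = 0) :
    ∃ x ∈ Om Q, x * σ₁ = σ₂ * x ∧ ∀ i, x.1 (w i) = w i := by
  let S : Subgroup (O Q) :=
    { carrier := {k | k * σ₁ = σ₁ * k ∧ ∀ i, k.1 (w i) = w i}
      mul_mem' := fun {a b} ha hb => ⟨by rw [mul_assoc, hb.1, ← mul_assoc, ha.1, mul_assoc],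
        fun i => by rw [O.mul_apply, hb.2, ha.2]⟩
      one_mem' := ⟨by simp, fun _ => rfl⟩
      inv_mem' := fun {a} ha => ⟨by
        rw [inv_mul_eq_iff_eq_mul, ← mul_assoc, ha.1]; simp, fun i => by
          rw [O.inv_apply_eq_iff, ha.2]⟩ }
  have hr : ∀ c : F, c ≠ 0 → ∃ a, Q a = c ∧ refl Q a ∈ S := by
    intro c hc
    obtain ⟨a, h1, h3, h4⟩ := h c hc
    refine ⟨a, h1, ?_, fun i => refl_apply_of_orth (h4 i)⟩
    have := refl_conj σ₁ a
    rcases h3 with h3 | h3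
    · rw [h3, mul_inv_eq_iff_eq_mul] at this; exact this.symm
    · rw [h3, refl_neg, mul_inv_eq_iff_eq_mul] at this; exact this.symm
  obtain ⟨a, ha, haS⟩ := hr 1 one_ne_zero
  have ha0 : Q a ≠ 0 := by rw [ha]; exact one_ne_zero
  obtain ⟨k, hk, hxk⟩ := H66.exists_mul_mem_Om hQ hG S ⟨_, haS, dk_refl hQ hG ha0⟩ (fun h2 => by
    obtain ⟨c, hc⟩ := FiniteField.exists_nonsquare (F := F) (ringChar_ne_two_iff.mpr h2)
    have hc0 : c ≠ 0 := by rintro rfl; exact hc IsSquare.zero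
    obtain ⟨a', ha', haS'⟩ := hr c hc0
    have ha0' : Q a' ≠ 0 := by rw [ha']; exact hc0
    refine ⟨_, S.mul_mem haS haS', by rw [map_mul, dk_refl hQ hG ha0, dk_refl hQ hG ha0']; simp,
      Units.ext ?_⟩
    rw [map_mul, Units.val_mul, coe_spin_refl hQ hG ha0, coe_spin_refl hQ hG ha0', ha, ha',
      map_one, one_mul, quadraticChar_neg_one_iff_not_isSquare.mpr hc]
    rfl) x
  exact ⟨x * k, hxk, by rw [mul_assoc, hk.1, ← mul_assoc, hx, mul_assoc],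
    fun i => by rw [O.mul_apply, hk.2, hw]⟩

end H37.Ore
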