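import Mathlib
import Cfsg.Agent.Base
import Cfsg.Agent.Lib.Ore.Conj

/-! A common nonsingular vector for two conjugate involutions; commutators in `Ω`. -/

set_option autoImplicit false

namespace H37.Ore

open Module QuadraticMap H12

variable {F V : Type*} [Field F] [AddCommGroup V] [Module F V] {Q : QuadraticForm F V}

theorem cnt_restrict (T : Submodule F V) (c : F) :
    cnt (Q.restrict T) c = Set.ncard {x | x ∈ T ∧ Q x = c} := by
  rw [cnt, ← Nat.card_coe_set_eq]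
  exact Nat.card_congr
    { toFun := fun x => ⟨x.1.1, x.1.2, x.2⟩
      invFun := fun x => ⟨⟨x.1, x.2.1⟩, x.2.2⟩
      left_inv := fun _ => rfl
      right_inv := fun _ => rfl }

theorem polarBilin_refl (Q : QuadraticForm F V) : LinearMap.BilinForm.IsRefl (polarBilin Q) :=
  polarBilin_isRefl

theorem univ' [Finite F] [FiniteDimensional F V] (hQ : Nondeg Q) {T : Submodule F V}
    (h : finrank F V + 2 ≤ 2 * finrank F T) (c : F) : ∃ a ∈ T, Q a = c := by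
  have h1 := (nd_top hQ).finrank_pp' (polarBilin_refl Q) (X := T) le_top
  rw [finrank_top] at h1
  have h3 : finrank F (rad (Q.restrict T)) ≤ finrank F (pp (polarBilin Q) ⊤ T) := by
    rw [← Submodule.finrank_map_subtype_eq]
    apply Submodule.finrank_mono
    rintro _ ⟨x, hx, rfl⟩
    exact ⟨trivial, fun y hy => polarBilin_refl Q _ _ (mem_rad.mp hx ⟨y, hy⟩)⟩
  obtain ⟨U, hU, hd⟩ := exists_compl_rad (Q.restrict T)
  obtain ⟨a, -, ha⟩ := univ hU (by omega) c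
  exact ⟨a, a.2, ha⟩

theorem finrank_add_le_of_disjoint [FiniteDimensional F V] {X Y : Submodule F V}
    (h : ∀ x ∈ X, x ∈ Y → x = 0) : finrank F X + finrank F Y ≤ finrank F V := by
  rw [← finrank_sup_of_disjoint (Submodule.disjoint_def.mpr h)]
  exact Submodule.finrank_le _

theorem B_invol {σ : O Q} (h : σ * σ = 1) (x y : V) : polar Q (σ.1 x) y = polar Q x (σ.1 y) := by
  rw [← O.map_B σ x (σ.1 y), sq_apply h]

theorem delta_eig (h2 : (2 : F) ≠ 0) [FiniteDimensional F V] {σ₁ σ₂ : O Q} (h₁ : σ₁ * σ₁ = 1)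
    (h₂ : σ₂ * σ₂ = 1) {s : F} (hs : s * s = 1)
    (hd : finrank F (E σ₁ s) = finrank F (E σ₂ s)) {μ : F} (hμ : μ ≠ 0) {T : Submodule F V}
    (hT : ∀ x ∈ T, σ₁.1 x - σ₂.1 x = μ • x) :
    finrank F T + finrank F (E σ₁ s) ≤ finrank F V := by
  by_cases h : μ = 2 * s
  · rw [hd]
    refine finrank_add_le_of_disjoint fun x hx hx' => ?_
    have h3 : σ₁.1 x = (s + μ) • x := by
      rw [add_smul, ← hT x hx, ← mem_E.mp hx']; abel
    have h4 := sq_apply h₁ x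
    rw [h3, map_smul, h3, smul_smul] at h4
    have h5 : (2 * 2 * 2 : F) • x = 0 := by
      rw [h] at h4
      have : ((s + 2 * s) * (s + 2 * s) - 1) • x = 0 := by rw [sub_smul, h4, one_smul, sub_self]
      rwa [show (s + 2 * s) * (s + 2 * s) - 1 = 2 * 2 * 2 by linear_combination 9 * hs] at this
    exact (smul_eq_zero.mp h5).resolve_left (mul_ne_zero (mul_ne_zero h2 h2) h2)
  · refine finrank_add_le_of_disjoint fun x hx hx' => ?_
    have h3 : σ₂.1 x = (s - μ) • x := by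
      rw [sub_smul, ← hT x hx, ← mem_E.mp hx']; abel
    have h4 := sq_apply h₂ x
    rw [h3, map_smul, h3, smul_smul] at h4
    have : ((s - μ) * (s - μ) - 1) • x = 0 := by rw [sub_smul, h4, one_smul, sub_self]
    rw [show (s - μ) * (s - μ) - 1 = μ * (μ - 2 * s) by linear_combination hs] at this
    exact (smul_eq_zero.mp this).resolve_left (mul_ne_zero hμ (sub_ne_zero.mpr h))

theorem sv_exists [Finite F] [FiniteDimensional F V] (hQ : Nondeg Q) (h2 : (2 : F) ≠ 0)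
    (hn : 7 ≤ finrank F V) {σ₁ σ₂ : O Q} (h₁ : σ₁ * σ₁ = 1) (h₂ : σ₂ * σ₂ = 1)
    (hd : finrank F (E σ₁ (-1)) = finrank F (E σ₂ (-1))) (hp : 3 ≤ finrank F (E σ₁ 1))
    (hm : 3 ≤ finrank F (E σ₁ (-1))) {c : F} (hc : c ≠ 0) :
    ∃ v, Q v = c ∧ polar Q v (σ₁.1 v) = polar Q v (σ₂.1 v) ∧ (v ∈ E σ₁ 1 ↔ v ∈ E σ₂ 1) ∧
      (v ∈ E σ₁ (-1) ↔ v ∈ E σ₂ (-1)) := by
  have : Finite V := Module.finite_of_finite F
  have a1 := finrank_E_add h2 h₁ (s := 1) (by simp)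
  have a2 := finrank_E_add h2 h₂ (s := 1) (by simp)
  let δ : V →ₗ[F] V := (σ₁.1 : V →ₗ[F] V) - (σ₂.1 : V →ₗ[F] V)
  have hδ : ∀ x, δ x = σ₁.1 x - σ₂.1 x := fun _ => rfl
  by_cases hk : finrank F V ≤ finrank F (LinearMap.ker δ) + 2
  · obtain ⟨v, hv, hv'⟩ := univ' hQ (T := LinearMap.ker δ) (by omega) c
    have : σ₁.1 v = σ₂.1 v := sub_eq_zero.mp hv
    exact ⟨v, hv', by rw [this], by rw [mem_E, mem_E, this], by rw [mem_E, mem_E, this]⟩
  let β : QuadraticForm F V := LinearMap.BilinMap.toQuadraticMap ((polarBilin Q).compl₂ δ)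
  have hβ : ∀ x, β x = polar Q x (δ x) := fun _ => rfl
  have hsym : ∀ x y, polar Q x (δ y) = polar Q (δ x) y := fun x y => by
    rw [hδ, hδ, polar_sub_right, polar_sub_left, B_invol h₁, B_invol h₂]
  have hpβ : ∀ x y, polar β x y = 2 * polar Q (δ x) y := fun x y => by
    have : polar β x y = β (x + y) - β x - β y := rfl
    rw [this, hβ, hβ, hβ, map_add, polar_add_left, polar_add_right, polar_add_right, hsym x y,
      polar_comm Q y (δ x)]
    ring
  have r0 : finrank F (rad β) + 3 ≤ finrank F V := by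
    have : rad β ≤ LinearMap.ker δ := fun x hx => hQ _ fun y => by
      have := mem_rad.mp hx y
      rw [hpβ] at this
      exact (mul_eq_zero.mp this).resolve_left h2
    have := Submodule.finrank_mono this
    omega
  have r1 : ∀ l : F, finrank F (rad (Q + l • β)) + 4 ≤ finrank F V := by
    intro l
    have key : ∀ x ∈ rad (Q + l • β), x + (2 * l) • δ x = 0 := fun x hx => hQ _ fun y => by
      have := mem_rad.mp hx y
      rw [FunLike.coe_add, polar_add, FunLike.coe_smul, polar_smul, hpβ] at this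
      rw [polar_add_left, B_smul_left]
      rw [smul_eq_mul] at this
      linear_combination this
    by_cases hl : l = 0
    · have : rad (Q + l • β) = ⊥ := by
        rw [eq_bot_iff]; intro x hx; simpa [hl] using key x hx
      rw [this, finrank_bot]; omega
    · have h2l := mul_ne_zero h2 hl
      have key' : ∀ x ∈ rad (Q + l • β), σ₁.1 x - σ₂.1 x = (-(2 * l)⁻¹) • x := fun x hx => by
        have := congrArg (fun z => (2 * l)⁻¹ • z) (eq_neg_of_add_eq_zero_right (key x hx))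
        simp only [smul_smul, inv_mul_cancel₀ h2l, one_smul, smul_neg] at this
        rw [← hδ, this, neg_smul]
      have b1 := delta_eig h2 h₁ h₂ (s := 1) (by simp) (by omega) (neg_ne_zero.mpr (inv_ne_zero h2l)) key'
      have b2 := delta_eig h2 h₁ h₂ (s := -1) (by simp) hd (neg_ne_zero.mpr (inv_ne_zero h2l)) key'
      omega
  by_contra H
  push Not at H
  obtain ⟨l, hl⟩ := double_count Q β c
  have c1 := cnt_ge_four h2 (r1 l) hc
  have c2 := cnt_zero_ge_three h2 r0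
  have c3 : ∀ (σ : O Q) (_ : σ * σ = 1) (s : F) (_ : s * s = 1) (a : ℕ),
      finrank F (E σ s) = a + 3 → Set.ncard {x | x ∈ E σ s ∧ Q x = c} ≤
        (Nat.card F - 1) * Nat.card F ^ (a + 3 - 2) +
          Nat.card F * (2 * Nat.card F ^ (a + 3 - 3)) := by
    intro σ h s hs a ha
    rw [← cnt_restrict, ← ha]
    exact cnt_le_three h2 (nondeg_restrict_of_nd (nd_E hQ h2 h hs)) (by omega) c
  obtain ⟨a, ha⟩ : ∃ a, finrank F (E σ₁ 1) = a + 3 := ⟨_, (Nat.sub_add_cancel hp).symm⟩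
  obtain ⟨b, hb⟩ : ∃ b, finrank F (E σ₁ (-1)) = b + 3 := ⟨_, (Nat.sub_add_cancel hm).symm⟩
  have d1 := c3 σ₁ h₁ 1 (by simp) a ha
  have d2 := c3 σ₂ h₂ 1 (by simp) a (by omega)
  have d3 := c3 σ₁ h₁ (-1) (by simp) b hb
  have d4 := c3 σ₂ h₂ (-1) (by simp) b (by omega)
  have hN : Nat.card {x // Q x = c ∧ β x = 0} ≤ Set.ncard (({x | x ∈ E σ₁ 1 ∧ Q x = c} ∪
      {x | x ∈ E σ₂ 1 ∧ Q x = c}) ∪ ({x | x ∈ E σ₁ (-1) ∧ Q x = c} ∪
      {x | x ∈ E σ₂ (-1) ∧ Q x = c})) := by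
    change Set.ncard {x | Q x = c ∧ β x = 0} ≤ _
    refine Set.ncard_le_ncard (fun x hx => ?_)
    have := H x hx.1 (by
      have := hx.2
      rwa [hβ, hδ, polar_sub_right, sub_eq_zero] at this)
    simp only [Set.mem_union, Set.mem_ofPred_eq, hx.1, and_true]
    tauto
  have u1 := Set.ncard_union_le ({x | x ∈ E σ₁ 1 ∧ Q x = c} ∪ {x | x ∈ E σ₂ 1 ∧ Q x = c})
    ({x | x ∈ E σ₁ (-1) ∧ Q x = c} ∪ {x | x ∈ E σ₂ (-1) ∧ Q x = c})
  have u2 := Set.ncard_union_le {x | x ∈ E σ₁ 1 ∧ Q x = c} {x | x ∈ E σ₂ 1 ∧ Q x = c}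
  have u3 := Set.ncard_union_le {x | x ∈ E σ₁ (-1) ∧ Q x = c} {x | x ∈ E σ₂ (-1) ∧ Q x = c}
  have hq : 3 ≤ Nat.card F := by
    have := Fintype.ofFinite F
    have h3 := card_odd_of_two_ne_zero h2
    have h4 := one_lt_q (F := F)
    rw [← Nat.card_eq_fintype_card] at h3
    omega
  have hV : finrank F V = a + b + 6 := by omega
  rw [hV] at c1 c2 hl
  refine sv_arith (N := Nat.card {x // Q x = c ∧ β x = 0}) hq (a := a) (b := b) (by omega)
    (le_trans (Nat.add_le_add (Nat.mul_le_mul_left _ c1) c2) hl) (by omega)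

theorem conj_fix_one [FiniteDimensional F V] (hQ : Nondeg Q) (h2 : (2 : F) ≠ 0) {σ₁ σ₂ y : O Q}
    (h₂ : σ₂ * σ₂ = 1) (hy : y * σ₁ = σ₂ * y) {p p' m m' : V} (hp : p ∈ E σ₁ 1)
    (hp' : p' ∈ E σ₂ 1) (hm : m ∈ E σ₁ (-1)) (hm' : m' ∈ E σ₂ (-1)) (qp : Q p' = Q p)
    (qm : Q m' = Q m) (zp : p = 0 ↔ p' = 0) (zm : m = 0 ↔ m' = 0) :
    ∃ x : O Q, x * σ₁ = σ₂ * x ∧ x.1 p = p' ∧ x.1 m = m' := by
  have li : ∀ {P : Prop} {v : V}, (P → v ≠ 0) → LinearIndependent F fun _ : PLift P => v := by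
    intro P v h
    rw [linearIndependent_subsingleton_index_iff]
    exact fun i => h i.down
  obtain ⟨x, h1, h3, h4⟩ := conj_fix hQ h2 h₂ hy (s := 1) (by simp) (ι := PLift (p ≠ 0))
    (κ := PLift (m ≠ 0)) (u := fun _ => p) (u' := fun _ => p') (w := fun _ => m)
    (w' := fun _ => m') (fun _ => hp) (fun _ => hp') (li id) (li fun h h' => h (zp.mpr h'))
    (fun _ _ => by rw [B_self, B_self, qp]) (fun _ => hm) (fun _ => hm') (li id)
    (li fun h h' => h (zm.mpr h')) (fun _ _ => by rw [B_self, B_self, qm])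
  refine ⟨x, h1, ?_, ?_⟩
  · by_cases h : p = 0
    · rw [zp.mp h, h, map_zero]
    · exact h3 ⟨h⟩
  · by_cases h : m = 0
    · rw [zm.mp h, h, map_zero]
    · exact h4 ⟨h⟩

theorem nd_span_one (h2 : (2 : F) ≠ 0) {p : V} (hp : Q p ≠ 0) :
    ND (polarBilin Q) (Submodule.span F {p}) := by
  intro x hx h
  obtain ⟨a, rfl⟩ := Submodule.mem_span_singleton.mp hx
  have := h p (Submodule.mem_span_singleton_self p)
  rw [polarBilin_apply_apply, B_smul_left, B_self] at this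
  rw [(mul_eq_zero.mp this).resolve_right (mul_ne_zero h2 hp), zero_smul]

theorem univ_orth [Finite F] [FiniteDimensional F V] (h2 : (2 : F) ≠ 0) {T : Submodule F V}
    (hT : ND (polarBilin Q) T) (h : 3 ≤ finrank F T) {p : V} (hpT : p ∈ T) (hp : Q p ≠ 0) (c : F) :
    ∃ a ∈ T, Q a = c ∧ polar Q p a = 0 := by
  have hle : Submodule.span F {p} ≤ T := by rwa [Submodule.span_singleton_le_iff_mem]
  have h1 := (nd_span_one h2 hp).finrank_pp (polarBilin_refl Q) hle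
  rw [finrank_span_singleton (ne_zero_of_Q_ne hp)] at h1
  obtain ⟨a, ha, ha'⟩ := univ ((nd_span_one h2 hp).pp (polarBilin_refl Q) hle hT) (by omega) c
  exact ⟨a, ha.1, ha', ha.2 p (Submodule.mem_span_singleton_self p)⟩

theorem exists_Om_fix_vec [Fintype F] [DecidableEq F] [FiniteDimensional F V] (hQ : Nondeg Q)
    (hG : Good Q) (h2 : (2 : F) ≠ 0) (hn : 7 ≤ finrank F V) {σ₁ σ₂ : O Q} (h₁ : σ₁ * σ₁ = 1)
    (h₂ : σ₂ * σ₂ = 1) (hd : finrank F (E σ₁ (-1)) = finrank F (E σ₂ (-1)))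
    (hsp : spin hQ hG σ₁ = spin hQ hG σ₂) (hp : 3 ≤ finrank F (E σ₁ 1))
    (hm : 3 ≤ finrank F (E σ₁ (-1))) {c : F} (hc : c ≠ 0) :
    ∃ v, Q v = c ∧ ∃ x ∈ Om Q, x * σ₁ = σ₂ * x ∧ x.1 v = v := by
  obtain ⟨v, hv, hβ, e1, e2⟩ := sv_exists hQ h2 hn h₁ h₂ hd hp hm hc
  obtain ⟨y, hy⟩ := exists_conj hQ hG h2 h₁ h₂ hd hsp
  obtain ⟨p, hp1, m, hm1, hv1⟩ := E_decomp h2 h₁ (s := 1) (by simp) v
  obtain ⟨p', hp2, m', hm2, hv2⟩ := E_decomp h2 h₂ (s := 1) (by simp) v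
  have key : ∀ {σ : O Q} (_ : σ * σ = 1) {p m : V}, p ∈ E σ 1 → m ∈ E σ (-1) → v = p + m →
      Q p + Q m = c ∧ polar Q v (σ.1 v) = 2 * (Q p - Q m) ∧ (v ∈ E σ 1 ↔ m = 0) ∧
        (v ∈ E σ (-1) ↔ p = 0) := by
    intro σ h p m hp hm hv'
    have ho := E_orth h2 h (s := 1) (by simp) hp hm
    refine ⟨by rw [← hv, hv', Q_add, ho, add_zero], ?_, ⟨fun h' => ?_, fun h' => ?_⟩,
      ⟨fun h' => ?_, fun h' => ?_⟩⟩
    · rw [hv', map_add, mem_E.mp hp, mem_E.mp hm]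
      simp only [one_smul, neg_smul, polar_add_left, polar_add_right, polar_neg_right, ho,
        polar_comm Q m p, B_self]
      ring
    · refine Submodule.disjoint_def.mp (disjoint_eig h2 _ _ (s := 1) (by simp)) m ?_ hm
      rw [show m = v - p by rw [hv']; abel]; exact Submodule.sub_mem _ h' hp
    · rw [hv', h', add_zero]; exact hp
    · refine Submodule.disjoint_def.mp (disjoint_eig h2 _ _ (s := 1) (by simp)) p hp ?_
      rw [show p = v - m by rw [hv']; abel]; exact Submodule.sub_mem _ h' hm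
    · rw [hv', h', zero_add]; exact hm
  obtain ⟨k1, k2, k3, k4⟩ := key h₁ hp1 hm1 hv1
  obtain ⟨l1, l2, l3, l4⟩ := key h₂ hp2 hm2 hv2
  have h4 : (2 * 2 : F) ≠ 0 := mul_ne_zero h2 h2
  obtain ⟨x, hx, hxp, hxm⟩ := conj_fix_one hQ h2 h₂ hy hp1 hp2 hm1 hm2
    (mul_left_cancel₀ h4 (by linear_combination 2 * l1 - 2 * k1 - l2 + k2 - hβ))
    (mul_left_cancel₀ h4 (by linear_combination 2 * l1 - 2 * k1 + l2 - k2 + hβ))
    (by rw [← k4, ← l4, e2]) (by rw [← k3, ← l3, e1])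
  obtain ⟨x', hx', h5, h6⟩ := exists_Om_fix hQ hG hx (w := fun _ : Unit => v)
    (fun _ => by conv_lhs => rw [hv1, map_add, hxp, hxm, ← hv2]) (fun c' _ => by
      by_cases hp0 : Q p = 0
      · obtain ⟨a, ha, ha1, ha2⟩ := univ_orth h2 (nd_E hQ h2 h₁ (s := -1) (by simp)) hm hm1
          (by rw [hp0, zero_add] at k1; rwa [k1]) c'
        exact ⟨a, ha1, Or.inr (by simpa [mem_E] using ha), fun _ => by
          rw [hv1, polar_add_left, ha2, E_orth h2 h₁ (s := 1) (by simp) hp1 ha, add_zero]⟩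
      · obtain ⟨a, ha, ha1, ha2⟩ := univ_orth h2 (nd_E hQ h2 h₁ (s := 1) (by simp)) hp hp1 hp0 c'
        exact ⟨a, ha1, Or.inl (by simpa [mem_E] using ha), fun _ => by
          rw [hv1, polar_add_left, ha2, polar_comm, E_orth h2 h₁ (s := 1) (by simp) ha hm1,
            add_zero]⟩)
  exact ⟨v, hv, x', hx', h5, h6 ()⟩

theorem spin_eq_of_mem [Fintype F] [DecidableEq F] [FiniteDimensional F V] (hQ : Nondeg Q)
    (hG : Good Q) {σ₁ σ₂ : O Q} (hg : σ₁ * σ₂ ∈ Om Q) : spin hQ hG σ₁ = spin hQ hG σ₂ := by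
  have := ((mem_Om_iff hQ hG _).mp hg).2
  rw [map_mul] at this
  rcases Int.units_eq_one_or (spin hQ hG σ₁) with h | h <;>
    rcases Int.units_eq_one_or (spin hQ hG σ₂) with h' | h' <;> simp_all

/-- The case of involutions of determinant `-1`. -/
theorem comm_of_odd [Finite F] [FiniteDimensional F V] (hQ : Nondeg Q)
    (h2 : (2 : F) ≠ 0) (hn : 7 ≤ finrank F V) {σ₁ σ₂ : O Q} (h₁ : σ₁ * σ₁ = 1)
    (h₂ : σ₂ * σ₂ = 1) (hg : σ₁ * σ₂ ∈ Om Q)
    (hd : finrank F (E σ₁ (-1)) = finrank F (E σ₂ (-1))) (hp : 3 ≤ finrank F (E σ₁ 1))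
    (hm : 3 ≤ finrank F (E σ₁ (-1))) (ho : Odd (finrank F (E σ₁ (-1)))) : IsComm Q (σ₁ * σ₂) := by
  classical
  have := Fintype.ofFinite F
  have hG := good_of_two_ne_zero hQ h2
  obtain ⟨w, hw, hw'⟩ := exists_refl_spin hQ hG h2 (by omega) (spin hQ hG σ₁)
  obtain ⟨v, hv, x, hx, h3, h4⟩ := exists_Om_fix_vec hQ hG h2 hn h₁ h₂ hd
    (spin_eq_of_mem hQ hG hg) hp hm hw
  have hv0 : Q v ≠ 0 := by rw [hv]; exact hw
  refine isComm_of (z := refl Q v) h₁ hx h3 ?_ ?_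
  · have := refl_conj x v
    rw [h4, mul_inv_eq_iff_eq_mul] at this
    exact this.symm
  · have e : spin hQ hG (refl Q v) = spin hQ hG σ₁ := by
      rw [← hw']
      exact Units.ext (by rw [coe_spin_refl hQ hG hv0, coe_spin_refl hQ hG hw, hv])
    rw [mem_Om_iff hQ hG, map_mul, map_mul, dk_invol hQ hG h2 h₁, dk_refl hQ hG hv0,
      ho.neg_one_pow, e]
    simp

/-- The case of involutions in `Ω`. -/
theorem comm_of_mem [Finite F] [FiniteDimensional F V] (hQ : Nondeg Q)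
    (h2 : (2 : F) ≠ 0) {σ₁ σ₂ : O Q} (h₁ : σ₁ * σ₁ = 1)
    (h₂ : σ₂ * σ₂ = 1) (hg : σ₁ * σ₂ ∈ Om Q)
    (hd : finrank F (E σ₁ (-1)) = finrank F (E σ₂ (-1))) (hm : 2 ≤ finrank F (E σ₁ (-1)))
    (ho : σ₁ ∈ Om Q) : IsComm Q (σ₁ * σ₂) := by
  classical
  have := Fintype.ofFinite F
  have hG := good_of_two_ne_zero hQ h2
  obtain ⟨y, hy⟩ := exists_conj hQ hG h2 h₁ h₂ hd (spin_eq_of_mem hQ hG hg)
  obtain ⟨x, hx, h3, -⟩ := exists_Om_fix hQ hG hy (w := fun _ : Unit => 0) (fun _ => map_zero _)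
    (fun c _ => by
      obtain ⟨a, ha, ha'⟩ := univ (nd_E hQ h2 h₁ (s := -1) (by simp)) hm c
      exact ⟨a, ha', Or.inr (by simpa [mem_E] using ha), fun _ => by simp⟩)
  exact isComm_of (z := 1) h₁ hx h3 (by simp) (by simpa using ho)

end H37.Ore
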