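import Mathlib
import Cfsg.Agent.Base
import Cfsg.Agent.Lib.Ore.SV
import Cfsg.Agent.Lib.Orth12.Simple
import Cfsg.Agent.Lib.Orth12.Forms

/-! The module attached to an isometry; odd-dimensional orthogonal groups. -/

set_option autoImplicit false

namespace H37.Ore

open Module QuadraticMap H12 Polynomial

universe u

theorem exists_ctx {F : Type u} {V : Type*} [Field F] [AddCommGroup V] [Module F V] [Finite F]
    [FiniteDimensional F V] (B : LinearMap.BilinForm F V) {ε : F} (hε : ε * ε = 1)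
    (hs : ∀ x y, B x y = ε * B y x) (g : V ≃ₗ[F] V) (hg : ∀ x y, B (g x) (g y) = B x y) :
    ∃ (R : Type u) (_ : CommRing R) (_ : Algebra F R) (_ : Module R V) (_ : IsScalarTower F R V)
      (_ : Finite R) (C : Ctx F V R), C.B = B ∧ C.ε = ε ∧ ∀ x, C.t • x = g x := by
  have : Finite V := Module.finite_of_finite F
  have : Finite (V ≃ₗ[F] V) :=
    Finite.of_injective (fun h : V ≃ₗ[F] V => (h : V → V)) DFunLike.coe_injective
  obtain ⟨M, hM0, hM⟩ := (isOfFinOrder_of_finite g).exists_pow_eq_one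
  obtain ⟨m, rfl⟩ : ∃ m, M = m + 1 := ⟨M - 1, by omega⟩
  let f : F[X] := X ^ (m + 1) - 1
  have hf : f.Monic := by simpa [f] using monic_X_pow_sub_C (1 : F) (n := m + 1) (by omega)
  let R := AdjoinRoot f
  have : Module.Finite F R := hf.finite_adjoinRoot
  have hfin : Finite R := Module.finite_of_finite F
  let G : Module.End F V := g.toLinearMap
  have hG : G ^ (m + 1) = 1 := by
    ext x
    have := congrArg (fun h : V ≃ₗ[F] V => h x) hM
    simpa [G, Module.End.pow_apply, LinearEquiv.pow_apply] using this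
  let ρ : R →ₐ[F] Module.End F V := Ideal.Quotient.liftₐ (Ideal.span {f}) (aeval G) (by
    intro a ha
    obtain ⟨b, rfl⟩ := Ideal.mem_span_singleton'.mp ha
    simp [f, hG])
  have hρ : ∀ p, ρ (AdjoinRoot.mk f p) = aeval G p := fun p => rfl
  have ht : AdjoinRoot.root f ^ (m + 1) = 1 := by
    have := AdjoinRoot.mk_self (f := f)
    rw [← AdjoinRoot.aeval_eq] at this
    simpa [f, sub_eq_zero] using this
  let bar : R →ₐ[F] R := AdjoinRoot.liftAlgHom f (Algebra.ofId F R) (AdjoinRoot.root f ^ m) (by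
    simp only [f, eval₂_sub, eval₂_X_pow, eval₂_one]
    rw [← pow_mul, mul_comm, pow_mul, ht, one_pow, sub_self])
  have hbar : bar (AdjoinRoot.root f) = AdjoinRoot.root f ^ m := AdjoinRoot.liftAlgHom_root _ _ _ _
  letI : Module R V := Module.compHom V ρ.toRingHom
  have hsm : ∀ (r : R) (x : V), r • x = ρ r x := fun _ _ => rfl
  have tower : IsScalarTower F R V := ⟨fun c r x => by rw [hsm, hsm, map_smul]; rfl⟩
  have hρt : ∀ x, (AdjoinRoot.root f : R) • x = g x := fun x => by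
    rw [hsm, AdjoinRoot.root, hρ, aeval_X]; rfl
  have htt : (AdjoinRoot.root f : R) * AdjoinRoot.root f ^ m = 1 := by rw [← pow_succ', ht]
  refine ⟨R, inferInstance, inferInstance, inferInstance, tower, hfin,
    { bar := bar, t := AdjoinRoot.root f, t' := AdjoinRoot.root f ^ m, htt := htt, bar_t := hbar
      bar_t' := ?_, gen := ?_, B := B, ε := ε, hε := hε, adj := ?_, sym := hs }, rfl, rfl, hρt⟩
  · rw [map_pow, hbar]
    rcases m with _ | m
    · simpa using ht.symm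
    · have : (AdjoinRoot.root f ^ (m + 1)) ^ (m + 1) =
          (AdjoinRoot.root f ^ (m + 1 + 1)) ^ m * AdjoinRoot.root f := by ring
      rw [this, ht, one_pow, one_mul]
  · intro r
    induction r using AdjoinRoot.induction_on with
    | ih p => exact ⟨p, (AdjoinRoot.aeval_eq p).symm⟩
  · intro r
    induction r using AdjoinRoot.induction_on with
    | ih p =>
    rw [← AdjoinRoot.aeval_eq]
    induction p using Polynomial.induction_on with
    | C a =>
      intro x y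
      rw [aeval_C, AlgHom.commutes, algebraMap_smul, algebraMap_smul, map_smul, map_smul]; rfl
    | add p q hp hq => intro x y; simp only [map_add, add_smul, LinearMap.add_apply, hp, hq]
    | monomial n a ih =>
      intro x y
      rw [pow_succ, ← mul_assoc, map_mul, aeval_X, mul_smul, ih, map_mul bar, hbar, mul_comm (bar _),
        mul_smul, hρt, ← hg x, ← hρt (_ • _), ← mul_smul, htt, one_smul]

variable {F V : Type*} [Field F] [AddCommGroup V] [Module F V] {Q : QuadraticForm F V}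

theorem Q_of_iso (h2 : (2 : F) ≠ 0) {σ : V →ₗ[F] V}
    (h : ∀ x y, polar Q (σ x) (σ y) = polar Q y x) (x : V) : Q (σ x) = Q x := by
  have := h x x
  rw [B_self, B_self] at this
  exact mul_left_cancel₀ h2 this

section

variable {R : Type*} [CommRing R] [Algebra F R] [Module R V] [IsScalarTower F R V]

/-- The two involutions attached to a global inverting involution. -/
theorem Ctx.Inv.exists_O {C : Ctx F V R} {g : O Q} (ht : ∀ x, C.t • x = g.1 x)
    {σ : V →ₗ[F] V} (h : C.Inv ⊤ σ) (hq : ∀ x, Q (σ x) = Q x) :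
    ∃ σ₁ σ₂ : O Q, σ₁ * σ₁ = 1 ∧ σ₂ * σ₂ = 1 ∧ g = σ₁ * σ₂ ∧ (σ₁.1 : V →ₗ[F] V) = σ ∧
      (σ₂.1 : V →ₗ[F] V) = σ ∘ₗ Lm F V C.t := by
  have h' := h.shift iv_top
  refine ⟨mkO Q σ σ hq (fun x => h.sq x trivial) (fun x => h.sq x trivial),
    mkO Q (σ ∘ₗ Lm F V C.t) (σ ∘ₗ Lm F V C.t) (fun x => by
      rw [LinearMap.comp_apply, hq, Lm_apply, ht, O.map_Q]) (fun x => h'.sq x trivial)
      (fun x => h'.sq x trivial), O.ext fun x => h.sq x trivial, O.ext fun x => h'.sq x trivial,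
    O.ext fun x => ?_, rfl, rfl⟩
  rw [← ht]
  exact (h.sq _ trivial).symm

end

theorem E_negO (σ : O Q) (s : F) : E (negO Q * σ) s = E σ (-s) := by
  ext x
  simp only [mem_E, O.mul_apply, negO_apply, neg_smul, neg_eq_iff_eq_neg]

theorem negO_mul_mul (σ τ : O Q) : negO Q * σ * (negO Q * τ) = σ * τ := by
  rw [mul_assoc, ← mul_assoc σ, ← negO_comm, ← mul_assoc, ← mul_assoc, negO_mul_self, one_mul]

theorem parity_of_mem [Finite F] [FiniteDimensional F V] (hQ : Nondeg Q) (h2 : (2 : F) ≠ 0)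
    {σ₁ σ₂ : O Q} (h₁ : σ₁ * σ₁ = 1) (h₂ : σ₂ * σ₂ = 1) (hg : σ₁ * σ₂ ∈ Om Q) :
    Even (finrank F (E σ₁ (-1)) + finrank F (E σ₂ (-1))) := by
  classical
  have := Fintype.ofFinite F
  have hG := good_of_two_ne_zero hQ h2
  have := ((mem_Om_iff hQ hG _).mp hg).1
  rw [map_mul, dk_invol hQ hG h2 h₁, dk_invol hQ hG h2 h₂, ← pow_add] at this
  exact (neg_one_pow_eq_one_iff_even (by decide)).mp this

/-- Balanced factorisation of an element of `Ω` in odd characteristic. -/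
theorem exists_balanced [Finite F] [FiniteDimensional F V] (hQ : Nondeg Q) (h2 : (2 : F) ≠ 0)
    {g : O Q} (hg : g ∈ Om Q) : ∃ σ₁ σ₂ : O Q, σ₁ * σ₁ = 1 ∧ σ₂ * σ₂ = 1 ∧ g = σ₁ * σ₂ ∧
      finrank F (E σ₁ (-1)) = finrank F (E σ₂ (-1)) ∧
      (finrank F (E σ₁ 1) = finrank F (E σ₁ (-1)) ∨
        finrank F (E σ₁ 1) = finrank F (E σ₁ (-1)) + 1) := by
  obtain ⟨R, _, _, _, _, _, C, hB, hε, ht⟩ := exists_ctx (polarBilin Q) (ε := 1) (by simp)
    (fun x y => by simp [polar_comm]) g.1 (O.map_B g)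
  obtain ⟨a, b, ha, hb, σ, hσ, t1, t2⟩ := Ctx.bal (C := C) hε h2 (sa := 1) (sb := 1) (Or.inl rfl)
    (Or.inl rfl) iv_top (hB ▸ nd_top hQ)
  obtain ⟨σ₁, σ₂, h₁, h₂, rfl, e1, e2⟩ := hσ.exists_O ht (Q_of_iso h2 fun x y => by
    have := hσ.iso x trivial y trivial
    rwa [hB] at this)
  rw [← e2] at t2
  rw [← e1] at t1
  have a1 := finrank_E_add h2 h₁ (s := 1) (by simp)
  have a2 := finrank_E_add h2 h₂ (s := 1) (by simp)
  obtain ⟨k, hk⟩ := parity_of_mem hQ h2 h₁ h₂ hg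
  simp only [tau] at t1 t2
  refine ⟨σ₁, σ₂, h₁, h₂, rfl, ?_, ?_⟩ <;> simp only [E] at * <;> omega

theorem isComm_odd_dim [Finite F] [FiniteDimensional F V] (hQ : Nondeg Q) (h2 : (2 : F) ≠ 0)
    (hn : 7 ≤ finrank F V) (ho : Odd (finrank F V)) {g : O Q} (hg : g ∈ Om Q) : IsComm Q g := by
  obtain ⟨σ₁, σ₂, h₁, h₂, rfl, hd, hb⟩ := exists_balanced hQ h2 hg
  have a1 := finrank_E_add h2 h₁ (s := 1) (by simp)
  have a2 := finrank_E_add h2 h₂ (s := 1) (by simp)
  obtain ⟨m, hm⟩ := ho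
  rcases Nat.even_or_odd' (finrank F (E σ₁ (-1))) with ⟨k, hk | hk⟩
  · rw [← negO_mul_mul] at hg ⊢
    refine comm_of_odd hQ h2 hn (by rw [negO_mul_mul, h₁]) (by rw [negO_mul_mul, h₂]) hg ?_ ?_ ?_ ?_
    · rw [E_negO, E_negO, neg_neg]; omega
    · rw [E_negO]; omega
    · rw [E_negO, neg_neg]; omega
    · rw [E_negO, neg_neg]; exact ⟨k, by omega⟩
  · exact comm_of_odd hQ h2 hn h₁ h₂ hg hd (by omega) (by omega) ⟨k, hk⟩

theorem omega_comm {F : Type*} [Field F] {ι : Type} [Fintype ι] [DecidableEq ι]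
    (Q : QuadraticForm F (ι → F)) {q : (ι → F) → F} (h : ∀ v, Q v = q v)
    (H : ∀ g ∈ Om Q, IsComm Q g) (g : Cfsg.Omega F q) :
    ∃ a b : Cfsg.Omega F q, g = a * b * a⁻¹ * b⁻¹ := by
  obtain ⟨a, ha, b, hb, hab⟩ := H _ ((H66.mem_Omega_iff Q h g.1).mp g.2)
  refine ⟨⟨(isoEquiv Q h).symm a, (H66.mem_Omega_iff Q h _).mpr (by simpa using ha)⟩,
    ⟨(isoEquiv Q h).symm b, (H66.mem_Omega_iff Q h _).mpr (by simpa using hb)⟩,
    Subtype.ext ((isoEquiv Q h).injective ?_)⟩
  simp [hab]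

end H37.Ore
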