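import Mathlib
import Cfsg.Agent.Base
import Cfsg.Agent.Lib.Ore.Inst
import Cfsg.Agent.Lib.StarAlg.Norm
import Cfsg.Agent.Lib.Inv2.Orth

/-! Inverting involutions in characteristic two: the blocks. -/

set_option autoImplicit false

namespace H37.Ore

open Module Polynomial QuadraticMap

section Lin

variable {F V : Type*} [Field F] [AddCommGroup V] [Module F V]

/-- Dimension of the fixed space. -/
noncomputable def fx (W : Submodule F V) (σ : V →ₗ[F] V) : ℕ := finrank F (eig W σ 1)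

theorem mem_eig_one {W : Submodule F V} {σ : V →ₗ[F] V} {x : V} :
    x ∈ eig W σ 1 ↔ x ∈ W ∧ σ x = x := by rw [mem_eig, one_smul]

theorem add_self_two [CharP F 2] (x : V) : x + x = 0 := by
  rw [← two_smul F, CharTwo.two_eq_zero, zero_smul]

theorem map_le_eig [CharP F 2] {W : Submodule F V} {σ : V →ₗ[F] V} (hm : ∀ x ∈ W, σ x ∈ W)
    (hsq : ∀ x ∈ W, σ (σ x) = x) : W.map (σ - (1 : F) • LinearMap.id) ≤ eig W σ 1 := by
  rintro _ ⟨x, hx, rfl⟩
  rw [mem_eig_one]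
  simp only [one_smul, LinearMap.sub_apply, LinearMap.id_apply, map_sub, hsq x hx]
  refine ⟨W.sub_mem (hm x hx) hx, ?_⟩
  rw [sub_eq_sub_iff_add_eq_add, add_self_two (F := F), add_self_two (F := F)]

theorem le_two_fx [CharP F 2] [FiniteDimensional F V] {W : Submodule F V} {σ : V →ₗ[F] V}
    (hm : ∀ x ∈ W, σ x ∈ W) (hsq : ∀ x ∈ W, σ (σ x) = x) : finrank F W ≤ 2 * fx W σ := by
  have h1 := dm_add_finrank_map W (σ - (1 : F) • LinearMap.id)
  have h2 := Submodule.finrank_mono (map_le_eig hm hsq)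
  change fx W σ + _ = _ at h1
  change _ ≤ fx W σ at h2
  omega

theorem lt_two_fx [CharP F 2] [FiniteDimensional F V] {W : Submodule F V} {σ : V →ₗ[F] V}
    (hm : ∀ x ∈ W, σ x ∈ W) (hsq : ∀ x ∈ W, σ (σ x) = x) {v : V} (hv : v ∈ W) (hσ : σ v = v)
    (h : ∀ x ∈ W, σ x - x ≠ v) : finrank F W < 2 * fx W σ := by
  have h1 := dm_add_finrank_map W (σ - (1 : F) • LinearMap.id)
  have h2 := Submodule.finrank_lt_finrank_of_lt (lt_of_le_of_ne (map_le_eig hm hsq) fun e => by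
    have : v ∈ eig W σ 1 := mem_eig_one.mpr ⟨hv, hσ⟩
    rw [← e] at this
    obtain ⟨x, hx, hx'⟩ := this
    exact h x hx (by simpa using hx'))
  change fx W σ + _ = _ at h1
  change _ < fx W σ at h2
  omega

theorem finrank_add_le_sub [FiniteDimensional F V] {W X Y : Submodule F V} (hX : X ≤ W)
    (hY : Y ≤ W) : finrank F X + finrank F Y ≤ finrank F W + finrank F ↥(X ⊓ Y) := by
  rw [← Submodule.finrank_sup_add_finrank_inf_eq]
  exact Nat.add_le_add_right (Submodule.finrank_mono (sup_le hX hY)) _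

theorem two_fx_le [FiniteDimensional F V] {X Y : Submodule F V} {σ : V →ₗ[F] V}
    (hX : ∀ x ∈ X, σ x = x → x = 0) (hY : ∀ x ∈ Y, σ x = x → x = 0) :
    2 * fx (X ⊔ Y) σ ≤ finrank F ↥(X ⊔ Y) := by
  have key : ∀ Z ≤ X ⊔ Y, (∀ x ∈ Z, σ x = x → x = 0) →
      fx (X ⊔ Y) σ + finrank F Z ≤ finrank F ↥(X ⊔ Y) := by
    intro Z hZ h
    have h1 := finrank_add_le_sub (eig_le (X ⊔ Y) σ 1) hZ
    have h2 : eig (X ⊔ Y) σ 1 ⊓ Z = ⊥ := by
      rw [eq_bot_iff]; rintro x ⟨hx, hx'⟩; exact h x hx' (mem_eig_one.mp hx).2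
    rwa [h2, finrank_bot, add_zero] at h1
  have h1 := key X le_sup_left hX
  have h2 := key Y le_sup_right hY
  have h3 := Submodule.finrank_add_le_finrank_add_finrank X Y
  omega

theorem even_of_nd [FiniteDimensional F V] {B : LinearMap.BilinForm F V} {W : Submodule F V}
    (hW : ND B W) (hA : ∀ x, B x x = 0) : Even (finrank F W) := by
  have hA' : (B.restrict W).IsAlt := fun x => hA x
  exact H66.even_finrank_of_alt (B.restrict W) ((LinearMap.IsAlt.isRefl
    hA').nondegenerate_iff_separatingLeft.mpr fun x hx =>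
      Subtype.ext (hW x x.2 fun y hy => hx ⟨y, hy⟩)) hA'

end Lin

variable {F V R : Type*} [Field F] [AddCommGroup V] [Module F V] [CommRing R] [Algebra F R]
  [Module R V] [IsScalarTower F R V]

namespace Ctx

variable {C : Ctx F V R} {Q : QuadraticForm F V}

variable (C) in
theorem norm_mod [Finite R] {h : F[X]} (hc : IsCoprime h (X ^ 2 - 4)) (k : ℕ) {a : F[X]}
    (ha : IsCoprime h a) : ∃ c : R, aeval C.η h ^ k ∣ c * C.bar c - aeval C.η a := by
  let I : Ideal R := Ideal.span {aeval C.η h ^ k}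
  have hI : I ≤ I.comap (C.bar : R →+* R) := by
    rw [Ideal.span_le, Set.singleton_subset_iff]
    change C.bar _ ∈ I
    rw [map_pow, C.bar_aeval]
    exact Ideal.mem_span_singleton_self _
  let τ : R ⧸ I →+* R ⧸ I := Ideal.quotientMap I (C.bar : R →+* R) hI
  have hτ : ∀ x : R, τ (Ideal.Quotient.mk I x) = Ideal.Quotient.mk I (C.bar x) := fun x => rfl
  have hu : ∀ a : F[X], IsCoprime h a → IsUnit (Ideal.Quotient.mk I (aeval C.η a)) := by
    intro a ha
    obtain ⟨c1, c2, hc'⟩ := ha.pow_left (m := k)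
    refine IsUnit.of_mul_eq_one (Ideal.Quotient.mk I (aeval C.η c2)) ?_
    rw [← map_mul, ← (Ideal.Quotient.mk I).map_one, Ideal.Quotient.eq, Ideal.mem_span_singleton]
    refine ⟨-aeval C.η c1, ?_⟩
    have := congrArg (aeval C.η) hc'
    simp only [map_add, map_mul, map_pow, map_one] at this
    linear_combination this
  have : Finite (R ⧸ I) := Finite.of_surjective _ Ideal.Quotient.mk_surjective
  obtain ⟨c, hc'⟩ := H66.exists_norm_eq_of_comm τ (fun x => by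
      obtain ⟨x, rfl⟩ := Ideal.Quotient.mk_surjective x
      rw [hτ, hτ, C.bar_bar]) (Ideal.Quotient.mk I C.t) (by
      rw [hτ, C.bar_t, ← map_sub]
      have := hu _ hc
      rw [← C.j_sq, map_mul] at this
      exact isUnit_of_mul_isUnit_left this) (Ideal.Quotient.mk I (aeval C.η a))
    (by rw [hτ, C.bar_aeval]) (hu a ha)
  obtain ⟨c, rfl⟩ := Ideal.Quotient.mk_surjective c
  rw [hτ, ← map_mul, Ideal.Quotient.eq, Ideal.mem_span_singleton] at hc'
  exact ⟨c, hc'⟩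

variable (C) in
theorem finrank_cyc_le_N [FiniteDimensional F V] {e : F} {k : ℕ} {v : V}
    (hv : C.N e ^ k • v = 0) : finrank F (cyc F R v) ≤ k := by
  induction k generalizing v with
  | zero =>
    rw [pow_zero, one_smul] at hv
    rw [hv, cyc_zero, finrank_bot]
  | succ k ih =>
    have h1 := ih (v := C.N e • v) (by rw [← mul_smul, ← pow_succ, hv])
    have h2 : cyc F R v ≤ Submodule.span F {v} ⊔ cyc F R (C.N e • v) := by
      rintro _ ⟨r, rfl⟩
      obtain ⟨c, r', rfl⟩ := C.layer0 e r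
      rw [add_smul, algebraMap_smul, mul_comm, mul_smul]
      exact Submodule.add_mem_sup (Submodule.smul_mem _ _ (Submodule.mem_span_singleton_self v))
        ⟨r', rfl⟩
    have h3 := Submodule.finrank_mono h2
    have h4 := Submodule.finrank_add_le_finrank_add_finrank (Submodule.span F {v})
      (cyc F R (C.N e • v))
    have h5 : finrank F (Submodule.span F {v}) ≤ 1 := by
      simpa using finrank_span_le_card (R := F) ({v} : Set V)
    omega

variable (C) in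
theorem finrank_cyc_le_η [FiniteDimensional F V] {e : F} {k : ℕ} {v : V}
    (hv : (C.η - algebraMap F R e) ^ k • v = 0) : finrank F (cyc F R v) ≤ 2 * k := by
  induction k generalizing v with
  | zero =>
    rw [pow_zero, one_smul] at hv
    rw [hv, cyc_zero, finrank_bot]
  | succ k ih =>
    have h1 := ih (v := (C.η - algebraMap F R e) • v) (by rw [← mul_smul, ← pow_succ, hv])
    have h2 : cyc F R v ≤ Submodule.span F {v, C.t • v} ⊔
        cyc F R ((C.η - algebraMap F R e) • v) := by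
      rintro _ ⟨r, rfl⟩
      obtain ⟨a, b, rfl⟩ := C.decomp_η r
      obtain ⟨a', ha⟩ := X_sub_C_dvd_sub_C_eval (p := a) (a := e)
      obtain ⟨b', hb⟩ := X_sub_C_dvd_sub_C_eval (p := b) (a := e)
      have ha' := congrArg (aeval C.η) ha
      have hb' := congrArg (aeval C.η) hb
      simp only [map_sub, map_mul, aeval_X, aeval_C] at ha' hb'
      have : aeval C.η a + aeval C.η b * C.t = (algebraMap F R (a.eval e) +
          algebraMap F R (b.eval e) * C.t) +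
          (aeval C.η a' + aeval C.η b' * C.t) * (C.η - algebraMap F R e) := by
        linear_combination ha' + C.t * hb'
      rw [this, add_smul, add_smul, mul_smul, mul_smul, algebraMap_smul, algebraMap_smul]
      exact Submodule.add_mem_sup (Submodule.add_mem _
        (Submodule.smul_mem _ _ (Submodule.subset_span (by simp)))
        (Submodule.smul_mem _ _ (Submodule.subset_span (by simp)))) ⟨_, rfl⟩
    have h3 := Submodule.finrank_mono h2
    have h4 := Submodule.finrank_add_le_finrank_add_finrank (Submodule.span F {v, C.t • v})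
      (cyc F R ((C.η - algebraMap F R e) • v))
    have h5 : finrank F (Submodule.span F {v, C.t • v}) ≤ 2 := by
      classical
      have := finrank_span_finset_le_card (R := F) ({v, C.t • v} : Finset V)
      rw [Set.finrank, Finset.coe_pair] at this
      exact this.trans Finset.card_le_two
    omega

/-- Compatibility with a quadratic form. -/
structure QC (C : Ctx F V R) (Q : QuadraticForm F V) : Prop where
  hB : ∀ x y, C.B x y = polar Q x y
  ht : ∀ x, Q (C.t • x) = Q x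
  hε : C.ε = 1

theorem QC.ht' (h : C.QC Q) (x : V) : Q (C.t' • x) = Q x := by
  rw [← h.ht, ← mul_smul, C.htt, one_smul]

theorem QC.add (h : C.QC Q) (x y : V) : Q (x + y) = Q x + Q y + C.B x y := by
  rw [H12.Q_add, h.hB]

theorem QC.inv_add (h : C.QC Q) {W : Submodule F V} {σ : V →ₗ[F] V} (hσ : C.Inv W σ) {x y : V}
    (hx : x ∈ W) (hy : y ∈ W) (h1 : Q (σ x) = Q x) (h2 : Q (σ y) = Q y) :
    Q (σ (x + y)) = Q (x + y) := by
  rw [map_add, h.add, h.add, h1, h2, hσ.iso x hx y hy, symm h.hε]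

theorem QC.inv_smul (h : C.QC Q) {W : Submodule F V} (hW : Iv R W) {σ : V →ₗ[F] V}
    (hσ : C.Inv W σ) {x : V} (hx : x ∈ W) (h1 : Q (σ x) = Q x) (r : R) :
    Q (σ (r • x)) = Q (r • x) := by
  obtain ⟨p, rfl⟩ := C.gen r
  induction p using Polynomial.induction_on with
  | C a => rw [aeval_C, algebraMap_smul, map_smul, H12.Q_smul, H12.Q_smul, h1]
  | add p q hp hq => rw [map_add, add_smul]; exact h.inv_add hσ (hW _ x hx) (hW _ x hx) hp hq
  | monomial n a ih =>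
    rw [pow_succ, ← mul_assoc, map_mul, aeval_X, mul_comm, mul_smul, hσ.semi _ _ (hW _ x hx),
      C.bar_t, h.ht, h.ht', ih]

/-- Non-alternating type. -/
def NA (C : Ctx F V R) (W : Submodule F V) (σ : V →ₗ[F] V) : Prop := ∃ x ∈ W, C.B x (σ x) ≠ 0

/-- A configuration: rank defect and types of the two involutions. -/
def Cfg (C : Ctx F V R) (Q : QuadraticForm F V) (X : Submodule F V) (Δ : ℤ) (a b : Prop) : Prop :=
  ∃ σ, C.Inv X σ ∧ (∀ x ∈ X, Q (σ x) = Q x) ∧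
    (fx X σ : ℤ) - fx X (σ ∘ₗ Lm F V C.t) = Δ ∧ (a → C.NA X σ) ∧ (b → C.NA X (σ ∘ₗ Lm F V C.t))

theorem Cfg.mono {X : Submodule F V} {Δ Δ' : ℤ} {a b a' b' : Prop} (h : C.Cfg Q X Δ a b)
    (hΔ : Δ = Δ') (ha : a' → a) (hb : b' → b) : C.Cfg Q X Δ' a' b' := by
  obtain ⟨σ, h1, h2, h3, h4, h5⟩ := h
  exact ⟨σ, h1, h2, hΔ ▸ h3, fun h => h4 (ha h), fun h => h5 (hb h)⟩

theorem Inv.fx_shift [FiniteDimensional F V] {X : Submodule F V} (hX : Iv R X) {σ : V →ₗ[F] V}
    (h : C.Inv X σ) : fx X ((σ ∘ₗ Lm F V C.t) ∘ₗ Lm F V C.t) = fx X σ := by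
  have inj : Function.Injective (Lm F V C.t) := fun x y hxy => by
    have := congrArg (C.t' • ·) hxy
    simpa only [Lm_apply, ← mul_smul, mul_comm C.t', C.htt, one_smul] using this
  have : (eig X ((σ ∘ₗ Lm F V C.t) ∘ₗ Lm F V C.t) 1).map (Lm F V C.t) = eig X σ 1 := by
    ext x
    constructor
    · rintro ⟨y, hy, rfl⟩
      obtain ⟨hy, hy'⟩ := mem_eig_one.mp hy
      refine mem_eig_one.mpr ⟨hX _ y hy, ?_⟩
      simp only [LinearMap.comp_apply, Lm_apply] at hy' ⊢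
      rw [h.semi _ _ (hX _ y hy), C.bar_t] at hy'
      conv_rhs => rw [← hy']
      rw [← mul_smul, C.htt, one_smul]
    · intro hx
      obtain ⟨hx, hx'⟩ := mem_eig_one.mp hx
      have e : C.t • C.t' • x = x := by rw [← mul_smul, C.htt, one_smul]
      refine ⟨C.t' • x, mem_eig_one.mpr ⟨hX _ x hx, ?_⟩, e⟩
      simp only [LinearMap.comp_apply, Lm_apply]
      rw [e, h.semi _ _ hx, C.bar_t, hx']
  rw [fx, fx, ← this, ← (Submodule.equivMapOfInjective _ inj _).finrank_eq]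

theorem Cfg.shift [FiniteDimensional F V] (hQ : C.QC Q) {X : Submodule F V} (hX : Iv R X) {Δ : ℤ}
    {a b : Prop} (h : C.Cfg Q X Δ a b) : C.Cfg Q X (-Δ) b a := by
  obtain ⟨σ, h1, h2, h3, h4, h5⟩ := h
  refine ⟨_, h1.shift hX, fun x hx => ?_, by rw [h1.fx_shift hX]; omega, h5, fun ha => ?_⟩
  · rw [LinearMap.comp_apply, Lm_apply, h2 _ (hX _ x hx), hQ.ht]
  · obtain ⟨x, hx, hx'⟩ := h4 ha
    refine ⟨C.t' • x, hX _ x hx, ?_⟩
    simp only [LinearMap.comp_apply, Lm_apply]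
    rwa [← mul_smul C.t C.t', C.htt, one_smul, h1.semi _ _ hx, C.bar_t, C.adj, C.bar_t',
      ← mul_smul, C.htt, one_smul]

theorem Cfg.sup [FiniteDimensional F V] (hQ : C.QC Q) {X Y : Submodule F V} {Δ Δ' : ℤ}
    {a b a' b' : Prop} (hX : C.Cfg Q X Δ a b) (hY : C.Cfg Q Y Δ' a' b') (iX : Iv R X) (iY : Iv R Y)
    (nX : ND C.B X) (h : ∀ x ∈ X, ∀ y ∈ Y, C.B x y = 0) :
    C.Cfg Q (X ⊔ Y) (Δ + Δ') (a ∨ a') (b ∨ b') := by
  obtain ⟨σ, h1, h2, h3, h4, h5⟩ := hX
  obtain ⟨τ, g1, g2, g3, g4, g5⟩ := hY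
  have hd := nX.disjoint C.isRefl h
  obtain ⟨k, hk, e1, e2⟩ := h1.glue g1 iX iY hd h
  have hX' := h1.congr iX e1
  have hY' := g1.congr iY e2
  refine ⟨k, hk, fun w hw => ?_, ?_, ?_, ?_⟩
  · obtain ⟨x, hx, y, hy, rfl⟩ := Submodule.mem_sup.mp hw
    exact hQ.inv_add hk (Submodule.mem_sup_left hx) (Submodule.mem_sup_right hy)
      (by rw [e1 x hx, h2 x hx]) (by rw [e2 y hy, g2 y hy])
  · simp only [fx] at h3 g3 ⊢
    rw [finrank_eig_sup hd hX'.mem hY'.mem, finrank_eig_sup hd (hX'.shift iX).mem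
      (hY'.shift iY).mem, eig_congr e1, eig_congr e2,
      eig_congr (σ := k ∘ₗ Lm F V C.t) (τ := σ ∘ₗ Lm F V C.t) fun x hx => e1 _ (iX _ x hx),
      eig_congr (σ := k ∘ₗ Lm F V C.t) (τ := τ ∘ₗ Lm F V C.t) fun x hx => e2 _ (iY _ x hx)]
    push_cast; omega
  · rintro (ha | ha)
    · obtain ⟨x, hx, hx'⟩ := h4 ha
      exact ⟨x, Submodule.mem_sup_left hx, by rwa [e1 x hx]⟩
    · obtain ⟨x, hx, hx'⟩ := g4 ha
      exact ⟨x, Submodule.mem_sup_right hx, by rwa [e2 x hx]⟩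
  · rintro (ha | ha)
    · obtain ⟨x, hx, hx'⟩ := h5 ha
      exact ⟨x, Submodule.mem_sup_left hx, by
        rwa [LinearMap.comp_apply, Lm_apply, e1 _ (iX _ x hx)]⟩
    · obtain ⟨x, hx, hx'⟩ := g5 ha
      exact ⟨x, Submodule.mem_sup_right hx, by
        rwa [LinearMap.comp_apply, Lm_apply, e2 _ (iY _ x hx)]⟩

theorem cfg_bot : C.Cfg Q ⊥ 0 False False := by
  have : ∀ σ : V →ₗ[F] V, fx (⊥ : Submodule F V) σ = 0 := fun σ => dm_bot _
  exact ⟨0, inv_bot _, fun x hx => by rw [Submodule.mem_bot] at hx; simp [hx], by simp [this],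
    False.elim, False.elim⟩

theorem fx_add_le [FiniteDimensional F V] {W : Submodule F V} (hW : Iv R W) {σ : V →ₗ[F] V}
    (h : C.Inv W σ) :
    fx W σ + fx W (σ ∘ₗ Lm F V C.t) ≤ finrank F W + dm W (Lm F V (C.N 1)) := by
  refine (finrank_add_le_sub (eig_le W σ 1) (eig_le W _ 1)).trans
    (Nat.add_le_add_left (Submodule.finrank_mono ?_) _)
  rintro x ⟨hx, hx'⟩
  obtain ⟨hx, h1⟩ := mem_eig_one.mp hx
  have h2 := (mem_eig_one.mp hx').2
  refine ⟨hx, ?_⟩
  change C.N 1 • x = 0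
  have h3 := congrArg σ h2
  rw [LinearMap.comp_apply, Lm_apply, h.sq _ (hW _ x hx), h1] at h3
  rw [N, map_one, sub_smul, one_smul, h3, sub_self]

variable (C) in
/-- First type condition for a pair of generators. -/
def N1 (u v : V) : Prop := ∃ r : R, C.B u (r ^ 2 • v) ≠ 0

variable (C) in
/-- Second type condition for a pair of generators. -/
def N2 (u v : V) : Prop := ∃ r : R, C.B u ((C.t * r ^ 2) • v) ≠ 0

theorem two_R [CharP F 2] : (2 : R) = 0 := by
  rw [← map_ofNat (algebraMap F R) 2, CharTwo.two_eq_zero, map_zero]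

variable (C) in
theorem sq_decomp [CharP F 2] [Finite F] (x : R) : ∃ a b : R, x = a ^ 2 + C.t * b ^ 2 := by
  obtain ⟨p, rfl⟩ := C.gen x
  induction p using Polynomial.induction_on' with
  | add p q hp hq =>
    obtain ⟨a, b, h⟩ := hp
    obtain ⟨a', b', h'⟩ := hq
    refine ⟨a + a', b + b', ?_⟩
    rw [map_add, h, h']
    linear_combination (-(a * a') - C.t * b * b') * two_R (F := F) (R := R)
  | monomial n c =>
    obtain ⟨d, rfl⟩ := H12.exists_sq_eq_of_two_eq_zero CharTwo.two_eq_zero c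
    rw [aeval_monomial, map_pow]
    rcases Nat.even_or_odd' n with ⟨m, rfl | rfl⟩
    · exact ⟨algebraMap F R d * C.t ^ m, 0, by ring⟩
    · exact ⟨0, algebraMap F R d * C.t ^ m, by ring⟩

theorem T_zero_of_sq [CharP F 2] [Finite F] {u v : V} {x : R}
    (h1 : ∀ r : R, C.B u ((x * r ^ 2) • v) = 0)
    (h2 : ∀ r : R, C.B u ((x * (C.t * r ^ 2)) • v) = 0) (s : R) : C.B u ((x * s) • v) = 0 := by
  obtain ⟨a, b, rfl⟩ := C.sq_decomp s
  rw [mul_add, add_smul, map_add, h1, h2, add_zero]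

theorem N1_or_N2 [CharP F 2] [Finite F] {u v : V} {s : R} (h : C.B u (s • v) ≠ 0) :
    C.N1 u v ∨ C.N2 u v := by
  by_contra H
  simp only [N1, N2, not_or, not_exists, not_not] at H
  have := T_zero_of_sq (C := C) (u := u) (v := v) (x := 1) (by simpa using H.1)
    (by simpa using H.2) s
  rw [one_mul] at this
  exact h this

theorem ann_of_T {v : V} (hN : ND C.B (cyc F R v)) {x : R} (h : ∀ s, C.B v ((x * s) • v) = 0) :
    x • v = 0 := by
  refine hN _ (smul_mem_cyc _ _) ?_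
  rintro _ ⟨s, rfl⟩
  rw [C.adj, ← mul_smul, ← C.bar_bar s, ← map_mul, C.T_bar, h, mul_zero]

theorem na_of_N1 {W : Submodule F V} (hW : Iv R W) {σ : V →ₗ[F] V} (h : C.Inv W σ) {u v : V}
    (hu : u ∈ W) (hσ : σ u = v) (h1 : C.N1 u v) : C.NA W σ := by
  obtain ⟨r, hr⟩ := h1
  refine ⟨C.bar r • u, hW _ u hu, ?_⟩
  rwa [h.semi _ _ hu, C.adj, C.bar_bar, hσ, ← mul_smul, ← pow_two]

theorem na_of_N2 {W : Submodule F V} (hW : Iv R W) {σ : V →ₗ[F] V} (h : C.Inv W σ) {u v : V}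
    (hu : u ∈ W) (hσ : σ u = v) (h1 : C.N2 u v) : C.NA W (σ ∘ₗ Lm F V C.t) := by
  obtain ⟨r, hr⟩ := h1
  refine ⟨C.bar (C.t * r) • u, hW _ u hu, ?_⟩
  rw [LinearMap.comp_apply, Lm_apply, ← mul_smul, h.semi _ _ hu, C.adj, C.bar_bar, hσ, ← mul_smul,
    map_mul, C.bar_bar, C.bar_t]
  rwa [show C.t * r * (C.t' * (C.t * r)) = C.t * r ^ 2 by linear_combination C.t * r ^ 2 * C.htt]

theorem cfg_cyc (hQ : C.QC Q) {v : V} (hN : ND C.B (cyc F R v)) :
    ∃ σ, C.Inv (cyc F R v) σ ∧ (∀ r : R, σ (r • v) = C.bar r • v) ∧ C.Cfg Q (cyc F R v)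
      ((fx (cyc F R v) σ : ℤ) - fx (cyc F R v) (σ ∘ₗ Lm F V C.t)) (C.N1 v v) (C.N2 v v) := by
  obtain ⟨σ, hσ, hσ'⟩ := C.exists_inv_cyc hN
  have h1 : σ v = v := by simpa using hσ' 1
  refine ⟨σ, hσ, hσ', σ, hσ, ?_, rfl, na_of_N1 (iv_cyc v) hσ (self_mem_cyc v) h1,
    na_of_N2 (iv_cyc v) hσ (self_mem_cyc v) h1⟩
  rintro _ ⟨r, rfl⟩
  exact hQ.inv_smul (iv_cyc v) hσ (self_mem_cyc v) (by rw [h1]) r

theorem cfg_B0 [CharP F 2] [FiniteDimensional F V] (hQ : C.QC Q) {h : F[X]}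
    (hc : IsCoprime h (X ^ 2 - 4)) {k : ℕ} {v : V} (hv : aeval C.η h ^ k • v = 0)
    (hN : ND C.B (cyc F R v)) : C.Cfg Q (cyc F R v) 0 (C.N1 v v) (C.N2 v v) := by
  obtain ⟨σ, hσ, -, h1⟩ := cfg_cyc hQ hN
  refine h1.mono ?_ id id
  have h2 := fx_add_le (iv_cyc v) hσ
  rw [dm_eq_zero (by
    rintro _ ⟨r, rfl⟩ hx
    exact C.j_inj hc (k := k) (by rw [smul_comm, hv, smul_zero]) (C.j_of_N (by simp) hx))] at h2
  have h3 := le_two_fx hσ.mem hσ.sq
  have h4 := le_two_fx (hσ.shift (iv_cyc v)).mem (hσ.shift (iv_cyc v)).sq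
  omega

theorem cfg_B1 [CharP F 2] [FiniteDimensional F V] (hQ : C.QC Q) {k : ℕ} {v : V}
    (hv : C.N 1 ^ (k + 1) • v = 0) (hv' : C.B v (C.N 1 ^ k • v) ≠ 0) :
    C.Cfg Q (cyc F R v) 1 (C.N1 v v) (C.N2 v v) := by
  obtain ⟨σ, hσ, hσ', h1⟩ := cfg_cyc hQ (C.nd_B1 hv hv')
  obtain ⟨m, hm⟩ := even_of_nd (C.nd_B1 hv hv') fun x => by
    rw [hQ.hB, H12.B_self, CharTwo.two_eq_zero, zero_mul]
  have h0 : C.N 1 ^ k • v ≠ 0 := fun h => hv' (by rw [h, map_zero])
  have hs : C.N 1 • C.N 1 ^ k • v = 0 := by rw [C.N_pow_succ, hv]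
  have h2 := fx_add_le (iv_cyc v) hσ
  rw [dm_eq_one h0 (smul_mem_cyc _ _) hs (by
    rintro _ ⟨r, rfl⟩ hx
    exact C.soc_cyc (by simp) hv h0 hx)] at h2
  have h3 := lt_two_fx hσ.mem hσ.sq (self_mem_cyc v) (by simpa using hσ' 1) (by
    rintro _ ⟨r, rfl⟩ hx
    obtain ⟨c, hc⟩ := C.soc (e := 1) (by simp) r
    have := congrArg (C.N 1 ^ k • ·) hx
    simp only [hσ', smul_sub] at this
    rw [smul_comm, smul_comm _ r, (hc _ hs).1, (hc _ hs).2, sub_self] at this
    exact h0 this.symm)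
  have h4 := le_two_fx (hσ.shift (iv_cyc v)).mem (hσ.shift (iv_cyc v)).sq
  exact h1.mono (by omega) id id

theorem cfg_swap [CharP F 2] [FiniteDimensional F V] (hQ : C.QC Q) {k : ℕ} {u v : V}
    (hb : C.IsB2 1 k u v) (hT : ∀ x : R, C.B v (x • v) = C.B u (x • u)) (hq : Q v = Q u) :
    C.Cfg Q (cyc F R u ⊔ cyc F R v) 0 (C.N1 u v) (C.N2 u v) := by
  obtain ⟨σ, hσ, hσ'⟩ := C.exists_inv_two hb.nd (u' := v) (v' := u) (a := 0) (b := 1) (c := 1)
    (d := 0) (by simp) (by simp) (by simp) (by simp) hT (fun x => (hT x).symm) (fun _ => rfl)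
  have iW := (iv_cyc (F := F) (R := R) u).sup (iv_cyc v)
  have hu : u ∈ cyc F R u ⊔ cyc F R v := Submodule.mem_sup_left (self_mem_cyc u)
  have hv : v ∈ cyc F R u ⊔ cyc F R v := Submodule.mem_sup_right (self_mem_cyc v)
  have e1 : ∀ r : R, σ (r • u) = C.bar r • v := fun r => by simpa using hσ' r 0
  have e2 : ∀ r : R, σ (r • v) = C.bar r • u := fun r => by simpa using hσ' 0 r
  have e3 : σ u = v := by simpa using e1 1
  have e4 : σ v = u := by simpa using e2 1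
  have f1 : ∀ r s : R, s • v = r • u → r • u = 0 := fun r s h =>
    smul_eq_zero_of_dvd hb.hu (hb.free (r := r) (s := -s) (by rw [neg_smul, h, add_neg_cancel])).1
  refine ⟨σ, hσ, fun w hw => ?_, ?_, na_of_N1 iW hσ hu e3, na_of_N2 iW hσ hu e3⟩
  · obtain ⟨r, s, rfl⟩ := mem_cyc_sup.mp hw
    exact hQ.inv_add hσ (iW _ u hu) (iW _ v hv) (hQ.inv_smul iW hσ hu (by rw [e3, hq]) r)
      (hQ.inv_smul iW hσ hv (by rw [e4, hq]) s)
  · have h1 := le_two_fx hσ.mem hσ.sq
    have h2 := le_two_fx (hσ.shift iW).mem (hσ.shift iW).sq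
    have h3 := two_fx_le (X := cyc F R u) (Y := cyc F R v) (σ := σ)
      (by rintro _ ⟨r, rfl⟩ h; rw [e1] at h; exact f1 _ _ h)
      (by rintro _ ⟨r, rfl⟩ h; rw [e2] at h; rw [← h]; exact f1 _ _ h.symm)
    have h4 := two_fx_le (X := cyc F R u) (Y := cyc F R v) (σ := σ ∘ₗ Lm F V C.t)
      (by
        rintro _ ⟨r, rfl⟩ h
        rw [LinearMap.comp_apply, Lm_apply, ← mul_smul, e1] at h; exact f1 _ _ h)
      (by
        rintro _ ⟨r, rfl⟩ h
        rw [LinearMap.comp_apply, Lm_apply, ← mul_smul, e2] at h; rw [← h]; exact f1 _ _ h.symm)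
    omega

end Ctx

end H37.Ore
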