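import Mathlib
import Cfsg.Agent.Base
import Cfsg.Agent.Lib.Ore.EvenBlk

/-! Inverting involutions in characteristic two: equal ranks, both non-alternating. -/

set_option autoImplicit false

namespace H37.Ore

open Module Polynomial QuadraticMap

variable {F V R : Type*} [Field F] [AddCommGroup V] [Module F V] [CommRing R] [Algebra F R]
  [Module R V] [IsScalarTower F R V]

namespace Ctx

variable {C : Ctx F V R} {Q : QuadraticForm F V} [CharP F 2]

theorem QC.self (h : C.QC Q) (x : V) : C.B x x = 0 := by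
  rw [h.hB, H12.B_self, CharTwo.two_eq_zero, zero_mul]

variable (C) in
theorem η_eq : C.η = C.bar (C.N 1) * C.N 1 := by
  simp only [N, η, map_one, map_sub, C.bar_t]
  linear_combination (-1 : R) * C.htt + (C.t + C.t' - 1) * two_R (F := F) (R := R)

variable (C) in
theorem tη_eq : C.t * C.η = C.N 1 ^ 2 := by
  simp only [N, η, map_one]
  linear_combination C.htt + C.t * two_R (F := F) (R := R)

variable (C) in
theorem j_eq_η : C.j = C.η := by
  simp only [j, η]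
  linear_combination (-C.t') * two_R (F := F) (R := R)

theorem QC.Q_N (h : C.QC Q) (x : V) : Q (C.N 1 • x) = C.B x (C.N 1 • x) := by
  rw [N, map_one, sub_smul, one_smul, H12.Q_sub, h.ht, map_sub, h.self, ← h.hB, symm h.hε,
    CharTwo.add_self_eq_zero, zero_sub, sub_zero, CharTwo.neg_eq]

theorem B_η_pow (i : ℕ) (x y : V) :
    C.B x (C.η ^ i • y) = C.B (C.N 1 ^ i • x) (C.N 1 ^ i • y) := by
  rw [C.adj, ← mul_smul, map_pow, ← mul_pow, ← C.η_eq]

theorem QC.T_η (h : C.QC Q) (a : F[X]) (x : V) : C.B x (aeval C.η a • x) = 0 := by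
  induction a using Polynomial.induction_on' with
  | add p q hp hq => rw [map_add, add_smul, map_add, hp, hq, add_zero]
  | monomial n c =>
    rw [aeval_monomial, mul_smul, algebraMap_smul, LinearMap.BilinForm.smul_right, B_η_pow,
      h.self, mul_zero]

theorem QC.T_ηt (h : C.QC Q) (i : ℕ) (x : V) :
    C.B x ((C.η ^ i * C.t) • x) = Q (C.N 1 ^ (i + 1) • x) := by
  have : C.η ^ i * C.t = C.η ^ i * C.N 1 + C.η ^ i := by rw [N, map_one]; ring
  rw [this, add_smul, map_add, mul_smul, B_η_pow, B_η_pow, h.self, add_zero, smul_comm,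
    ← h.Q_N, C.N_pow_succ]

theorem QC.T_eq (h : C.QC Q) {u v : V} (hq : ∀ j, Q (C.N 1 ^ j • v) = Q (C.N 1 ^ j • u)) (x : R) :
    C.B v (x • v) = C.B u (x • u) := by
  obtain ⟨a, b, rfl⟩ := C.decomp_η x
  rw [add_smul, add_smul, map_add, map_add, h.T_η, h.T_η]
  congr 1
  induction b using Polynomial.induction_on' with
  | add p q hp hq => rw [map_add, add_mul, add_smul, add_smul, map_add, map_add, hp, hq]
  | monomial n c =>
    rw [aeval_monomial, mul_assoc, mul_smul, mul_smul _ _ u, algebraMap_smul, algebraMap_smul,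
      LinearMap.BilinForm.smul_right, LinearMap.BilinForm.smul_right, h.T_ηt, h.T_ηt, hq]

theorem B_N_N {i j k : ℕ} (hk : i + j = k) (x : V) {y : V} (hy : C.N 1 ^ (k + 1) • y = 0) :
    C.B (C.N 1 ^ i • x) (C.N 1 ^ j • y) = C.B x (C.N 1 ^ k • y) := by
  rw [C.B_N_pow (by simp) i x (by
    rw [← mul_smul, ← pow_add, show i + 1 + j = k + 1 by omega, hy]), ← mul_smul, ← pow_add, hk,
    CharTwo.neg_eq, one_pow, one_mul]

omit [CharP F 2] in
theorem B_N_N_zero {i j k : ℕ} (hk : k < i + j) (x : V) {y : V} (hy : C.N 1 ^ (k + 1) • y = 0) :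
    C.B (C.N 1 ^ i • x) (C.N 1 ^ j • y) = 0 := by
  rw [C.adj, C.bar_N_pow_zero (by simp) i, map_zero]
  rw [← mul_smul, ← pow_add]
  exact smul_eq_zero_of_dvd hy (pow_dvd_pow _ hk)

theorem QC.q_zero (h : C.QC Q) {k : ℕ} {u : V} (hu : C.N 1 ^ (k + 1) • u = 0)
    (huu : C.B u (C.N 1 ^ k • u) = 0) {j : ℕ} (hj : k < 2 * j) : Q (C.N 1 ^ j • u) = 0 := by
  obtain ⟨j, rfl⟩ : ∃ i, j = i + 1 := ⟨j - 1, by omega⟩
  rw [← C.N_pow_succ, h.Q_N, C.N_pow_succ]
  by_cases h1 : j + (j + 1) = k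
  · rw [B_N_N h1 u hu, huu]
  · exact B_N_N_zero (by omega) u hu

theorem IsB2.add_N {k : ℕ} {u v : V} (hb : C.IsB2 1 k u v) (c : F) {a : ℕ} (ha : 1 ≤ a) :
    C.IsB2 1 k u (v + c • C.N 1 ^ a • u) := by
  have h1 : C.N 1 ^ k • C.N 1 ^ a • u = 0 := by
    rw [← mul_smul, ← pow_add]; exact smul_eq_zero_of_dvd hb.hu (pow_dvd_pow _ (by omega))
  have h2 : C.N 1 ^ k • (v + c • C.N 1 ^ a • u) = C.N 1 ^ k • v := by
    rw [smul_add, smul_comm _ c, h1, smul_zero, add_zero]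
  refine ⟨hb.hu, by rw [← C.N_pow_succ, h2, C.N_pow_succ, hb.hv], by rw [h2, hb.uv], ?_, hb.uu, ?_⟩
  · rw [map_add, LinearMap.add_apply, hb.vu, LinearMap.BilinForm.smul_left,
      B_N_N_zero (i := a) (j := k) (by omega) u hb.hu, mul_zero, add_zero]
  · rw [h2, map_add, LinearMap.add_apply, hb.vv, LinearMap.BilinForm.smul_left,
      B_N_N_zero (i := a) (j := k) (by omega) u hb.hv, mul_zero, add_zero]

theorem IsB2.equalize_low (h : C.QC Q) {W : Submodule F V} (hW : Iv R W) {k : ℕ} {u v : V}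
    (hu : u ∈ W) (hv : v ∈ W) (hb : C.IsB2 1 k u v)
    (htop : ∀ j, 2 * j = k → Q (C.N 1 ^ j • v) = Q (C.N 1 ^ j • u)) :
    ∃ v' ∈ W, C.IsB2 1 k u v' ∧ ∀ j, Q (C.N 1 ^ j • v') = Q (C.N 1 ^ j • u) := by
  have key : ∀ n, ∃ v' ∈ W, C.IsB2 1 k u v' ∧
      ∀ j, k ≤ 2 * (j + n) → Q (C.N 1 ^ j • v') = Q (C.N 1 ^ j • u) := by
    intro n
    induction n with
    | zero =>
      refine ⟨v, hv, hb, fun j hj => ?_⟩
      by_cases h1 : 2 * j = k
      · exact htop j h1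
      · rw [h.q_zero hb.hv hb.vv (by omega), h.q_zero hb.hu hb.uu (by omega)]
    | succ n ih =>
      obtain ⟨v', hv', hb', hq⟩ := ih
      by_cases h1 : ∃ i, 2 * (i + n) < k ∧ k ≤ 2 * (i + (n + 1))
      · obtain ⟨i, hi1, hi2⟩ := h1
        refine ⟨v' + (Q (C.N 1 ^ i • u) - Q (C.N 1 ^ i • v')) • C.N 1 ^ (k - 2 * i) • u,
          W.add_mem hv' (W.smul_mem _ (hW _ u hu)), hb'.add_N _ (by omega), fun j hj => ?_⟩
        rw [smul_add, smul_comm, h.add, H12.Q_smul, ← mul_smul, ← pow_add,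
          h.q_zero hb.hu hb.uu (j := j + (k - 2 * i)) (by omega), LinearMap.BilinForm.smul_right]
        by_cases h2 : j = i
        · subst h2
          rw [B_N_N (k := k) (by omega) v' hb.hu, hb'.vu, CharTwo.neg_eq]; ring
        · rw [B_N_N_zero (k := k) (by omega) v' hb.hu, hq j (by omega)]; ring
      · refine ⟨v', hv', hb', fun j hj => hq j ?_⟩
        by_contra h2
        exact h1 ⟨j, by omega, hj⟩
  obtain ⟨v', hv', hb', hq⟩ := key k
  exact ⟨v', hv', hb', fun j => hq j (by omega)⟩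

omit [CharP F 2] in
theorem IsB2.add_smul {k : ℕ} {u v : V} (hb : C.IsB2 1 k u v) (c : F) :
    C.IsB2 1 k u (v + c • u) := by
  refine ⟨hb.hu, by rw [smul_add, smul_comm, hb.hu, hb.hv, smul_zero, add_zero], ?_, ?_, hb.uu, ?_⟩
  all_goals simp only [smul_add, smul_comm _ c, map_add, LinearMap.add_apply,
    LinearMap.BilinForm.smul_left, LinearMap.BilinForm.smul_right, hb.uv, hb.vu, hb.uu, hb.vv]
  all_goals ring

omit [CharP F 2] in
theorem IsB2.scale {k : ℕ} {u v : V} (hb : C.IsB2 1 k u v) {c : F} (hc : c ≠ 0) :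
    C.IsB2 1 k (c • u) (c⁻¹ • v) := by
  refine ⟨by rw [smul_comm, hb.hu, smul_zero], by rw [smul_comm, hb.hv, smul_zero], ?_, ?_, ?_, ?_⟩
  all_goals simp only [smul_comm (C.N 1 ^ k) c, smul_comm (C.N 1 ^ k) c⁻¹,
    LinearMap.BilinForm.smul_left, LinearMap.BilinForm.smul_right, hb.uv, hb.vu, hb.uu, hb.vv]
  all_goals simp [hc]

theorem IsB2.swap {k : ℕ} {u v : V} (hb : C.IsB2 1 k u v) : C.IsB2 1 k v u :=
  ⟨hb.hv, hb.hu, by rw [hb.vu, CharTwo.neg_eq], by rw [hb.uv, CharTwo.neg_eq], hb.vv, hb.uu⟩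

theorem IsB2.equalize [Finite F] (h : C.QC Q) {W : Submodule F V} (hW : Iv R W) {k : ℕ} {u v : V}
    (hu : u ∈ W) (hv : v ∈ W) (hb : C.IsB2 1 k u v) :
    ∃ u' ∈ W, ∃ v' ∈ W, C.IsB2 1 k u' v' ∧ ∀ j, Q (C.N 1 ^ j • v') = Q (C.N 1 ^ j • u') := by
  have fin : ∀ u ∈ W, ∀ v ∈ W, C.IsB2 1 k u v →
      (∀ j, 2 * j = k → Q (C.N 1 ^ j • v) = Q (C.N 1 ^ j • u)) →
      ∃ u' ∈ W, ∃ v' ∈ W, C.IsB2 1 k u' v' ∧ ∀ j, Q (C.N 1 ^ j • v') = Q (C.N 1 ^ j • u') :=
    fun u hu v hv hb ht => ⟨u, hu, hb.equalize_low h hW hu hv ht⟩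
  rcases Nat.even_or_odd' k with ⟨l, rfl | rfl⟩
  swap
  · exact fin u hu v hv hb fun j hj => by omega
  have zero : ∀ u ∈ W, ∀ v ∈ W, C.IsB2 1 (2 * l) u v → Q (C.N 1 ^ l • u) = 0 →
      ∃ u' ∈ W, ∃ v' ∈ W, C.IsB2 1 (2 * l) u' v' ∧
        ∀ j, Q (C.N 1 ^ j • v') = Q (C.N 1 ^ j • u') := by
    intro u hu v hv hb h0
    refine fin u hu _ (W.add_mem hv (W.smul_mem (Q (C.N 1 ^ l • v)) hu)) (hb.add_smul _)
      fun j hj => ?_
    obtain rfl : j = l := by omega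
    rw [smul_add, smul_comm, h.add, H12.Q_smul, h0, LinearMap.BilinForm.smul_right,
      B_N_N (k := 2 * j) (by omega) v hb.hu, hb.vu]
    ring
  by_cases h1 : Q (C.N 1 ^ l • u) = 0
  · exact zero u hu v hv hb h1
  by_cases h2 : Q (C.N 1 ^ l • v) = 0
  · exact zero v hv u hu hb.swap h2
  obtain ⟨b, hb1⟩ := H12.exists_sq_eq_of_two_eq_zero (F := F) CharTwo.two_eq_zero
    (Q (C.N 1 ^ l • v) / Q (C.N 1 ^ l • u))
  obtain ⟨a, rfl⟩ := H12.exists_sq_eq_of_two_eq_zero (F := F) CharTwo.two_eq_zero b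
  have ha : a ≠ 0 := by
    rintro rfl
    exact div_ne_zero h2 h1 (by rw [← hb1]; simp)
  refine fin _ (W.smul_mem a hu) _ (W.smul_mem a⁻¹ hv) (hb.scale ha) fun j hj => ?_
  obtain rfl : j = l := by omega
  rw [smul_comm, smul_comm _ a, H12.Q_smul, H12.Q_smul]
  field_simp at hb1 ⊢
  linear_combination -hb1

theorem cfg_W [Finite F] [FiniteDimensional F V] (h : C.QC Q) {W : Submodule F V} (hW : Iv R W)
    {k : ℕ} {u v : V} (hu : u ∈ W) (hv : v ∈ W) (hb : C.IsB2 1 k u v) :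
    ∃ u' ∈ W, ∃ v' ∈ W, C.IsB2 1 k u' v' ∧ ∃ a b : Prop, (a ∨ b) ∧ (k ≠ 1 → a ∧ b) ∧
      C.Cfg Q (cyc F R u' ⊔ cyc F R v') 0 a b := by
  obtain ⟨u, hu, v, hv, hb, hq⟩ := hb.equalize h hW hu hv
  have hT := h.T_eq hq
  have hq0 : Q v = Q u := by simpa using hq 0
  have hs : C.N 1 • C.N 1 ^ k • v = 0 := by rw [C.N_pow_succ, hb.hv]
  have h1 : C.B u (C.N 1 ^ k • v) ≠ 0 := by rw [hb.uv]; exact one_ne_zero
  by_cases hk : Even k ∨ k = 1
  · refine ⟨u, hu, v, hv, hb, _, _, N1_or_N2 h1, fun hk1 => ?_, cfg_swap h hb hT hq0⟩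
    obtain ⟨l, rfl⟩ := hk.resolve_right hk1
    refine ⟨⟨C.N 1 ^ l, by rwa [pow_two, ← pow_add]⟩, ⟨C.N 1 ^ l, ?_⟩⟩
    rwa [pow_two, ← pow_add, mul_smul, C.t_soc hs, one_smul]
  obtain ⟨l, rfl⟩ : ∃ l, k = 2 * l + 3 := by
    rcases Nat.even_or_odd' k with ⟨l, rfl | rfl⟩
    · exact absurd (Or.inl (even_two_mul l)) hk
    · exact ⟨l - 1, by omega⟩
  have key : ∀ c : F, C.IsB2 1 (2 * l + 3) u (v + c • C.N 1 ^ (2 * l + 3) • v) ∧
      C.Cfg Q (cyc F R u ⊔ cyc F R (v + c • C.N 1 ^ (2 * l + 3) • v)) 0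
        (C.N1 u (v + c • C.N 1 ^ (2 * l + 3) • v)) (C.N2 u (v + c • C.N 1 ^ (2 * l + 3) • v)) := by
    intro c
    have hz : ∀ j, 1 ≤ j → C.N 1 ^ j • (v + c • C.N 1 ^ (2 * l + 3) • v) = C.N 1 ^ j • v := by
      intro j hj
      rw [smul_add, smul_comm _ c, ← mul_smul, ← pow_add,
        smul_eq_zero_of_dvd hb.hv (pow_dvd_pow _ (show _ ≤ j + (2 * l + 3) by omega)), smul_zero,
        add_zero]
    have hb' : C.IsB2 1 (2 * l + 3) u (v + c • C.N 1 ^ (2 * l + 3) • v) := by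
      refine ⟨hb.hu, by rw [hz _ (by omega), hb.hv], by rw [hz _ (by omega), hb.uv], ?_, hb.uu, ?_⟩
      · rw [map_add, LinearMap.add_apply, hb.vu, LinearMap.BilinForm.smul_left,
          B_N_N_zero (by omega) v hb.hu, mul_zero, add_zero]
      · rw [hz _ (by omega), map_add, LinearMap.add_apply, hb.vv, LinearMap.BilinForm.smul_left,
          h.self, mul_zero, add_zero]
    have hq' : ∀ j, Q (C.N 1 ^ j • (v + c • C.N 1 ^ (2 * l + 3) • v)) = Q (C.N 1 ^ j • u) := by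
      intro j
      rcases j with _ | j
      · rw [pow_zero, one_smul, one_smul, h.add, H12.Q_smul, LinearMap.BilinForm.smul_right, hb.vv,
          h.q_zero hb.hv hb.vv (by omega), hq0]
        ring
      · rw [hz _ (by omega), hq]
    exact ⟨hb', cfg_swap h hb' (h.T_eq hq') (by simpa using hq' 0)⟩
  have hz : ∀ c : F, C.N 1 ^ (2 * l + 2) • (v + c • C.N 1 ^ (2 * l + 3) • v) =
      C.N 1 ^ (2 * l + 2) • v := by
    intro c
    rw [smul_add, smul_comm _ c, ← mul_smul, ← pow_add,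
      smul_eq_zero_of_dvd hb.hv (pow_dvd_pow _ (show _ ≤ 2 * l + 2 + (2 * l + 3) by omega)),
      smul_zero, add_zero]
  have hsq : (C.N 1 ^ (l + 1)) ^ 2 = C.N 1 ^ (2 * l + 2) := by ring
  by_cases h2 : C.B u (C.N 1 ^ (2 * l + 2) • v) = 0
  · have h3 : C.B u (C.t • C.N 1 ^ (2 * l + 2) • v) = 1 := by
      have e : ∀ y : V, C.t • y = C.N 1 • y + y := fun y => by
        rw [N, map_one, sub_smul, one_smul, sub_add_cancel]
      rw [e, map_add, h2, C.N_pow_succ, hb.uv, add_zero]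
    obtain ⟨hb', hc⟩ := key (1 - C.B u v)
    refine ⟨u, hu, _, W.add_mem hv (W.smul_mem _ (hW _ v hv)), hb', True, True, by simp, by simp,
      hc.mono rfl (fun _ => ⟨1, ?_⟩) fun _ => ⟨C.N 1 ^ (l + 1), ?_⟩⟩
    · rw [one_pow, one_smul, map_add, LinearMap.BilinForm.smul_right, hb.uv]; simp
    · rw [hsq, mul_smul, hz, h3]; exact one_ne_zero
  · obtain ⟨hb', hc⟩ := key (1 - C.B u (C.t • v))
    refine ⟨u, hu, _, W.add_mem hv (W.smul_mem _ (hW _ v hv)), hb', True, True, by simp, by simp,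
      hc.mono rfl (fun _ => ⟨C.N 1 ^ (l + 1), ?_⟩) fun _ => ⟨1, ?_⟩⟩
    · rwa [hsq, hz]
    · rw [one_pow, mul_one, smul_add, smul_comm, C.t_soc hs, one_smul, map_add,
        LinearMap.BilinForm.smul_right, hb.uv]; simp

theorem cfg_B0_big [Finite F] [Finite R] [FiniteDimensional F V] (hQ : C.QC Q) {h : F[X]}
    (hh : Irreducible h) (hc : IsCoprime h (X ^ 2 - 4)) {k : ℕ} {v : V}
    (hv : aeval C.η h ^ (k + 1) • v = 0) {r : R} (hr : C.B v ((aeval C.η h ^ k * r) • v) ≠ 0)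
    (hd : 4 < finrank F (cyc F R v)) :
    ∃ c : R, cyc F R (c • v) = cyc F R v ∧ C.Cfg Q (cyc F R v) 0 True True := by
  have hN := C.nd_B0 hh hc hv hr
  have hk0 : aeval C.η h ^ k • v ≠ 0 := fun h0 => hr (by rw [mul_comm, mul_smul, h0]; simp)
  have jinj : ∀ x : R, (C.η * x) • v = 0 → x • v = 0 := fun x hx =>
    C.j_inj hc (k := k + 1) (by rw [smul_comm, hv, smul_zero]) (by rwa [j_eq_η, ← mul_smul])
  obtain ⟨s, hs, hs'⟩ : ∃ s : F[X], aeval C.η s ^ 2 • v ≠ 0 ∧ IsCoprime h (1 + s ^ 2 * X) := by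
    by_cases hk : 2 ≤ k
    · refine ⟨h, fun h0 => hk0 (smul_eq_zero_of_dvd h0 (pow_dvd_pow _ hk)), ⟨-(h * X), 1, by ring⟩⟩
    · refine ⟨1, by simpa using fun h0 => hk0 (by rw [h0, smul_zero]), ?_⟩
      rw [hh.coprime_iff_not_dvd]
      intro hdvd
      have h1 : (1 + 1 ^ 2 * X : F[X]) = X - Polynomial.C (-1) := by simp [add_comm]
      rw [h1] at hdvd
      obtain ⟨q, hq⟩ := hdvd
      have := C.finrank_cyc_le_η (e := -1) (k := 2) (v := v) (by
        have h2 := congrArg (aeval C.η) hq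
        rw [map_sub, aeval_X, aeval_C, map_mul (aeval C.η)] at h2
        rw [h2, mul_pow, mul_comm, mul_smul, smul_eq_zero_of_dvd hv (pow_dvd_pow _ (by omega)),
          smul_zero])
      omega
  obtain ⟨c, hcc⟩ := C.norm_mod hc (k + 1) hs'
  have hT : ∀ x : R, C.B (c • v) (x • c • v) =
      C.B v (x • v) + C.B v ((aeval C.η s ^ 2 * C.η * x) • v) := by
    intro x
    rw [C.adj, smul_comm x, ← mul_smul, mul_comm, smul_comm, smul_eq_of_dvd hv hcc, ← map_add,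
      ← mul_smul, ← add_smul]
    simp only [map_add, map_mul, map_pow, map_one, aeval_X]
    congr 2; ring
  have hcyc : cyc F R (c • v) = cyc F R v := by
    apply le_antisymm ((iv_cyc v).cyc_le (smul_mem_cyc _ _))
    refine (iv_cyc _).cyc_le ?_
    obtain ⟨c1, c2, hc'⟩ := hs'.pow_left (m := k + 1)
    refine ⟨aeval C.η c2 * C.bar c, ?_⟩
    have := congrArg (fun p => aeval C.η p • v) hc'
    simp only [map_add (aeval C.η), map_mul (aeval C.η) c1, map_mul (aeval C.η) c2, map_pow,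
      add_smul, mul_smul, hv, smul_zero, zero_add, map_one, one_smul] at this
    rw [mul_smul, ← mul_smul (C.bar c), mul_comm (C.bar c), smul_eq_of_dvd hv hcc]
    simpa only [map_add (aeval C.η), add_smul, map_one, one_smul, smul_add] using this
  by_cases H : C.N1 v v ∧ C.N2 v v
  · exact ⟨1, by rw [one_smul], (cfg_B0 hQ hc hv hN).mono rfl (fun _ => H.1) fun _ => H.2⟩
  have hc' := cfg_B0 hQ hc (k := k + 1) (v := c • v) (by rw [smul_comm, hv, smul_zero])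
    (by rwa [hcyc])
  rw [hcyc] at hc'
  have tη := C.tη_eq
  rcases N1_or_N2 hr with h1 | h1
  · have h2 : ∀ r : R, C.B v ((C.t * r ^ 2) • v) = 0 := by
      simpa [N2] using fun h2 => H ⟨h1, h2⟩
    have h3 : ∀ r : R, C.B v ((C.η * r ^ 2) • v) = 0 := fun r => by
      have : C.η * r ^ 2 = C.t * r ^ 2 + C.t * (C.t' * r) ^ 2 := by
        rw [η]; linear_combination (-C.t' * r ^ 2) * C.htt
      rw [this, add_smul, map_add, h2, h2, add_zero]
    refine ⟨c, hcyc, hc'.mono rfl (fun _ => ?_) fun _ => ?_⟩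
    · obtain ⟨r, hr⟩ := h1
      refine ⟨r, ?_⟩
      rwa [hT, show aeval C.η s ^ 2 * C.η * r ^ 2 = C.η * (aeval C.η s * r) ^ 2 by ring, h3,
        add_zero]
    · by_contra h4
      simp only [N2, not_exists, not_not, hT, h2, zero_add] at h4
      refine hs (jinj _ (ann_of_T hN (T_zero_of_sq (fun r => ?_) fun r => ?_)))
      · rw [show C.η * aeval C.η s ^ 2 * r ^ 2 = C.η * (aeval C.η s * r) ^ 2 by ring, h3]
      · rw [mul_comm C.η, h4]
  · have h2 : ∀ r : R, C.B v (r ^ 2 • v) = 0 := by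
      simpa [N1] using fun h2 => H ⟨h2, h1⟩
    have h3 : ∀ r : R, C.B v ((aeval C.η s ^ 2 * C.η * (C.t * r ^ 2)) • v) = 0 := fun r => by
      rw [show aeval C.η s ^ 2 * C.η * (C.t * r ^ 2) = (aeval C.η s * C.N 1 * r) ^ 2 by
        linear_combination (aeval C.η s ^ 2 * r ^ 2) * tη, h2]
    refine ⟨c, hcyc, hc'.mono rfl (fun _ => ?_) fun _ => ?_⟩
    · by_contra h4
      simp only [N1, not_exists, not_not, hT, h2, zero_add] at h4
      refine hs (jinj _ (ann_of_T hN (T_zero_of_sq (fun r => ?_) fun r => ?_)))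
      · rw [mul_comm C.η, h4]
      · rw [mul_comm C.η, h3]
    · obtain ⟨r, hr⟩ := h1
      exact ⟨r, by rwa [hT, h3, add_zero]⟩

theorem QC.V_class (h : C.QC Q) (k : ℕ) : (∃ r : R, ∀ x : V, C.N 1 ^ (k + 1) • x = 0 →
    C.B x (C.N 1 ^ k • x) = C.B x (r ^ 2 • x)) ∨ ∃ r : R, ∀ x : V, C.N 1 ^ (k + 1) • x = 0 →
    C.B x (C.N 1 ^ k • x) = C.B x ((C.t * r ^ 2) • x) := by
  rcases Nat.even_or_odd' k with ⟨l, rfl | rfl⟩
  · exact Or.inl ⟨C.N 1 ^ l, fun x _ => by rw [← pow_mul, mul_comm]⟩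
  have key : ∀ x : V, C.N 1 ^ (2 * l + 1 + 1) • x = 0 →
      C.B x (C.N 1 ^ (2 * l + 1) • x) = C.B x ((C.η ^ l * C.t) • x) := by
    intro x hx
    rw [h.T_ηt, ← C.N_pow_succ 1 l, h.Q_N, C.N_pow_succ, B_N_N (k := 2 * l + 1) (by omega) x hx]
  rcases Nat.even_or_odd' l with ⟨m, rfl | rfl⟩
  · exact Or.inr ⟨C.η ^ m, fun x hx => by rw [key x hx]; congr 2; ring⟩
  · exact Or.inl ⟨C.η ^ m * C.N 1, fun x hx => by
      rw [key x hx]; congr 2; linear_combination (C.η ^ (2 * m)) * C.tη_eq⟩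

end Ctx

end H37.Ore
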