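import Mathlib
import Cfsg.Agent.Base
import Cfsg.Agent.Lib.Ore.EvenBlk2

/-! Characteristic two: factorisation with equal ranks and non-alternating types. -/

set_option autoImplicit false

namespace H37.Ore

open Module Polynomial QuadraticMap

variable {F V R : Type*} [Field F] [AddCommGroup V] [Module F V] [CommRing R] [Algebra F R]
  [Module R V] [IsScalarTower F R V]

namespace Ctx

variable {C : Ctx F V R} {Q : QuadraticForm F V} [CharP F 2] [Finite F] [Finite R]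
  [FiniteDimensional F V]

omit [Finite F] in
theorem eq_one_two {e : F} (he : e * e = 1) : e = 1 := by
  rcases mul_self_eq_one_iff.mp he with h | h
  · exact h
  · rw [h, CharTwo.neg_eq]

theorem exists_block_two (hQ : C.QC Q) {W : Submodule F V} (hW : Iv R W) (hN : ND C.B W)
    (h0 : W ≠ ⊥) :
    (∃ k, ∃ v ∈ W, C.N 1 ^ (k + 1) • v = 0 ∧ C.B v (C.N 1 ^ k • v) ≠ 0) ∨
    ∃ X ≤ W, X ≠ ⊥ ∧ Iv R X ∧ ND C.B X ∧ ∃ a b : Prop, (a ∨ b) ∧ C.Cfg Q X 0 a b := by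
  rcases C.exists_block hW hN h0 with ⟨e, he, k, v, hv, h1, h3⟩ | ⟨e, he, k, u, hu, v, hv, hb⟩ |
    ⟨h, hh, hc, k, v, hv, h1, r, hr⟩
  · obtain rfl := eq_one_two he
    exact Or.inl ⟨k, v, hv, h1, h3⟩
  · obtain rfl := eq_one_two he
    obtain ⟨u, hu, v, hv, hb, a, b, hab, -, hc⟩ := cfg_W hQ hW hu hv hb
    exact Or.inr ⟨_, sup_le (hW.cyc_le hu) (hW.cyc_le hv), fun h => cyc_ne_bot (F := F) (R := R)
      (v := u) (by rintro rfl; simpa using hb.ne_u) (le_bot_iff.mp (h ▸ le_sup_left)),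
      (iv_cyc u).sup (iv_cyc v), hb.nd, a, b, hab, hc⟩
  · have hN' := C.nd_B0 hh hc h1 hr
    exact Or.inr ⟨_, hW.cyc_le hv, cyc_ne_bot (by rintro rfl; simp at hr), iv_cyc v, hN', _, _,
      N1_or_N2 hr, cfg_B0 hQ hc h1 hN'⟩

theorem balE (hQ : C.QC Q) {s : ℤ} (hs : s = 1 ∨ s = -1) {W : Submodule F V}
    (hW : Iv R W) (hN : ND C.B W) :
    ∃ Δ, ∃ a b : Prop, (Δ = 0 ∨ Δ = s) ∧ (W ≠ ⊥ → a ∨ b) ∧ C.Cfg Q W Δ a b := by
  induction hn : finrank F W using Nat.strong_induction_on generalizing W with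
  | _ n ih =>
  by_cases h0 : W = ⊥
  · subst h0
    exact ⟨0, False, False, Or.inl rfl, fun h => absurd rfl h, cfg_bot⟩
  obtain ⟨X, hle, hX0, iX, nX, a, b, hab, hX⟩ : ∃ X ≤ W, X ≠ ⊥ ∧ Iv R X ∧ ND C.B X ∧
      ∃ a b : Prop, (a ∨ b) ∧ (C.Cfg Q X 0 a b ∨ C.Cfg Q X 1 a b) := by
    rcases exists_block_two hQ hW hN h0 with ⟨k, v, hv, h1, h2⟩ | ⟨X, h1, h2, h3, h4, a, b, h5, h6⟩
    · exact ⟨_, hW.cyc_le hv, cyc_ne_bot (by rintro rfl; simp at h2), iv_cyc v, C.nd_B1 h1 h2,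
        _, _, N1_or_N2 h2, Or.inr (cfg_B1 hQ h1 h2)⟩
    · exact ⟨X, h1, h2, h3, h4, a, b, h5, Or.inl h6⟩
  have hd := nX.finrank_pp C.isRefl hle
  have hpos : 0 < finrank F X := by
    rw [pos_iff_ne_zero, Ne, Submodule.finrank_eq_zero]; exact hX0
  obtain ⟨Δ, a', b', hΔ, -, hY⟩ := ih _ (by omega) (C.iv_pp hW iX) (nX.pp C.isRefl hle hN) rfl
  have key : ∀ Δ' (a b : Prop), C.Cfg Q X Δ' a b → C.Cfg Q W (Δ' + Δ) (a ∨ a') (b ∨ b') :=
    fun Δ' a b h => by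
      have := h.sup hQ hY iX (C.iv_pp hW iX) nX fun x hx y hy => hy.2 x hx
      rwa [nX.sup_pp C.isRefl hle] at this
  rcases hX with hX | hX
  · exact ⟨_, _, _, by omega, by tauto, key _ _ _ hX⟩
  · by_cases h : 1 + Δ = 0 ∨ 1 + Δ = s
    · exact ⟨_, _, _, h, by tauto, key _ _ _ hX⟩
    · exact ⟨_, _, _, by omega, by tauto, key _ _ _ (hX.shift hQ iX)⟩

theorem complete (hQ : C.QC Q) (hN : ND C.B ⊤) {s : ℤ} (hs : s = 1 ∨ s = -1) {X : Submodule F V}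
    (iX : Iv R X) (nX : ND C.B X) : ∃ Δ', ∃ a' b' : Prop, (Δ' = 0 ∨ Δ' = s) ∧
      (pp C.B ⊤ X ≠ ⊥ → a' ∨ b') ∧
      ∀ Δ (a b : Prop), C.Cfg Q X Δ a b → C.Cfg Q ⊤ (Δ + Δ') (a ∨ a') (b ∨ b') := by
  obtain ⟨Δ', a', b', h1, h2, hY⟩ := balE hQ hs (C.iv_pp iv_top iX) (nX.pp C.isRefl le_top hN)
  refine ⟨Δ', a', b', h1, h2, fun Δ a b h => ?_⟩
  have := h.sup hQ hY iX (C.iv_pp iv_top iX) nX fun x hx y hy => hy.2 x hx
  rwa [nX.sup_pp C.isRefl le_top] at this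

theorem fin1 (hQ : C.QC Q) (hN : ND C.B ⊤) (hp : ∀ Δ a b, C.Cfg Q ⊤ Δ a b → Even Δ)
    {X : Submodule F V} (iX : Iv R X) (nX : ND C.B X) {Δ : ℤ} (hΔ : Δ = 0 ∨ Δ = 1)
    (h : C.Cfg Q X Δ True True) : C.Cfg Q ⊤ 0 True True := by
  obtain ⟨Δ', a', b', h1, -, h3⟩ := complete hQ hN (s := -1) (Or.inr rfl) iX nX
  have h4 := h3 _ _ _ h
  obtain ⟨m, hm⟩ := hp _ _ _ h4
  exact h4.mono (by omega) Or.inl Or.inl

theorem fin2 (hQ : C.QC Q) (hN : ND C.B ⊤) (hp : ∀ Δ a b, C.Cfg Q ⊤ Δ a b → Even Δ)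
    {X : Submodule F V} (iX : Iv R X) (nX : ND C.B X) {a b : Prop} (hab : a ∨ b)
    (h : C.Cfg Q X 0 a b) (h0 : pp C.B ⊤ X ≠ ⊥) : C.Cfg Q ⊤ 0 True True := by
  obtain ⟨Δ', a', b', h1, h2, h3⟩ := complete hQ hN (s := 1) (Or.inl rfl) iX nX
  have h4 := h3 _ _ _ h
  have h5 := h3 _ _ _ (h.shift hQ iX)
  obtain ⟨m, hm⟩ := hp _ _ _ h4
  have := h2 h0
  by_cases h6 : (a ∨ a') ∧ (b ∨ b')
  · exact h4.mono (by omega) (fun _ => h6.1) fun _ => h6.2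
  · exact h5.mono (by omega) (fun _ => by tauto) fun _ => by tauto

omit [CharP F 2] [Finite F] [Finite R] in
theorem eq_top_of_pp {X : Submodule F V} (nX : ND C.B X) (h : pp C.B ⊤ X = ⊥) : X = ⊤ := by
  have := nX.sup_pp C.isRefl (W := ⊤) le_top
  rwa [h, sup_bot_eq] at this

theorem cfg_main (hQ : C.QC Q) (hN : ND C.B ⊤) (hn : 5 ≤ finrank F V)
    (hp : ∀ Δ a b, C.Cfg Q ⊤ Δ a b → Even Δ) : C.Cfg Q ⊤ 0 True True := by
  have h0 : (⊤ : Submodule F V) ≠ ⊥ := fun h => by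
    have := finrank_top F V
    rw [h, finrank_bot] at this
    omega
  rcases C.exists_irr iv_top h0 with ⟨e, he, x, hx, hx0, hx1⟩ | ⟨h, hh, hc, x, hx, hx0, hx1⟩
  swap
  · obtain ⟨W', -, hW', hN', k, h1, h2, -⟩ := C.prim iv_top hN (u := 1)
      (by rw [C.bar_aeval, one_mul]) hx hx0 hx1
    obtain ⟨v, hv, r, hr⟩ := C.exists_B0 hW' hN' hc h1 h2
    have nX := C.nd_B0 hh hc (h1 v hv) hr
    by_cases h3 : pp C.B ⊤ (cyc F R v) = ⊥
    · have h4 := eq_top_of_pp nX h3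
      obtain ⟨-, -, h5⟩ := cfg_B0_big hQ hh hc (h1 v hv) hr (by rw [h4, finrank_top]; omega)
      rwa [h4] at h5
    · exact fin2 hQ hN hp (iv_cyc v) nX (N1_or_N2 hr) (cfg_B0 hQ hc (h1 v hv) nX) h3
  obtain rfl := eq_one_two he
  obtain ⟨W', -, hW', hN', k, h1, ⟨y, hy, hy0⟩, hmax⟩ :=
    C.prim iv_top hN (C.bar_N he) hx hx0 hx1
  by_cases h3 : ∀ x ∈ W', C.B x (C.N 1 ^ k • x) = 0
  · obtain ⟨u, hu, hb⟩ := C.exists_B2 hW' hN' h1 hy hy0 h3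
    obtain ⟨u, -, v, -, hb, a, b, hab, hk, hc⟩ := cfg_W hQ hW' hu hy hb
    by_cases h3 : pp C.B ⊤ (cyc F R u ⊔ cyc F R v) = ⊥
    · have h4 := eq_top_of_pp hb.nd h3
      have h5 := Submodule.finrank_add_le_finrank_add_finrank (cyc F R u) (cyc F R v)
      have h6 := C.finrank_cyc_le_N hb.hu
      have h7 := C.finrank_cyc_le_N hb.hv
      rw [h4] at hc h5
      rw [finrank_top] at h5
      have := hk (by omega)
      exact hc.mono rfl (fun _ => this.1) fun _ => this.2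
    · exact fin2 hQ hN hp ((iv_cyc u).sup (iv_cyc v)) hb.nd hab hc h3
  push Not at h3
  obtain ⟨v, hv, hv'⟩ := h3
  have nX := C.nd_B1 (h1 v hv) hv'
  have cX := cfg_B1 hQ (h1 v hv) hv'
  have hY0 : pp C.B ⊤ (cyc F R v) ≠ ⊥ := fun h => by
    rw [eq_top_of_pp nX h] at cX
    exact absurd (hp _ _ _ cX) (by decide)
  rcases exists_block_two hQ (C.iv_pp iv_top (iv_cyc v)) (nX.pp C.isRefl le_top hN) hY0 with
    ⟨l, w, hw, h4, h5⟩ | ⟨Z, h4, -, iZ, nZ, a, b, hab, cZ⟩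
  swap
  · refine fin2 hQ hN hp iZ nZ hab cZ fun h => ?_
    have : v ∈ pp C.B ⊤ Z := ⟨trivial, fun z hz => C.isRefl _ _ ((h4 hz).2 v (self_mem_cyc v))⟩
    rw [h, Submodule.mem_bot] at this
    rw [this] at hv'; simp at hv'
  have cZ := cfg_B1 hQ h4 h5
  have orth : ∀ x ∈ cyc F R v, ∀ y ∈ cyc F R w, C.B x y = 0 := fun x hx y hy =>
    ((C.iv_pp iv_top (iv_cyc v)).cyc_le hw hy).2 x hx
  by_cases h6 : (C.N1 v v ∨ C.N2 w w) ∧ (C.N2 v v ∨ C.N1 w w)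
  · exact fin1 hQ hN hp ((iv_cyc v).sup (iv_cyc w)) (nX.sup C.isRefl (C.nd_B1 h4 h5) orth)
      (Or.inl rfl) ((cX.sup hQ (cZ.shift hQ (iv_cyc w)) (iv_cyc v) (iv_cyc w) nX orth).mono
        (by simp) (fun _ => h6.1) fun _ => h6.2)
  have hT : ∀ x : R, C.B (v + w) (x • (v + w)) = C.B v (x • v) + C.B w (x • w) := fun x => by
    rw [smul_add, map_add, map_add, LinearMap.add_apply, LinearMap.add_apply,
      orth v (self_mem_cyc v) _ (smul_mem_cyc x w),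
      C.isRefl _ _ (orth _ (smul_mem_cyc x v) w (self_mem_cyc w)), add_zero, zero_add]
  have hw1 := h1 w (hmax w trivial _ h4)
  have a1 := N1_or_N2 hv'
  have a2 := N1_or_N2 h5
  have hvw : C.N 1 ^ (k + 1) • (v + w) = 0 := by rw [smul_add, h1 v hv, hw1, add_zero]
  have key : C.B w (C.N 1 ^ k • w) = 0 ∧ C.N1 (v + w) (v + w) ∧ C.N2 (v + w) (v + w) := by
    by_cases h7 : C.N1 v v ∨ C.N2 w w
    · have b1 : ¬ C.N2 v v := by tauto
      have b2 : ¬ C.N1 w w := by tauto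
      obtain ⟨r, hr⟩ := a1.resolve_right b1
      obtain ⟨r', hr'⟩ := a2.resolve_left b2
      simp only [N1, N2, not_exists, not_not] at b1 b2
      refine ⟨?_, ⟨r, by rwa [hT, b2, add_zero]⟩, ⟨r', by rwa [hT, b1, zero_add]⟩⟩
      rcases hQ.V_class k with ⟨s, hs⟩ | ⟨s, hs⟩
      · rw [hs w hw1, b2]
      · exact absurd (by rw [hs v (h1 v hv), b1]) hv'
    · have b1 : ¬ C.N1 v v := by tauto
      have b2 : ¬ C.N2 w w := by tauto
      obtain ⟨r, hr⟩ := a1.resolve_left b1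
      obtain ⟨r', hr'⟩ := a2.resolve_right b2
      simp only [N1, N2, not_exists, not_not] at b1 b2
      refine ⟨?_, ⟨r', by rwa [hT, b1, zero_add]⟩, ⟨r, by rwa [hT, b2, add_zero]⟩⟩
      rcases hQ.V_class k with ⟨s, hs⟩ | ⟨s, hs⟩
      · exact absurd (by rw [hs v (h1 v hv), b1]) hv'
      · rw [hs w hw1, b2]
  have hvw' : C.B (v + w) (C.N 1 ^ k • (v + w)) ≠ 0 := by rwa [hT, key.1, add_zero]
  exact fin1 hQ hN hp (iv_cyc _) (C.nd_B1 hvw hvw') (Or.inr rfl)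
    ((cfg_B1 hQ hvw hvw').mono rfl (fun _ => key.2.1) fun _ => key.2.2)

end Ctx

open H12 H66

theorem rkO_add_fx {F V : Type*} [Field F] [AddCommGroup V] [Module F V] [FiniteDimensional F V]
    {Q : QuadraticForm F V} (σ : O Q) : rkO σ + fx ⊤ (σ.1 : V →ₗ[F] V) = finrank F V := by
  have := LinearMap.finrank_range_add_finrank_ker (nO σ)
  have e : eig ⊤ (σ.1 : V →ₗ[F] V) 1 = LinearMap.ker (nO σ) := by
    ext x
    rw [mem_eig_one, LinearMap.mem_ker, nO_apply, sub_eq_zero]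
    simp
  rw [← this, rkO, fx, e]

/-- Factorisation of an element of `Ω` in characteristic two. -/
theorem exists_factor_two {F V : Type*} [Field F] [AddCommGroup V] [Module F V] [CharP F 2]
    [Fintype F] [FiniteDimensional F V] {Q : QuadraticForm F V} (hQ : Nondeg Q)
    (hn : 5 ≤ finrank F V) {g : O Q} (hg : g ∈ Om Q) :
    ∃ σ₁ σ₂ : O Q, σ₁ * σ₁ = 1 ∧ σ₂ * σ₂ = 1 ∧ g = σ₁ * σ₂ ∧ rkO σ₁ = rkO σ₂ ∧ ¬ altO σ₁ ∧
      ¬ altO σ₂ := by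
  classical
  obtain ⟨R, _, _, _, _, _, C, hB, hε, ht⟩ := exists_ctx (polarBilin Q) (ε := 1) (by simp)
    (fun x y => by simp [polar_comm]) g.1 (O.map_B g)
  have hC : C.QC Q := ⟨fun x y => by rw [hB]; rfl, fun x => by rw [ht, O.map_Q], hε⟩
  have hG := good_of_finrank_ne hQ (by omega)
  obtain ⟨σ, hσ, hq, h1, h2, h3⟩ := Ctx.cfg_main hC (hB ▸ nd_top hQ) hn (by
    rintro Δ a b ⟨σ, hσ, hq, h1, -, -⟩
    obtain ⟨σ₁, σ₂, h₁, h₂, rfl, e1, e2⟩ := hσ.exists_O ht fun x => hq x trivial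
    have r1 := rkO_add_fx σ₁
    have r2 := rkO_add_fx σ₂
    rw [← e2] at h1
    rw [← e1] at h1
    have := ((mem_Om_iff hQ hG _).mp hg).1
    rw [map_mul, dk_apply, dk_apply, mov_eq_range, mov_eq_range, ← pow_add,
      neg_one_pow_eq_one_iff_even (by decide)] at this
    obtain ⟨m, hm⟩ := this
    simp only [rkO] at r1 r2
    exact ⟨(m : ℤ) - finrank F (LinearMap.range (nO σ₁)), by omega⟩)
  obtain ⟨σ₁, σ₂, h₁, h₂, rfl, e1, e2⟩ := hσ.exists_O ht fun x => hq x trivial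
  have r1 := rkO_add_fx σ₁
  have r2 := rkO_add_fx σ₂
  rw [← e2] at h1 h3
  rw [← e1] at h1 h2
  have key : ∀ τ : O Q, C.NA ⊤ (τ.1 : V →ₗ[F] V) → ¬ altO τ := by
    rintro τ ⟨x, -, hx⟩ ha
    have := ha x
    rw [nO_apply, polar_sub_right, polar_self_two, sub_zero] at this
    exact hx (by rw [hC.hB]; exact this)
  exact ⟨σ₁, σ₂, h₁, h₂, rfl, by omega, key _ (h2 trivial), key _ (h3 trivial)⟩

end H37.Ore
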