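import Mathlib
import Cfsg.Agent.Base
import Cfsg.Agent.Lib.Ore.EvenBal

/-! Commutators in `Ω` in characteristic two. -/

set_option autoImplicit false

namespace H37.Ore

open Module QuadraticMap H12 H66

variable {F V : Type*} [Field F] [AddCommGroup V] [Module F V] {Q : QuadraticForm F V}

theorem exists_rep [FiniteDimensional F V] (hQ : Nondeg Q) (l : V →ₗ[F] F) :
    ∃ c, ∀ x, polar Q x c = l x := by
  obtain ⟨c, -, hc⟩ := rep_pair (B := polarBilin Q) (X := ⊤) (Y := ⊤) (nd_top hQ)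
    (fun y _ h => hQ y fun x => by rw [polar_comm]; exact h x trivial) l
  exact ⟨c, fun x => by rw [polar_comm]; exact hc x trivial⟩

theorem exists_values [FiniteDimensional F V] (hQ : Nondeg Q) {ι : Type*} [Fintype ι] (x : ι → V)
    (a : ι → F) (h : ∀ c : ι → F, ∑ i, c i • x i = 0 → ∑ i, c i * a i = 0) :
    ∃ v, ∀ i, polar Q v (x i) = a i := by
  classical
  obtain ⟨σ, hσ⟩ := exists_factor (Fintype.linearCombination F x)
    (Fintype.linearCombination F a) (by simpa [Fintype.linearCombination_apply] using h)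
  obtain ⟨v, hv⟩ := exists_rep hQ σ
  refine ⟨v, fun i => ?_⟩
  have := hσ (Pi.single i 1)
  rw [Fintype.linearCombination_apply_single, Fintype.linearCombination_apply_single, one_smul,
    one_smul] at this
  rw [polar_comm, hv, this]

theorem exists_Q_ne_shift [FiniteDimensional F V] (hQ : Nondeg Q) {T : Submodule F V} (v : V)
    (h1 : 2 * finrank F T ≤ finrank F V)
    (h2 : 2 * finrank F T = finrank F V → ∃ m ∈ T, Q m + polar Q v m ≠ 0) :
    ∃ d, (∀ x ∈ T, polar Q x d = 0) ∧ Q (v + d) ≠ 0 := by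
  by_contra H
  push Not at H
  let D := pp (polarBilin Q) ⊤ T
  have hD : ∀ d ∈ D, Q (v + d) = 0 := fun d hd => H d hd.2
  have h0 : Q v = 0 := by simpa using hD 0 D.zero_mem
  have h3 : ∀ d ∈ D, Q d + polar Q v d = 0 := fun d hd => by
    have := hD d hd
    rwa [Q_add, h0, zero_add] at this
  have h4 : D ≤ pp (polarBilin Q) ⊤ D := fun d hd => ⟨trivial, fun d' hd' => by
    have := h3 _ (D.add_mem hd' hd)
    rw [Q_add, polar_add_right] at this
    change polar Q d' d = 0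
    linear_combination this - h3 d hd - h3 d' hd'⟩
  have h5 : T ≤ pp (polarBilin Q) ⊤ D := fun x hx =>
    ⟨trivial, fun d hd => polarBilin_refl Q _ _ (hd.2 x hx)⟩
  have e1 := (nd_top hQ).finrank_pp' (polarBilin_refl Q) (X := T) le_top
  have e2 := (nd_top hQ).finrank_pp' (polarBilin_refl Q) (X := D) le_top
  have e3 := Submodule.finrank_mono h4
  rw [finrank_top] at e1 e2
  change _ + finrank F D = _ at e1
  obtain ⟨m, hm, hm'⟩ := h2 (by omega)
  have e4 : D = pp (polarBilin Q) ⊤ D := Submodule.eq_of_le_of_finrank_eq h4 (by omega)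
  exact hm' (h3 m (e4 ▸ h5 hm))

variable [CharP F 2]

/-- Characteristic vector of an involution. -/
def IsChar (σ : O Q) (c : V) : Prop := ∀ x, polar Q x (nO σ x) = polar Q x c ^ 2

theorem exists_isChar [Finite F] [FiniteDimensional F V] (hQ : Nondeg Q) {σ : O Q}
    (h : σ * σ = 1) : ∃ y, IsChar σ (nO σ y) := by
  have hinj : ∀ a b : F, a ^ 2 = b ^ 2 → a = b := fun a b h => frobenius_inj F 2 h
  choose r hr using exists_sq_eq_of_two_eq_zero (F := F) CharTwo.two_eq_zero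
  have hs := sqZ_nO h
  have hadj : ∀ x y, polar Q (nO σ x) y = polar Q x (nO σ y) := hs.adj
  let l : V →ₗ[F] F :=
    { toFun := fun v => r (polar Q v (nO σ v))
      map_add' := fun u v => hinj _ _ (by
        rw [CharTwo.add_sq, hr, hr, hr, map_add, polar_add_left, polar_add_right, polar_add_right,
          ← hadj v u, polar_comm Q (nO σ v) u]
        linear_combination polar Q u (nO σ v) * CharTwo.two_eq_zero (R := F))
      map_smul' := fun a v => hinj _ _ (by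
        rw [RingHom.id_apply, smul_eq_mul, mul_pow, hr, hr, map_smul, B_smul_left, B_smul_right]
        ring) }
  obtain ⟨c, hc⟩ := exists_rep hQ l
  have hc' : IsChar σ c := fun x => by rw [hc]; exact (hr _).symm
  have h1 : LinearMap.range (nO σ) ≤ pp (polarBilin Q) ⊤ (LinearMap.ker (nO σ)) := by
    rintro _ ⟨x, rfl⟩
    refine ⟨trivial, fun y hy => ?_⟩
    change polar Q y (nO σ x) = 0
    rw [← hadj, show nO σ y = 0 from hy, polar_zero_left]
  have e1 := (nd_top hQ).finrank_pp' (polarBilin_refl Q) (X := LinearMap.ker (nO σ)) le_top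
  have e2 := LinearMap.finrank_range_add_finrank_ker (nO σ)
  rw [finrank_top] at e1
  have e3 := Submodule.eq_of_le_of_finrank_eq h1 (by omega)
  obtain ⟨y, hy⟩ : c ∈ LinearMap.range (nO σ) := by
    rw [e3]
    refine ⟨trivial, fun y hy => ?_⟩
    have := hc' y
    rw [show nO σ y = 0 from hy, polar_zero_right] at this
    exact pow_eq_zero_iff two_ne_zero |>.mp this.symm
  exact ⟨y, hy ▸ hc'⟩

theorem refl_mul_apply {σ : O Q} {w : V} (hw : σ.1 w = w) (h1 : Q w = 1) (x : V) :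
    nO (refl Q w * σ) x = nO σ x + polar Q x w • w := by
  rw [nO_apply, nO_apply, O.mul_apply, refl_apply, h1, inv_one, one_mul]
  conv_lhs => rw [← hw, O.map_B, hw]
  rw [sub_eq_add_neg (σ.1 x), ← neg_smul, CharTwo.neg_eq]; abel

omit [CharP F 2] in
theorem refl_comm {σ : O Q} {w : V} (hw : σ.1 w = w) : σ * refl Q w = refl Q w * σ := by
  have := refl_conj σ w
  rwa [hw, mul_inv_eq_iff_eq_mul] at this

omit [CharP F 2] in
theorem refl_mul_sq {σ : O Q} (h : σ * σ = 1) {w : V} (hw : σ.1 w = w) :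
    refl Q w * σ * (refl Q w * σ) = 1 := by
  rw [mul_assoc, ← mul_assoc σ, refl_comm hw, mul_assoc, h, mul_one, refl_mul_self]

theorem IsChar.step {σ : O Q} {c w : V} (hc : IsChar σ c) (hw : σ.1 w = w) (h1 : Q w = 1) :
    IsChar (refl Q w * σ) (c + w) := fun x => by
  rw [refl_mul_apply hw h1, polar_add_right, polar_add_right, hc, B_smul_right, CharTwo.add_sq]
  ring

theorem fix_nO {σ : O Q} (h : σ * σ = 1) (x : V) : σ.1 (nO σ x) = nO σ x :=
  sub_eq_zero.mp ((sqZ_nO h).sq x)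

theorem IsChar.Q_eq [FiniteDimensional F V] (hQ : Nondeg Q) (hG : Good Q) {σ : O Q}
    (h : σ * σ = 1) {y : V} (hc : IsChar σ (nO σ y)) (ho : Odd (rkO σ)) : Q (nO σ y) = 1 := by
  have h1 : Q (nO σ y) = Q (nO σ y) ^ 2 := by
    conv_lhs => rw [Q_nO, hc, ← Q_nO]
  by_contra h2
  have h3 : Q (nO σ y) = 0 := by
    by_contra h3
    exact h2 (mul_left_cancel₀ h3 (by linear_combination -h1))
  have alt : ∀ τ : O Q, τ * τ = 1 → IsChar τ 0 → dk hQ hG τ = 1 := fun τ hτ hc =>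
    (dk_eq_one_iff_rkO hQ hG τ).mpr (even_rkO_of_altO hQ hτ fun x => by rw [hc]; simp)
  have hd : dk hQ hG σ ≠ 1 := fun h4 =>
    (Nat.not_even_iff_odd.mpr ho) ((dk_eq_one_iff_rkO hQ hG σ).mp h4)
  by_cases h0 : nO σ y = 0
  · exact hd (alt σ h (h0 ▸ hc))
  obtain ⟨z, hz⟩ := hQ.exists_B_eq h0 1
  have hw : Q (nO σ z) = 1 := by rw [Q_nO, hc, polar_comm, hz, one_pow]
  have h4 := hc.step (fix_nO h z) hw
  have ho' : polar Q (nO σ y) (nO σ z) = 0 := (sqZ_nO h).orth y z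
  have h5 : Q (nO σ y + nO σ z) = 1 := by rw [Q_add, h3, hw, ho']; ring
  have h6 : (refl Q (nO σ z) * σ).1 (nO σ y + nO σ z) = nO σ y + nO σ z := by
    rw [O.mul_apply, map_add, fix_nO h, fix_nO h, refl_apply_of_orth]
    rw [polar_add_left, ho', polar_self_two, add_zero]
  have h7 := alt _ (refl_mul_sq (refl_mul_sq h (fix_nO h z)) h6) (by
    have := h4.step h6 h5
    rwa [add_self_two (F := F)] at this)
  rw [map_mul, map_mul, dk_refl hQ hG (by rw [h5]; exact one_ne_zero),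
    dk_refl hQ hG (by rw [hw]; exact one_ne_zero)] at h7
  exact hd (by simpa using h7)

theorem exists_sing_range [FiniteDimensional F V] {σ : O Q} {y : V}
    (hc : IsChar σ (nO σ y)) (h1 : Q (nO σ y) = 1) (hr : 3 ≤ rkO σ) (p : V) :
    ∃ z, polar Q z (nO σ y) = 0 ∧ ∀ a : F, nO σ z ≠ a • p := by
  by_contra H
  push Not at H
  have h2 : LinearMap.range (nO σ) ≤ Submodule.span F {nO σ y, p} := by
    rintro _ ⟨x, rfl⟩
    obtain ⟨a, ha⟩ := H (x - polar Q x (nO σ y) • y) (by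
      rw [polar_sub_left, B_smul_left, ← Q_nO, h1, mul_one, sub_self])
    rw [map_sub, map_smul, sub_eq_iff_eq_add] at ha
    rw [ha]
    exact Submodule.add_mem _ (Submodule.smul_mem _ _ (Submodule.subset_span (by simp)))
      (Submodule.smul_mem _ _ (Submodule.subset_span (by simp)))
  have h3 := Submodule.finrank_mono h2
  have h4 : finrank F (Submodule.span F {nO σ y, p}) ≤ 2 := by
    classical
    have := finrank_span_finset_le_card (R := F) ({nO σ y, p} : Finset V)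
    rw [Set.finrank, Finset.coe_pair] at this
    exact this.trans Finset.card_le_two
  rw [rkO] at hr
  omega

theorem exists_four [FiniteDimensional F V] (hQ : Nondeg Q) (hn : 8 ≤ finrank F V)
    {c₁ c₂ m₁ m₂ : V} (q₁ : Q c₁ = 1) (q₂ : Q c₂ = 1) (p₁ : Q m₁ = 0) (p₂ : Q m₂ = 0)
    (o₁ : polar Q c₁ m₁ = 0) (o₂ : polar Q c₂ m₂ = 0)
    (h : (m₁ = 0 ∧ m₂ = 0) ∨ ((∀ a : F, m₁ ≠ a • (c₁ + c₂)) ∧ ∀ a : F, m₂ ≠ a • (c₁ + c₂))) :
    ∃ v, Q v ≠ 0 ∧ polar Q v c₁ = 1 ∧ polar Q v c₂ = 1 ∧ (m₁ ≠ 0 → polar Q v m₁ ≠ 0) ∧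
      (m₂ ≠ 0 → polar Q v m₂ ≠ 0) := by
  have rel : ∀ a b e f : F, a • c₁ + b • c₂ + e • m₁ + f • m₂ = 0 → a = b := by
    intro a b e f hr
    have h1 : a • c₁ + e • m₁ = -(b • c₂ + f • m₂) := by
      linear_combination (norm := module) hr
    have h2 := congrArg Q h1
    rw [QuadraticMap.map_neg, Q_add, Q_add, Q_smul, Q_smul, Q_smul, Q_smul, B_smul_left,
      B_smul_left, B_smul_right, B_smul_right, q₁, q₂, p₁, p₂, o₁, o₂] at h2
    exact frobenius_inj F 2 (by simpa [frobenius_def] using h2)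
  obtain ⟨l₁, l₂, hl₁, hl₂, hl⟩ : ∃ l₁ l₂ : F, (m₁ ≠ 0 → l₁ ≠ 0) ∧ (m₂ ≠ 0 → l₂ ≠ 0) ∧
      ∀ a e f : F, a • (c₁ + c₂) + e • m₁ + f • m₂ = 0 → e * l₁ + f * l₂ = 0 := by
    rcases h with h | h
    · exact ⟨0, 0, fun h' => absurd h.1 h', fun h' => absurd h.2 h', by simp⟩
    have z₁ : ∀ a e : F, a • (c₁ + c₂) + e • m₁ = 0 → e = 0 := fun a e he => by
      by_contra h0
      refine h.1 (-a / e) ?_
      rw [← inv_smul_smul₀ h0 m₁, eq_neg_of_add_eq_zero_right he]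
      match_scalars <;> field_simp
    have z₂ : ∀ a e : F, a • (c₁ + c₂) + e • m₂ = 0 → e = 0 := fun a e he => by
      by_contra h0
      refine h.2 (-a / e) ?_
      rw [← inv_smul_smul₀ h0 m₂, eq_neg_of_add_eq_zero_right he]
      match_scalars <;> field_simp
    by_cases hx : ∃ a e f : F, a • (c₁ + c₂) + e • m₁ + f • m₂ = 0 ∧ (e ≠ 0 ∨ f ≠ 0)
    · obtain ⟨a, e, f, h1, h2⟩ := hx
      have he : e ≠ 0 := by
        rintro rfl
        exact (h2.resolve_left (by simp)) (z₂ a f (by simpa using h1))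
      have hf : f ≠ 0 := by
        rintro rfl
        exact he (z₁ a e (by simpa using h1))
      refine ⟨f, -e, fun _ => hf, fun _ => neg_ne_zero.mpr he, fun a' e' f' h3 => ?_⟩
      have := z₁ (f * a' - f' * a) (f * e' - f' * e) (by
        linear_combination (norm := module) f • h3 - f' • h1)
      linear_combination this
    · push Not at hx
      exact ⟨1, 1, by simp, by simp, fun a e f h1 => by simp [(hx a e f h1).1, (hx a e f h1).2]⟩
  obtain ⟨v, hv⟩ := exists_values hQ ![c₁, c₂, m₁, m₂] ![1, 1, l₁, l₂] (fun c hc => by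
    simp only [Fin.sum_univ_four, Matrix.cons_val_zero, Matrix.cons_val_one, Matrix.cons_val,
      mul_one] at hc ⊢
    have h1 := rel _ _ _ _ hc
    have h2 := hl (c 0) (c 2) (c 3) (by rw [smul_add, ← hc, ← h1])
    rw [← h1, CharTwo.add_self_eq_zero, zero_add, h2])
  have v0 : polar Q v c₁ = 1 := hv 0
  have v1 : polar Q v c₂ = 1 := hv 1
  have v2 : polar Q v m₁ = l₁ := hv 2
  have v3 : polar Q v m₂ = l₂ := hv 3
  have hT : finrank F (Submodule.span F (Set.range ![c₁, c₂, m₁, m₂])) ≤ 4 :=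
    finrank_range_le_card (R := F) ![c₁, c₂, m₁, m₂]
  obtain ⟨d, hd, hd'⟩ := exists_Q_ne_shift hQ (T := Submodule.span F (Set.range ![c₁, c₂, m₁, m₂]))
    v (by omega) (fun h1 => by
      refine ⟨m₁, Submodule.subset_span ⟨2, rfl⟩, ?_⟩
      rw [p₁, zero_add, v2]
      refine hl₁ fun h0 => ?_
      have : Submodule.span F (Set.range ![c₁, c₂, m₁, m₂]) ≤
          Submodule.span F (Set.range ![c₁, c₂, m₂]) := by
        rw [Submodule.span_le]
        rintro _ ⟨i, rfl⟩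
        fin_cases i
        · exact Submodule.subset_span ⟨0, rfl⟩
        · exact Submodule.subset_span ⟨1, rfl⟩
        · simp [h0]
        · exact Submodule.subset_span ⟨2, rfl⟩
      have h2 := Submodule.finrank_mono this
      have h3 : finrank F (Submodule.span F (Set.range ![c₁, c₂, m₂])) ≤ 3 :=
        finrank_range_le_card (R := F) ![c₁, c₂, m₂]
      omega)
  have hd0 : ∀ i, polar Q d (![c₁, c₂, m₁, m₂] i) = 0 := fun i => by
    rw [polar_comm]; exact hd _ (Submodule.subset_span ⟨i, rfl⟩)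
  have d0 : polar Q d c₁ = 0 := hd0 0
  have d1 : polar Q d c₂ = 0 := hd0 1
  have d2 : polar Q d m₁ = 0 := hd0 2
  have d3 : polar Q d m₂ = 0 := hd0 3
  refine ⟨v + d, hd', ?_, ?_, ?_, ?_⟩ <;> rw [polar_add_left]
  · rw [v0, d0, add_zero]
  · rw [v1, d1, add_zero]
  · rwa [v2, d2, add_zero]
  · rwa [v3, d3, add_zero]

theorem pair_ind {v w : V} (h : polar Q v w = 1) {a b : F} (h1 : polar Q v (a • v + b • w) = 0)
    (h2 : polar Q w (a • v + b • w) = 0) : a = 0 ∧ b = 0 := by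
  simp only [polar_add_right, B_smul_right, polar_self_two, polar_comm Q w v, h] at h1 h2
  exact ⟨by simpa using h2, by simpa using h1⟩

theorem nd_pair {v w : V} (h : polar Q v w = 1) :
    ND (polarBilin Q) (Submodule.span F {v, w}) := by
  intro x hx hx'
  obtain ⟨a, b, rfl⟩ := Submodule.mem_span_pair.mp hx
  obtain ⟨rfl, rfl⟩ := pair_ind h (polarBilin_refl Q _ _ (hx' v (Submodule.subset_span (by simp))))
    (polarBilin_refl Q _ _ (hx' w (Submodule.subset_span (by simp))))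
  simp

theorem conj_fix_pair [Finite F] [FiniteDimensional F V] (hQ : Nondeg Q) {τ₁ τ₂ : O Q}
    (h₁ : τ₁ * τ₁ = 1) (h₂ : τ₂ * τ₂ = 1) (hr : rkO τ₁ = rkO τ₂) (ha : altO τ₁ ↔ altO τ₂)
    {v w₁ w₂ : V} (f₁ : nO τ₁ v = 0) (f₂ : nO τ₂ v = 0) (g₁ : nO τ₁ w₁ = 0) (g₂ : nO τ₂ w₂ = 0)
    (b₁ : polar Q v w₁ = 1) (b₂ : polar Q v w₂ = 1) (hq : Q w₂ = Q w₁) :
    ∃ x : O Q, x * τ₁ * x⁻¹ = τ₂ ∧ x.1 v = v ∧ x.1 w₁ = w₂ := by
  obtain ⟨l, x, y, h1, h2, h3, h4, h5⟩ := (sqZ_nO h₁).exists_families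
    (fun x y => polar_comm Q x y) (nondeg_iff.mp hQ).1 (sqZ_nO h₂) hr ha
  have orth : ∀ {τ : O Q} (_ : τ * τ = 1) {u : V} (_ : nO τ u = 0) (z : V),
      polar Q (nO τ z) u = 0 := fun h u hu z => by
    have := (sqZ_nO h).adj z u
    rwa [hu, map_zero] at this
  have li : ∀ {τ : O Q} (_ : τ * τ = 1) {w : V} {x : Fin l → V}, nO τ v = 0 → nO τ w = 0 →
      polar Q v w = 1 → LinearIndependent F (fun i => nO τ (x i)) →
      LinearIndependent F (Sum.elim (fun i => nO τ (x i)) ![v, w]) := by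
    intro τ h w x f g b hl
    refine hl.sum_type (LinearIndependent.pair_iff.mpr fun s t hst =>
      pair_ind b (by rw [hst]; simp) (by rw [hst]; simp)) ?_
    rw [Matrix.range_cons_cons_empty]
    refine ((nd_pair b).disjoint_pp (polarBilin_refl Q) ⊤).symm.mono_left ?_
    rw [Submodule.span_le]
    rintro _ ⟨i, rfl⟩
    refine ⟨trivial, fun z hz => polarBilin_refl Q _ _ ?_⟩
    obtain ⟨a, b, rfl⟩ := Submodule.mem_span_pair.mp hz
    rw [polarBilin_apply_apply, polar_add_right, B_smul_right, B_smul_right, orth h f, orth h g]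
    simp
  obtain ⟨g, hg, hgx⟩ := H28.witt_quad_family Q (nondeg_iff.mp hQ).1 _ _ (li h₁ f₁ g₁ b₁ h1)
    (li h₂ f₂ g₂ b₂ h2) (by
      rintro (i | i) (j | j) hij
      · exact ((sqZ_nO h₂).orth _ _).trans ((sqZ_nO h₁).orth _ _).symm
      · fin_cases j <;> simp [orth h₁ f₁, orth h₁ g₁, orth h₂ f₂, orth h₂ g₂]
      · fin_cases i <;> simp [polar_comm Q _ (nO _ _), orth h₁ f₁, orth h₁ g₁, orth h₂ f₂,
          orth h₂ g₂]
      · fin_cases i <;> fin_cases j <;>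
          simp [b₁, b₂, polar_comm Q w₁ v, polar_comm Q w₂ v] at hij ⊢)
    (by
      rintro (i | i)
      · simp only [Sum.elim_inl]; rw [Q_nO, Q_nO]; exact (h5 i i).symm
      · fin_cases i <;> simp [hq])
  exact ⟨⟨g, hg⟩, conj_eq_iff.mpr (SqZ.conj_of_families (nondeg_iff.mp hQ).1 (sqZ_nO h₁)
    (sqZ_nO h₂) h4 h3 h5 g (O.map_B ⟨g, hg⟩) fun i => hgx (.inl i)), hgx (.inr 0), hgx (.inr 1)⟩

theorem rkO_step [FiniteDimensional F V] (hQ : Nondeg Q) (σ : O Q) {v : V}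
    (h : Q (nO σ v) = 1) : rkO (refl Q (nO σ v) * σ) + 1 = rkO σ := by
  have h0 : Q (nO σ v) ≠ 0 := by rw [h]; exact one_ne_zero
  have := finrank_mov_refl_mul hQ (refl Q (nO σ v) * σ) h0
    (not_mem_mov_refl_mul h0 (by rw [mov_eq_range]; exact ⟨v, rfl⟩))
  rw [← mul_assoc, refl_mul_self, one_mul, mov_eq_range, mov_eq_range] at this
  exact this.symm

theorem comm_odd_rank [Fintype F] [FiniteDimensional F V] (hQ : Nondeg Q) (hn : 8 ≤ finrank F V)
    {σ₁ σ₂ : O Q} (h₁ : σ₁ * σ₁ = 1) (h₂ : σ₂ * σ₂ = 1) (hr : rkO σ₁ = rkO σ₂)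
    (ho : Odd (rkO σ₁)) : IsComm Q (σ₁ * σ₂) := by
  classical
  have hG := good_of_finrank_ne hQ (by omega)
  obtain ⟨y₁, c₁⟩ := exists_isChar hQ h₁
  obtain ⟨y₂, c₂⟩ := exists_isChar hQ h₂
  have q₁ := c₁.Q_eq hQ hG h₁ ho
  have q₂ := c₂.Q_eq hQ hG h₂ (hr ▸ ho)
  obtain ⟨z₁, z₂, a₁, a₂, hz⟩ : ∃ z₁ z₂, polar Q z₁ (nO σ₁ y₁) = 0 ∧ polar Q z₂ (nO σ₂ y₂) = 0 ∧
      ((rkO σ₁ = 1 ∧ nO σ₁ z₁ = 0 ∧ nO σ₂ z₂ = 0) ∨
        ((∀ a : F, nO σ₁ z₁ ≠ a • (nO σ₁ y₁ + nO σ₂ y₂)) ∧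
          ∀ a : F, nO σ₂ z₂ ≠ a • (nO σ₁ y₁ + nO σ₂ y₂))) := by
    by_cases h : rkO σ₁ = 1
    · exact ⟨0, 0, by simp, by simp, Or.inl ⟨h, by simp, by simp⟩⟩
    · obtain ⟨k, hk⟩ := ho
      obtain ⟨z₁, a₁, b₁⟩ := exists_sing_range c₁ q₁ (by omega) (nO σ₁ y₁ + nO σ₂ y₂)
      obtain ⟨z₂, a₂, b₂⟩ := exists_sing_range c₂ q₂ (by omega) (nO σ₁ y₁ + nO σ₂ y₂)
      exact ⟨z₁, z₂, a₁, a₂, Or.inr ⟨b₁, b₂⟩⟩
  obtain ⟨v, hv, v₁, v₂, u₁, u₂⟩ := exists_four hQ hn (m₁ := nO σ₁ z₁) (m₂ := nO σ₂ z₂) q₁ q₂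
    (by rw [Q_nO, c₁, a₁]; simp) (by rw [Q_nO, c₂, a₂]; simp) ((sqZ_nO h₁).orth _ _)
    ((sqZ_nO h₂).orth _ _) (hz.imp (fun h => h.2) id)
  have key : ∀ {σ : O Q} (_ : σ * σ = 1) {y z : V}, IsChar σ (nO σ y) →
      polar Q v (nO σ y) = 1 → polar Q z (nO σ y) = 0 →
      Q (nO σ v) = 1 ∧ polar Q v (nO σ v) = 1 ∧ nO (refl Q (nO σ v) * σ) v = 0 ∧
        nO (refl Q (nO σ v) * σ) (nO σ v) = 0 ∧
        (polar Q v (nO σ z) ≠ 0 → ¬ altO (refl Q (nO σ v) * σ)) := by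
    intro σ h y z c hv hz
    have e1 : polar Q v (nO σ v) = 1 := by rw [c, hv, one_pow]
    have e2 : Q (nO σ v) = 1 := by rw [Q_nO, e1]
    refine ⟨e2, e1, ?_, ?_, fun h3 ha => h3 ?_⟩
    · rw [refl_mul_apply (fix_nO h v) e2, e1, one_smul, add_self_two (F := F)]
    · rw [refl_mul_apply (fix_nO h v) e2, (sqZ_nO h).sq, polar_self_two]; simp
    · have := ha z
      rw [c.step (fix_nO h v) e2 z, polar_add_right, hz, zero_add,
        pow_eq_zero_iff two_ne_zero] at this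
      have h4 : polar Q (nO σ v) z = polar Q v (nO σ z) := (sqZ_nO h).adj v z
      rw [← h4, polar_comm, this]
  obtain ⟨k1, k2, k3, k4, k5⟩ := key h₁ c₁ v₁ a₁
  obtain ⟨l1, l2, l3, l4, l5⟩ := key h₂ c₂ v₂ a₂
  have r₁ := rkO_step hQ σ₁ k1
  have r₂ := rkO_step hQ σ₂ l1
  have s₁ := refl_mul_sq h₁ (fix_nO h₁ v)
  have s₂ := refl_mul_sq h₂ (fix_nO h₂ v)
  have triv : ∀ τ : O Q, rkO τ = 0 → τ = 1 := fun τ h => by
    by_contra h'
    have := rkO_pos h'
    omega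
  have hcase : (refl Q (nO σ₁ v) * σ₁ = 1 ∧ refl Q (nO σ₂ v) * σ₂ = 1) ∨
      (¬ altO (refl Q (nO σ₁ v) * σ₁) ∧ ¬ altO (refl Q (nO σ₂ v) * σ₂)) := by
    rcases hz with h | h
    · exact Or.inl ⟨triv _ (by omega), triv _ (by omega)⟩
    · exact Or.inr ⟨k5 (u₁ (by simpa using h.1 0)), l5 (u₂ (by simpa using h.2 0))⟩
  obtain ⟨x, hx, hxv, hxw⟩ := conj_fix_pair hQ s₁ s₂ (by omega) (by
    rcases hcase with h | h
    · rw [h.1, h.2]
    · tauto) k3 l3 k4 l4 k2 l2 (by rw [k1, l1])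
  have hx' : x * σ₁ = σ₂ * x := by
    have := refl_conj x (nO σ₁ v)
    rw [hxw] at this
    rw [← mul_right_inj (refl Q (nO σ₂ v)), ← mul_assoc _ σ₂, ← hx, ← this]
    group
  obtain ⟨a, ha0, ha1, ha2⟩ : ∃ a, Q a ≠ 0 ∧ σ₁.1 a = a ∧ polar Q v a = 0 := by
    obtain ⟨a, e1, e2, e3, e4⟩ : ∃ a, Q a ≠ 0 ∧ (refl Q (nO σ₁ v) * σ₁).1 a = a ∧
        polar Q v a = 0 ∧ polar Q (nO σ₁ v) a = 0 := by
      rcases hcase with h | h
      · have e1 := (nd_pair k2).finrank_pp (polarBilin_refl Q) (W := ⊤) le_top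
        have e2 : finrank F (Submodule.span F {v, nO σ₁ v}) ≤ 2 := by
          have := finrank_span_finset_le_card (R := F) ({v, nO σ₁ v} : Finset V)
          rw [Set.finrank, Finset.coe_pair] at this
          exact this.trans Finset.card_le_two
        rw [finrank_top] at e1
        obtain ⟨a, ha, ha'⟩ := univ ((nd_pair k2).pp (polarBilin_refl Q) le_top (nd_top hQ))
          (by omega) 1
        exact ⟨a, by rw [ha']; exact one_ne_zero, by rw [h.1]; rfl,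
          ha.2 _ (Submodule.subset_span (by simp)), ha.2 _ (Submodule.subset_span (by simp))⟩
      · obtain ⟨y, hy⟩ := not_forall.mp h.1
        have adj : ∀ u, polar Q u (nO (refl Q (nO σ₁ v) * σ₁) y) =
            polar Q (nO (refl Q (nO σ₁ v) * σ₁) u) y := fun u => ((sqZ_nO s₁).adj u y).symm
        exact ⟨_, by rwa [Q_nO], fix_nO s₁ y, by rw [adj, k3]; simp, by rw [adj, k4]; simp⟩
    refine ⟨a, e1, ?_, e3⟩
    have := congrArg (refl Q (nO σ₁ v)).1 e2
    rwa [O.mul_apply, refl_refl, refl_apply_of_orth (by rw [polar_comm, e4])] at this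
  obtain ⟨x', hx'1, hx'2, hx'3⟩ := exists_Om_fix hQ hG hx' (w := fun _ : Unit => v)
    (fun _ => hxv) (fun c _ => by
      obtain ⟨s, hs⟩ := exists_sq_eq_of_two_eq_zero (F := F) CharTwo.two_eq_zero (c / Q a)
      exact ⟨s • a, by rw [Q_smul, hs]; field_simp, Or.inl (by rw [map_smul, ha1]),
        fun _ => by rw [B_smul_right, ha2, mul_zero]⟩)
  refine isComm_of (z := refl Q v) h₁ hx'1 hx'2 (refl_comm (hx'3 ())).symm ?_
  rw [Om_eq_ker_dk hQ hG CharTwo.two_eq_zero, MonoidHom.mem_ker, map_mul, dk_refl hQ hG hv,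
    dk_apply, mov_eq_range, ← rkO, ho.neg_one_pow]
  simp

theorem isComm_two [Fintype F] [FiniteDimensional F V] (hQ : Nondeg Q) (hn : 8 ≤ finrank F V)
    {g : O Q} (hg : g ∈ Om Q) : IsComm Q g := by
  obtain ⟨σ₁, σ₂, h₁, h₂, rfl, hr, a₁, a₂⟩ := exists_factor_two hQ (by omega) hg
  rcases Nat.even_or_odd (rkO σ₁) with he | ho
  · have hG := good_of_finrank_ne hQ (by omega)
    obtain ⟨x, hx, hx'⟩ := exists_Om_conj_of_not_split hQ hG h₁
      ((isConj_O_iff hQ h₁ h₂).mpr ⟨hr, by tauto⟩) (by tauto)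
    exact isComm_of (z := 1) h₁ hx (mul_inv_eq_iff_eq_mul.mp hx') (by simp)
      (by rw [mul_one]; exact (mem_Om_iff_rkO hQ hG _).mpr he)
  · exact comm_odd_rank hQ hn h₁ h₂ hr ho

end H37.Ore
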