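import Mathlib
import Cfsg.Agent.Base
import Cfsg.Agent.Lib.Ore.EvenMain

/-! Even-dimensional orthogonal groups: the easy cases in odd characteristic; minus type. -/

set_option autoImplicit false

namespace H37.Ore

open Module QuadraticMap H12

variable {F V : Type*} [Field F] [AddCommGroup V] [Module F V] {Q : QuadraticForm F V}

theorem isComm_even_easy [Finite F] [FiniteDimensional F V] (hQ : Nondeg Q) (h2 : (2 : F) ≠ 0)
    (hn : 8 ≤ finrank F V) (he : Even (finrank F V))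
    (hneg : finrank F V % 4 = 0 → negO Q ∉ Om Q) {g : O Q} (hg : g ∈ Om Q) : IsComm Q g := by
  classical
  have := Fintype.ofFinite F
  have hG := good_of_two_ne_zero hQ h2
  obtain ⟨σ₁, σ₂, h₁, h₂, rfl, hd, hb⟩ := exists_balanced hQ h2 hg
  have a1 := finrank_E_add h2 h₁ (s := 1) (by simp)
  have a2 := finrank_E_add h2 h₂ (s := 1) (by simp)
  obtain ⟨m, hm⟩ := he
  rcases Nat.even_or_odd' (finrank F (E σ₁ (-1))) with ⟨k, hk | hk⟩
  swap
  · exact comm_of_odd hQ h2 (by omega) h₁ h₂ hg hd (by omega) (by omega) ⟨k, hk⟩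
  by_cases h : σ₁ ∈ Om Q
  · exact comm_of_mem hQ h2 h₁ h₂ hg hd (by omega) h
  have h3 := hneg (by omega)
  rw [← negO_mul_mul] at hg ⊢
  refine comm_of_mem hQ h2 (by rw [negO_mul_mul, h₁]) (by rw [negO_mul_mul, h₂]) hg
    (by rw [E_negO, E_negO, neg_neg]; omega) (by rw [E_negO, neg_neg]; omega) ?_
  have d1 : dk hQ hG σ₁ = 1 := by rw [dk_invol hQ hG h2 h₁, hk, pow_mul]; simp
  have d2 : dk hQ hG (negO Q) = 1 := by rw [dk_negO hQ hG h2, hm, ← two_mul, pow_mul]; simp
  rw [mem_Om_iff hQ hG] at h h3 ⊢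
  rw [map_mul, map_mul, d1, d2, H66.intUnits_ne_one fun h' => h ⟨d1, h'⟩,
    H66.intUnits_ne_one fun h' => h3 ⟨d2, h'⟩]
  simp

theorem charP_two_of (h : (2 : F) = 0) : CharP F 2 :=
  (CharP.charP_iff_prime_eq_zero Nat.prime_two).mpr (by exact_mod_cast h)

theorem isComm_minus [Fintype F] {a b : F} (hab : Aniso a b) {m : ℕ} (hm : 3 ≤ m)
    {g : O (QMinus m a b)} (hg : g ∈ Om (QMinus m a b)) : IsComm (QMinus m a b) g := by
  by_cases h2 : (2 : F) = 0
  · have := charP_two_of h2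
    exact isComm_two (nondeg_QMinus hab m) (by rw [finrank_minus]; omega) hg
  · refine isComm_even_easy (nondeg_QMinus hab m) h2 (by rw [finrank_minus]; omega)
      (by rw [finrank_minus]; exact ⟨m + 1, by ring⟩) (fun h4 => ?_) hg
    have ho : Odd (Fintype.card F) := Nat.odd_iff.mpr (card_odd_of_two_ne_zero h2)
    rw [finrank_minus] at h4
    rw [negO_mem_Om_QMinus ho hab]
    obtain ⟨k, hk⟩ : ∃ k, m + 1 = 2 * k := ⟨(m + 1) / 2, by omega⟩
    obtain ⟨r, hr⟩ := ho.pow (n := k)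
    rw [hk, pow_mul', hr, show (2 * r + 1) ^ 2 = 4 * (r ^ 2 + r) + 1 by ring]
    omega

end H37.Ore
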