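import Mathlib
import Cfsg.Agent.Base
import Cfsg.Agent.Lib.Ore.Minus

/-! A common hyperbolic plane for two conjugate involutions. -/

set_option autoImplicit false

namespace H37.Ore

open Module QuadraticMap H12

variable {F V : Type*} [Field F] [AddCommGroup V] [Module F V] {Q : QuadraticForm F V}

theorem finrank_inf_ker_add {V' : Type*} [AddCommGroup V'] [Module F V'] [FiniteDimensional F V]
    (W : Submodule F V) (a : V →ₗ[F] V') :
    finrank F ↥(W ⊓ LinearMap.ker a) + finrank F (W.map a) = finrank F W := by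
  have h := LinearMap.finrank_range_add_finrank_ker (a.domRestrict W)
  rw [LinearMap.range_domRestrict, LinearMap.ker_domRestrict] at h
  rw [← h, add_comm]
  congr 1
  rw [← Submodule.finrank_map_subtype_eq W, Submodule.map_comap_subtype]

theorem ncard_slice [Finite F] {V' : Type*} [AddCommGroup V'] [Module F V'] [FiniteDimensional F V]
    (U : Submodule F V) (φ : V →ₗ[F] V') {w : V'} {x : V} (hx : x ∈ U) (hx' : φ x = w) :
    Set.ncard {y | y ∈ U ∧ φ y = w} = Nat.card F ^ finrank F ↥(U ⊓ LinearMap.ker φ) := by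
  rw [← card_eq, ← Nat.card_coe_set_eq]
  exact Nat.card_congr
    { toFun := fun y => ⟨y.1 - x, U.sub_mem y.2.1 hx, by
        change φ _ = 0
        rw [map_sub, y.2.2, hx', sub_self]⟩
      invFun := fun y => ⟨y.1 + x, U.add_mem y.2.1 hx, by
        rw [map_add, show φ y.1 = 0 from y.2.2, hx', zero_add]⟩
      left_inv := fun y => by simp
      right_inv := fun y => by simp }

theorem slice_le [Finite F] [FiniteDimensional F V] (l₁ l₂ : V →ₗ[F] F) {U : Submodule F V} {d : ℕ}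
    (hU : finrank F U ≤ d + 2) :
    Set.ncard {y | y ∈ U ∧ (l₁.prod l₂) y = (1, 0)} ≤ Nat.card F ^ (d + 1) ∧
      ((∃ u ∈ U, l₂ u ≠ 0) → Set.ncard {y | y ∈ U ∧ (l₁.prod l₂) y = (1, 0)} ≤ Nat.card F ^ d) := by
  have hq := one_lt_q (F := F)
  by_cases h : ∃ x ∈ U, (l₁.prod l₂) x = (1, 0)
  · obtain ⟨x, hx, hx'⟩ := h
    rw [ncard_slice U _ hx hx']
    have h1 := finrank_inf_ker_add U (l₁.prod l₂)
    have hm : ((1, 0) : F × F) ∈ U.map (l₁.prod l₂) := ⟨x, hx, hx'⟩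
    constructor
    · have : finrank F (U.map (l₁.prod l₂)) ≠ 0 := by
        rw [Ne, Submodule.finrank_eq_zero]
        intro h0
        rw [h0] at hm
        simp at hm
      exact Nat.pow_le_pow_right (by omega) (by omega)
    · rintro ⟨u, hu, hu'⟩
      have : U.map (l₁.prod l₂) = ⊤ := by
        rw [eq_top_iff]
        rintro ⟨a, b⟩ -
        have := Submodule.add_mem _ (Submodule.smul_mem _ (a - b / l₂ u * l₁ u) hm)
          (Submodule.smul_mem _ (b / l₂ u) (Submodule.mem_map_of_mem (f := l₁.prod l₂) hu))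
        convert this using 1
        ext
        · simp
        · simp; field_simp
      rw [this, finrank_top] at h1
      simp only [finrank_prod, finrank_self] at h1
      exact Nat.pow_le_pow_right (by omega) (by omega)
  · have : {y | y ∈ U ∧ (l₁.prod l₂) y = (1, 0)} = ∅ := by
      ext y; simpa using fun hy hy' => h ⟨y, hy, hy'⟩
    rw [this]; simp

theorem three_le_q [Finite F] (h2 : (2 : F) ≠ 0) : 3 ≤ Nat.card F := by
  have := Fintype.ofFinite F
  have h3 := card_odd_of_two_ne_zero h2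
  have h4 := one_lt_q (F := F)
  rw [← Nat.card_eq_fintype_card] at h3
  omega

theorem exists_avoid [Finite F] [FiniteDimensional F V] (h2 : (2 : F) ≠ 0) {d : ℕ} (hd : 4 ≤ d)
    (hn : finrank F V = 2 * d) (l₁ l₂ : V →ₗ[F] F) {U₁ U₂ U₃ U₄ : Submodule F V}
    (h₁ : finrank F U₁ ≤ d + 2) (h₂ : finrank F U₂ ≤ d + 2) (h₃ : finrank F U₃ ≤ d + 2)
    (h₄ : finrank F U₄ ≤ d + 2) {x : V} (hx₁ : l₁ x = 1) (hx₂ : l₂ x = 0)
    (h : l₂ = 0 ∨ (((∃ u ∈ U₁, l₂ u ≠ 0) ∨ ∃ u ∈ U₂, l₂ u ≠ 0) ∧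
      ((∃ u ∈ U₃, l₂ u ≠ 0) ∨ ∃ u ∈ U₄, l₂ u ≠ 0))) :
    ∃ f, l₁ f = 1 ∧ l₂ f = 0 ∧ f ∉ U₁ ∧ f ∉ U₂ ∧ f ∉ U₃ ∧ f ∉ U₄ := by
  have : Finite V := Module.finite_of_finite F
  by_contra H
  push Not at H
  have hq := three_le_q h2
  obtain ⟨a1, b1⟩ := slice_le l₁ l₂ h₁
  obtain ⟨a2, b2⟩ := slice_le l₁ l₂ h₂
  obtain ⟨a3, b3⟩ := slice_le l₁ l₂ h₃
  obtain ⟨a4, b4⟩ := slice_le l₁ l₂ h₄
  have e := ncard_slice (⊤ : Submodule F V) (l₁.prod l₂) (w := (1, 0)) (x := x) trivial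
    (by simp [hx₁, hx₂])
  have e1 := finrank_inf_ker_add (⊤ : Submodule F V) (l₁.prod l₂)
  rw [finrank_top] at e1
  have hN : Set.ncard {y | y ∈ (⊤ : Submodule F V) ∧ (l₁.prod l₂) y = (1, 0)} ≤
      Set.ncard (({y | y ∈ U₁ ∧ (l₁.prod l₂) y = (1, 0)} ∪ {y | y ∈ U₂ ∧ (l₁.prod l₂) y = (1, 0)}) ∪
      ({y | y ∈ U₃ ∧ (l₁.prod l₂) y = (1, 0)} ∪ {y | y ∈ U₄ ∧ (l₁.prod l₂) y = (1, 0)})) := by
    refine Set.ncard_le_ncard (fun y hy => ?_)
    have h1 : l₁ y = 1 ∧ l₂ y = 0 := by simpa using hy.2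
    have := H y h1.1 h1.2
    by_cases c1 : y ∈ U₁
    · exact Or.inl (Or.inl ⟨c1, hy.2⟩)
    by_cases c2 : y ∈ U₂
    · exact Or.inl (Or.inr ⟨c2, hy.2⟩)
    by_cases c3 : y ∈ U₃
    · exact Or.inr (Or.inl ⟨c3, hy.2⟩)
    exact Or.inr (Or.inr ⟨this c1 c2 c3, hy.2⟩)
  have u1 := Set.ncard_union_le ({y | y ∈ U₁ ∧ (l₁.prod l₂) y = (1, 0)} ∪
    {y | y ∈ U₂ ∧ (l₁.prod l₂) y = (1, 0)})
    ({y | y ∈ U₃ ∧ (l₁.prod l₂) y = (1, 0)} ∪ {y | y ∈ U₄ ∧ (l₁.prod l₂) y = (1, 0)})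
  have u2 := Set.ncard_union_le {y | y ∈ U₁ ∧ (l₁.prod l₂) y = (1, 0)}
    {y | y ∈ U₂ ∧ (l₁.prod l₂) y = (1, 0)}
  have u3 := Set.ncard_union_le {y | y ∈ U₃ ∧ (l₁.prod l₂) y = (1, 0)}
    {y | y ∈ U₄ ∧ (l₁.prod l₂) y = (1, 0)}
  obtain ⟨c, rfl⟩ : ∃ c, d = c + 4 := ⟨d - 4, by omega⟩
  set q := Nat.card F
  have hc : 1 ≤ q ^ c := Nat.one_le_pow _ _ (by omega)
  have hd' : 1 ≤ q ^ (c + 4) := Nat.one_le_pow _ _ (by omega)
  rcases h with h | h
  · have h5 : finrank F ((⊤ : Submodule F V).map (l₁.prod l₂)) ≤ 1 := by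
      have : (⊤ : Submodule F V).map (l₁.prod l₂) ≤ Submodule.span F {((1, 0) : F × F)} := by
        rintro _ ⟨y, -, rfl⟩
        exact Submodule.mem_span_singleton.mpr ⟨l₁ y, by simp [h]⟩
      refine (Submodule.finrank_mono this).trans ?_
      simpa using finrank_span_le_card (R := F) ({((1, 0) : F × F)} : Set (F × F))
    have h6 : q ^ (c + 4 + 1) * (q ^ c * q ^ 2) ≤ 4 * q ^ (c + 4 + 1) := by
      rw [← pow_add, ← pow_add]
      refine le_trans (Nat.pow_le_pow_right (by omega) (?_ : _ ≤ finrank F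
        ↥((⊤ : Submodule F V) ⊓ LinearMap.ker (l₁.prod l₂)))) ?_ <;> omega
    have h7 : 1 ≤ q ^ (c + 4 + 1) := Nat.one_le_pow _ _ (by omega)
    have h8 : 9 ≤ q ^ c * q ^ 2 := by nlinarith
    nlinarith
  · have h5 : finrank F ((⊤ : Submodule F V).map (l₁.prod l₂)) ≤ 2 := by
      simpa using Submodule.finrank_le ((⊤ : Submodule F V).map (l₁.prod l₂))
    have h6 : q ^ (c + 4) * (q ^ c * q ^ 2) ≤ 2 * (q ^ (c + 4 + 1) + q ^ (c + 4)) := by
      rw [← pow_add, ← pow_add]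
      refine le_trans (Nat.pow_le_pow_right (by omega) (by omega : _ ≤ finrank F
        ↥((⊤ : Submodule F V) ⊓ LinearMap.ker (l₁.prod l₂)))) ?_
      rcases h with ⟨h | h, h' | h'⟩
      · have := b1 h; have := b3 h'; omega
      · have := b1 h; have := b4 h'; omega
      · have := b2 h; have := b3 h'; omega
      · have := b2 h; have := b4 h'; omega
    rw [pow_succ q (c + 4)] at h6
    have h8 : 2 * q + 3 ≤ q ^ c * q ^ 2 := by nlinarith
    nlinarith

/-- Projection onto an eigenspace. -/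
noncomputable def prj (σ : O Q) (s : F) : V →ₗ[F] V :=
  (2 : F)⁻¹ • (LinearMap.id + s • (σ.1 : V →ₗ[F] V))

theorem prj_apply (σ : O Q) (s : F) (x : V) : prj σ s x = (2 : F)⁻¹ • (x + s • σ.1 x) := rfl

theorem prj_mem {σ : O Q} (h : σ * σ = 1) {s : F} (hs : s * s = 1) (x : V) : prj σ s x ∈ E σ s := by
  rw [mem_E, prj_apply, map_smul, map_add, map_smul, sq_apply h]
  match_scalars
  · linear_combination (-2⁻¹) * hs
  · ring

theorem prj_add (h2 : (2 : F) ≠ 0) (σ : O Q) (s : F) (x : V) : prj σ s x + prj σ (-s) x = x := by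
  rw [prj_apply, prj_apply]
  match_scalars
  · field_simp; ring
  · ring

theorem prj_eq_zero (h2 : (2 : F) ≠ 0) {σ : O Q} (h : σ * σ = 1) {s : F} (hs : s * s = 1) {x : V}
    (hx : prj σ s x = 0) : x ∈ E σ (-s) := by
  rw [← prj_add h2 σ s x, hx, zero_add]
  exact prj_mem h (by simpa using hs) x

theorem prj_of_mem (h2 : (2 : F) ≠ 0) {σ : O Q} {s : F} (hs : s * s = 1) {x : V}
    (hx : x ∈ E σ s) : prj σ s x = x := by
  rw [prj_apply, mem_E.mp hx, smul_smul, hs]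
  match_scalars
  field_simp; ring

theorem B_prj (h2 : (2 : F) ≠ 0) {σ : O Q} (h : σ * σ = 1) {s : F} (hs : s * s = 1) (x y : V) :
    polar Q (prj σ s x) (prj σ s y) = 2⁻¹ * (polar Q x y + s * polar Q x (σ.1 y)) := by
  simp only [prj_apply, B_smul_left, B_smul_right, polar_add_left, polar_add_right, O.map_B,
    B_invol h, sq_apply h]
  field_simp
  linear_combination polar Q x y * hs

theorem nd_span_hyp {e f : V} (he : Q e = 0) (hef : polar Q e f ≠ 0) :
    ND (polarBilin Q) (Submodule.span F {e, f}) := by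
  intro x hx hx'
  obtain ⟨a, b, rfl⟩ := Submodule.mem_span_pair.mp hx
  have h1 := hx' e (Submodule.subset_span (by simp))
  have h3 := hx' f (Submodule.subset_span (by simp))
  simp only [polarBilin_apply_apply, polar_add_left, B_smul_left, B_self Q e, he,
    polar_comm Q f e, mul_zero, zero_add] at h1 h3
  obtain rfl := (mul_eq_zero.mp h1).resolve_right hef
  rw [zero_mul, add_zero] at h3
  obtain rfl := (mul_eq_zero.mp h3).resolve_right hef
  simp

theorem finrank_span_pair_le (x y : V) : finrank F (Submodule.span F {x, y}) ≤ 2 := by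
  classical
  have := finrank_span_finset_le_card (R := F) ({x, y} : Finset V)
  rw [Set.finrank, Finset.coe_pair] at this
  exact this.trans Finset.card_le_two

theorem comm_of_hyp [Finite F] [FiniteDimensional F V] (hQ : Nondeg Q) (h2 : (2 : F) ≠ 0)
    {σ₁ σ₂ x : O Q} (h₁ : σ₁ * σ₁ = 1) (hx : x * σ₁ = σ₂ * x) {e f : V} (h : IsHyp Q e f)
    (hxe : x.1 e = e) (hxf : x.1 f = f) (he : polar Q e (σ₁.1 e) = 0)
    (hp : 4 ≤ finrank F (E σ₁ 1)) (hm : 4 ≤ finrank F (E σ₁ (-1)))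
    (hev : Even (finrank F (E σ₁ (-1)))) : IsComm Q (σ₁ * σ₂) := by
  classical
  have := Fintype.ofFinite F
  have hG := good_of_two_ne_zero hQ h2
  obtain ⟨s, hs, hs1, hs2⟩ : ∃ s : F, (s = 1 ∨ s = -1) ∧ 4 ≤ finrank F (E σ₁ s) ∧
      polar Q (prj σ₁ s e) (prj σ₁ s f) ≠ 0 := by
    by_cases h3 : polar Q (prj σ₁ 1 e) (prj σ₁ 1 f) = 0
    · refine ⟨-1, Or.inr rfl, hm, fun h4 => ?_⟩
      rw [B_prj h2 h₁ (by simp), h.hef] at h3 h4
      have : (2 : F)⁻¹ * 2 = 0 := by linear_combination h3 + h4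
      rw [inv_mul_cancel₀ h2] at this
      exact one_ne_zero this
    · exact ⟨1, Or.inl rfl, hp, h3⟩
  have hs' : s * s = 1 := mul_self_eq_one_iff.mpr hs
  have hq : Q (prj σ₁ s e) = 0 := by
    have := B_prj h2 h₁ hs' e e
    rw [B_self, he, h.hee] at this
    exact mul_left_cancel₀ h2 (by rw [this]; simp)
  have hle : Submodule.span F {prj σ₁ s e, prj σ₁ s f} ≤ E σ₁ s := by
    rw [Submodule.span_le]
    rintro _ (rfl | rfl) <;> exact prj_mem h₁ hs' _
  have nd := nd_span_hyp hq hs2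
  have e1 := nd.finrank_pp (polarBilin_refl Q) hle
  have e2 := finrank_span_pair_le (F := F) (prj σ₁ s e) (prj σ₁ s f)
  obtain ⟨x', hx', h3, h4⟩ := exists_Om_fix hQ hG hx (w := ![e, f])
    (fun i => by fin_cases i <;> simpa) (fun c _ => by
      obtain ⟨a, ha, ha'⟩ := univ (nd.pp (polarBilin_refl Q) hle (nd_E hQ h2 h₁ hs')) (by omega) c
      have key : ∀ y, polar Q (prj σ₁ s y) a = 0 → polar Q y a = 0 := fun y hy => by
        rw [← prj_add h2 σ₁ s y, polar_add_left, hy, polar_comm,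
          E_orth h2 h₁ hs' ha.1 (prj_mem h₁ (by simpa using hs') y), add_zero]
      refine ⟨a, ha', ?_, fun i => ?_⟩
      · have := mem_E.mp ha.1
        rcases hs with rfl | rfl
        · left; simpa using this
        · right; simpa using this
      · fin_cases i
        · exact key e (ha.2 _ (Submodule.subset_span (by simp)))
        · exact key f (ha.2 _ (Submodule.subset_span (by simp))))
  have d1 : dk hQ hG σ₁ = 1 := by rw [dk_invol hQ hG h2 h₁, hev.neg_one_pow]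
  by_cases h5 : spin hQ hG σ₁ = 1
  · exact isComm_of (z := 1) h₁ hx' h3 (by simp)
      (by rw [mul_one, mem_Om_iff hQ hG]; exact ⟨d1, h5⟩)
  obtain ⟨c, -, t1, t2⟩ := H66.exists_tor_spin hQ hG h h2
  have fix : ∀ c : F, x'.1 (e + c • f) = e + c • f := fun c => by
    rw [map_add, map_smul, show x'.1 e = e from h4 0, show x'.1 f = f from h4 1]
  refine isComm_of (z := H66.tor Q e f c) h₁ hx' h3 ?_ ?_
  · rw [H66.tor, mul_assoc, ← refl_comm (fix c), ← mul_assoc, ← refl_comm (fix 1), mul_assoc]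
  · rw [mem_Om_iff hQ hG, map_mul, map_mul, d1, t1, t2, H66.intUnits_ne_one h5]
    simp

theorem lemma_H [Finite F] [FiniteDimensional F V] (hQ : Nondeg Q) (h2 : (2 : F) ≠ 0)
    {σ₁ σ₂ : O Q} (h₁ : σ₁ * σ₁ = 1) (h₂ : σ₂ * σ₂ = 1) (hg : σ₁ * σ₂ ∈ Om Q) {d : ℕ} (hd : 4 ≤ d)
    (hev : Even d) (d₁ : finrank F (E σ₁ 1) = d) (d₂ : finrank F (E σ₁ (-1)) = d)
    (d₃ : finrank F (E σ₂ (-1)) = d) {e y : V} (hy : σ₁.1 y - σ₂.1 y = e) (he : Q e = 0)
    (he₁ : polar Q e (σ₁.1 e) = 0) (he₂ : polar Q e (σ₂.1 e) = 0) (hye : polar Q y e = 0)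
    (h : (e ≠ 0 ∧ ∃ s : F, s * s = 1 ∧ e ∈ E σ₁ s ∧ e ∈ E σ₂ s) ∨
      ((∀ s : F, s * s = 1 → e ∉ E σ₁ s ∧ e ∉ E σ₂ s) ∧ ∀ l : F, σ₁.1 e - σ₂.1 e ≠ l • e)) :
    IsComm Q (σ₁ * σ₂) := by
  classical
  have := Fintype.ofFinite F
  have hG := good_of_two_ne_zero hQ h2
  have a1 := finrank_E_add h2 h₁ (s := 1) (by simp)
  have a2 := finrank_E_add h2 h₂ (s := 1) (by simp)
  obtain ⟨x₀, hx₀⟩ := exists_conj hQ hG h2 h₁ h₂ (by omega) (spin_eq_of_mem hQ hG hg)
  let δ : V →ₗ[F] V := (σ₁.1 : V →ₗ[F] V) - (σ₂.1 : V →ₗ[F] V)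
  have hδ : ∀ x, δ x = σ₁.1 x - σ₂.1 x := fun _ => rfl
  have hsym : ∀ x y, polar Q x (δ y) = polar Q (δ x) y := fun x y => by
    rw [hδ, hδ, polar_sub_right, polar_sub_left, B_invol h₁, B_invol h₂]
  have hee : polar Q e e = 0 := by rw [B_self, he, mul_zero]
  have heδ : polar Q e (δ e) = 0 := by rw [hδ, polar_sub_right, he₁, he₂, sub_self]
  have hU : ∀ T : Submodule F V, finrank F T = d →
      finrank F ↥(T ⊔ Submodule.span F {e, y}) ≤ d + 2 := fun T hT => by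
    have := Submodule.finrank_add_le_finrank_add_finrank T (Submodule.span F {e, y})
    have := finrank_span_pair_le (F := F) e y
    omega
  obtain ⟨x, hx1, hx2⟩ : ∃ x, polar Q e x = 1 ∧ polar Q (δ e) x = 0 := by
    rcases h with ⟨h0, s, -, h3, h4⟩ | h
    · obtain ⟨x, hx⟩ := hQ.exists_B_eq h0 1
      exact ⟨x, hx, by rw [hδ, mem_E.mp h3, mem_E.mp h4, sub_self, polar_zero_left]⟩
    · obtain ⟨x, hx, hx'⟩ := hQ.exists_orth_B_eq (u := δ e) (v := e) (fun c hc => by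
        have hc0 : c ≠ 0 := by
          rintro rfl
          exact (h.1 1 (by simp)).1 (by rw [hc]; simp)
        exact h.2 c⁻¹ (by rw [← hδ]; conv_rhs => rw [hc, inv_smul_smul₀ hc0])) 1
      exact ⟨x, hx', hx⟩
  obtain ⟨f₀, g1, g2, n1, n2, n3, n4⟩ := exists_avoid h2 hd (by omega) (polarBilin Q e)
    (polarBilin Q (δ e)) (hU _ d₁) (hU _ d₂) (hU (E σ₂ 1) (by omega)) (hU _ d₃) hx1 hx2 (by
      by_cases h0 : δ e = 0
      · left; rw [h0, map_zero]
      have key : ∀ {σ : O Q}, σ * σ = 1 →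
          (∃ u ∈ E σ 1 ⊔ Submodule.span F {e, y}, polarBilin Q (δ e) u ≠ 0) ∨
            ∃ u ∈ E σ (-1) ⊔ Submodule.span F {e, y}, polarBilin Q (δ e) u ≠ 0 := by
        intro σ hσ
        by_contra H
        push Not at H
        refine h0 (hQ _ fun w => ?_)
        obtain ⟨p, hp, m, hm, rfl⟩ := E_decomp h2 hσ (s := 1) (by simp) w
        rw [polar_add_right, show polar Q (δ e) p = 0 from H.1 p (Submodule.mem_sup_left hp),
          show polar Q (δ e) m = 0 from H.2 m (Submodule.mem_sup_left hm), add_zero]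
      exact Or.inr ⟨key h₁, key h₂⟩)
  rw [polarBilin_apply_apply] at g1 g2
  obtain ⟨f, hf, k1, k2, k3⟩ : ∃ f, IsHyp Q e f ∧ polar Q e (δ f) = 0 ∧ polar Q f (δ f) = 0 ∧
      f₀ - f ∈ Submodule.span F {e, y} := by
    let f₁ := f₀ + (-(2 : F)⁻¹ * polar Q f₀ (δ f₀)) • y
    have b1 : polar Q e f₁ = 1 := by
      rw [polar_add_right, B_smul_right, g1, polar_comm Q e y, hye]; ring
    have b2 : polar Q e (δ f₁) = 0 := by
      rw [map_add, map_smul, hδ y, hy, polar_add_right, B_smul_right, hsym, g2, hee]; ring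
    have b3 : polar Q f₁ (δ f₁) = 0 := by
      rw [map_add, map_smul, hδ y, hy]
      simp only [f₁, polar_add_left, polar_add_right, B_smul_left, B_smul_right, hye,
        polar_comm Q f₀ e, g1, hsym y f₀, hδ y, hy]
      field_simp; ring
    refine ⟨f₁ + (-Q f₁) • e, ⟨he, ?_, ?_⟩, ?_, ?_, ?_⟩
    · rw [Q_add, Q_smul, he, B_smul_right, polar_comm, b1]; ring
    · rw [polar_add_right, B_smul_right, b1, hee]; ring
    · rw [map_add, map_smul, polar_add_right, B_smul_right, b2, heδ]; ring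
    · rw [δ.map_add, δ.map_smul]
      simp only [polar_add_left, polar_add_right, B_smul_left, B_smul_right, b2, b3, heδ,
        hsym f₁ e, polar_comm Q (δ f₁) e]
      ring
    · exact Submodule.mem_span_pair.mpr ⟨Q f₁, (2 : F)⁻¹ * polar Q f₀ (δ f₀), by
        simp only [f₁]; module⟩
  have nf : ∀ T : Submodule F V, f₀ ∉ T ⊔ Submodule.span F {e, y} → ∀ a b : F,
      a • e + b • f ∈ T → b = 0 := by
    intro T hT a b hab
    by_contra hb
    apply hT
    have : f₀ = b⁻¹ • (a • e + b • f) + ((f₀ - f) - (b⁻¹ * a) • e) := by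
      match_scalars <;> field_simp <;> ring
    rw [this]
    exact Submodule.add_mem_sup (T.smul_mem _ hab) (Submodule.sub_mem _ k3
      (Submodule.smul_mem _ _ (Submodule.subset_span (by simp))))
  have nf₁ : ∀ s : F, s * s = 1 → ∀ a b : F, a • e + b • f ∈ E σ₁ s → b = 0 := fun s hs => by
    rcases mul_self_eq_one_iff.mp hs with rfl | rfl
    · exact nf _ n1
    · exact nf _ n2
  have nf₂ : ∀ s : F, s * s = 1 → ∀ a b : F, a • e + b • f ∈ E σ₂ s → b = 0 := fun s hs => by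
    rcases mul_self_eq_one_iff.mp hs with rfl | rfl
    · exact nf _ n3
    · exact nf _ n4
  have gram : ∀ s : F, s * s = 1 → ∀ i j, polar Q (prj σ₂ s (![e, f] i)) (prj σ₂ s (![e, f] j)) =
      polar Q (prj σ₁ s (![e, f] i)) (prj σ₁ s (![e, f] j)) := by
    intro s hs i j
    rw [B_prj h2 h₁ hs, B_prj h2 h₂ hs]
    have : polar Q (![e, f] i) (δ (![e, f] j)) = 0 := by
      fin_cases i <;> fin_cases j
      · exact heδ
      · exact k1
      · exact (hsym f e).trans ((polar_comm _ _ _).trans k1)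
      · exact k2
    rw [hδ, polar_sub_right, sub_eq_zero] at this
    rw [this]
  have li : ∀ {σ : O Q} (_ : σ * σ = 1) {s : F} (_ : s * s = 1), e ∉ E σ (-s) →
      (∀ a b : F, a • e + b • f ∈ E σ (-s) → b = 0) →
      LinearIndependent F fun i => prj σ s (![e, f] i) := by
    intro σ hσ s hs h3 h4
    have : (fun i => prj σ s (![e, f] i)) = ![prj σ s e, prj σ s f] := by
      funext i; fin_cases i <;> rfl
    rw [this, LinearIndependent.pair_iff]
    intro a b hab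
    have h5 := prj_eq_zero h2 hσ hs (x := a • e + b • f) (by rw [map_add, map_smul, map_smul, hab])
    obtain rfl := h4 a b h5
    refine ⟨?_, rfl⟩
    by_contra ha
    exact h3 (by simpa [smul_smul, inv_mul_cancel₀ ha] using Submodule.smul_mem _ a⁻¹ h5)
  obtain ⟨x, hx, hxe, hxf⟩ : ∃ x : O Q, x * σ₁ = σ₂ * x ∧ x.1 e = e ∧ x.1 f = f := by
    rcases h with ⟨h0, s, hs, h3, h4⟩ | h
    · have hs' : -s * -s = 1 := by simpa using hs
      have li1 : ∀ {σ : O Q} (_ : σ * σ = 1), (∀ a b : F, a • e + b • f ∈ E σ s → b = 0) →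
          LinearIndependent F fun _ : Unit => prj σ (-s) f := by
        intro σ hσ h5
        rw [linearIndependent_subsingleton_index_iff]
        intro _ h6
        have := prj_eq_zero h2 hσ hs' h6
        rw [neg_neg] at this
        exact one_ne_zero (h5 0 1 (by simpa using this))
      have ne : ∀ {σ : O Q}, e ∈ E σ s → e ∉ E σ (-s) := fun h5 h6 =>
        h0 (eq_zero_of_eig h2 hs (mem_E.mp h5) (mem_E.mp h6))
      obtain ⟨x, hx, hu, hw⟩ := conj_fix hQ h2 h₂ hx₀ hs (fun _ => prj_mem h₁ hs _)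
        (fun _ => prj_mem h₂ hs _) (li h₁ hs (ne h3) (nf₁ _ hs')) (li h₂ hs (ne h4) (nf₂ _ hs'))
        (gram s hs) (fun _ => prj_mem h₁ hs' _) (fun _ => prj_mem h₂ hs' _) (li1 h₁ (nf₁ _ hs))
        (li1 h₂ (nf₂ _ hs)) (fun _ _ => gram (-s) hs' 1 1)
      refine ⟨x, hx, ?_, ?_⟩
      · have : x.1 (prj σ₁ s e) = prj σ₂ s e := hu 0
        rwa [prj_of_mem h2 hs h3, prj_of_mem h2 hs h4] at this
      · conv_lhs => rw [← prj_add h2 σ₁ s f, map_add, show x.1 (prj σ₁ s f) = prj σ₂ s f from hu 1,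
          hw (), prj_add h2]
    · have o1 : (1 : F) * 1 = 1 := by simp
      have o2 : (-1 : F) * -1 = 1 := by simp
      have o3 : (- -1 : F) * - -1 = 1 := by simp
      obtain ⟨x, hx, hu, hw⟩ := conj_fix hQ h2 h₂ hx₀ o1 (fun _ => prj_mem h₁ o1 _)
        (fun _ => prj_mem h₂ o1 _) (li h₁ o1 (h.1 _ o2).1 (nf₁ _ o2))
        (li h₂ o1 (h.1 _ o2).2 (nf₂ _ o2)) (gram 1 o1) (fun _ => prj_mem h₁ o2 _)
        (fun _ => prj_mem h₂ o2 _) (li h₁ o2 (h.1 _ o3).1 (nf₁ _ o3))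
        (li h₂ o2 (h.1 _ o3).2 (nf₂ _ o3)) (gram (-1) o2)
      have key : ∀ i, x.1 (![e, f] i) = ![e, f] i := fun i => by
        conv_lhs => rw [← prj_add h2 σ₁ 1 (![e, f] i), map_add, hu, hw, prj_add h2]
      exact ⟨x, hx, key 0, key 1⟩
  exact comm_of_hyp hQ h2 h₁ hx hf hxe hxf he₁ (by omega) (by omega) (d₂ ▸ hev)

end H37.Ore
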