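import Mathlib
import Cfsg.Agent.Base
import Cfsg.Agent.Lib.Ore.OddH

/-! Odd characteristic, dimension divisible by four: the terminal configurations. -/

set_option autoImplicit false

namespace H37.Ore

open Module QuadraticMap H12 Polynomial

variable {F V R : Type*} [Field F] [AddCommGroup V] [Module F V] [CommRing R] [Algebra F R]
  [Module R V] [IsScalarTower F R V]

/-- The standing hypotheses. -/
structure St (C : Ctx F V R) (Q : QuadraticForm F V) (g : O Q) : Prop where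
  hQ : Nondeg Q
  h2 : (2 : F) ≠ 0
  hB : C.B = polarBilin Q
  hε : C.ε = 1
  ht : ∀ x, C.t • x = g.1 x
  hg : g ∈ Om Q
  hn : 8 ≤ finrank F V
  h4 : finrank F V % 4 = 0

namespace St

variable {C : Ctx F V R} {Q : QuadraticForm F V} {g : O Q}

theorem B_eq (S : St C Q g) (x y : V) : C.B x y = polar Q x y := by rw [S.hB]; rfl

theorem nd (S : St C Q g) : ND C.B ⊤ := S.hB ▸ nd_top S.hQ

theorem exists_O (S : St C Q g) {σ : V →ₗ[F] V} (hσ : C.Inv ⊤ σ) :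
    ∃ σ₁ σ₂ : O Q, σ₁ * σ₁ = 1 ∧ σ₂ * σ₂ = 1 ∧ g = σ₁ * σ₂ ∧ (σ₁.1 : V →ₗ[F] V) = σ ∧
      (σ₂.1 : V →ₗ[F] V) = σ ∘ₗ Lm F V C.t :=
  hσ.exists_O S.ht (Q_of_iso S.h2 fun x y => by
    have := hσ.iso x trivial y trivial
    rwa [S.B_eq, S.B_eq] at this)

variable [Finite F] [FiniteDimensional F V]

theorem parity (S : St C Q g) {σ : V →ₗ[F] V} (hσ : C.Inv ⊤ σ) {a b : ℤ} (t1 : tau ⊤ σ = a + b)
    (t2 : tau ⊤ (σ ∘ₗ Lm F V C.t) = a - b) : a % 2 = 0 ∧ b % 2 = 0 := by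
  obtain ⟨σ₁, σ₂, h₁, h₂, rfl, e1, e2⟩ := S.exists_O hσ
  rw [← e2] at t2
  rw [← e1] at t1
  have a1 := finrank_E_add S.h2 h₁ (s := 1) (by simp)
  have a2 := finrank_E_add S.h2 h₂ (s := 1) (by simp)
  obtain ⟨k, hk⟩ := parity_of_mem S.hQ S.h2 h₁ h₂ S.hg
  have := S.h4
  simp only [tau] at t1 t2
  simp only [E] at *
  omega

theorem glue_top {X : Submodule F V} (iX : Iv R X) (nX : ND C.B X) {σ τ : V →ₗ[F] V}
    (hσ : C.Inv X σ) (hτ : C.Inv (pp C.B ⊤ X) τ) :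
    ∃ k, C.Inv ⊤ k ∧ (∀ x ∈ X, k x = σ x) ∧ (∀ y ∈ pp C.B ⊤ X, k y = τ y) ∧
      tau ⊤ k = tau X σ + tau (pp C.B ⊤ X) τ ∧ tau ⊤ (k ∘ₗ Lm F V C.t) =
        tau X (σ ∘ₗ Lm F V C.t) + tau (pp C.B ⊤ X) (τ ∘ₗ Lm F V C.t) := by
  have := hσ.glue_tau hτ iX (C.iv_pp iv_top iX) nX fun x hx y hy => hy.2 x hx
  rwa [nX.sup_pp C.isRefl le_top] at this

variable [Finite R]

theorem compl (S : St C Q g) {X : Submodule F V} (iX : Iv R X) (nX : ND C.B X) {σ : V →ₗ[F] V}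
    (hσ : C.Inv X σ) {a b sb : ℤ} (t1 : tau X σ = a + b) (t2 : tau X (σ ∘ₗ Lm F V C.t) = a - b)
    (hb : sb = 1 ∨ sb = -1) : ∃ τ, ∃ a' b' : ℤ, C.Inv (pp C.B ⊤ X) τ ∧ (a' = 0 ∨ a' = 1) ∧
      (b' = 0 ∨ b' = sb) ∧ tau (pp C.B ⊤ X) τ = a' + b' ∧
      tau (pp C.B ⊤ X) (τ ∘ₗ Lm F V C.t) = a' - b' ∧ (a + a') % 2 = 0 ∧ (b + b') % 2 = 0 := by
  obtain ⟨a', b', ha', hb', τ, hτ, t3, t4⟩ := Ctx.bal (C := C) S.hε S.h2 (sa := 1) (Or.inl rfl) hb
    (C.iv_pp iv_top iX) (nX.pp C.isRefl le_top S.nd)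
  obtain ⟨k, hk, -, -, t5, t6⟩ := glue_top iX nX hσ hτ
  exact ⟨τ, a', b', hτ, ha', hb', t3, t4, S.parity hk (by omega) (by omega)⟩

theorem bal (S : St C Q g) {X : Submodule F V} (iX : Iv R X) (nX : ND C.B X) {σ : V →ₗ[F] V}
    (hσ : C.Inv X σ) {b : ℤ} (t1 : tau X σ = b) (t2 : tau X (σ ∘ₗ Lm F V C.t) = -b)
    (hb : b = 0 ∨ b = 1) : ∃ k, C.Inv ⊤ k ∧ (∀ x ∈ X, k x = σ x) ∧ tau ⊤ k = 0 ∧
      tau ⊤ (k ∘ₗ Lm F V C.t) = 0 := by
  obtain ⟨τ, a', b', hτ, ha', hb', t3, t4, p1, p2⟩ := S.compl iX nX hσ (a := 0) (b := b) (sb := -1)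
    (by omega) (by omega) (Or.inr rfl)
  obtain ⟨k, hk, h1, -, t5, t6⟩ := glue_top iX nX hσ hτ
  exact ⟨k, hk, h1, by omega, by omega⟩

omit [Finite R] in
theorem lemH (S : St C Q g) {σ : V →ₗ[F] V} (hσ : C.Inv ⊤ σ) (t1 : tau ⊤ σ = 0)
    (t2 : tau ⊤ (σ ∘ₗ Lm F V C.t) = 0) {e y : V} (hy : σ y - σ (C.t • y) = e) (he : C.B e e = 0)
    (he₁ : C.B e (σ e) = 0) (he₂ : C.B e (σ (C.t • e)) = 0) (hye : C.B y e = 0)
    (h : (e ≠ 0 ∧ ∃ s : F, s * s = 1 ∧ σ e = s • e ∧ σ (C.t • e) = s • e) ∨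
      ((∀ s : F, s * s = 1 → σ e ≠ s • e ∧ σ (C.t • e) ≠ s • e) ∧
        ∀ l : F, σ e - σ (C.t • e) ≠ l • e)) : IsComm Q g := by
  obtain ⟨σ₁, σ₂, h₁, h₂, rfl, e1, e2⟩ := S.exists_O hσ
  have k1 : ∀ x, σ₁.1 x = σ x := fun x => by rw [← e1]; rfl
  have k2 : ∀ x, σ₂.1 x = σ (C.t • x) := fun x => LinearMap.congr_fun e2 x
  rw [← e2] at t2
  rw [← e1] at t1
  have a1 := finrank_E_add S.h2 h₁ (s := 1) (by simp)
  have a2 := finrank_E_add S.h2 h₂ (s := 1) (by simp)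
  have := S.h4
  have := S.hn
  simp only [tau] at t1 t2
  rw [S.B_eq] at he he₁ he₂ hye
  refine lemma_H S.hQ S.h2 h₁ h₂ S.hg (d := finrank F (E σ₁ 1)) ?_ ?_ rfl ?_ ?_ (e := e) (y := y)
    (by rw [k1, k2, hy]) (mul_left_cancel₀ S.h2 (by rw [← B_self, he, mul_zero]))
    (by rwa [k1]) (by rwa [k2]) hye (by simpa only [mem_E, k1, k2] using h)
  · simp only [E] at *; omega
  · rw [Nat.even_iff]; simp only [E] at *; omega
  · simp only [E] at *; omega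
  · simp only [E] at *; omega

theorem case_C (S : St C Q g) {x : V} (hx : C.N 1 • C.N 1 • x = 0) (hx' : C.N 1 • x ≠ 0) :
    IsComm Q g := by
  obtain ⟨σ, hσ, -, t1, t2⟩ := S.bal (X := ⊥) iv_bot (fun _ h _ => h) (Ctx.inv_bot 0) (b := 0)
    (tau_bot _) (by rw [tau_bot, neg_zero]) (Or.inl rfl)
  have o : (1 : F) * 1 = 1 := by simp
  have hN : ∀ w, σ (C.N 1 • w) = -(C.t' • C.N 1 • σ w) := fun w => by
    rw [hσ.semi _ w trivial, C.bar_N o, mul_smul, map_one, one_mul, neg_smul]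
  obtain ⟨y, s, hs, h1, h3, h4⟩ : ∃ y, ∃ s : F, s * s = 1 ∧ σ y = s • y ∧
      C.N 1 • C.N 1 • y = 0 ∧ C.N 1 • y ≠ 0 := by
    let K : Submodule F V := LinearMap.ker (Lm F V (C.N 1 * C.N 1))
    have hK : ∀ y, y ∈ K ↔ C.N 1 • C.N 1 • y = 0 := fun y => by
      rw [← mul_smul]; rfl
    obtain ⟨p, hp, m, hm, rfl⟩ := eig_decomp S.h2 (W := K) (σ := σ) (fun y hy => by
      have := congrArg (fun w => C.t • C.t • σ w) ((hK y).mp hy)
      simp only [hN, smul_neg, neg_neg, map_zero, smul_zero, smul_comm (C.N 1) C.t'] at this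
      simp only [← mul_smul] at this
      rw [hK, ← mul_smul, ← this]
      congr 1
      linear_combination (-(C.N 1 * C.N 1) * (C.t * C.t' + 1)) * C.htt)
      (fun y _ => hσ.sq y trivial) o ((hK x).mpr hx)
    rw [mem_eig, hK] at hp hm
    by_cases h : C.N 1 • p = 0
    · rw [smul_add, h, zero_add] at hx'
      exact ⟨m, -1, by simp, hm.2, hm.1, hx'⟩
    · exact ⟨p, 1, o, hp.2, hp.1, h⟩
  have ht : C.t • C.N 1 • y = C.N 1 • y := by rw [C.t_soc h3, one_smul]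
  have ht' : C.t' • C.N 1 • y = C.N 1 • y := by rw [C.t'_soc o h3, one_smul]
  have hz : σ (C.N 1 • y) = (-s) • C.N 1 • y := by
    rw [hN, h1, smul_comm _ s, smul_comm _ s, ht', neg_smul]
  have hzz : C.B (C.N 1 • y) (C.N 1 • y) = 0 := by
    rw [C.adj, C.bar_N o, mul_smul, h3, smul_zero, map_zero]
  have hs0 : s ≠ 0 := by rintro rfl; simp at hs
  refine S.lemH hσ t1 t2 (e := s • C.N 1 • y) (y := y) ?_ (by simp [hzz]) (by simp [hz, hzz])
    (by simp [smul_comm C.t s, ht, hz, hzz]) ?_ (Or.inl ⟨smul_ne_zero hs0 h4, -s, by simpa using hs,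
      by rw [map_smul, hz, smul_comm], by rw [smul_comm C.t s, ht, map_smul, hz, smul_comm]⟩)
  · rw [← map_sub, ← neg_neg s, neg_smul, ← hz, ← map_neg, Ctx.N, map_one, sub_smul, one_smul,
      neg_sub]
  · rw [LinearMap.BilinForm.smul_right, (hσ.si S.hε).orth S.h2 hs (mem_eig.mpr ⟨trivial, h1⟩)
      (mem_eig.mpr ⟨trivial, hz⟩), mul_zero]

theorem case_fix (S : St C Q g) {w : V} (hw : C.N 1 • w = 0) (hw' : C.B w w ≠ 0) :
    IsComm Q g := by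
  have o : (1 : F) * 1 = 1 := by simp
  have h1 : C.N 1 ^ (0 + 1) • w = 0 := by simpa using hw
  have h3 : C.B w (C.N 1 ^ 0 • w) ≠ 0 := by simpa using hw'
  obtain ⟨σ, hσ, -, t1, t2, -⟩ := Ctx.good_B1 S.hε S.h2 o h1 h3
  obtain ⟨τ, a', b', hτ, ha', hb', t3, t4, p1, p2⟩ := S.compl (iv_cyc w) (C.nd_B1 h1 h3) hσ (a := 1)
    (b := 0) (sb := 1) (by omega) (by have := t2 rfl; omega) (Or.inl rfl)
  obtain ⟨k, hk, -, -, t5, t6⟩ := glue_top (iv_cyc w) (C.nd_B1 h1 h3) hσ hτ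
  obtain ⟨σ₁, σ₂, h₁, h₂, rfl, e1, e2⟩ := S.exists_O hk
  rw [← e2, t2 rfl] at t6
  rw [← e1] at t5
  have a1 := finrank_E_add S.h2 h₁ (s := 1) (by simp)
  have a2 := finrank_E_add S.h2 h₂ (s := 1) (by simp)
  have := S.h4
  have := S.hn
  rw [t1, t3, tau] at t5
  rw [t4, tau] at t6
  refine comm_of_odd S.hQ S.h2 (by omega) h₁ h₂ S.hg ?_ ?_ ?_ (Nat.odd_iff.mpr ?_) <;>
    simp only [E] at * <;> omega

theorem inj (S : St C Q g) : IsComm Q g ∨ ∀ x : V, C.N 1 • x = 0 → x = 0 := by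
  by_contra H
  push Not at H
  obtain ⟨H, x, hx, hx0⟩ := H
  obtain ⟨W, -, iW, nW, k, h1, ⟨y, hy, hy0⟩, -⟩ := C.prim iv_top S.nd (C.bar_N (e := 1) (by simp))
    trivial hx0 hx
  rcases k with _ | k
  · by_cases h3 : ∀ w ∈ W, C.B w w = 0
    · refine hy0 (by
        rw [pow_zero, one_smul]
        refine nW y hy fun z hz => mul_left_cancel₀ S.h2 ?_
        have := h3 _ (W.add_mem hy hz)
        simp only [map_add, LinearMap.add_apply, h3 y hy, h3 z hz, Ctx.symm S.hε z y] at this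
        linear_combination this)
    · push Not at h3
      obtain ⟨w, hw, hw'⟩ := h3
      exact H (S.case_fix (by simpa using h1 w hw) hw')
  · exact H (S.case_C (x := C.N 1 ^ k • y) (by rw [C.N_pow_succ, C.N_pow_succ, h1 y hy])
      (by rwa [C.N_pow_succ]))

omit [Finite R] in
theorem lemS (S : St C Q g) (hi : ∀ x : V, C.N 1 • x = 0 → x = 0) {σ : V →ₗ[F] V}
    (hσ : C.Inv ⊤ σ) (t1 : tau ⊤ σ = 0) (t2 : tau ⊤ (σ ∘ₗ Lm F V C.t) = 0) {a c : V}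
    (ha : σ a = a) (hc : σ c = -c) (ha0 : a ≠ 0) (hc0 : c ≠ 0) (aa : ∀ r : R, C.B a (r • a) = 0)
    (cc : ∀ r : R, C.B c (r • c) = 0) (ac : ∀ r : R, C.B a (r • c) = 0)
    (h : ∀ α γ : F, σ (C.t • (a + c)) = α • a + γ • c → α ≠ γ ∧ α - γ ≠ 2) : IsComm Q g := by
  set T := cyc F R a ⊔ cyc F R c
  have iT : Iv R T := (iv_cyc a).sup (iv_cyc c)
  have hT : ∀ x ∈ T, ∀ y ∈ T, C.B x y = 0 := by
    intro x hx y hy
    obtain ⟨r, s, rfl⟩ := mem_cyc_sup.mp hx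
    obtain ⟨r', s', rfl⟩ := mem_cyc_sup.mp hy
    have ca : ∀ r : R, C.B c (r • a) = 0 := fun r => by rw [C.adj', Ctx.symm S.hε, ac]
    simp only [map_add, LinearMap.add_apply, C.adj, ← mul_smul, aa, cc, ac, ca, add_zero]
  have sT : ∀ x ∈ T, σ x ∈ T := by
    intro x hx
    obtain ⟨r, s, rfl⟩ := mem_cyc_sup.mp hx
    rw [map_add, hσ.semi _ _ trivial, hσ.semi _ _ trivial, ha, hc]
    exact mem_cyc_sup.mpr ⟨C.bar r, -C.bar s, by rw [neg_smul, smul_neg]⟩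
  have he : a + c ∈ T := Submodule.add_mem_sup (self_mem_cyc a) (self_mem_cyc c)
  obtain ⟨y, hy⟩ := (LinearMap.injective_iff_surjective (f := (Lm F V (C.N 1)).restrict
    (p := T) (q := T) fun x hx => iT _ x hx)).mp (by
      rw [injective_iff_map_eq_zero]
      intro x hx
      exact Subtype.ext (hi x (congrArg Subtype.val hx))) ⟨_, T.neg_mem (sT _ he)⟩
  have hy' : C.N 1 • y.1 = -σ (a + c) := congrArg Subtype.val hy
  have ind : ∀ α γ : F, α • a + γ • c = 0 → α = 0 ∧ γ = 0 := by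
    intro α γ h0
    have h1 := congrArg σ h0
    rw [map_add, map_smul, map_smul, ha, hc, map_zero] at h1
    have h3 : (2 * α) • a = 0 := by linear_combination (norm := module) h0 + h1
    have h4 : (2 * γ) • c = 0 := by linear_combination (norm := module) h0 - h1
    exact ⟨(mul_eq_zero.mp ((smul_eq_zero.mp h3).resolve_right ha0)).resolve_left S.h2,
      (mul_eq_zero.mp ((smul_eq_zero.mp h4).resolve_right hc0)).resolve_left S.h2⟩
  refine S.lemH hσ t1 t2 (e := a + c) (y := y) ?_ (hT _ he _ he) (hT _ he _ (sT _ he))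
    (hT _ he _ (sT _ (iT _ _ he))) (hT _ y.2 _ he) (Or.inr ⟨fun s _ => ⟨fun h0 => ?_, fun h0 => ?_⟩,
      fun l h0 => ?_⟩)
  · rw [Ctx.N, map_one, sub_smul, one_smul] at hy'
    rw [← map_sub, ← neg_sub, hy', neg_neg, hσ.sq _ trivial]
  · rw [map_add, ha, hc] at h0
    obtain ⟨h1, h3⟩ := ind (1 - s) (-1 - s) (by linear_combination (norm := module) h0)
    exact S.h2 (by linear_combination h1 - h3)
  · exact (h s s (by rw [h0, smul_add])).1 rfl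
  · rw [map_add, ha, hc] at h0
    exact (h (1 - l) (-1 - l) (by linear_combination (norm := module) -h0)).2 (by ring)

omit [Finite R] in
theorem lemE1 (S : St C Q g) (hi : ∀ x : V, C.N 1 • x = 0 → x = 0) {σ : V →ₗ[F] V}
    (hσ : C.Inv ⊤ σ) (t1 : tau ⊤ σ = 0) (t2 : tau ⊤ (σ ∘ₗ Lm F V C.t) = 0) {a c : V}
    (ha : σ a = a) (hc : σ c = -c) (ha0 : a ≠ 0) (aa : ∀ r : R, C.B a (r • a) = 0)
    (cc : ∀ r : R, C.B c (r • c) = 0) (ac : ∀ r : R, C.B a (r • c) = 0)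
    (h : ∀ l : F, C.j • c ≠ l • a) : IsComm Q g := by
  have key : ∀ c : V, σ c = -c → ∀ α γ : F, σ (C.t • (a + c)) = α • a + γ • c →
      C.η • a + C.j • c = α • a + α • a := by
    intro c hc α γ h0
    have h1 := congrArg σ h0
    rw [hσ.sq _ trivial, map_add, map_smul, map_smul, ha, hc] at h1
    rw [hσ.semi _ _ trivial, map_add, ha, hc, C.bar_t] at h0
    rw [Ctx.η, Ctx.j]
    linear_combination (norm := module) h0 + h1
  have hc0 : c ≠ 0 := by rintro rfl; exact h 0 (by simp)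
  by_cases h1 : ∃ α γ : F, σ (C.t • (a + c)) = α • a + γ • c
  · obtain ⟨α, γ, h1⟩ := h1
    refine S.lemS hi hσ t1 t2 (c := -c) ha (by simp [hc]) ha0 (by simpa using hc0) aa
      (by simpa using cc) (by simpa using ac) fun α' γ' h3 => absurd ?_ (h (α - α'))
    have h4 := key c hc α γ h1
    have h5 := key (-c) (by simp [hc]) α' γ' h3
    refine smul_right_injective V S.h2 ?_
    simp only [two_smul]
    linear_combination (norm := module) h4 - h5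
  · exact S.lemS hi hσ t1 t2 ha hc ha0 hc0 aa cc ac fun α γ h3 => absurd ⟨α, γ, h3⟩ h1

omit [Finite R] in
theorem lemE3 (S : St C Q g) (hi : ∀ x : V, C.N 1 • x = 0 → x = 0) {σ : V →ₗ[F] V}
    (hσ : C.Inv ⊤ σ) (t1 : tau ⊤ σ = 0) (t2 : tau ⊤ (σ ∘ₗ Lm F V C.t) = 0) {a c : V}
    (ha : σ a = a) (hc : σ c = -c) (ha0 : a ≠ 0) (hc0 : c ≠ 0) (na : C.N (-1) • a = 0)
    (nc : C.N (-1) • c = 0) (aa : C.B a a = 0) (cc : C.B c c = 0) (ac : C.B a c = 0) :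
    IsComm Q g := by
  have key : ∀ {x y : V}, C.N (-1) • y = 0 → C.B x y = 0 → ∀ r : R, C.B x (r • y) = 0 := by
    intro x y hy h r
    obtain ⟨l, hl⟩ := C.soc (e := -1) (by simp) r
    rw [(hl y hy).1, LinearMap.BilinForm.smul_right, h, mul_zero]
  refine S.lemS hi hσ t1 t2 ha hc ha0 hc0 (key na aa) (key nc cc) (key nc ac) fun α γ h0 => ?_
  have h1 := congrArg σ h0
  rw [hσ.sq _ trivial, map_add, map_smul, map_smul, ha, hc, smul_add, C.t_soc na, C.t_soc nc] at h1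
  rw [smul_add, C.t_soc na, C.t_soc nc, map_add, map_smul, map_smul, ha, hc] at h0
  have h3 : (2 * (α + 1)) • a = 0 := by linear_combination (norm := module) -h0 - h1
  have h4 : (2 * (γ - 1)) • c = 0 := by linear_combination (norm := module) h1 - h0
  have h5 := (mul_eq_zero.mp ((smul_eq_zero.mp h3).resolve_right ha0)).resolve_left S.h2
  have h6 := (mul_eq_zero.mp ((smul_eq_zero.mp h4).resolve_right hc0)).resolve_left S.h2
  exact ⟨fun h => S.h2 (by linear_combination h5 - h6 - h),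
    fun h => mul_ne_zero S.h2 S.h2 (by linear_combination h5 - h6 - h)⟩

theorem lemT (S : St C Q g) {X : Submodule F V} (iX : Iv R X) (nX : ND C.B X) {α α' : O Q}
    (hα : C.Inv X α.1) (hα' : C.Inv X α'.1) (t1 : tau X (α.1 : V →ₗ[F] V) = 0)
    (t2 : tau X ((α.1 : V →ₗ[F] V) ∘ₗ Lm F V C.t) = 0) (t1' : tau X (α'.1 : V →ₗ[F] V) = 0)
    (t2' : tau X ((α'.1 : V →ₗ[F] V) ∘ₗ Lm F V C.t) = 0) (f : ∀ y ∈ pp C.B ⊤ X, α.1 y = y)
    (f' : ∀ y ∈ pp C.B ⊤ X, α'.1 y = y) (h : α * α' ∉ Om Q) : IsComm Q g := by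
  classical
  have := Fintype.ofFinite F
  have hG := good_of_two_ne_zero S.hQ S.h2
  obtain ⟨τ, a', b', hτ, ha', hb', t3, t4, p1, p2⟩ := S.compl iX nX hα (a := 0) (b := 0) (sb := 1)
    (by omega) (by omega) (Or.inl rfl)
  have key : ∀ {β : O Q}, C.Inv X β.1 → tau X (β.1 : V →ₗ[F] V) = 0 →
      tau X ((β.1 : V →ₗ[F] V) ∘ₗ Lm F V C.t) = 0 → ∃ σ : O Q, (∀ x ∈ X, σ.1 x = β.1 x) ∧
        (∀ y ∈ pp C.B ⊤ X, σ.1 y = τ y) ∧ dk S.hQ hG σ = 1 ∧ (σ ∈ Om Q → IsComm Q g) := by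
    intro β hβ t1 t2
    obtain ⟨k, hk, k1, k2, t5, t6⟩ := glue_top iX nX hβ hτ
    obtain ⟨σ₁, σ₂, h₁, h₂, e0, e1, e2⟩ := S.exists_O hk
    rw [← e2, t2, t4, tau] at t6
    rw [← e1, t1, t3, tau] at t5
    have a1 := finrank_E_add S.h2 h₁ (s := 1) (by simp)
    have a2 := finrank_E_add S.h2 h₂ (s := 1) (by simp)
    have := S.h4
    have := S.hn
    refine ⟨σ₁, fun x hx => (LinearMap.congr_fun e1 x).trans (k1 x hx),
      fun x hx => (LinearMap.congr_fun e1 x).trans (k2 x hx), ?_, fun ho => ?_⟩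
    · rw [dk_invol S.hQ hG S.h2 h₁]
      refine Even.neg_one_pow (Nat.even_iff.mpr ?_)
      simp only [E] at *; omega
    · rw [e0]
      refine comm_of_mem S.hQ S.h2 h₁ h₂ (e0 ▸ S.hg) ?_ ?_ ho <;> simp only [E] at * <;> omega
  obtain ⟨σ, k1, k2, d1, c1⟩ := key hα t1 t2
  obtain ⟨σ', k1', k2', d1', c1'⟩ := key hα' t1' t2'
  have e : σ' = σ * (α * α') := O.ext fun v => by
    obtain ⟨x, hx, y, hy, rfl⟩ := nX.decomp C.isRefl le_top (w := v) trivial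
    have m1 : α'.1 x ∈ X := hα'.mem x hx
    have m2 : α.1 (α.1 (α'.1 x)) = α'.1 x := hα.sq _ m1
    simp only [O.mul_apply, map_add, f y hy, f' y hy, k1' x hx, k2' y hy, k2 y hy]
    rw [k1 (α.1 (α'.1 x)) (hα.mem _ m1), m2]
  by_cases ho : σ ∈ Om Q
  · exact c1 ho
  refine c1' ?_
  rw [mem_Om_iff S.hQ hG] at ho h ⊢
  rw [e, map_mul, d1, one_mul] at d1'
  rw [e, map_mul, map_mul (spin S.hQ hG) σ, d1, d1', H66.intUnits_ne_one fun h' => ho ⟨d1, h'⟩,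
    H66.intUnits_ne_one fun h' => h ⟨d1', h'⟩]
  simp

end St

end H37.Ore
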