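import Mathlib
import Cfsg.Agent.Base
import Cfsg.Agent.Lib.Ore.OddT

/-! Odd characteristic, dimension divisible by four: changing the spinor norm on a block. -/

set_option autoImplicit false

namespace H37.Ore

open Module QuadraticMap H12 Polynomial

variable {F V R : Type*} [Field F] [AddCommGroup V] [Module F V] [CommRing R] [Algebra F R]
  [Module R V] [IsScalarTower F R V]

theorem Ctx.eq_zero_of_coprime (C : Ctx F V R) {h a : F[X]} (hc : IsCoprime h a) {x : V}
    (hx : aeval C.η h • x = 0) (ha : aeval C.η a • x = 0) : x = 0 := by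
  obtain ⟨c1, c2, hc'⟩ := hc
  have := congrArg (fun p => aeval C.η p • x) hc'
  simp only [map_add, map_mul, add_smul, mul_smul, hx, ha, smul_zero, map_one, one_smul,
    add_zero] at this
  exact this.symm

namespace St

variable {C : Ctx F V R} {Q : QuadraticForm F V} {g : O Q} [FiniteDimensional F V]

theorem exists_alpha (S : St C Q g) {X : Submodule F V} (nX : ND C.B X) {σ : V →ₗ[F] V}
    (hσ : C.Inv X σ) : ∃ α : O Q, α * α = 1 ∧ (∀ x ∈ X, α.1 x = σ x) ∧
      (∀ y ∈ pp C.B ⊤ X, α.1 y = y) ∧ E α (-1) = eig X σ (-1) := by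
  have hd := nX.disjoint_pp C.isRefl ⊤
  obtain ⟨k, h1, h3⟩ := exists_glue hd σ LinearMap.id
  have hsq : ∀ v, k (k v) = v := fun v => by
    obtain ⟨x, hx, y, hy, rfl⟩ := nX.decomp C.isRefl le_top (w := v) trivial
    rw [map_add, h1 x hx, h3 y hy, LinearMap.id_apply, map_add, h1 _ (hσ.mem x hx), h3 y hy,
      hσ.sq x hx, LinearMap.id_apply]
  have hq : ∀ v, Q (k v) = Q v := fun v => by
    obtain ⟨x, hx, y, hy, rfl⟩ := nX.decomp C.isRefl le_top (w := v) trivial
    have := hσ.iso x hx x hx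
    rw [S.B_eq, S.B_eq, B_self, B_self] at this
    rw [map_add, h1 x hx, h3 y hy, LinearMap.id_apply, Q_add, Q_add, ← S.B_eq, ← S.B_eq,
      hy.2 x hx, hy.2 _ (hσ.mem x hx), mul_left_cancel₀ S.h2 this]
  refine ⟨mkO Q k k hq hsq hsq, O.ext hsq, h1, h3, ?_⟩
  ext v
  rw [mem_E, mem_eig]
  change k v = _ ↔ _
  constructor
  · intro hv
    obtain ⟨x, hx, y, hy, rfl⟩ := nX.decomp C.isRefl le_top (w := v) trivial
    rw [map_add, h1 x hx, h3 y hy, LinearMap.id_apply] at hv
    have h4 : (2 : F) • y = -(σ x + x) := by linear_combination (norm := module) hv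
    have h5 := Submodule.disjoint_def.mp hd _ (h4 ▸ X.neg_mem (X.add_mem (hσ.mem x hx) hx))
      (Submodule.smul_mem _ _ hy)
    obtain rfl := (smul_eq_zero.mp h5).resolve_left S.h2
    simp only [add_zero] at hv ⊢
    exact ⟨hx, hv⟩
  · rintro ⟨hv, hv'⟩
    rw [h1 v hv, hv']

variable [Finite F] [Finite R]

theorem case_T1 (S : St C Q g) {X : Submodule F V} (iX : Iv R X) (nX : ND C.B X)
    (hd : finrank F X = 2) (hX : ∀ x ∈ X, C.N (-1) • x = 0) : IsComm Q g := by
  classical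
  have := Fintype.ofFinite F
  have hG := good_of_two_ne_zero S.hQ S.h2
  have key : ∀ c : F, c ≠ 0 → ∃ α : O Q, C.Inv X α.1 ∧ tau X (α.1 : V →ₗ[F] V) = 0 ∧
      tau X ((α.1 : V →ₗ[F] V) ∘ₗ Lm F V C.t) = 0 ∧ (∀ y ∈ pp C.B ⊤ X, α.1 y = y) ∧
      (spin S.hQ hG α : ℤ) = quadraticChar F c := by
    intro c hc
    obtain ⟨a, ha, rfl⟩ := univ (S.hB ▸ nX) hd.ge c
    have hm : ∀ x ∈ X, (refl Q a).1 x ∈ X := fun x hx => by
      rw [refl_apply]; exact X.sub_mem hx (X.smul_mem _ ha)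
    have hσ : C.Inv X (refl Q a).1 := by
      refine ⟨hm, fun x _ => sq_apply (refl_mul_self a) x, fun x _ y _ => ?_,
        fun r x hx => ?_⟩
      · rw [S.B_eq, S.B_eq, polar_comm Q y]; exact O.map_B _ x y
      · obtain ⟨l, hl⟩ := C.soc (e := -1) (by simp) r
        rw [(hl x (hX x hx)).1, map_smul]
        exact (hl _ (hX _ (hm x hx))).2.symm
    have t1 : tau X ((refl Q a).1 : V →ₗ[F] V) = 0 := by
      have e1 := finrank_eig_add S.h2 hσ.mem hσ.sq (s := 1) (by simp)
      have e2 := finrank_eig_one (W := X) (σ := (refl Q a).1) (s := -1) (ne_zero_of_Q_ne hc) ha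
        (by simpa using refl_apply_self hc) fun x _ hx => ⟨2⁻¹ * ((Q a)⁻¹ * polar Q x a), by
          have hx' : (refl Q a).1 x = (-1 : F) • x := hx
          rw [refl_apply] at hx'
          refine smul_right_injective V S.h2 ?_
          simp only [smul_smul, mul_inv_cancel_left₀ S.h2]
          linear_combination (norm := module) hx'⟩
      rw [tau]; omega
    refine ⟨refl Q a, hσ, t1, ?_, fun y hy => refl_apply_of_orth ?_, coe_spin_refl S.hQ hG hc⟩
    · rw [tau_congr (τ := -((refl Q a).1 : V →ₗ[F] V)) fun x hx => by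
        simp [C.t_soc (hX x hx)], tau_neg, t1, neg_zero]
    · rw [polar_comm, ← S.B_eq]; exact hy.2 a ha
  obtain ⟨c, hc⟩ := FiniteField.exists_nonsquare (F := F) (ringChar_ne_two_iff.mpr S.h2)
  obtain ⟨α, h1, t1, t2, f, s⟩ := key 1 one_ne_zero
  obtain ⟨α', h1', t1', t2', f', s'⟩ := key c (by rintro rfl; exact hc IsSquare.zero)
  refine S.lemT iX nX h1 h1' t1 t2 t1' t2' f f' fun h => ?_
  rw [spin_eq_of_mem S.hQ hG h, s', quadraticChar_neg_one_iff_not_isSquare.mpr hc, map_one] at s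
  omega

theorem case_T0 (S : St C Q g) {h : F[X]} (hh : Irreducible h) (hc : IsCoprime h (X ^ 2 - 4))
    {v : V} (hv : aeval C.η h • v = 0) (hv0 : v ≠ 0) (nX : ND C.B (cyc F R v)) : IsComm Q g := by
  classical
  have := Fintype.ofFinite F
  have hG := good_of_two_ne_zero S.hQ S.h2
  have := Fact.mk hh
  have := (AdjoinRoot.powerBasis hh.ne_zero).finite
  have : Finite (AdjoinRoot h) := Module.finite_of_finite F
  let b := Module.finBasis F (AdjoinRoot h)
  have key : ∀ w : V, cyc F R w = cyc F R v → ∃ α : O Q, ∃ ψ : AdjoinRoot h →ₗ[F] V,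
      C.Inv (cyc F R v) α.1 ∧ (∀ y ∈ pp C.B ⊤ (cyc F R v), α.1 y = y) ∧
      (∀ p, ψ (AdjoinRoot.mk h p) = aeval C.η p • C.j • w) ∧ (spin S.hQ hG α : ℤ) =
        quadraticChar F (2 ^ finrank F (AdjoinRoot h) * H66.gramDet Q (ψ ∘ b)) := by
    intro w hw
    have hw1 : aeval C.η h • w = 0 := by
      obtain ⟨r, rfl⟩ : w ∈ cyc F R v := hw ▸ self_mem_cyc w
      rw [smul_comm, hv, smul_zero]
    have hw0 : C.j • w ≠ 0 := fun h0 => by
      obtain rfl := C.j_inj hc (k := 1) (by rwa [pow_one]) h0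
      exact Ctx.cyc_ne_bot hv0 (hw ▸ Ctx.cyc_zero)
    obtain ⟨σ, hσ, hσ'⟩ := C.exists_inv_cyc (v := w) (hw ▸ nX)
    rw [hw] at hσ
    obtain ⟨α, h1, h3, h4, h5⟩ := S.exists_alpha nX hσ
    obtain ⟨ψ, hψ⟩ := exists_factor (AdjoinRoot.mkₐ h).toLinearMap
      ((LinearMap.toSpanSingleton R V (C.j • w)).restrictScalars F ∘ₗ (aeval C.η).toLinearMap)
      fun p hp => by
        obtain ⟨q, rfl⟩ := AdjoinRoot.mk_eq_zero.mp hp
        change aeval C.η (h * q) • C.j • w = 0
        rw [map_mul, mul_comm, mul_smul, smul_comm _ C.j, hw1, smul_zero, smul_zero]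
    have hψ' : ∀ p, ψ (AdjoinRoot.mk h p) = aeval C.η p • C.j • w := hψ
    refine ⟨α, ψ, hσ.congr (iv_cyc v) h3, h4, hψ', spin_invol S.hQ hG S.h2 h1 _
      (b.linearIndependent.map' ψ ?_) ?_⟩
    · rw [LinearMap.ker_eq_bot']
      intro x hx
      induction x using AdjoinRoot.induction_on with
      | ih p =>
      rw [AdjoinRoot.mk_eq_zero]
      by_contra hp
      exact hw0 (C.eq_zero_of_coprime (hh.coprime_iff_not_dvd.mpr hp)
        (by rw [smul_comm, hw1, smul_zero]) (hψ' p ▸ hx))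
    · rw [Set.range_comp, ← Submodule.map_span, b.span_eq, h5, ← hw]
      ext x
      rw [mem_eig]
      constructor
      · rintro ⟨y, -, rfl⟩
        induction y using AdjoinRoot.induction_on with
        | ih p =>
        rw [hψ', ← mul_smul, hσ', map_mul, C.bar_aeval, C.bar_j]
        exact ⟨⟨_, rfl⟩, by simp⟩
      · rintro ⟨⟨r, rfl⟩, hx⟩
        obtain ⟨p, q, rfl⟩ := C.decomp_η r
        refine ⟨AdjoinRoot.mk h (Polynomial.C 2⁻¹ * q), trivial, ?_⟩
        rw [hσ', map_add, map_mul, C.bar_aeval, C.bar_aeval, C.bar_t, neg_smul, one_smul] at hx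
        rw [hψ', map_mul, aeval_C, mul_smul, algebraMap_smul]
        refine smul_right_injective V S.h2 ?_
        simp only [smul_smul (2 : F), mul_inv_cancel₀ S.h2, one_smul, two_smul, Ctx.j]
        linear_combination (norm := module) -hx
  obtain ⟨ν, hν⟩ := FiniteField.exists_nonsquare (F := F) (ringChar_ne_two_iff.mpr S.h2)
  obtain ⟨a, rfl⟩ := FiniteField.norm_surjective F (AdjoinRoot h) ν
  induction a using AdjoinRoot.induction_on with
  | ih a =>
  have ha : IsCoprime h a := hh.coprime_iff_not_dvd.mpr fun hd => hν (by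
    rw [AdjoinRoot.mk_eq_zero.mpr hd, Algebra.norm_zero]; exact IsSquare.zero)
  obtain ⟨c, hca⟩ := C.norm_mod hc 1 ha
  rw [pow_one] at hca
  have hca' : ∀ r : R, (c * C.bar c) • r • v = aeval C.η a • r • v := fun r =>
    Ctx.smul_eq_of_dvd (by rw [smul_comm, hv, smul_zero]) hca
  obtain ⟨α, ψ, h1, f, p1, s⟩ := key v rfl
  obtain ⟨α', ψ', h1', f', p1', s'⟩ := key (c • v) (by
    refine le_antisymm ((iv_cyc v).cyc_le (smul_mem_cyc c v)) ((iv_cyc _).cyc_le ?_)
    obtain ⟨c1, c2, hc'⟩ := ha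
    have h3 := congrArg (fun p => aeval C.η p • v) hc'
    have h4 := hca' 1
    simp only [one_smul] at h4
    simp only [map_add, map_mul, add_smul, mul_smul, hv, smul_zero, map_one, one_smul,
      zero_add, ← h4] at h3
    exact ⟨aeval C.η c2 * C.bar c, by rw [mul_smul, smul_comm (C.bar c), h3]⟩)
  have hv' : aeval C.η h ^ (0 + 1) • v = 0 := by simpa using hv
  have tz : ∀ {σ}, C.Inv (cyc F R v) σ → tau (cyc F R v) σ = 0 := Ctx.tau_B0 S.hε S.h2 hc hv' nX
  refine S.lemT (iv_cyc v) nX h1 h1' (tz h1) (tz (h1.shift (iv_cyc v))) (tz h1')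
    (tz (h1'.shift (iv_cyc v))) f f' fun hm => ?_
  have hg : H66.gramDet Q (ψ' ∘ b) =
      Algebra.norm F (AdjoinRoot.mk h a) * H66.gramDet Q (ψ ∘ b) := by
    have e := congrArg Matrix.det (LinearMap.BilinForm.toMatrix_compLeft b
      (C.B.compl₁₂ ψ ψ) (LinearMap.mul F _ (AdjoinRoot.mk h a)))
    rw [Matrix.det_mul, Matrix.det_transpose, LinearMap.det_toMatrix] at e
    rw [Algebra.norm_apply, H66.gramDet, H66.gramDet]
    rw [show (Matrix.of fun i j => polar Q ((ψ ∘ b) i) ((ψ ∘ b) j)) =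
      LinearMap.BilinForm.toMatrix b (C.B.compl₁₂ ψ ψ) by ext i j; simp [← S.B_eq]]
    refine Eq.trans ?_ e
    congr 1
    · ext i j
      obtain ⟨p, hp⟩ := AdjoinRoot.mk_surjective (b i)
      obtain ⟨q, hq⟩ := AdjoinRoot.mk_surjective (b j)
      simp only [Matrix.of_apply, Function.comp_apply, LinearMap.BilinForm.toMatrix_apply,
        LinearMap.BilinForm.compLeft_apply, LinearMap.compl₁₂_apply, LinearMap.mul_apply',
        ← S.B_eq, ← hp, ← hq, ← map_mul, p1, p1']
      rw [smul_comm C.j c, smul_comm _ c, smul_comm _ c, C.adj' c, map_mul,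
        mul_smul, ← mul_smul (C.bar c), mul_comm (C.bar c), ← mul_smul (aeval C.η p), hca']
  rw [spin_eq_of_mem S.hQ hG hm, s', hg, mul_left_comm, map_mul,
    quadraticChar_neg_one_iff_not_isSquare.mpr hν] at s
  rw [hg, mul_left_comm, map_mul, quadraticChar_neg_one_iff_not_isSquare.mpr hν] at s'
  exact (spin S.hQ hG α').ne_zero (by omega)

end St

end H37.Ore
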