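import Mathlib
import Cfsg.Agent.Base
import Cfsg.Agent.Lib.Ore.OddU

/-! Odd characteristic, dimension divisible by four: the blocks and the conclusion. -/

set_option autoImplicit false

namespace H37.Ore

open Module QuadraticMap H12 Polynomial

variable {F V R : Type*} [Field F] [AddCommGroup V] [Module F V] [CommRing R] [Algebra F R]
  [Module R V] [IsScalarTower F R V]

namespace Ctx

/-- A line negated by `t`. -/
def M1 (C : Ctx F V R) (X : Submodule F V) : Prop :=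
  finrank F X = 1 ∧ ∀ x ∈ X, C.N (-1) • x = 0

/-- A small block with an isotropic vector negated by `t`. -/
def M3 (C : Ctx F V R) (X : Submodule F V) : Prop :=
  ∃ σ, C.Inv X σ ∧ tau X σ = 1 ∧ tau X (σ ∘ₗ Lm F V C.t) = -1 ∧
    ∃ a ∈ X, a ≠ 0 ∧ σ a = a ∧ C.N (-1) • a = 0 ∧ C.B a a = 0

/-- A small block with an isotropic invariant plane. -/
def SB (C : Ctx F V R) (X : Submodule F V) : Prop :=
  ∃ σ, C.Inv X σ ∧ tau X σ = 0 ∧ tau X (σ ∘ₗ Lm F V C.t) = 0 ∧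
    ∃ x ∈ X, σ x = x ∧ C.j • C.j • x ≠ 0 ∧ ∀ r : R, C.B x (r • x) = 0

theorem N_pow_of_j (C : Ctx F V R) (h2 : (2 : F) ≠ 0) {e : F} (he : e * e = 1) {k : ℕ} (i : ℕ)
    {x : V} (hx : C.N e ^ k • x = 0) (hj : C.j ^ i • x = 0) : C.N e ^ i • x = 0 := by
  induction i generalizing x with
  | zero => simpa using hj
  | succ i ih =>
    have := ih (x := C.j • x) (by rw [smul_comm, hx, smul_zero]) (by rwa [← mul_smul, ← pow_succ])
    rw [← C.N_pow_succ]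
    exact C.N_of_j h2 he (k := k) (by rw [smul_comm, hx, smul_zero]) (by rwa [smul_comm])

theorem B_of_dvd (C : Ctx F V R) {p a b : R} {v : V} (hv : p • v = 0) (h : p ∣ C.bar a * b)
    (r : R) : C.B (a • v) (r • b • v) = 0 := by
  rw [C.adj, smul_comm (C.bar a), ← mul_smul (C.bar a), smul_eq_zero_of_dvd hv h, smul_zero,
    map_zero]

theorem B_soc (C : Ctx F V R) {x y : V} (hy : C.N (-1) • y = 0) (h : C.B x y = 0) (r : R) :
    C.B x (r • y) = 0 := by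
  obtain ⟨l, hl⟩ := C.soc (e := -1) (by simp) r
  rw [(hl y hy).1, LinearMap.BilinForm.smul_right, h, mul_zero]

end Ctx

namespace St

variable {C : Ctx F V R} {Q : QuadraticForm F V} {g : O Q} [FiniteDimensional F V] [Finite F]
  [Finite R]

theorem blk1 (S : St C Q g) (hi : ∀ x : V, C.N 1 • x = 0 → x = 0) {k : ℕ} {v : V}
    (h1 : C.N (-1) ^ (k + 1) • v = 0) (h3 : C.B v (C.N (-1) ^ k • v) ≠ 0) : IsComm Q g ∨
      C.M1 (cyc F R v) ∨ (finrank F (cyc F R v) ≤ 6 ∧ C.M3 (cyc F R v)) := by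
  have o : (-1 : F) * -1 = 1 := by simp
  have hv0 : C.N (-1) ^ k • v ≠ 0 := fun h => h3 (by rw [h, map_zero])
  have hle := C.finrank_cyc_le_N h1
  rcases k with _ | k
  · refine Or.inr (Or.inl ⟨le_antisymm hle ?_, ?_⟩)
    · rw [Nat.one_le_iff_ne_zero, Ne, Submodule.finrank_eq_zero]
      exact Ctx.cyc_ne_bot (by simpa using hv0)
    · rintro _ ⟨r, rfl⟩
      rw [smul_comm, show C.N (-1) • v = 0 by simpa using h1, smul_zero]
  by_cases hk : k ≤ 4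
  · obtain ⟨σ, hσ, h4, t1, -, t2⟩ := Ctx.good_B1 S.hε S.h2 o h1 h3
    refine Or.inr (Or.inr ⟨by omega, σ, hσ, t1, t2 rfl, _, smul_mem_cyc _ _, hv0, h4,
      by rw [C.N_pow_succ, h1], ?_⟩)
    rw [C.B_N_pow o _ v (by rw [smul_comm, h1, smul_zero]), ← mul_smul, ← pow_add,
      Ctx.smul_eq_zero_of_dvd h1 (pow_dvd_pow _ (by omega)), map_zero, mul_zero]
  left
  obtain ⟨m, rfl⟩ : ∃ m, k = m + 1 := ⟨k - 1, by omega⟩
  have nX := C.nd_B1 h1 h3
  obtain ⟨σ, hσ, hσ'⟩ := C.exists_inv_cyc nX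
  have hp : (-1 : F) ^ (m + 1 + 1) = 1 := by
    have := C.B_N_pow o _ v h1
    rw [Ctx.symm S.hε] at this
    exact mul_right_cancel₀ h3 (by rw [← this, one_mul])
  have hm : Even m := by
    have := (neg_one_pow_eq_one_iff_even fun h => S.h2 (by linear_combination -h)).mp hp
    rw [Nat.even_iff] at this ⊢; omega
  have h4 : σ (C.N (-1) ^ (m + 1 + 1) • v) = C.N (-1) ^ (m + 1 + 1) • v := by
    rw [hσ', C.bar_N_pow o _ h1, hp, one_smul]
  obtain ⟨τ, hτ, e, t1, t2⟩ := S.bal (iv_cyc v) nX hσ (b := 1)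
    ((hσ.tau_B1 S.hε S.h2 o h1 h3).1 h4) (((hσ.shift (iv_cyc v)).tau_B1 S.hε S.h2 o h1 h3).2 (by
      rw [LinearMap.comp_apply, Lm_apply, C.t_soc (by rw [C.N_pow_succ, h1]), map_smul, h4,
        neg_smul, one_smul])) (Or.inr rfl)
  have hj : C.j ^ (m + 1 + 1 + 1) • v = 0 := Ctx.smul_eq_zero_of_dvd h1
    (pow_dvd_pow_of_dvd (by rw [C.j_eq o]; exact Dvd.intro_left _ rfl) _)
  have hj' : C.j ^ (m + 1 + 1) • v ≠ 0 := fun h => hv0 (C.N_pow_of_j S.h2 o _ h1 h)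
  have iso : ∀ i i', m ≤ i → m ≤ i' → ∀ r : R, C.B (C.j ^ i • v) (r • C.j ^ i' • v) = 0 :=
    fun i i' hi hi' => C.B_of_dvd hj (by
      rw [map_pow, C.bar_j, neg_pow, mul_assoc, ← pow_add]
      exact Dvd.dvd.mul_left (pow_dvd_pow _ (by omega)) _)
  refine S.lemE1 hi hτ t1 t2 (a := C.j ^ m • v) (c := C.j ^ (m + 1) • v) ?_ ?_
    (fun h => hj' (Ctx.smul_eq_zero_of_dvd h (pow_dvd_pow _ (by omega)))) (iso _ _ le_rfl le_rfl)
    (iso _ _ (by omega) (by omega)) (iso _ _ le_rfl (by omega)) fun l h => ?_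
  · rw [e _ (smul_mem_cyc _ _), hσ', map_pow, C.bar_j, hm.neg_pow]
  · rw [e _ (smul_mem_cyc _ _), hσ', map_pow, C.bar_j, hm.add_one.neg_pow, neg_smul]
  · rw [← mul_smul, ← pow_succ'] at h
    have h5 := congrArg (C.j ^ 2 • ·) h
    simp only [smul_comm (C.j ^ 2) l, ← mul_smul, ← pow_add] at h5
    rw [Ctx.smul_eq_zero_of_dvd hj (pow_dvd_pow _ (by omega)), add_comm] at h5
    rw [(smul_eq_zero.mp h5.symm).resolve_right hj', zero_smul] at h
    exact hj' h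

theorem blk2 (S : St C Q g) (hi : ∀ x : V, C.N 1 • x = 0 → x = 0) {k : ℕ} {u v : V}
    (hb : C.IsB2 (-1) k u v) : IsComm Q g := by
  have o : (-1 : F) * -1 = 1 := by simp
  have hp : (-1 : F) ^ k = -1 := by
    have := C.B_N_pow o _ u hb.hv
    rwa [Ctx.symm S.hε, hb.uv, hb.vu, mul_one, eq_comm] at this
  obtain ⟨σ, hσ, h1, h3, t1, t2⟩ := Ctx.good_B2 S.hε S.h2 o hb
  obtain ⟨τ, hτ, e, t3, t4⟩ := S.bal ((iv_cyc u).sup (iv_cyc v)) hb.nd hσ (b := 0) t1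
    (by rw [t2, neg_zero]) (Or.inl rfl)
  have hk : k ≠ 0 := by
    rintro rfl
    exact S.h2 (by linear_combination hp)
  have iso : ∀ x y : V, C.N (-1) ^ (k + 1) • y = 0 →
      C.B (C.N (-1) ^ k • x) (C.N (-1) ^ k • y) = 0 := fun x y hy => by
    rw [C.B_N_pow o _ x (by rw [smul_comm, hy, smul_zero]), ← mul_smul, ← pow_add,
      Ctx.smul_eq_zero_of_dvd hy (pow_dvd_pow _ (by omega)), map_zero, mul_zero]
  exact S.lemE3 hi hτ t3 t4 (a := C.N (-1) ^ k • v) (c := C.N (-1) ^ k • u)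
    (by rw [e _ (Submodule.mem_sup_right (smul_mem_cyc _ _)), h3, hp, neg_neg, one_smul])
    (by rw [e _ (Submodule.mem_sup_left (smul_mem_cyc _ _)), h1, hp, neg_smul, one_smul])
    hb.ne_v hb.ne_u (by rw [C.N_pow_succ, hb.hv]) (by rw [C.N_pow_succ, hb.hu]) (iso _ _ hb.hv)
    (iso _ _ hb.hu) (iso _ _ hb.hu)

theorem blk0 (S : St C Q g) (hi : ∀ x : V, C.N 1 • x = 0 → x = 0) {h : F[X]} (hh : Irreducible h)
    (hc : IsCoprime h (X ^ 2 - 4)) {k : ℕ} {v : V} (h1 : aeval C.η h ^ (k + 1) • v = 0) {r : R}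
    (hr : C.B v ((aeval C.η h ^ k * r) • v) ≠ 0) :
    IsComm Q g ∨ (finrank F (cyc F R v) ≤ 6 ∧ C.SB (cyc F R v)) := by
  have nX := C.nd_B0 hh hc h1 hr
  set P := aeval C.η h with hP
  have hx0 : P ^ k • v ≠ 0 := fun h0 => hr (by rw [mul_comm, mul_smul, h0, smul_zero, map_zero])
  rcases k with _ | k
  · exact Or.inl (S.case_T0 hh hc (by simpa using h1) (by simpa using hx0) nX)
  obtain ⟨σ, hσ, hσ'⟩ := C.exists_inv_cyc nX
  have t1 := Ctx.tau_B0 S.hε S.h2 hc h1 nX hσ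
  have t2 := Ctx.tau_B0 S.hε S.h2 hc h1 nX (hσ.shift (iv_cyc v))
  obtain ⟨τ, hτ, e, t3, t4⟩ := S.bal (iv_cyc v) nX hσ (b := 0) t1 (by rw [t2, neg_zero])
    (Or.inl rfl)
  have hbar : ∀ i, C.bar (P ^ i) = P ^ i := fun i => by rw [map_pow, hP, C.bar_aeval]
  have jj : ∀ r : R, r • v ≠ 0 → C.j • C.j • r • v ≠ 0 := fun r h0 h3 =>
    h0 (C.j_inj hc (k := k + 1 + 1) (by rw [smul_comm, h1, smul_zero]) (C.j_inj hc (k := k + 1 + 1)
      (by rw [smul_comm, smul_comm _ r, h1, smul_zero, smul_zero]) h3))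
  have key : ∀ (p : F[X]) (i : ℕ), k + 2 ≤ i + i →
      (∀ l : F, C.j • (C.j * aeval C.η p * P ^ i) • v ≠ l • P ^ (k + 1) • v) → IsComm Q g := by
    intro p i hi' hl
    refine S.lemE1 hi hτ t3 t4 (by rw [e _ (smul_mem_cyc _ _), hσ', hbar]) ?_ hx0
      (C.B_of_dvd h1 ?_) (C.B_of_dvd h1 ?_) (C.B_of_dvd h1 ?_) hl
    · rw [e _ (smul_mem_cyc _ _), hσ', map_mul, map_mul, hbar, C.bar_aeval, C.bar_j, neg_mul,
        neg_mul, neg_smul]
    · rw [hbar, ← pow_add]; exact pow_dvd_pow _ (by omega)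
    · rw [map_mul, hbar, mul_mul_mul_comm, ← pow_add]
      exact Dvd.dvd.mul_left (pow_dvd_pow _ (by omega)) _
    · rw [hbar, mul_left_comm, ← pow_add]
      exact Dvd.dvd.mul_left (pow_dvd_pow _ (by omega)) _
  have hPx : P • P ^ (k + 1) • v = 0 := by rw [← mul_smul, ← pow_succ', h1]
  by_cases hk : 2 ≤ k
  · refine Or.inl (key 1 k (by omega) fun l h0 => jj _ hx0 ?_)
    have := congrArg (P • ·) h0
    simp only [smul_comm P l, hPx, smul_zero, map_one, mul_one] at this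
    rw [← this]
    simp only [← mul_smul]
    congr 1; ring
  by_contra H
  push Not at H
  have k1 := mt (key 1 (k + 1) (by omega)) H.1
  have k2 := mt (key X (k + 1) (by omega)) H.1
  push Not at k1 k2
  obtain ⟨l, hl⟩ := k1
  obtain ⟨l', hl'⟩ := k2
  rw [map_one, mul_one, mul_smul] at hl
  have hl0 : l ≠ 0 := by rintro rfl; exact jj _ hx0 (by rw [hl, zero_smul])
  have hη : (C.η - algebraMap F R (l⁻¹ * l')) • P ^ (k + 1) • v = 0 := by
    rw [sub_smul, algebraMap_smul, mul_smul, ← hl', aeval_X, mul_smul, mul_smul, smul_comm C.j C.η,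
      smul_comm C.j C.η, hl, smul_comm C.η l, inv_smul_smul₀ hl0, sub_self]
  have hd : h ∣ X - Polynomial.C (l⁻¹ * l') := by
    by_contra hd
    exact hx0 (C.eq_zero_of_coprime (hh.coprime_iff_not_dvd.mpr hd) hPx
      (by rwa [map_sub, aeval_X, aeval_C]))
  have hle := C.finrank_cyc_le_η (e := l⁻¹ * l') (k := k + 1 + 1) (v := v)
    (Ctx.smul_eq_zero_of_dvd h1 (pow_dvd_pow_of_dvd (by
      have := map_dvd (aeval C.η) hd
      rwa [map_sub, aeval_X, aeval_C] at this) _))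
  exact H.2 (by omega) ⟨σ, hσ, t1, t2, _, smul_mem_cyc _ _, by rw [hσ', hbar], jj _ hx0,
    C.B_of_dvd h1 (by rw [hbar, ← pow_add]; exact pow_dvd_pow _ (by omega))⟩

theorem blk (S : St C Q g) (hi : ∀ x : V, C.N 1 • x = 0 → x = 0) {Z : Submodule F V}
    (iZ : Iv R Z) (nZ : ND C.B Z) (hZ : finrank F Z ≤ 7) : IsComm Q g ∨ ∃ X, Iv R X ∧ ND C.B X ∧
      (∀ z ∈ Z, ∀ x ∈ X, C.B z x = 0) ∧ (C.M1 X ∨ (finrank F X ≤ 6 ∧ (C.M3 X ∨ C.SB X))) := by
  have iW := C.iv_pp iv_top iZ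
  have hd := nZ.finrank_pp C.isRefl le_top
  have hn := S.hn
  rw [finrank_top] at hd
  have orth : ∀ v ∈ pp C.B ⊤ Z, ∀ z ∈ Z, ∀ x ∈ cyc F R v, C.B z x = 0 := fun v hv z hz x hx =>
    (iW.cyc_le hv hx).2 z hz
  rcases C.exists_block iW (nZ.pp C.isRefl le_top S.nd) (fun h => by
      rw [h, finrank_bot] at hd; omega) with ⟨e, he, k, v, hv, h1, h3⟩ |
    ⟨e, he, k, u, hu, v, hv, hb⟩ | ⟨h, hh, hc, k, v, hv, h1, r, hr⟩
  · rcases mul_self_eq_one_iff.mp he with rfl | rfl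
    · exact absurd (by rw [hi (C.N 1 ^ k • v) (by rw [C.N_pow_succ, h1]), map_zero]) h3
    rcases S.blk1 hi h1 h3 with h | h | h
    · exact Or.inl h
    · exact Or.inr ⟨_, iv_cyc v, C.nd_B1 h1 h3, orth v hv, Or.inl h⟩
    · exact Or.inr ⟨_, iv_cyc v, C.nd_B1 h1 h3, orth v hv, Or.inr ⟨h.1, Or.inl h.2⟩⟩
  · rcases mul_self_eq_one_iff.mp he with rfl | rfl
    · exact absurd (hi _ (by rw [C.N_pow_succ, hb.hu])) hb.ne_u
    exact Or.inl (S.blk2 hi hb)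
  · rcases S.blk0 hi hh hc h1 hr with h | h
    · exact Or.inl h
    · exact Or.inr ⟨_, iv_cyc v, C.nd_B0 hh hc h1 hr, orth v hv, Or.inr ⟨h.1, Or.inr h.2⟩⟩

theorem pair11 (S : St C Q g) {X Y : Submodule F V} (iX : Iv R X) (nX : ND C.B X) (iY : Iv R Y)
    (nY : ND C.B Y) (h : ∀ x ∈ X, ∀ y ∈ Y, C.B x y = 0) (hX : C.M1 X) (hY : C.M1 Y) :
    IsComm Q g := by
  refine S.case_T1 (iX.sup iY) (nX.sup C.isRefl nY h) (by
    rw [finrank_sup_of_disjoint (nX.disjoint C.isRefl h), hX.1, hY.1]) fun w hw => ?_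
  obtain ⟨x, hx, y, hy, rfl⟩ := Submodule.mem_sup.mp hw
  rw [smul_add, hX.2 x hx, hY.2 y hy, add_zero]

theorem pairS (S : St C Q g) (hi : ∀ x : V, C.N 1 • x = 0 → x = 0) {X Y : Submodule F V}
    (iX : Iv R X) (nX : ND C.B X) (iY : Iv R Y) (nY : ND C.B Y)
    (h : ∀ x ∈ X, ∀ y ∈ Y, C.B x y = 0) (hX : C.SB X) (hY : C.M3 Y ∨ C.SB Y) : IsComm Q g := by
  obtain ⟨σ, hσ, t1, t2, x, hx, h1, h3, h4⟩ := hX
  obtain ⟨τ, b, hb, hτ, t3, t4, a, ha, h5, h6, h7⟩ : ∃ τ, ∃ b : ℤ, (b = 0 ∨ b = 1) ∧ C.Inv Y τ ∧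
      tau Y τ = b ∧ tau Y (τ ∘ₗ Lm F V C.t) = -b ∧ ∃ a ∈ Y, a ≠ 0 ∧ τ a = a ∧
        ∀ r : R, C.B a (r • a) = 0 := by
    rcases hY with ⟨τ, hτ, t3, t4, a, ha, h5, h6, h7, h8⟩ | ⟨τ, hτ, t3, t4, a, ha, h5, h6, h7⟩
    · exact ⟨τ, 1, Or.inr rfl, hτ, t3, t4, a, ha, h5, h6, C.B_soc h7 h8⟩
    · exact ⟨τ, 0, Or.inl rfl, hτ, t3, by simpa using t4, a, ha, by rintro rfl; simp at h6, h5, h7⟩
  obtain ⟨k, hk, e1, e2, t5, t6⟩ := hσ.glue_tau hτ iX iY nX h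
  obtain ⟨ρ, hρ, e, t7, t8⟩ := S.bal (iX.sup iY) (nX.sup C.isRefl nY h) hk (b := b) (by omega)
    (by omega) hb
  refine S.lemE1 hi hρ t7 t8 (a := a) (c := C.j • x)
    (by rw [e _ (Submodule.mem_sup_right ha), e2 a ha, h6]) ?_ h5 h7 (fun r => ?_)
    (fun r => C.isRefl _ _ (h _ (iX _ _ (iX _ x hx)) a ha)) fun l hl => h3 ?_
  · rw [hρ.semi _ _ trivial, e _ (Submodule.mem_sup_left hx), e1 x hx, h1, C.bar_j, neg_smul]
  · rw [C.adj, ← mul_smul, ← mul_smul, h4]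
  · exact Submodule.disjoint_def.mp (nX.disjoint C.isRefl h) _ (iX _ _ (iX _ x hx))
      (hl ▸ Y.smul_mem _ ha)

theorem pairBB (S : St C Q g) (hi : ∀ x : V, C.N 1 • x = 0 → x = 0) {X Y : Submodule F V}
    (iX : Iv R X) (nX : ND C.B X) (iY : Iv R Y) (nY : ND C.B Y)
    (h : ∀ x ∈ X, ∀ y ∈ Y, C.B x y = 0) (hX : C.M3 X ∨ C.SB X) (hY : C.M3 Y ∨ C.SB Y) :
    IsComm Q g := by
  rcases hX with hX | hX
  swap
  · exact S.pairS hi iX nX iY nY h hX hY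
  rcases hY with hY | hY
  swap
  · exact S.pairS hi iY nY iX nX (fun y hy x hx => C.isRefl _ _ (h x hx y hy)) hY (Or.inl hX)
  obtain ⟨σ, hσ, t1, t2, a, ha, h1, h3, h4, h5⟩ := hX
  obtain ⟨τ, hτ, t3, t4, c, hc, h6, h7, h8, h9⟩ := hY
  obtain ⟨k, hk, e1, e2, t5, t6⟩ := hσ.glue_tau hτ.neg iX iY nX h
  rw [tau_neg] at t5
  rw [LinearMap.neg_comp, tau_neg] at t6
  obtain ⟨ρ, hρ, e, t7, t8⟩ := S.bal (iX.sup iY) (nX.sup C.isRefl nY h) hk (b := 0) (by omega)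
    (by omega) (Or.inl rfl)
  exact S.lemE3 hi hρ t7 t8 (by rw [e _ (Submodule.mem_sup_left ha), e1 a ha, h3])
    (by rw [e _ (Submodule.mem_sup_right hc), e2 c hc, LinearMap.neg_apply, h7]) h1 h6 h4 h8 h5 h9
    (h a ha c hc)

theorem isComm (S : St C Q g) : IsComm Q g := by
  refine S.inj.elim id fun hi => ?_
  refine (S.blk hi (Z := ⊥) iv_bot (fun _ h _ => h) (by simp)).elim id ?_
  rintro ⟨X, iX, nX, -, hX⟩
  refine (S.blk hi iX nX (by rcases hX with h | h <;> have := h.1 <;> omega)).elim id ?_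
  rintro ⟨Y, iY, nY, hXY, hY⟩
  have key : ∀ {X Y : Submodule F V}, Iv R X → ND C.B X → Iv R Y → ND C.B Y →
      (∀ x ∈ X, ∀ y ∈ Y, C.B x y = 0) → C.M1 X → finrank F Y ≤ 6 ∧ (C.M3 Y ∨ C.SB Y) →
      IsComm Q g := by
    intro X Y iX nX iY nY hXY hX hY
    refine (S.blk hi (iX.sup iY) (nX.sup C.isRefl nY hXY) (by
      rw [finrank_sup_of_disjoint (nX.disjoint C.isRefl hXY), hX.1]; omega)).elim id ?_
    rintro ⟨Z, iZ, nZ, hZ, h | h⟩
    · exact S.pair11 iX nX iZ nZ (fun x hx => hZ x (Submodule.mem_sup_left hx)) hX h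
    · exact S.pairBB hi iY nY iZ nZ (fun x hx => hZ x (Submodule.mem_sup_right hx)) hY.2 h.2
  rcases hX with hX | hX <;> rcases hY with hY | hY
  · exact S.pair11 iX nX iY nY hXY hX hY
  · exact key iX nX iY nY hXY hX hY
  · exact key iY nY iX nX (fun y hy x hx => C.isRefl _ _ (hXY x hx y hy)) hY hX
  · exact S.pairBB hi iX nX iY nY hXY hX.2 hY.2

end St

theorem isComm_even {F V : Type*} [Field F] [AddCommGroup V] [Module F V] {Q : QuadraticForm F V}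
    [Finite F] [FiniteDimensional F V] (hQ : Nondeg Q) (hn : 8 ≤ finrank F V)
    (he : Even (finrank F V)) {g : O Q} (hg : g ∈ Om Q) : IsComm Q g := by
  by_cases h2 : (2 : F) = 0
  · have := charP_two_of h2
    have := Fintype.ofFinite F
    exact isComm_two hQ hn hg
  by_cases h4 : finrank F V % 4 = 0
  · obtain ⟨R, _, _, _, _, _, C, hB, hε, ht⟩ := exists_ctx (polarBilin Q) (ε := 1) (by simp)
      (fun x y => by simp [polar_comm]) g.1 (O.map_B g)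
    exact St.isComm (C := C) ⟨hQ, h2, hB, hε, ht, hg, hn, h4⟩
  · exact isComm_even_easy hQ h2 hn he (fun h => absurd h h4) hg

end H37.Ore
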