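import Mathlib
import Cfsg.Agent.Base
import Cfsg.Agent.Lib.Ore.Lin2

/-! Products of elements of two opposite Siegel radicals are commutators. -/

set_option autoImplicit false

namespace H37.Ore

open Module Polynomial

theorem conj_of_fpf {G : Type*} [Group G] [Finite G] {Q : Subgroup G} {a : G}
    (hn : ∀ u ∈ Q, a * u * a⁻¹ ∈ Q) (hf : ∀ u ∈ Q, a * u = u * a → u = 1) {u : G} (hu : u ∈ Q) :
    ∃ y, u * a = y * a * y⁻¹ := by
  let f : Q → Q := fun y => ⟨y * (a * (y⁻¹ : Q) * a⁻¹), mul_mem y.2 (hn _ (y⁻¹).2)⟩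
  have hi : Function.Injective f := fun y z e => by
    have e' : (y : G) * (a * (y : G)⁻¹ * a⁻¹) = z * (a * (z : G)⁻¹ * a⁻¹) := congrArg Subtype.val e
    have := hf _ (mul_mem (inv_mem z.2) y.2) (by
      calc a * ((z : G)⁻¹ * y) = (z : G)⁻¹ * (z * (a * (z : G)⁻¹ * a⁻¹)) * a * y := by group
        _ = _ := by rw [← e']; group)
    exact Subtype.ext (inv_mul_eq_one.1 this).symm
  obtain ⟨y, hy⟩ := Finite.surjective_of_injective hi ⟨u, hu⟩
  have e : (y : G) * (a * (y : G)⁻¹ * a⁻¹) = u := congrArg Subtype.val hy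
  exact ⟨y, by rw [← e]; group⟩

variable {F V : Type*} [Field F] [AddCommGroup V] [Module F V] {B : LinearMap.BilinForm F V}

theorem aeval_intertw {W : Type*} [AddCommGroup W] [Module F W] {a : End F V} {b : End F W}
    (φ : V →ₗ[F] W) (h : ∀ x, φ (a x) = b (φ x)) (f : F[X]) (x : V) :
    φ (aeval a f x) = aeval b f (φ x) := by
  induction f using Polynomial.induction_on generalizing x with
  | C c => simp
  | add p q hp hq => simp [hp, hq]
  | monomial n c ih =>
    rw [pow_succ, ← mul_assoc, map_mul, map_mul (aeval b), aeval_X, aeval_X, End.mul_apply,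
      End.mul_apply, ih, h]

theorem aeval_adj {a b : End F V} (h : ∀ x y, B x (a y) = B (b x) y) (f : F[X]) (x y : V) :
    B x (aeval a f y) = B (aeval b f x) y := by
  induction f using Polynomial.induction_on generalizing x y with
  | C c => simp
  | add p q hp hq => simp [hp, hq]
  | monomial n c ih =>
    rw [pow_succ, ← mul_assoc, map_mul, aeval_X, End.mul_apply, ih, h, mul_comm _ X,
      map_mul (aeval b) X, aeval_X, End.mul_apply]

/-- The isometry group of a bilinear form. -/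
def Iso (B : LinearMap.BilinForm F V) : Subgroup (V ≃ₗ[F] V) where
  carrier := {g | ∀ x y, B (g x) (g y) = B x y}
  mul_mem' := fun {a b} ha hb x y => (ha _ _).trans (hb x y)
  one_mem' := fun _ _ => rfl
  inv_mem' := fun {a} ha x y => by rw [← ha]; simp

/-- The pointwise stabiliser. -/
def Fx (B : LinearMap.BilinForm F V) (L : Submodule F V) : Subgroup (Iso B) where
  carrier := {g | ∀ x ∈ L, g.1 x = x}
  mul_mem' := fun {a b} ha hb x hx => by
    change a.1 (b.1 x) = x
    rw [hb x hx, ha x hx]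
  one_mem' := fun _ _ => rfl
  inv_mem' := fun {a} ha x hx => a.1.symm_apply_eq.mpr (ha x hx).symm

/-- The negation. -/
def negI (B : LinearMap.BilinForm F V) : Iso B := ⟨LinearEquiv.neg F, fun x y => by simp⟩

/-- A pair of complementary totally isotropic subspaces. -/
structure LP (B : LinearMap.BilinForm F V) (L L' : Submodule F V) : Prop where
  nd : ∀ x, (∀ y, B x y = 0) → x = 0
  refl : B.IsRefl
  sup : L ⊔ L' = ⊤
  iso : ∀ x ∈ L, ∀ y ∈ L, B x y = 0
  iso' : ∀ x ∈ L', ∀ y ∈ L', B x y = 0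

namespace LP

variable {L L' M M' : Submodule F V}

theorem symm (h : LP B L L') : LP B L' L := ⟨h.nd, h.refl, by rw [sup_comm, h.sup], h.iso', h.iso⟩

theorem dec (h : LP B L L') (v : V) : ∃ x ∈ L, ∃ y ∈ L', x + y = v :=
  Submodule.mem_sup.mp (h.sup ▸ Submodule.mem_top)

theorem eq_zero (h : LP B L L') {x : V} (hx : x ∈ L) (hx' : ∀ y ∈ L', B x y = 0) : x = 0 :=
  h.nd x fun v => by
    obtain ⟨y, hy, z, hz, rfl⟩ := h.dec v
    rw [map_add, h.iso x hx y hy, hx' z hz, add_zero]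

theorem disjoint (h : LP B L L') : Disjoint L L' :=
  Submodule.disjoint_def.mpr fun x hx hx' => h.eq_zero hx (h.iso' x hx')

theorem mem (h : LP B L L') {v : V} (hv : ∀ x ∈ L, B v x = 0) : v ∈ L := by
  obtain ⟨y, hy, z, hz, rfl⟩ := h.dec v
  rw [h.symm.eq_zero hz fun x hx => by simpa [h.iso y hy x hx] using hv x hx, add_zero]
  exact hy

theorem ext (h : LP B L L') {W : Type*} [AddCommGroup W] [Module F W] {f g : V →ₗ[F] W}
    (h1 : ∀ x ∈ L, f x = g x) (h2 : ∀ x ∈ L', f x = g x) (v : V) : f v = g v := by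
  obtain ⟨y, hy, z, hz, rfl⟩ := h.dec v
  rw [map_add, map_add, h1 y hy, h2 z hz]

variable [FiniteDimensional F V]

theorem exists_iso (h : LP B L L') (k : V →ₗ[F] V) (hk : ∀ x y, B (k x) (k y) = B x y) :
    ∃ a : Iso B, ∀ x, a.1 x = k x := by
  have hi : Function.Injective k := by
    rw [injective_iff_map_eq_zero]
    exact fun x hx => h.nd x fun y => by rw [← hk, hx, map_zero, LinearMap.zero_apply]
  exact ⟨⟨LinearEquiv.ofBijective k ⟨hi, LinearMap.surjective_of_injective hi⟩, hk⟩, fun _ => rfl⟩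

theorem inj (h : LP B L L') : Function.Injective (B.domRestrict₁₂ L L').flip := by
  rw [injective_iff_map_eq_zero]
  exact fun y hy => Subtype.ext (h.symm.eq_zero y.2 fun x hx =>
    h.refl _ _ (LinearMap.congr_fun hy ⟨x, hx⟩))

theorem finrank_eq (h : LP B L L') : finrank F L = finrank F L' := by
  have e1 := LinearMap.finrank_le_finrank_of_injective h.inj
  have e2 := LinearMap.finrank_le_finrank_of_injective h.symm.inj
  rw [Subspace.dual_finrank_eq] at e1 e2
  omega

theorem finrank_top (h : LP B L L') : finrank F V = 2 * finrank F L := by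
  rw [← _root_.finrank_top, ← h.sup, finrank_sup_of_disjoint h.disjoint, ← h.finrank_eq, two_mul]

theorem bij (h : LP B L L') : Function.Bijective (B.domRestrict₁₂ L L').flip :=
  ⟨h.inj, (LinearMap.injective_iff_surjective_of_finrank_eq_finrank
    (by rw [Subspace.dual_finrank_eq, h.finrank_eq])).mp h.inj⟩

theorem exists_ext (hA : B.IsAlt) (h : LP B L L') (h' : LP B M M') (A : L ≃ₗ[F] M) :
    ∃ a : Iso B, (∀ x : L, a.1 x = A x) ∧ ∀ y ∈ L', a.1 y ∈ M' := by
  let φ := LinearEquiv.ofBijective _ h'.bij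
  let k' : L' →ₗ[F] M' :=
    φ.symm.toLinearMap ∘ₗ A.symm.toLinearMap.dualMap ∘ₗ (B.domRestrict₁₂ L L').flip
  have hk' : ∀ (x : L) (y : L'), B (A x) (k' y) = B x y := fun x y => by
    have := LinearMap.congr_fun (φ.apply_symm_apply (A.symm.toLinearMap.dualMap
      ((B.domRestrict₁₂ L L').flip y))) (A x)
    exact this.trans (congrArg (fun z : L => B z y) (A.symm_apply_apply x))
  have hc : IsCompl L L' := ⟨h.disjoint, codisjoint_iff.mpr h.sup⟩
  let k := LinearMap.ofIsCompl hc (M.subtype ∘ₗ A.toLinearMap) (M'.subtype ∘ₗ k')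
  have h1 : ∀ x : L, k x = A x := LinearMap.ofIsCompl_apply_left hc
  have h2 : ∀ y : L', k y = k' y := LinearMap.ofIsCompl_apply_right hc
  obtain ⟨a, ha⟩ := h.exists_iso k fun v w => by
    obtain ⟨x, hx, y, hy, rfl⟩ := h.dec v
    obtain ⟨x', hx', y', hy', rfl⟩ := h.dec w
    simp only [map_add, LinearMap.add_apply, h1 ⟨x, hx⟩, h1 ⟨x', hx'⟩, h2 ⟨y, hy⟩, h2 ⟨y', hy'⟩,
      h.iso x hx x' hx', h.iso' y hy y' hy', h'.iso _ (A _).2 _ (A _).2,
      h'.iso' _ (k' _).2 _ (k' _).2, hk']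
    rw [← hA.neg_eq, hk', hA.neg_eq]
  exact ⟨a, fun x => (ha x).trans (h1 x), fun y hy => by rw [ha, h2 ⟨y, hy⟩]; exact (k' _).2⟩

omit [FiniteDimensional F V] in
theorem uniq (h : LP B L L') (h' : LP B M M') {a b : Iso B} (hs : ∀ m ∈ M, ∃ x ∈ L, a.1 x = m)
    (e : ∀ x ∈ L, a.1 x = b.1 x) (ha : ∀ y ∈ L', a.1 y ∈ M') (hb : ∀ y ∈ L', b.1 y ∈ M') :
    a = b := by
  refine Subtype.ext (LinearEquiv.ext (h.ext (f := a.1.toLinearMap) (g := b.1.toLinearMap) e
    fun y hy => sub_eq_zero.mp (h'.symm.eq_zero (M'.sub_mem (ha y hy) (hb y hy)) fun m hm => ?_)))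
  obtain ⟨x, hx, rfl⟩ := hs m hm
  change B (a.1 y - b.1 y) _ = 0
  rw [map_sub, LinearMap.sub_apply, a.2, e x hx, b.2, sub_self]

end LP

theorem inv_maps [FiniteDimensional F V] {L : Submodule F V} {a : V ≃ₗ[F] V}
    (h : ∀ x ∈ L, a x ∈ L) {x : V} (hx : x ∈ L) : a.symm x ∈ L := by
  obtain ⟨y, hy⟩ := LinearMap.surjective_of_injective (f := a.toLinearMap.restrict h)
    (fun y z e => Subtype.ext (a.injective (congrArg Subtype.val e))) ⟨x, hx⟩
  rw [← show a y = x from congrArg Subtype.val hy, a.symm_apply_apply]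
  exact y.2

/-- An element normalising both subspaces, with coprime actions on them. -/
structure Lev (B : LinearMap.BilinForm F V) (L L' : Submodule F V) (a : Iso B) (f : F[X]) :
    Prop where
  mem : ∀ x ∈ L, a.1 x ∈ L
  mem' : ∀ x ∈ L', a.1 x ∈ L'
  zero : ∀ x ∈ L, aeval a.1.toLinearMap f x = 0
  inj : ∀ x ∈ L', aeval a.1.toLinearMap f x = 0 → x = 0

variable [FiniteDimensional F V] {L L' : Submodule F V}

theorem LP.exists_lev (hA : B.IsAlt) (h : LP B L L') (A : L ≃ₗ[F] L) {f : F[X]}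
    (h1 : ∀ x, aeval A.toLinearMap f x = 0) (h2 : Function.Surjective (aeval A.symm.toLinearMap f)) :
    ∃ a, Lev B L L' a f ∧ ∀ x : L, a.1 x = A x := by
  obtain ⟨a, ha, ha'⟩ := h.exists_ext hA h A
  refine ⟨a, ⟨fun x hx => ha ⟨x, hx⟩ ▸ (A _).2, ha', fun x hx => ?_, fun y hy e => ?_⟩, ha⟩
  · have := aeval_intertw (a := A.toLinearMap) (b := a.1.toLinearMap) L.subtype
      (fun x => (ha x).symm) f ⟨x, hx⟩
    rw [h1, map_zero] at this
    exact this.symm
  · refine h.symm.eq_zero hy fun x hx => h.refl _ _ ?_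
    obtain ⟨z, hz⟩ := h2 ⟨x, hx⟩
    have := aeval_intertw (a := A.symm.toLinearMap) (b := a.1.symm.toLinearMap) L.subtype
      (fun x => a.1.eq_symm_apply.mpr (by simp [ha])) f z
    rw [hz] at this
    rw [show x = _ from this, ← aeval_adj (a := a.1.toLinearMap) (fun x y => by
      rw [← a.2 (a.1.symm.toLinearMap x)]; simp), e, map_zero]

theorem Lev.big [Finite F] (h : LP B L L') {a : Iso B} {f : F[X]} (ha : Lev B L L' a f) {g : Iso B}
    (hg : ∀ x ∈ L, g.1 x - x ∈ L') : ∃ p q : Iso B, g = p * a * p⁻¹ * (q * a⁻¹ * q⁻¹) := by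
  have : Finite V := Module.finite_of_finite F
  have : Finite (V ≃ₗ[F] V) :=
    Finite.of_injective (fun h : V ≃ₗ[F] V => (h : V → V)) DFunLike.coe_injective
  obtain ⟨k, k1, k2⟩ := exists_glue h.disjoint g.1.toLinearMap LinearMap.id
  obtain ⟨v, hv⟩ := h.exists_iso k fun z w => by
    obtain ⟨x, hx, y, hy, rfl⟩ := h.dec z
    obtain ⟨x', hx', y', hy', rfl⟩ := h.dec w
    have e1 := h.iso' _ (hg x hx) y' hy'
    have e2 := h.iso' y hy _ (hg x' hx')
    rw [map_sub, LinearMap.sub_apply, sub_eq_zero] at e1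
    rw [map_sub, sub_eq_zero] at e2
    simp only [map_add, LinearMap.add_apply, k1 x hx, k1 x' hx', k2 y hy, k2 y' hy',
      LinearMap.id_apply, LinearEquiv.coe_coe, g.2 x x', e1, e2]
  have nm : ∀ {M : Submodule F V} {b : Iso B}, (∀ x ∈ M, b.1.symm x ∈ M) → ∀ u ∈ Fx B M,
      b * u * b⁻¹ ∈ Fx B M := fun {M b} hb u hu x hx => by
    change b.1 (u.1 (b.1.symm x)) = x
    rw [hu _ (hb x hx), b.1.apply_symm_apply]
  have cm : ∀ {M M' : Submodule F V}, LP B M M' → ∀ u ∈ Fx B M, a * u = u * a →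
      (∀ x, u.1 x - x ∈ M) ∧ ∀ x, u.1 (aeval a.1.toLinearMap f x) - aeval a.1.toLinearMap f x =
        aeval a.1.toLinearMap f (u.1 x - x) := fun {M M'} h u hu e =>
    ⟨fun x => h.mem fun y hy => by
      rw [map_sub, LinearMap.sub_apply, ← u.2 x y, hu y hy, sub_self],
    aeval_intertw (u.1.toLinearMap - LinearMap.id) (fun x => by
      have := LinearEquiv.congr_fun (congrArg Subtype.val e) x
      simp only [LinearMap.sub_apply, LinearEquiv.coe_coe, LinearMap.id_apply, map_sub]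
      exact congrArg (· - _) this.symm) f⟩
  have one : ∀ u : Iso B, (∀ x ∈ L, u.1 x = x) → (∀ x ∈ L', u.1 x = x) → u = 1 := fun u h1 h2 =>
    Subtype.ext (LinearEquiv.ext (h.ext (f := u.1.toLinearMap) (g := LinearMap.id) h1 h2))
  obtain ⟨p, hp⟩ := conj_of_fpf (Q := Fx B L') (a := a) (nm fun _ => inv_maps ha.mem')
    (fun u hu e => one u (fun x hx => sub_eq_zero.mp (ha.inj _ ((cm h.symm u hu e).1 x) (by
      rw [← (cm h.symm u hu e).2, ha.zero x hx, map_zero, sub_self]))) hu) (u := v)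
    (fun y hy => (hv y).trans (k2 y hy))
  have hu : v⁻¹ * g ∈ Fx B L := fun x hx => v.1.symm_apply_eq.mpr ((hv x).trans (k1 x hx)).symm
  obtain ⟨q, hq⟩ := conj_of_fpf (Q := Fx B L) (a := a⁻¹) (nm ha.mem)
    (fun u hu e => one u hu fun y hy => by
      have e' : a * u = u * a := (Commute.inv_left_iff.mp e).eq
      have hi := aeval_intertw (a := a.1.toLinearMap.restrict ha.mem') (b := a.1.toLinearMap)
        L'.subtype (fun _ => rfl) f
      obtain ⟨z, hz⟩ := LinearMap.surjective_of_injective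
        (f := aeval (a.1.toLinearMap.restrict ha.mem') f) (by
          rw [injective_iff_map_eq_zero]
          exact fun z hz => Subtype.ext (ha.inj z z.2 ((hi z).symm.trans (by rw [hz]; rfl))))
        ⟨y, hy⟩
      have h3 := hi z
      rw [hz] at h3
      rw [← sub_eq_zero, show y = _ from h3, (cm h u hu e').2, ha.zero _ ((cm h u hu e').1 _)])
    (nm (b := a⁻¹) ha.mem _ hu)
  exact ⟨p, q, by rw [← hp, ← hq]; group⟩

theorem exists_auto [Finite F] (M : Type*) [AddCommGroup M] [Module F M] [FiniteDimensional F M]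
    (h : 4 ≤ Nat.card F ∨ 5 ≤ Nat.card F ^ finrank F M) : ∃ (A : M ≃ₗ[F] M) (f : F[X]),
      (∀ x, aeval A.toLinearMap f x = 0) ∧ Function.Surjective (aeval A.symm.toLinearMap f) := by
  classical
  rcases h with h | h
  · have := Fintype.ofFinite F
    obtain ⟨c, h0, h1⟩ : ∃ c : F, c ≠ 0 ∧ c * c ≠ 1 := by
      by_contra H
      push Not at H
      have : (Finset.univ : Finset F) ⊆ {0, 1, -1} := fun c _ => by
        by_cases hc : c = 0
        · simp [hc]
        · rcases mul_self_eq_one_iff.mp (H c hc) with h | h <;> simp [h]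
      have := (Finset.card_le_card this).trans Finset.card_le_three
      rw [Finset.card_univ, ← Nat.card_eq_fintype_card] at this
      omega
    refine ⟨LinearEquiv.smulOfNeZero F M c h0, X - C c, fun x => by simp, fun x =>
      ⟨(c⁻¹ - c)⁻¹ • x, ?_⟩⟩
    have : c⁻¹ - c ≠ 0 := fun e => h1 (by rw [← mul_inv_cancel₀ h0, sub_eq_zero.mp e])
    have e : ∀ y, (LinearEquiv.smulOfNeZero F M c h0).symm y = c⁻¹ • y := fun y => by
      rw [LinearEquiv.symm_apply_eq]; simp [smul_smul, h0]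
    simp only [map_sub, aeval_X, aeval_C, LinearMap.sub_apply, LinearEquiv.coe_coe, e,
      Module.algebraMap_end_apply, ← sub_smul, smul_smul]
    rw [← sub_mul, mul_inv_cancel₀ this, one_smul]
  obtain ⟨p, hp⟩ := CharP.exists F
  have := Fact.mk (CharP.char_prime_of_ne_zero F (CharP.char_ne_zero_of_finite F p))
  have : NeZero (finrank F M) := ⟨fun h0 => by simp [h0] at h⟩
  let K := FiniteField.Extension F p (finrank F M)
  have := Fintype.ofFinite K
  let ι : K ≃ₗ[F] M := LinearEquiv.ofFinrankEq _ _ (FiniteField.finrank_extension F p _)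
  obtain ⟨ζ, hζ⟩ := IsCyclic.exists_generator (α := Kˣ)
  let A := ι.symm ≪≫ₗ (LinearEquiv.restrictScalars F (LinearEquiv.smulOfUnit (M := K) ζ)) ≪≫ₗ ι
  have key : ∀ (b : End F M) (c : K), (∀ x, b (ι x) = ι (c * x)) → ∀ f : F[X], ∀ x,
      aeval b f (ι x) = ι (aeval c f * x) := fun b c hb f x => by
    refine (aeval_intertw (a := Algebra.lmul F K c) ι.toLinearMap
      (fun x => (hb x).symm) f x).symm.trans ?_
    rw [aeval_algHom_apply]
    rfl
  have hA : ∀ x, A (ι x) = ι (ζ * x) := fun x => by simp [A, LinearEquiv.smulOfUnit, Units.smul_def]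
  have hA' : ∀ x, A.symm (ι x) = ι ((ζ⁻¹ : Kˣ) * x) := fun x => by
    rw [LinearEquiv.symm_apply_eq, hA]; simp
  have hne : aeval ((ζ⁻¹ : Kˣ) : K) (minpoly F (ζ : K)) ≠ 0 := fun h0 => by
    have h1 : ∀ x : K, x ∈ (X * (X + 1) * (X ^ 2 + X + 1) : K[X]).roots := fun x => by
      rw [mem_roots (by
        refine mul_ne_zero (mul_ne_zero X_ne_zero ?_) ?_ <;> refine Monic.ne_zero ?_ <;> monicity!)]
      simp only [IsRoot.def, eval_mul, eval_add, eval_X, eval_one, eval_pow, mul_eq_zero]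
      by_contra H
      push Not at H
      obtain ⟨i, hi⟩ := (mem_powers_iff_mem_zpowers).mpr (hζ (Units.mk0 x H.1.1))
      obtain ⟨j, hj⟩ := (mem_powers_iff_mem_zpowers).mpr (hζ (Units.mk0 _ H.1.2))
      have hi' : (ζ : K) ^ i = x := by simpa using congrArg Units.val hi
      have hj' : (ζ : K) ^ j = x + 1 := by simpa using congrArg Units.val hj
      obtain ⟨r, hr⟩ := minpoly.dvd F (ζ : K) (p := X ^ i + 1 - X ^ j) (by simp [hi', hj'])
      have := congrArg (aeval ((ζ⁻¹ : Kˣ) : K)) hr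
      rw [map_mul, h0, zero_mul] at this
      simp only [map_sub, map_add, map_pow, aeval_X, map_one, Units.val_inv_eq_inv_val, inv_pow,
        hi', hj'] at this
      refine H.2 ?_
      linear_combination x * (x + 1) * this - (x + 1) * mul_inv_cancel₀ H.1.1 +
        x * mul_inv_cancel₀ H.1.2
    have h3 := (Finset.card_le_card (fun x _ => Multiset.mem_toFinset.mpr (h1 x) :
      (Finset.univ : Finset K) ⊆ _)).trans ((Multiset.toFinset_card_le _).trans (card_roots' _))
    have h4 : (X * (X + 1) * (X ^ 2 + X + 1) : K[X]).natDegree ≤ 4 := by compute_degree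
    rw [Finset.card_univ, ← Nat.card_eq_fintype_card, FiniteField.natCard_extension] at h3
    omega
  refine ⟨A, minpoly F (ζ : K), fun x => ?_, fun x => ?_⟩
  · obtain ⟨x, rfl⟩ := ι.surjective x
    rw [key _ _ hA, minpoly.aeval, zero_mul, map_zero]
  · obtain ⟨x, rfl⟩ := ι.surjective x
    exact ⟨ι ((aeval ((ζ⁻¹ : Kˣ) : K) (minpoly F (ζ : K)))⁻¹ * x), by
      rw [key _ _ hA', mul_inv_cancel_left₀ hne]⟩

theorem LP.comm_one [Finite F] (hA : B.IsAlt) (h : LP B L L') {g : Iso B}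
    (hg : ∀ x ∈ L, g.1 x - x ∈ L') (hq : 4 ≤ Nat.card F ∨ 5 ≤ Nat.card F ^ finrank F L) :
    ∃ a b : Iso B, g = a * b * a⁻¹ * b⁻¹ := by
  obtain ⟨A, f, h1, h2⟩ := exists_auto L hq
  obtain ⟨a, ha, -⟩ := h.exists_lev hA A h1 h2
  obtain ⟨p, q, e⟩ := ha.big h hg
  exact ⟨p * a * p⁻¹, q * p⁻¹, by rw [e]; group⟩

theorem LP.comm_neg [Finite F] (hA : B.IsAlt) (h2 : (2 : F) ≠ 0) (h : LP B L L') {g : Iso B}
    (hg : ∀ x ∈ L, g.1 x + x ∈ L') (he : Even (finrank F L)) :
    ∃ a b : Iso B, g = a * b * a⁻¹ * b⁻¹ := by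
  obtain ⟨r, hr⟩ := he
  let ι : ((Fin r → F) × (Fin r → F)) ≃ₗ[F] L := LinearEquiv.ofFinrankEq _ _ (by simp [hr])
  let Z : ((Fin r → F) × (Fin r → F)) ≃ₗ[F] ((Fin r → F) × (Fin r → F)) :=
    { toFun := fun x => (x.2, x.1 - x.2)
      invFun := fun x => (x.1 + x.2, x.1)
      map_add' := fun x y => by ext <;> simp; ring
      map_smul' := fun c x => by ext <;> simp; ring
      left_inv := fun x => by simp
      right_inv := fun x => by simp }
  let A := ι.symm ≪≫ₗ Z ≪≫ₗ ι
  obtain ⟨a, ha, ha'⟩ := h.exists_lev hA A (f := X ^ 2 + X - 1) (fun x => by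
      obtain ⟨x, rfl⟩ := ι.surjective x
      simp only [map_sub, map_add, map_pow, aeval_X, map_one, pow_two, LinearMap.sub_apply,
        LinearMap.add_apply, End.mul_apply, End.one_apply, LinearEquiv.coe_coe, A,
        LinearEquiv.trans_apply, LinearEquiv.symm_apply_apply, map_mul]
      rw [← map_add, ← map_sub, map_eq_zero_iff _ ι.injective]
      ext <;> simp [Z])
    (fun x => ⟨(2 : F)⁻¹ • A x, by
      obtain ⟨x, rfl⟩ := ι.surjective x
      simp only [map_sub, map_add, map_pow, aeval_X, map_one, pow_two, LinearMap.sub_apply,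
        LinearMap.add_apply, End.mul_apply, End.one_apply, LinearEquiv.coe_coe, A,
        LinearEquiv.trans_apply, LinearEquiv.symm_apply_apply, map_mul, map_smul,
        LinearEquiv.symm_trans_apply, LinearEquiv.symm_symm]
      rw [← map_add, ← map_sub, ← map_smul]
      congr 1
      ext <;> simp [Z] <;> field_simp <;> ring⟩)
  let β : LinearMap.BilinForm F ((Fin r → F) × (Fin r → F)) := LinearMap.mk₂ F
    (fun x y => x.1 ⬝ᵥ y.2 - x.2 ⬝ᵥ y.1) (fun _ _ _ => by simp; ring) (fun _ _ _ => by simp; ring)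
    (fun _ _ _ => by simp; ring) (fun _ _ _ => by simp; ring)
  let φ := LinearEquiv.ofBijective _ h.bij
  let w₀ : L →ₗ[F] L' := φ.symm.toLinearMap ∘ₗ (β.compl₁₂ ι.symm.toLinearMap ι.symm.toLinearMap).flip
  have hw₀ : ∀ x y, B (ι x) (w₀ (ι y)) = β x y := fun x y => by
    have := LinearMap.congr_fun (φ.apply_symm_apply
      ((β.compl₁₂ ι.symm.toLinearMap ι.symm.toLinearMap).flip (ι y))) (ι x)
    exact this.trans (by simp)
  have hi : Function.Injective w₀ := by
    rw [injective_iff_map_eq_zero]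
    intro y hy
    obtain ⟨y, rfl⟩ := ι.surjective y
    have h3 : ∀ x, β x y = 0 := fun x => by rw [← hw₀, hy]; simp
    rw [map_eq_zero_iff _ ι.injective]
    ext i
    · simpa [β] using h3 (0, Pi.single i 1)
    · simpa [β] using h3 (Pi.single i 1, 0)
  obtain ⟨w, hw, hw'⟩ := h.exists_ext hA h.symm (LinearEquiv.ofBijective w₀ ⟨hi,
    (LinearMap.injective_iff_surjective_of_finrank_eq_finrank h.finrank_eq).mp hi⟩)
  have hwa : w * a = negI B * a * w := by
    refine h.uniq h.symm (fun m hm => ⟨a.1.symm (w.1.symm m), inv_maps ha.mem ?_, ?_⟩)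
      (fun x hx => ?_) (fun y hy => hw' _ (ha.mem' y hy)) fun y hy => L.neg_mem (ha.mem _ (hw' y hy))
    · refine h.mem fun x hx => ?_
      rw [← w.2, w.1.apply_symm_apply, hw ⟨x, hx⟩]
      exact h.iso' m hm _ (w₀ _).2
    · change w.1 (a.1 _) = m
      simp
    · have m1 : w.1 x ∈ L' := hw ⟨x, hx⟩ ▸ (w₀ _).2
      have m2 : w.1 (a.1 x) ∈ L' := hw ⟨_, ha.mem x hx⟩ ▸ (w₀ _).2
      change w.1 (a.1 x) = -a.1 (w.1 x)
      refine eq_neg_of_add_eq_zero_left (h.symm.eq_zero (L'.add_mem m2 (ha.mem' _ m1))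
        fun z hz => h.refl _ _ ?_)
      obtain ⟨x, rfl⟩ : ∃ y, (ι y : V) = x := ⟨ι.symm ⟨x, hx⟩, by simp⟩
      obtain ⟨z, rfl⟩ : ∃ y, (ι (Z y) : V) = z := ⟨Z.symm (ι.symm ⟨z, hz⟩), by simp⟩
      have e : ∀ y, a.1 (ι y) = ι (Z y) := fun y => by rw [ha']; simp [A]
      rw [map_add, e, hw, ← e z, a.2, e, hw]
      change B _ (w₀ _) + B _ (w₀ _) = 0
      rw [hw₀, hw₀]
      simp [β, Z]
  obtain ⟨p, q, e⟩ := ha.big h (g := negI B * g) fun x hx => by
    have := L'.neg_mem (hg x hx)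
    rwa [neg_add, ← sub_eq_add_neg] at this
  have hc : ∀ x : Iso B, negI B * x = x * negI B := fun x =>
    Subtype.ext (LinearEquiv.ext fun v => (map_neg x.1 v).symm)
  have hn : negI B * negI B = 1 := Subtype.ext (LinearEquiv.ext fun v => neg_neg v)
  refine ⟨p * w * a * (p * w)⁻¹, q * (p * w)⁻¹, ?_⟩
  calc g = negI B * (negI B * g) := by rw [← mul_assoc, hn, one_mul]
    _ = p * (negI B * a * w) * w⁻¹ * p⁻¹ * (q * a⁻¹ * q⁻¹) := by
      rw [e, ← mul_assoc (negI B), ← mul_assoc (negI B), ← mul_assoc (negI B), hc p]; group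
    _ = _ := by rw [← hwa]; group

end H37.Ore
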