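import Mathlib
import Cfsg.Agent.Base
import Cfsg.Agent.Lib.Ore.SpG
import Cfsg.Agent.Lib.Ore.EvenBlk

/-! Symplectic blocks: pairs of isotropic subspaces adapted to an isometry. -/

set_option autoImplicit false

namespace H37.Ore

open Module Polynomial

variable {F V R : Type*} [Field F] [AddCommGroup V] [Module F V] [CommRing R] [Algebra F R]
  [Module R V] [IsScalarTower F R V]

/-- Mutual orthogonality. -/
def Ot (B : LinearMap.BilinForm F V) (X Y : Submodule F V) : Prop := ∀ x ∈ X, ∀ y ∈ Y, B x y = 0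

theorem Ot.sup {B : LinearMap.BilinForm F V} (hB : B.IsRefl) {X Y : Submodule F V} (hX : Ot B X X)
    (hY : Ot B Y Y) (h : Ot B X Y) : Ot B (X ⊔ Y) (X ⊔ Y) := by
  intro v hv w hw
  obtain ⟨x, hx, y, hy, rfl⟩ := Submodule.mem_sup.mp hv
  obtain ⟨x', hx', y', hy', rfl⟩ := Submodule.mem_sup.mp hw
  simp only [map_add, LinearMap.add_apply, hX x hx x' hx', hY y hy y' hy', h x hx y' hy',
    hB _ _ (h x' hx' y hy), add_zero]

/-- An isometry of a subspace. -/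
structure IsoOn (B : LinearMap.BilinForm F V) (X : Submodule F V) (a : V →ₗ[F] V) : Prop where
  mem : ∀ x ∈ X, a x ∈ X
  iso : ∀ x ∈ X, ∀ y ∈ X, B (a x) (a y) = B x y

theorem IsoOn.glue {B : LinearMap.BilinForm F V} (hB : B.IsRefl) {X Y : Submodule F V}
    {a b : V →ₗ[F] V} (ha : IsoOn B X a) (hb : IsoOn B Y b) (hd : Disjoint X Y) (h : Ot B X Y) :
    ∃ k, IsoOn B (X ⊔ Y) k ∧ (∀ x ∈ X, k x = a x) ∧ ∀ y ∈ Y, k y = b y := by
  obtain ⟨k, h1, h2⟩ := exists_glue hd a b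
  refine ⟨k, ⟨fun v hv => ?_, fun v hv w hw => ?_⟩, h1, h2⟩
  all_goals obtain ⟨x, hx, y, hy, rfl⟩ := Submodule.mem_sup.mp hv
  · rw [map_add, h1 x hx, h2 y hy]; exact Submodule.add_mem_sup (ha.mem x hx) (hb.mem y hy)
  · obtain ⟨x', hx', y', hy', rfl⟩ := Submodule.mem_sup.mp hw
    simp only [map_add, LinearMap.add_apply, h1 x hx, h1 x' hx', h2 y hy, h2 y' hy',
      ha.iso x hx x' hx', hb.iso y hy y' hy', h x hx y' hy', hB _ _ (h x' hx' y hy),
      h _ (ha.mem x hx) _ (hb.mem y' hy'), hB _ _ (h _ (ha.mem x' hx') _ (hb.mem y hy))]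

namespace Ctx

variable (C : Ctx F V R)

/-- An adapted pair of isotropic subspaces. -/
def LG (s : F) (X : Submodule F V) : Prop := ∃ L L' : Submodule F V, L ⊔ L' = X ∧ Ot C.B L L ∧
  Ot C.B L' L' ∧ ∀ x ∈ L, C.N s • x ∈ L'

/-- `t` is a commutator of isometries of the subspace. -/
def LC (X : Submodule F V) : Prop := ∃ a b, IsoOn C.B X a ∧ IsoOn C.B X b ∧
  ∀ x ∈ X, a (b x) = C.t • b (a x)

/-- The span over the symmetric subring. -/
def cyA (v : V) : Submodule F V where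
  carrier := {x | ∃ p : F[X], aeval C.η p • v = x}
  add_mem' := by rintro _ _ ⟨r, rfl⟩ ⟨s, rfl⟩; exact ⟨r + s, by rw [map_add, add_smul]⟩
  zero_mem' := ⟨0, by simp⟩
  smul_mem' := by rintro c _ ⟨r, rfl⟩; exact ⟨c • r, by rw [map_smul, smul_assoc]⟩

variable {C}

theorem LG.sup {s : F} {X Y : Submodule F V} (hX : C.LG s X) (hY : C.LG s Y) (h : Ot C.B X Y) :
    C.LG s (X ⊔ Y) := by
  obtain ⟨L, L', rfl, h1, h2, h3⟩ := hX
  obtain ⟨M, M', rfl, h4, h5, h6⟩ := hY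
  refine ⟨L ⊔ M, L' ⊔ M', by ac_rfl, h1.sup C.isRefl h4 fun x hx y hy =>
    h x (Submodule.mem_sup_left hx) y (Submodule.mem_sup_left hy), h2.sup C.isRefl h5
    fun x hx y hy => h x (Submodule.mem_sup_right hx) y (Submodule.mem_sup_right hy),
    fun v hv => ?_⟩
  obtain ⟨x, hx, y, hy, rfl⟩ := Submodule.mem_sup.mp hv
  rw [smul_add]
  exact Submodule.add_mem_sup (h3 x hx) (h6 y hy)

theorem lg_bot (s : F) : C.LG s ⊥ :=
  ⟨⊥, ⊥, by simp, fun x hx y _ => by simp [(Submodule.mem_bot F).mp hx],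
    fun x hx y _ => by simp [(Submodule.mem_bot F).mp hx],
    fun x hx => by simp [(Submodule.mem_bot F).mp hx]⟩

theorem lc_of_fix {X : Submodule F V} (h : ∀ x ∈ X, C.t • x = x) : C.LC X :=
  ⟨LinearMap.id, LinearMap.id, ⟨fun _ h => h, fun _ _ _ _ => rfl⟩, ⟨fun _ h => h, fun _ _ _ _ => rfl⟩,
    fun x hx => (h x hx).symm⟩

theorem lc_bot : C.LC ⊥ := lc_of_fix fun x hx => by simp [(Submodule.mem_bot F).mp hx]

theorem LC.sup {X Y : Submodule F V} (hX : C.LC X) (hY : C.LC Y) (nX : ND C.B X) (h : Ot C.B X Y) :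
    C.LC (X ⊔ Y) := by
  obtain ⟨a, b, ha, hb, e⟩ := hX
  obtain ⟨a', b', ha', hb', e'⟩ := hY
  obtain ⟨k, hk, k1, k2⟩ := ha.glue C.isRefl ha' (nX.disjoint C.isRefl h) h
  obtain ⟨l, hl, l1, l2⟩ := hb.glue C.isRefl hb' (nX.disjoint C.isRefl h) h
  refine ⟨k, l, hk, hl, fun v hv => ?_⟩
  obtain ⟨x, hx, y, hy, rfl⟩ := Submodule.mem_sup.mp hv
  simp only [map_add, smul_add, k1 x hx, k2 y hy, l1 x hx, l2 y hy, k1 _ (hb.mem x hx),
    k2 _ (hb'.mem y hy), l1 _ (ha.mem x hx), l2 _ (ha'.mem y hy), e x hx, e' y hy]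

theorem LG.lc [FiniteDimensional F V] (hA : C.B.IsAlt) {s : F} {X : Submodule F V} (iX : Iv R X)
    (nX : ND C.B X) (h : C.LG s X) (H : ∀ (B : LinearMap.BilinForm F X) (L L' : Submodule F X)
      (g : Iso B), B.IsAlt → LP B L L' → (∀ x ∈ L, g.1 x - s • x ∈ L') →
      ∃ a b : Iso B, g = a * b * a⁻¹ * b⁻¹) : C.LC X := by
  obtain ⟨L, L', hs, h1, h2, h3⟩ := h
  let g : Iso (C.B.restrict X) := ⟨LinearEquiv.ofLinearMap ((Lm F V C.t).restrict (iX C.t))
    ((Lm F V C.t').restrict (iX C.t'))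
    (LinearMap.ext fun x => Subtype.ext (by
      change C.t • C.t' • x.1 = x.1
      rw [← mul_smul, C.htt, one_smul]))
    (LinearMap.ext fun x => Subtype.ext (by
      change C.t' • C.t • x.1 = x.1
      rw [← mul_smul, mul_comm, C.htt, one_smul])), fun x y => by
      change C.B (C.t • x.1) (C.t • y.1) = C.B x.1 y.1
      rw [C.adj, ← mul_smul, C.bar_t, mul_comm, C.htt, one_smul]⟩
  obtain ⟨a, b, e⟩ := H _ (L.comap X.subtype) (L'.comap X.subtype) g (fun x => hA x.1)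
    ⟨fun x hx => Subtype.ext (nX x x.2 fun y hy => hx ⟨y, hy⟩), fun x y h => C.isRefl _ _ h, by
      rw [eq_top_iff]
      rintro ⟨v, hv⟩ -
      obtain ⟨x, hx, y, hy, rfl⟩ := Submodule.mem_sup.mp (hs ▸ hv : v ∈ L ⊔ L')
      exact Submodule.mem_sup.mpr ⟨⟨x, hs ▸ Submodule.mem_sup_left hx⟩, hx,
        ⟨y, hs ▸ Submodule.mem_sup_right hy⟩, hy, rfl⟩,
      fun x hx y hy => h1 _ hx _ hy, fun x hx y hy => h2 _ hx _ hy⟩ fun x hx => by
        have := h3 _ hx
        rwa [N, sub_smul, algebraMap_smul] at this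
  have key : ∀ c : Iso (C.B.restrict X), ∃ k, IsoOn C.B X k ∧ ∀ x : X, k x = c.1 x := fun c => by
    obtain ⟨k, hk⟩ := LinearMap.exists_extend (X.subtype ∘ₗ c.1.toLinearMap)
    have hk' : ∀ x : X, k x = c.1 x := fun x => LinearMap.congr_fun hk x
    exact ⟨k, ⟨fun x hx => hk' ⟨x, hx⟩ ▸ (c.1 _).2, fun x hx y hy => by
      rw [hk' ⟨x, hx⟩, hk' ⟨y, hy⟩]; exact c.2 ⟨x, hx⟩ ⟨y, hy⟩⟩, hk'⟩
  obtain ⟨k, hk, k1⟩ := key a
  obtain ⟨l, hl, l1⟩ := key b
  refine ⟨k, l, hk, hl, fun x hx => ?_⟩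
  have e' : a * b = g * (b * a) := by rw [e]; group
  rw [k1 ⟨x, hx⟩, l1 ⟨x, hx⟩, k1, l1]
  exact congrArg (fun c : Iso (C.B.restrict X) => (c.1 ⟨x, hx⟩).1) e'

theorem LG.lc_one [Finite F] [FiniteDimensional F V] (hA : C.B.IsAlt) {X : Submodule F V}
    (iX : Iv R X) (nX : ND C.B X) (h : C.LG 1 X)
    (hq : 4 ≤ Nat.card F ∨ 5 ≤ Nat.card F ^ (finrank F X / 2)) : C.LC X :=
  h.lc hA iX nX fun _ _ _ _ hA h hg => h.comm_one hA (by simpa using hg) (by
    rwa [h.finrank_top, Nat.mul_div_cancel_left _ two_pos] at hq)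

theorem LG.lc_neg [Finite F] [FiniteDimensional F V] (hA : C.B.IsAlt) (h2 : (2 : F) ≠ 0)
    {X : Submodule F V} (iX : Iv R X) (nX : ND C.B X) (h : C.LG (-1) X)
    (hq : finrank F X % 4 = 0) : C.LC X :=
  h.lc hA iX nX fun _ _ _ _ hA h hg => h.comm_neg hA h2 (by simpa using hg) (by
    rw [h.finrank_top] at hq; rw [Nat.even_iff]; omega)

theorem B_η (hA : C.B.IsAlt) (p : F[X]) (v : V) : C.B v (aeval C.η p • v) = 0 := by
  obtain ⟨c, r, e⟩ : ∃ c r, aeval C.η p = algebraMap F R c + (r + C.bar r) := by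
    induction p using Polynomial.induction_on with
    | C c => exact ⟨c, 0, by simp⟩
    | add p q hp hq =>
      obtain ⟨c, r, e⟩ := hp
      obtain ⟨c', r', e'⟩ := hq
      exact ⟨c + c', r + r', by simp only [map_add, e, e']; ring⟩
    | monomial n a ih =>
      obtain ⟨c, r, e⟩ := ih
      refine ⟨0, algebraMap F R c * C.t + r * C.η, ?_⟩
      rw [pow_succ, ← mul_assoc, map_mul, e, aeval_X]
      simp only [map_add, map_mul, AlgHom.commutes, C.bar_t, C.bar_η, map_zero]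
      rw [η]; ring
  rw [e, add_smul, add_smul, map_add, map_add, algebraMap_smul, map_smul, hA v, ← C.adj,
    ← hA.neg_eq v (r • v)]
  simp

theorem ot_cyA {w w' : V} (h : ∀ p : F[X], C.B w (aeval C.η p • w') = 0) :
    Ot C.B (C.cyA w) (C.cyA w') := by
  rintro _ ⟨p, rfl⟩ _ ⟨q, rfl⟩
  rw [C.adj, C.bar_aeval, ← mul_smul, ← map_mul, h]

theorem ot_self (hA : C.B.IsAlt) (w : V) : Ot C.B (C.cyA w) (C.cyA w) := ot_cyA fun p => B_η hA p w

theorem cyA_sup {n : R} {p q : F[X]} (h : C.t = aeval C.η p + aeval C.η q * n) (v : V) :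
    C.cyA v ⊔ C.cyA (n • v) = cyc F R v := by
  refine le_antisymm (sup_le ?_ ?_) ?_
  · rintro _ ⟨a, rfl⟩; exact ⟨_, rfl⟩
  · rintro _ ⟨a, rfl⟩; exact ⟨_, mul_smul _ _ _⟩
  · rintro _ ⟨r, rfl⟩
    obtain ⟨a, b, rfl⟩ := C.decomp_η r
    refine Submodule.mem_sup.mpr ⟨_, ⟨a + b * p, rfl⟩, _, ⟨b * q, rfl⟩, ?_⟩
    rw [← mul_smul, ← add_smul, h, map_add, map_mul, map_mul]
    congr 1; ring

theorem cyA_sup_N (e : F) (v : V) : C.cyA v ⊔ C.cyA (C.N e • v) = cyc F R v :=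
  cyA_sup (p := Polynomial.C e) (q := 1) (by simp [N]) v

theorem cyA_sup_bar (e : F) (v : V) : C.cyA v ⊔ C.cyA (C.bar (C.N e) • v) = cyc F R v :=
  cyA_sup (p := X - Polynomial.C e) (q := -1) (by simp [N, η, C.bar_t]) v

theorem N_mul_bar {e : F} (he : e * e = 1) :
    C.N e * C.bar (C.N e) = aeval C.η (2 - Polynomial.C e * X) := by
  have h : algebraMap F R e * algebraMap F R e = 1 := by rw [← map_mul, he, map_one]
  simp only [N, η, map_sub, map_mul, map_ofNat, aeval_C, aeval_X, C.bar_t, AlgHom.commutes]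
  linear_combination C.htt + h

theorem smul_cyA {n : R} {v x : V} (hx : x ∈ C.cyA v) : n • x ∈ C.cyA (n • v) := by
  obtain ⟨p, rfl⟩ := hx
  exact ⟨p, smul_comm _ _ _⟩

theorem lg_cyc (hA : C.B.IsAlt) (s : F) (v : V) : C.LG s (cyc F R v) :=
  ⟨_, _, cyA_sup_N s v, ot_self hA _, ot_self hA _, fun _ => smul_cyA⟩

theorem notMem_cyA {e : F} (he : e * e = 1) {k : ℕ} {v : V} (hv : C.N e ^ (k + 1) • v = 0)
    (hv' : C.N e ^ k • v ≠ 0) (j : ℕ) : ∀ (i : ℕ) (m : R) (c : F), i + 2 * j = k + 1 → c ≠ 0 →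
      (∀ w : V, C.N e • w = 0 → m • w = c • w) → C.N e ^ k • v ∉ C.cyA ((m * C.N e ^ i) • v) := by
  induction j with
  | zero =>
    rintro i m c rfl - - ⟨p, hp⟩
    rw [mul_smul, hv, smul_zero, smul_zero] at hp
    exact hv' hp.symm
  | succ j ih =>
    rintro i m c hi hc hm ⟨p, hp⟩
    obtain ⟨q, hq⟩ := X_sub_C_dvd_sub_C_eval (p := p) (a := 2 * e)
    have h1 := congrArg (aeval C.η) hq
    rw [map_sub, map_mul, map_sub, aeval_X, aeval_C, aeval_C, C.η_sub he, sub_eq_iff_eq_add] at h1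
    obtain rfl : k = i + 2 * j + 1 := by omega
    have hs : C.N e • C.N e ^ (i + 2 * j + 1) • v = 0 := by rw [C.N_pow_succ, hv]
    have h3 : p.eval (2 * e) = 0 := by
      have h4 := congrArg (C.N e ^ (2 * j + 1) • ·) hp
      simp only [← mul_smul] at h4
      rw [smul_eq_zero_of_dvd (r := C.N e ^ (2 * j + 1) * C.N e ^ (i + 2 * j + 1)) hv
        ⟨C.N e ^ (2 * j), by ring⟩, smul_eq_of_dvd (s := algebraMap F R (p.eval (2 * e)) * m *
          C.N e ^ (i + 2 * j + 1)) hv ⟨C.t' * C.N e * aeval C.η q * m, by rw [h1]; ring⟩,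
        mul_smul, mul_smul, hm _ hs, algebraMap_smul, smul_smul] at h4
      exact (mul_eq_zero.mp ((smul_eq_zero.mp h4).resolve_right hv')).resolve_right hc
    refine ih (i + 2) (m * C.t') (c * e) (by omega) (mul_ne_zero hc fun h => by simp [h] at he)
      (fun w hw => by rw [mul_smul, C.t'_soc he hw, smul_comm, hm w hw, smul_smul, mul_comm])
      ⟨q, ?_⟩
    rw [← hp, h1, h3, ← mul_smul, ← mul_smul]
    congr 1
    rw [map_zero]; ring

theorem cyc_smul {e : F} {k : ℕ} {v : V} (hv : C.N e ^ (k + 1) • v = 0) {a : R}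
    (ha : a • C.N e ^ k • v ≠ 0) : cyc F R (a • v) = cyc F R v := by
  refine le_antisymm ((iv_cyc v).cyc_le ⟨a, rfl⟩) ((iv_cyc _).cyc_le ?_)
  obtain ⟨c, r, rfl⟩ := C.layer0 e a
  have hc : c ≠ 0 := by
    rintro rfl
    exact ha (by rw [map_zero, zero_add, mul_comm, mul_smul, C.N_pow_succ, hv, smul_zero])
  have key : ∀ j i, i + j = k + 1 → C.N e ^ i • v ∈ cyc F R ((algebraMap F R c + C.N e * r) • v) := by
    intro j
    induction j with
    | zero => rintro i rfl; rw [hv]; exact Submodule.zero_mem _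
    | succ j ih =>
      intro i hi
      have := Submodule.smul_mem _ c⁻¹ (Submodule.sub_mem _ (smul_mem_cyc (C.N e ^ i) _)
        (iv_cyc _ r _ (ih (i + 1) (by omega))))
      convert this using 1
      rw [← mul_smul, ← mul_smul, ← sub_smul, show C.N e ^ i * (algebraMap F R c + C.N e * r) -
        r * C.N e ^ (i + 1) = algebraMap F R c * C.N e ^ i by ring, mul_smul, algebraMap_smul,
        inv_smul_smul₀ hc]
  simpa using key (k + 1) 0 (by omega)

theorem IsB2.exists_gen [FiniteDimensional F V] {e : F} (he : e * e = 1) {k : ℕ} {u v : V}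
    (hb : C.IsB2 e k u v) {n : R} (hn : C.N e ^ k • v ∉ C.cyA (n • v)) :
    ∃ w, cyc F R w = cyc F R v ∧ ∀ p : F[X], C.B u (aeval C.η p • n • w) = 0 := by
  obtain ⟨ψ, h1, h2⟩ := LinearMap.exists_extend_of_notMem (0 : C.cyA (n • v) →ₗ[F] F) hn 1
  obtain ⟨a, ha⟩ := hb.rep he (ψ ∘ₗ (LinearMap.toSpanSingleton R V v).restrictScalars F) fun x => by
    change ψ ((C.N e ^ (k + 1) * x) • v) = 0
    rw [mul_comm, mul_smul, hb.hv, smul_zero, map_zero]
  have ha' : ∀ x : R, C.B u ((a * x) • v) = ψ (x • v) := ha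
  refine ⟨a • v, cyc_smul hb.hv fun h => ?_, fun p => ?_⟩
  · have := ha' (C.N e ^ k)
    rw [mul_smul, h, h2, map_zero] at this
    exact zero_ne_one this
  · rw [← mul_smul, ← mul_smul, mul_comm, ha', mul_smul]
    exact LinearMap.congr_fun h1 ⟨_, p, rfl⟩

theorem IsB2.lg [FiniteDimensional F V] (hA : C.B.IsAlt) {e : F} (he : e * e = 1) {k : ℕ} {u v : V}
    (hb : C.IsB2 e k u v) : C.LG e (cyc F R u ⊔ cyc F R v) := by
  rcases Nat.even_or_odd' k with ⟨j, hj | hj⟩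
  · obtain ⟨w, hw, h⟩ := hb.exists_gen he (n := C.bar (C.N e)) (by
      have := notMem_cyA he hb.hv hb.ne_v j 1 (-(algebraMap F R e * C.t')) (-1) (by omega) (by simp)
        fun w hw => by rw [neg_smul, mul_smul, C.t'_soc he hw, algebraMap_smul, smul_smul, he,
          neg_smul]
      rwa [pow_one, ← C.bar_N he] at this)
    refine ⟨C.cyA u ⊔ C.cyA (C.bar (C.N e) • w), C.cyA (C.N e • u) ⊔ C.cyA w, by
      rw [sup_sup_sup_comm, cyA_sup_N, sup_comm _ (C.cyA w), cyA_sup_bar, hw],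
      (ot_self hA _).sup C.isRefl (ot_self hA _) (ot_cyA h),
      (ot_self hA _).sup C.isRefl (ot_self hA _) (ot_cyA fun p => by rw [C.adj, smul_comm, h]),
      fun z hz => ?_⟩
    obtain ⟨x, hx, _, ⟨p, rfl⟩, rfl⟩ := Submodule.mem_sup.mp hz
    rw [smul_add]
    refine Submodule.add_mem_sup (smul_cyA hx) ⟨p * (2 - Polynomial.C e * X), ?_⟩
    rw [map_mul, ← N_mul_bar he, mul_smul, mul_smul, smul_comm (C.N e) (aeval C.η p)]
  · obtain ⟨w, hw, h⟩ := hb.exists_gen he (n := 1) (by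
      simpa using notMem_cyA he hb.hv hb.ne_v (j + 1) 0 1 1 (by omega) one_ne_zero (by simp))
    simp only [one_smul] at h
    refine ⟨C.cyA u ⊔ C.cyA w, C.cyA (C.N e • u) ⊔ C.cyA (C.N e • w), by
      rw [sup_sup_sup_comm, cyA_sup_N, cyA_sup_N, hw],
      (ot_self hA _).sup C.isRefl (ot_self hA _) (ot_cyA h),
      (ot_self hA _).sup C.isRefl (ot_self hA _) (ot_cyA fun p => ?_), fun z hz => ?_⟩
    · rw [C.adj, smul_comm, ← mul_smul (C.bar _), mul_comm, N_mul_bar he, ← mul_smul, ← map_mul, h]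
    · obtain ⟨x, hx, y, hy, rfl⟩ := Submodule.mem_sup.mp hz
      rw [smul_add]
      exact Submodule.add_mem_sup (smul_cyA hx) (smul_cyA hy)

theorem finrank_cyc_N [FiniteDimensional F V] {e : F} {k : ℕ} {v : V}
    (hv : C.N e ^ (k + 1) • v = 0) (hv' : C.N e ^ k • v ≠ 0) : finrank F (cyc F R v) = k + 1 := by
  refine le_antisymm (C.finrank_cyc_le_N hv) ?_
  induction k generalizing v with
  | zero =>
    rw [zero_add, Nat.one_le_iff_ne_zero, Ne, Submodule.finrank_eq_zero]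
    exact cyc_ne_bot (by simpa using hv')
  | succ k ih =>
    have h1 := ih (v := C.N e • v) (by rw [← mul_smul, ← pow_succ, hv])
      (by rwa [← mul_smul, ← pow_succ])
    refine h1.trans_lt (Submodule.finrank_lt_finrank_of_lt (lt_of_le_of_ne
      ((iv_cyc v).cyc_le ⟨_, rfl⟩) fun h => hv' ?_))
    obtain ⟨r, hr⟩ : v ∈ cyc F R (C.N e • v) := h ▸ self_mem_cyc v
    rw [← hr, smul_comm, ← mul_smul (C.N e ^ (k + 1)), ← pow_succ, hv, smul_zero]

theorem IsB2.finrank_eq [FiniteDimensional F V] {e : F} {k : ℕ} {u v : V} (hb : C.IsB2 e k u v) :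
    finrank F ↥(cyc F R u ⊔ cyc F R v) = 2 * (k + 1) := by
  rw [finrank_sup_of_disjoint, finrank_cyc_N hb.hu hb.ne_u, finrank_cyc_N hb.hv hb.ne_v, two_mul]
  rw [Submodule.disjoint_def]
  rintro _ ⟨r, rfl⟩ ⟨s, hs⟩
  exact smul_eq_zero_of_dvd hb.hu (hb.free (r := r) (s := -s) (by rw [neg_smul, hs, add_neg_cancel])).1

end Ctx

end H37.Ore
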