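import Mathlib
import Cfsg.Agent.Base
import Cfsg.Agent.Lib.Ore.SpL
import Cfsg.Agent.Lib.Inv2.Symp

/-! Every element of a perfect finite symplectic group is a commutator. -/

set_option autoImplicit false

namespace H37.Ore

open Module Polynomial

variable {F V R : Type*} [Field F] [AddCommGroup V] [Module F V] [CommRing R] [Algebra F R]
  [Module R V] [IsScalarTower F R V]

namespace Ctx

variable {C : Ctx F V R}

theorem B_dvd {e : F} (he : e * e = 1) {k i j : ℕ} {x y : V} (hy : C.N e ^ (k + 1) • y = 0)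
    (h : k + 1 ≤ i + j) (r : R) : C.B (C.N e ^ i • x) ((C.N e ^ j * r) • y) = 0 := by
  rw [C.adj, map_pow, C.bar_N he, ← mul_smul, smul_eq_zero_of_dvd hy, map_zero]
  exact (pow_dvd_pow _ h).trans ⟨(-(algebraMap F R e * C.t')) ^ i * r, by rw [mul_pow]; ring⟩

theorem cyc_add_sup (u v : V) (a : R) :
    cyc F R (u + a • v) ⊔ cyc F R v = cyc F R u ⊔ cyc F R v := by
  have key : ∀ (u : V) (a : R), cyc F R (u + a • v) ⊔ cyc F R v ≤ cyc F R u ⊔ cyc F R v :=
    fun u a => sup_le (((iv_cyc u).sup (iv_cyc v)).cyc_le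
      (Submodule.add_mem_sup (self_mem_cyc u) ⟨a, rfl⟩)) le_sup_right
  refine le_antisymm (key u a) ?_
  simpa using key (u + a • v) (-a)

theorem IsB2.neg_one_pow (hA : C.B.IsAlt) {e : F} (he : e * e = 1) {k : ℕ} {u v : V}
    (hb : C.IsB2 e k u v) : (-1 : F) ^ k = 1 := by
  have := C.B_N_pow he k u hb.hv
  rw [← hA.neg_eq, hb.uv, hb.vu] at this
  linear_combination -this

theorem IsB2.exists_isot (hA : C.B.IsAlt) (h2 : (2 : F) ≠ 0) {e : F} (he : e * e = 1) {k : ℕ}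
    {u v : V} (hb : C.IsB2 e k u v) : ∃ a : R, C.IsB2 e k (u + a • v) v ∧
      ∀ x : R, C.B (u + a • v) (x • (u + a • v)) = 0 := by
  have hk := hb.neg_one_pow hA he
  have key : ∀ j i, i + j = k → ∃ a : R, C.IsB2 e k (u + a • v) v ∧
      ∀ x : R, C.B (u + a • v) ((C.N e ^ i * x) • (u + a • v)) = 0 := by
    intro j
    induction j with
    | zero =>
      rintro i rfl
      refine ⟨0, by simpa using hb, fun x => ?_⟩
      obtain ⟨c, hc⟩ := C.soc he x
      rw [zero_smul, add_zero, mul_comm, mul_smul, (hc _ (by rw [C.N_pow_succ]; exact hb.hu)).1,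
        map_smul, show C.B u (C.N e ^ i • u) = 0 from hb.uu, smul_zero]
    | succ j ih =>
      intro i hi
      obtain ⟨a, h1, h3⟩ := ih (i + 1) (by omega)
      set w := u + a • v with hw
      set τ := C.B w (C.N e ^ i • w) with hτ
      have hs : (-1 : F) ^ i * τ = -τ := by
        have h4 : ∀ n : ℕ, C.B w (((-(algebraMap F R e * C.t')) ^ n * C.N e ^ i) • w) =
            (-1) ^ n * τ := by
          intro n
          induction n with
          | zero => simp [hτ]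
          | succ n ih =>
            rw [show (-(algebraMap F R e * C.t')) ^ (n + 1) * C.N e ^ i = C.N e ^ (i + 1) *
              (C.t' * (-(algebraMap F R e * C.t')) ^ n) - (-(algebraMap F R e * C.t')) ^ n *
                C.N e ^ i by
              rw [pow_succ, pow_succ (C.N e), N]
              linear_combination (-(-(algebraMap F R e * C.t')) ^ n *
                (C.t - algebraMap F R e) ^ i) * C.htt, sub_smul, map_sub, h3, ih]
            ring
        rw [← h4, ← mul_pow, ← C.bar_N he, ← map_pow, ← C.adj, hA.neg_eq]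
      have e1 : u + (a + algebraMap F R (-τ / 2) * C.N e ^ (j + 1)) • v =
          w + (-τ / 2) • C.N e ^ (j + 1) • v := by
        rw [add_smul, mul_smul, algebraMap_smul, add_assoc]
      have z1 : ∀ (m : ℕ) (r : R), i + 1 ≤ m →
          (C.N e ^ m * r) • C.N e ^ (j + 1) • v = 0 := fun m r hm => by
        rw [← mul_smul]
        exact smul_eq_zero_of_dvd hb.hv ((pow_dvd_pow _ (by omega : k + 1 ≤ m + (j + 1))).trans
          ⟨r, by ring⟩)
      have ha : ∀ r : R, C.B (w + (-τ / 2) • C.N e ^ (j + 1) • v) ((C.N e ^ (i + 1) * r) •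
          (w + (-τ / 2) • C.N e ^ (j + 1) • v)) = 0 := fun r => by
        rw [smul_add, smul_comm _ (-τ / 2), z1 _ r le_rfl, smul_zero, add_zero, map_add,
          LinearMap.add_apply, h3, map_smul C.B, LinearMap.smul_apply, B_dvd he h1.hu (by omega),
          smul_zero, add_zero]
      refine ⟨a + algebraMap F R (-τ / 2) * C.N e ^ (j + 1), ?_, fun x => ?_⟩
      rw [e1]
      refine ⟨?_, hb.hv, ?_, ?_, ?_, hb.vv⟩
      · rw [smul_add, h1.hu, smul_comm _ (-τ / 2), smul_comm (C.N e ^ (k + 1)), hb.hv]; simp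
      · rw [map_add, LinearMap.add_apply, h1.uv, map_smul C.B, LinearMap.smul_apply,
          ← mul_one (C.N e ^ k), B_dvd he hb.hv (by omega), smul_zero, add_zero]
      · rw [smul_add, smul_comm _ (-τ / 2), ← mul_one (C.N e ^ k), z1 k 1 (by omega), mul_one,
          smul_zero, add_zero, h1.vu]
      · have := ha (C.N e ^ j)
        rwa [← pow_add, show i + 1 + j = k by omega] at this
      · obtain ⟨c, r, rfl⟩ := C.layer0 e x
        rw [e1, show C.N e ^ i * (algebraMap F R c + C.N e * r) =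
          algebraMap F R c * C.N e ^ i + C.N e ^ (i + 1) * r by ring, add_smul, map_add, ha,
          add_zero, mul_smul, algebraMap_smul, map_smul, smul_eq_mul, mul_eq_zero_of_right]
        have e2 : C.N e ^ i • C.N e ^ (j + 1) • v = C.N e ^ k • v := by
          rw [← mul_smul, ← pow_add, hi]
        have e3 := C.B_N_pow he (j + 1) v (v := C.N e ^ i • w) (by
          rw [← mul_smul, ← pow_add, show j + 1 + 1 + i = k + 1 by omega, h1.hu])
        rw [← mul_smul, ← pow_add, add_comm (j + 1), hi, h1.vu] at e3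
        have e4 := B_dvd he (x := v) hb.hv (i := j + 1) (j := k) (by omega) 1
        rw [mul_one] at e4
        rw [← hi, pow_add] at hk
        simp only [smul_add, smul_comm _ (-τ / 2), e2, map_add, LinearMap.add_apply, map_smul,
          LinearMap.smul_apply, ← hτ, h1.uv, e3, e4, smul_eq_mul]
        field_simp
        linear_combination 2 * (-1) ^ (j + 1) * hs - 2 * τ * hk
  simpa using key k 0 (by omega)

theorem IsB2.normal [FiniteDimensional F V] (hA : C.B.IsAlt) (h2 : (2 : F) ≠ 0) {e : F}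
    (he : e * e = 1) {k : ℕ} {u v : V} (hb : C.IsB2 e k u v) : ∃ u' v', C.IsB2 e k u' v' ∧
      cyc F R u' ⊔ cyc F R v' = cyc F R u ⊔ cyc F R v ∧ (∀ x : R, C.B u' (x • u') = 0) ∧
      (∀ x : R, C.B v' (x • v') = 0) ∧ ∀ x : R, C.B u' (C.bar x • v') = C.B u' (x • v') := by
  have hk := hb.neg_one_pow hA he
  obtain ⟨a, h1, h3⟩ := hb.exists_isot hA h2 he
  obtain ⟨b, h4, h5⟩ := h1.symm.exists_isot hA h2 he
  have e1 := cyc_add_sup (F := F) u v a
  set u' := u + a • v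
  have e2 : cyc F R u' ⊔ cyc F R (v + b • -u') = cyc F R u' ⊔ cyc F R v := by
    rw [sup_comm, smul_neg, ← neg_smul, cyc_add_sup, sup_comm]
  set v' := v + b • -u'
  have h6 : C.IsB2 e k u' v' :=
    ⟨h1.hu, h4.hu, by simpa using h4.vu, by simpa [neg_eq_iff_eq_neg] using h4.uv, h1.uu, h4.uu⟩
  let φ : R →ₗ[F] F :=
    { toFun := fun x => 2⁻¹ * (C.B u' (x • v') + C.B u' (C.bar x • v'))
      map_add' := fun r s => by simp only [map_add, add_smul]; ring
      map_smul' := fun c r => by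
        simp only [map_smul, smul_assoc, smul_eq_mul, RingHom.id_apply]; ring }
  obtain ⟨c, hc⟩ := h6.rep he φ fun x => by
    change 2⁻¹ * (C.B u' (_ • v') + C.B u' (C.bar _ • v')) = 0
    rw [map_mul, mul_comm (C.bar _), mul_comm _ x, mul_smul, mul_smul, h6.hv,
      C.bar_N_pow_zero he _ h6.hv]
    simp
  have hc' : ∀ x : R, C.B u' (x • c • v') = 2⁻¹ * (C.B u' (x • v') + C.B u' (C.bar x • v')) :=
    fun x => by rw [← mul_smul, mul_comm]; exact hc x
  have h7 : C.B u' (C.N e ^ k • c • v') = 1 := by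
    rw [hc', C.bar_N_pow he k h6.hv, hk, one_smul, h6.uv]; field_simp; ring
  have h8 : C.N e ^ (k + 1) • c • v' = 0 := by rw [smul_comm, h6.hv, smul_zero]
  have h9 : ∀ x : R, C.B (c • v') (x • c • v') = 0 := fun x => by
    rw [C.adj, ← mul_smul, ← mul_smul, h5]
  refine ⟨u', c • v', ⟨h6.hu, h8, h7, ?_, h6.uu, h9 _⟩, ?_, h3, h9, fun x => ?_⟩
  · rw [← hA.neg_eq, C.B_N_pow he k u' h8, hk, h7, one_mul]
  · rw [cyc_smul h6.hv fun h => by rw [smul_comm, h, map_zero] at h7; exact zero_ne_one h7, e2, e1]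
  · rw [hc', hc', C.bar_bar, add_comm]

theorem IsB2.exists_sl {e : F} (he : e * e = 1) {k : ℕ} {u v u' v' : V} (hb : C.IsB2 e k u v)
    (hu : C.N e ^ (k + 1) • u' = 0) (hv : C.N e ^ (k + 1) • v' = 0) :
    ∃ σ : V →ₗ[F] V, ∀ r s : R, σ (r • u + s • v) = C.bar r • u' + C.bar s • v' :=
  C.exists_sl2 fun r s h => by
    obtain ⟨⟨r, rfl⟩, s, rfl⟩ := hb.free h
    rw [map_mul, map_mul, mul_comm, mul_comm (C.bar _) (C.bar s), mul_smul, mul_smul,
      C.bar_N_pow_zero he _ hu, C.bar_N_pow_zero he _ hv, smul_zero, smul_zero, add_zero]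

theorem IsB2.lc [Finite F] [FiniteDimensional F V] (hA : C.B.IsAlt) (h2 : (2 : F) ≠ 0) {k : ℕ}
    {u v : V} (hb : C.IsB2 (-1) k u v) : C.LC (cyc F R u ⊔ cyc F R v) := by
  have o : (-1 : F) * -1 = 1 := by simp
  obtain ⟨u, v, hb, e, h1, h3, h4⟩ := hb.normal hA h2 o
  rw [← e]
  obtain ⟨p, hp⟩ := CharP.exists F
  have hp0 := CharP.char_ne_zero_of_finite F p
  have hp' := CharP.char_prime_of_ne_zero F hp0
  have : NeZero p := ⟨hp0⟩
  obtain ⟨α, β, hαβ⟩ : ∃ α β : F, α ^ 2 + β ^ 2 = -1 := by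
    obtain ⟨a, b, h⟩ := CharP.sq_add_sq F p (-1)
    exact ⟨a, b, by simpa using h⟩
  obtain ⟨i, hi⟩ : Odd (p ^ (k + 1)) := Odd.pow (hp'.odd_of_ne_two (by
    rintro rfl; exact h2 (by exact_mod_cast CharP.cast_eq_zero F 2)))
  have hT : ∀ w : V, C.N (-1) ^ (k + 1) • w = 0 → C.t ^ (2 * i + 1) • w = -w := fun w hw => by
    obtain ⟨r, hr⟩ := exists_add_pow_prime_pow_eq hp' (-1 : R) (C.N (-1)) (k + 1)
    rw [show -1 + C.N (-1) = C.t by simp [N], ← map_natCast (algebraMap F R), CharP.cast_eq_zero,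
      map_zero] at hr
    rw [← hi, hr, add_smul, add_smul, smul_eq_zero_of_dvd hw (pow_dvd_pow _
      (Nat.lt_pow_self hp'.one_lt).le), hi, Odd.neg_one_pow ⟨i, rfl⟩]
    simp
  have hB : ∀ r s r' s' : R, C.B (r • u + s • v) (r' • u + s' • v) =
      C.B u ((C.bar r * s') • v) - C.B u ((C.bar r' * s) • v) := fun r s r' s' => by
    rw [map_add, map_add, LinearMap.add_apply, LinearMap.add_apply,
      ← hA.neg_eq (r' • u) (s • v)]
    simp only [C.adj, ← mul_smul, h1, h3]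
    ring
  obtain ⟨a, ha⟩ := hb.exists_sl o (u' := v) (v' := -u) hb.hv (by rw [smul_neg, hb.hu, neg_zero])
  obtain ⟨σ, hσ⟩ := hb.exists_sl o hb.hu hb.hv
  obtain ⟨x, hx⟩ := hb.exists_sl o (u' := α • u + β • v) (v' := β • u - α • v)
    (by simp [smul_comm _ α, smul_comm _ β, hb.hu, hb.hv])
    (by simp [smul_sub, smul_comm _ α, smul_comm _ β, hb.hu, hb.hv])
  have ha' : ∀ r s : R, a (r • u + s • v) = (-C.bar s) • u + C.bar r • v := fun r s => by
    rw [ha]; module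
  have hb' : ∀ r s : R, (x ∘ₗ σ ∘ₗ Lm F V (C.t ^ i)) (r • u + s • v) =
      (C.t ^ i * (α • r + β • s)) • u + (C.t ^ i * (β • r - α • s)) • v := fun r s => by
    simp only [LinearMap.comp_apply, Lm_apply]
    rw [smul_add, ← mul_smul, ← mul_smul, hσ, hx, C.bar_bar, C.bar_bar]
    simp only [Algebra.smul_def]
    module
  have ht : C.bar (C.t ^ i) * C.t ^ i = 1 := by
    rw [map_pow, C.bar_t, ← mul_pow, mul_comm, C.htt, one_pow]
  refine ⟨a, x ∘ₗ σ ∘ₗ Lm F V (C.t ^ i), ⟨fun z hz => ?_, fun z hz w hw => ?_⟩,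
    ⟨fun z hz => ?_, fun z hz w hw => ?_⟩, fun z hz => ?_⟩
  all_goals obtain ⟨r, s, rfl⟩ := mem_cyc_sup.mp hz
  · exact mem_cyc_sup.mpr ⟨_, _, (ha' r s).symm⟩
  · obtain ⟨r', s', rfl⟩ := mem_cyc_sup.mp hw
    rw [ha', ha', hB, hB]
    simp only [map_neg, C.bar_bar, neg_mul, neg_smul, mul_comm]
    ring
  · exact mem_cyc_sup.mpr ⟨_, _, (hb' r s).symm⟩
  · obtain ⟨r', s', rfl⟩ := mem_cyc_sup.mp hw
    have h5 : ∀ y z : R, C.B u ((C.bar y * z) • v) = C.B u ((C.bar z * y) • v) := fun y z => by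
      rw [← h4, map_mul, C.bar_bar, mul_comm]
    rw [hb', hb', hB, hB, map_mul, map_mul, mul_mul_mul_comm, ht, mul_mul_mul_comm, ht]
    simp only [one_mul, map_add, map_smul, add_mul, mul_sub, smul_mul_assoc, mul_smul_comm,
      add_smul, sub_smul, smul_assoc, map_sub, smul_eq_mul, h5 r' r, h5 s r', h5 s' r, h5 s' s]
    linear_combination (C.B u ((C.bar r' * s) • v) - C.B u ((C.bar r * s') • v)) * hαβ
  · rw [hb', ha', ha', hb']
    have key : ∀ (y : R) (w : V), C.N (-1) ^ (k + 1) • w = 0 →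
        C.t • (C.t ^ i * y) • w = -(C.bar (C.t ^ i) * y) • w := fun y w hw => by
      have := congrArg (fun z => (C.bar (C.t ^ i) * y) • z) (hT w hw)
      simp only [← mul_smul, smul_neg] at this
      rw [neg_smul, ← this, ← mul_smul]
      congr 1
      linear_combination (-(C.t * C.t ^ i * y)) * ht
    rw [smul_add, key _ _ hb.hu, key _ _ hb.hv]
    simp only [map_mul, map_add, map_sub, map_smul]
    congr 2 <;> simp only [Algebra.smul_def] <;> ring

theorem decomp [Finite F] [FiniteDimensional F V] [Finite R] (hA : C.B.IsAlt) {W : Submodule F V}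
    (hW : Iv R W) (hN : ND C.B W) : ∃ X Y, Iv R X ∧ ND C.B X ∧ Iv R Y ∧ ND C.B Y ∧ Ot C.B X Y ∧
      X ⊔ Y = W ∧ C.LG 1 X ∧ (finrank F X ≤ 2 → C.LG (-1) X ∨ ∀ x ∈ X, C.t • x = x) ∧ C.LC Y ∧
      (Y = ⊥ ∨ ((2 : F) ≠ 0 ∧ ∃ Z Z', Iv R Z ∧ ND C.B Z ∧ Ot C.B Z Z' ∧ Z ⊔ Z' = Y ∧
        C.LG (-1) Z ∧ finrank F Z % 4 = 2 ∧ C.LC Z')) := by
  induction hn : finrank F W using Nat.strong_induction_on generalizing W with
  | _ n ih =>
  by_cases h0 : W = ⊥
  · subst h0
    exact ⟨⊥, ⊥, iv_bot, hN, iv_bot, hN, fun x hx y _ => by simp [(Submodule.mem_bot F).mp hx],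
      by simp, lg_bot _, fun _ => Or.inl (lg_bot _), lc_bot, Or.inl rfl⟩
  obtain ⟨Z, hle, hZ0, iZ, nZ, hZ⟩ : ∃ Z ≤ W, Z ≠ ⊥ ∧ Iv R Z ∧ ND C.B Z ∧
      ((C.LG 1 Z ∧ (finrank F Z ≤ 2 → C.LG (-1) Z ∨ ∀ x ∈ Z, C.t • x = x)) ∨
        ((2 : F) ≠ 0 ∧ C.LC Z ∧ C.LG (-1) Z ∧ finrank F Z % 4 = 2)) := by
    rcases C.exists_block hW hN h0 with ⟨e, he, k, v, hv, h1, h3⟩ | ⟨e, he, k, u, hu, v, hv, hb⟩ |
      ⟨h, hh, hc, k, v, hv, h1, r, hr⟩
    · exact ⟨_, hW.cyc_le hv, cyc_ne_bot (by rintro rfl; simp at h3), iv_cyc v, C.nd_B1 h1 h3,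
        Or.inl ⟨lg_cyc hA _ v, fun _ => Or.inl (lg_cyc hA _ v)⟩⟩
    · refine ⟨_, sup_le (hW.cyc_le hu) (hW.cyc_le hv), fun h => cyc_ne_bot (F := F) (R := R)
        (v := u) (by rintro rfl; simpa using hb.ne_u) (le_bot_iff.mp (h ▸ le_sup_left)),
        (iv_cyc u).sup (iv_cyc v), hb.nd, ?_⟩
      by_cases h1 : e = 1
      · subst h1
        refine Or.inl ⟨hb.lg hA he, fun h => Or.inr fun x hx => ?_⟩
        obtain rfl : k = 0 := by rw [hb.finrank_eq] at h; omega
        obtain ⟨r, s, rfl⟩ := mem_cyc_sup.mp hx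
        rw [C.t_soc (e := 1), one_smul]
        rw [smul_add, smul_comm, smul_comm _ s, show C.N 1 • u = 0 by simpa using hb.hu,
          show C.N 1 • v = 0 by simpa using hb.hv, smul_zero, smul_zero, add_zero]
      · obtain rfl := (mul_self_eq_one_iff.mp he).resolve_left h1
        have h2 : (2 : F) ≠ 0 := fun h => h1 (by linear_combination -h)
        refine Or.inr ⟨h2, hb.lc hA h2, hb.lg hA he, ?_⟩
        obtain ⟨j, rfl⟩ := (neg_one_pow_eq_one_iff_even h1).mp (hb.neg_one_pow hA he)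
        rw [hb.finrank_eq]; omega
    · exact ⟨_, hW.cyc_le hv, cyc_ne_bot (by rintro rfl; simp at hr), iv_cyc v,
        C.nd_B0 hh hc h1 hr, Or.inl ⟨lg_cyc hA _ v, fun _ => Or.inl (lg_cyc hA _ v)⟩⟩
  have hd := nZ.finrank_pp C.isRefl hle
  have hpos : 0 < finrank F Z := by
    rw [pos_iff_ne_zero, Ne, Submodule.finrank_eq_zero]; exact hZ0
  obtain ⟨X, Y, iX, nX, iY, nY, hXY, e, h1, h3, h4, h5⟩ := ih _ (by omega) (C.iv_pp hW iZ)
    (nZ.pp C.isRefl hle hN) rfl
  have hZX : Ot C.B Z X := fun z hz x hx => (e ▸ Submodule.mem_sup_left hx : x ∈ pp C.B W Z).2 z hz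
  have hZY : Ot C.B Z Y := fun z hz x hx => (e ▸ Submodule.mem_sup_right hx : x ∈ pp C.B W Z).2 z hz
  have e' := nZ.sup_pp C.isRefl hle
  rcases hZ with ⟨h6, h7⟩ | ⟨h2, h6, h7, h8⟩
  · refine ⟨Z ⊔ X, Y, iZ.sup iX, nZ.sup C.isRefl nX hZX, iY, nY, fun w hw y hy => ?_,
      by rw [sup_assoc, e, e'], h6.sup h1 hZX, fun h => ?_, h4, h5⟩
    · obtain ⟨z, hz, x, hx, rfl⟩ := Submodule.mem_sup.mp hw
      rw [map_add, LinearMap.add_apply, hZY z hz y hy, hXY x hx y hy, add_zero]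
    · rw [finrank_sup_of_disjoint (nZ.disjoint C.isRefl hZX)] at h
      obtain ⟨j, hj⟩ := even_of_nd nZ hA
      obtain rfl : X = ⊥ := Submodule.finrank_eq_zero.mp (by omega)
      rw [sup_bot_eq]
      exact h7 (by omega)
  · refine ⟨X, Z ⊔ Y, iX, nX, iZ.sup iY, nZ.sup C.isRefl nY hZY, fun x hx w hw => ?_,
      by rw [sup_left_comm, e, e'], h1, h3, h6.sup h4 nZ hZY,
      Or.inr ⟨h2, Z, Y, iZ, nZ, hZY, rfl, h7, h8, h4⟩⟩
    obtain ⟨z, hz, y, hy, rfl⟩ := Submodule.mem_sup.mp hw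
    rw [map_add, C.isRefl _ _ (hZX z hz x hx), hXY x hx y hy, add_zero]

theorem lc_top [Finite F] [FiniteDimensional F V] [Finite R] (hA : C.B.IsAlt) (hN : ND C.B ⊤)
    (hq : 4 ≤ Nat.card F ∨ 5 ≤ Nat.card F ^ (finrank F V / 2)) : C.LC ⊤ := by
  obtain ⟨X, Y, iX, nX, iY, nY, hXY, e, h1, h3, h4, h5⟩ := decomp hA iv_top hN
  rcases h5 with rfl | ⟨h2, Z, Z', iZ, nZ, hZ, rfl, h6, h7, h8⟩
  · rw [sup_bot_eq] at e
    subst e
    exact h1.lc_one hA iX nX (by rwa [finrank_top])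
  rw [← e]
  obtain ⟨j, hj⟩ := even_of_nd nX hA
  rcases Nat.lt_trichotomy j 1 with h | h | h
  · obtain rfl : X = ⊥ := Submodule.finrank_eq_zero.mp (by omega)
    rwa [bot_sup_eq]
  · rcases h3 (by omega) with h3 | h3
    · have hXZ : Ot C.B X Z := fun x hx z hz => hXY x hx z (Submodule.mem_sup_left hz)
      rw [← sup_assoc]
      refine ((h3.sup h6 hXZ).lc_neg hA h2 (iX.sup iZ) (nX.sup C.isRefl nZ hXZ) (by
        rw [finrank_sup_of_disjoint (nX.disjoint C.isRefl hXZ)]; omega)).sup h8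
        (nX.sup C.isRefl nZ hXZ) fun w hw y hy => ?_
      obtain ⟨x, hx, z, hz, rfl⟩ := Submodule.mem_sup.mp hw
      rw [map_add, LinearMap.add_apply, hZ z hz y hy, hXY x hx y (Submodule.mem_sup_right hy),
        add_zero]
    · exact (lc_of_fix h3).sup h4 nX hXY
  · refine (h1.lc_one hA iX nX (Or.inr ?_)).sup h4 nX hXY
    have := Fintype.ofFinite F
    have h9 := H12.card_odd_of_two_ne_zero h2
    have h10 := Finite.one_lt_card (α := F)
    rw [← Nat.card_eq_fintype_card] at h9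
    calc 5 ≤ 3 ^ 2 := by norm_num
      _ ≤ Nat.card F ^ 2 := Nat.pow_le_pow_left (by omega) _
      _ ≤ _ := Nat.pow_le_pow_right (by omega) (by omega)

end Ctx

theorem sp_comm {F : Type*} [Field F] [Finite F] {m : ℕ} (hq : 4 ≤ Nat.card F ∨ 5 ≤ Nat.card F ^ m)
    (g : Matrix.symplecticGroup (Fin m) F) :
    ∃ a b : Matrix.symplecticGroup (Fin m) F, g = a * b * a⁻¹ * b⁻¹ := by
  obtain ⟨R, _, _, _, _, _, C, hB, -, ht⟩ := exists_ctx (H66.sympBilin m F) (ε := -1) (by simp)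
    (fun x y => by rw [← (H66.sympBilin_isAlt m).neg_eq]; simp) (H66.spEquiv g)
    ((H66.mem_symplecticGroup_iff _).mp g.2)
  obtain ⟨a, b, ha, hb, e⟩ := Ctx.lc_top (C := C) (hB ▸ H66.sympBilin_isAlt m)
    (fun x _ h => (H66.sympBilin_nondegenerate m).1 x fun y => hB ▸ h y trivial)
    (by simpa [← two_mul] using hq)
  obtain ⟨a', ha'⟩ := H66.exists_Sp_of_equiv a fun u v => hB ▸ ha.iso u trivial v trivial
  obtain ⟨b', hb'⟩ := H66.exists_Sp_of_equiv b fun u v => hB ▸ hb.iso u trivial v trivial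
  have : a' * b' = g * (b' * a') := H66.Sp_ext fun v => by
    simp only [H66.Sp_mul_mulVec, ha', hb', e v trivial, ht, H66.spEquiv_apply]
  exact ⟨a', b', by rw [this]; group⟩

end H37.Ore
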