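import Mathlib
import Cfsg.Agent.Base
import Cfsg.Agent.Lib.Sour.Cyc
import Cfsg.Agent.Lib.Wall.Dual

/-! Similarity types as kernel dimension functions. -/

set_option autoImplicit false

namespace H37.Ore.SU

open Module Polynomial H65 H64.Sour

universe u
variable {K : Type u} [Field K]
variable {V M N : Type*} [AddCommGroup V] [Module K V] [AddCommGroup M] [Module K M]
  [AddCommGroup N] [Module K N]

/-- type of a cyclic block -/
noncomputable def cy (f : K[X]) : K[X] → ℕ := kerDim (cyc f)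

/-- type of a block of size one -/
noncomputable def on (a : K) : K[X] → ℕ := cy (X - C a)

/-- being the type of an endomorphism -/
def IsT (τ : K[X] → ℕ) : Prop := ∃ (n : ℕ) (A : End K (Fin n → K)), kerDim A = τ

open Classical in
/-- determinant of a type -/
noncomputable def dt (τ : K[X] → ℕ) : K :=
  if h : IsT τ then LinearMap.det h.choose_spec.choose else 0

theorem kd_sim {f : End K V} {g : End K M} (h : Similar f g) : kerDim f = kerDim g :=
  funext h.kerDim_eq

section
variable [FiniteDimensional K V] [FiniteDimensional K M] [FiniteDimensional K N]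

theorem sim_of {f : End K V} {g : End K M} (h : kerDim f = kerDim g) : Similar f g :=
  similar_iff_kerDim.2 (congrFun h)

theorem isT_kd (f : End K V) : IsT (kerDim f) := by
  obtain ⟨A, hA⟩ := exists_matrix_similar f (n := Fin (finrank K V)) (by simp)
  exact ⟨_, _, (kd_sim hA).symm⟩

theorem dt_kd (f : End K V) : dt (kerDim f) = LinearMap.det f := by
  rw [dt, dif_pos (isT_kd f)]
  exact (sim_of (isT_kd f).choose_spec.choose_spec).det_eq

theorem kd_blk (f : End K V) (g : End K M) : kerDim (blk f 0 0 g) = kerDim f + kerDim g :=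
  funext (kerDim_blk f g)

theorem kd_prodMap (f : End K V) (g : End K M) :
    kerDim (f.prodMap g : End K (V × M)) = kerDim f + kerDim g := by
  rw [← kd_blk]
  congr 1
  exact LinearMap.ext fun v => by simp

theorem kd_zero_iff {f : End K V} {p : K[X]} :
    kerDim f p = 0 ↔ Function.Injective (aeval f p) := by
  rw [kerDim, Submodule.finrank_eq_zero, LinearMap.ker_eq_bot]

theorem kd_of_coprime {f : End K V} {F G : K[X]} (h : aeval f G = 0) (hc : IsCoprime F G) :
    kerDim f F = 0 := by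
  obtain ⟨a, b, hab⟩ := hc
  rw [kd_zero_iff, injective_iff_map_eq_zero]
  intro v hv
  have := congrArg (fun p => aeval f p v) hab
  simpa [h, hv] using this.symm

theorem kd_tri {b : End K V} {A : End K M} {D : End K N} (i : M →ₗ[K] V) (π : V →ₗ[K] N)
    (hi : Function.Injective i) (hπ : Function.Surjective π) (hex : ∀ v, π v = 0 ↔ ∃ x, i x = v)
    (h1 : ∀ x, b (i x) = i (A x)) (h2 : ∀ v, π (b v) = D (π v)) {F : K[X]}
    (h : aeval A F = 0 ∧ kerDim D F = 0 ∨ kerDim A F = 0 ∧ aeval D F = 0) :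
    kerDim b = kerDim A + kerDim D := by
  have k1 := intertwine_aeval i (fun x => (h1 x).symm) F
  have k2 := intertwine_aeval π h2 F
  have k3 : ∀ x, π (i x) = 0 := fun x => (hex _).2 ⟨x, rfl⟩
  have k4 : ∀ v, aeval b F (b v) = b (aeval b F v) := fun v => by
    rw [← End.mul_apply, ← End.mul_apply, (H66.commute_aeval (Commute.refl b) F).eq]
  rw [← kd_blk]
  rcases h with ⟨ha, hd⟩ | ⟨ha, hd⟩
  · rw [kd_zero_iff] at hd
    let E := LinearEquiv.ofInjectiveEndo _ hd
    have hE : ∀ y, aeval D F (E.symm y) = y := E.apply_symm_apply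
    obtain ⟨s₀, hs⟩ := π.exists_rightInverse_of_surjective (LinearMap.range_eq_top.2 hπ)
    have hs' : ∀ y, π (s₀ y) = y := LinearMap.congr_fun hs
    let s : N →ₗ[K] V := aeval b F ∘ₗ s₀ ∘ₗ E.symm.toLinearMap
    have e1 : ∀ y, π (s y) = y := fun y => by simp [s, k2, hs', hE]
    have e2 : ∀ y, b (s y) = s (D y) := fun y => by
      have : E.symm (D y) = D (E.symm y) := by
        rw [LinearEquiv.symm_apply_eq]
        change _ = aeval D F _
        rw [← End.mul_apply, ← (H66.commute_aeval (Commute.refl D) F).eq, End.mul_apply, hE]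
      obtain ⟨x, hx⟩ := (hex (b (s₀ (E.symm y)) - s₀ (E.symm (D y)))).1 (by simp [h2, hs', this])
      have := congrArg (aeval b F) hx
      rw [← k1, ha, map_sub, k4] at this
      exact sub_eq_zero.1 (by simpa [s] using this.symm)
    refine (kd_sim ⟨LinearEquiv.ofBijective (i.coprod s) ⟨?_, fun v => ?_⟩, fun v => ?_⟩).symm
    · rw [injective_iff_map_eq_zero]
      rintro ⟨x, y⟩ hv
      have h3 : y = 0 := by simpa [k3, e1] using congrArg π hv
      subst h3
      have : x = 0 := hi (by simpa using hv)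
      simp [this]
    · obtain ⟨x, hx⟩ := (hex (v - s (π v))).1 (by simp [e1])
      exact ⟨(x, π v), by simp [hx]⟩
    · change i.coprod s _ = b (i.coprod s v)
      simp [h1, e2]
  · rw [kd_zero_iff] at ha
    let E := LinearEquiv.ofInjectiveEndo _ ha
    have hE : ∀ y, E.symm (aeval A F y) = y := E.symm_apply_apply
    let ρ : V →ₗ[K] M := (LinearEquiv.ofInjective i hi).symm.toLinearMap ∘ₗ
      (aeval b F).codRestrict (LinearMap.range i) fun v => (hex _).1 (by simp [k2, hd])
    have hρ : ∀ v, i (ρ v) = aeval b F v := fun v =>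
      congrArg Subtype.val ((LinearEquiv.ofInjective i hi).apply_symm_apply _)
    let r : V →ₗ[K] M := E.symm.toLinearMap ∘ₗ ρ
    have e1 : ∀ x, r (i x) = x := fun x => by
      have : ρ (i x) = aeval A F x := hi (by rw [hρ, k1])
      simp [r, this, hE]
    have e2 : ∀ v, r (b v) = A (r v) := fun v => by
      have : ρ (b v) = A (ρ v) := hi (by rw [hρ, ← h1, hρ, k4])
      change E.symm (ρ (b v)) = A (E.symm (ρ v))
      rw [this, LinearEquiv.symm_apply_eq]
      change _ = aeval A F _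
      rw [← End.mul_apply, ← (H66.commute_aeval (Commute.refl A) F).eq, End.mul_apply]
      exact congrArg A (E.apply_symm_apply _).symm
    refine kd_sim ⟨LinearEquiv.ofBijective (r.prod π) ⟨?_, ?_⟩, fun v => ?_⟩
    · rw [injective_iff_map_eq_zero]
      intro v hv
      obtain ⟨x, rfl⟩ := (hex v).1 (congrArg Prod.snd hv)
      have : x = 0 := by simpa [e1] using congrArg Prod.fst hv
      simp [this]
    · rintro ⟨x, y⟩
      obtain ⟨v, rfl⟩ := hπ y
      exact ⟨v + i (x - r v), by simp [e1, k3]⟩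
    · change r.prod π _ = blk A 0 0 D (r.prod π v)
      simp [e2, h2]

theorem kd_upper {b : End K (M × N)} {A : End K M} {D : End K N}
    (h1 : ∀ x, b (x, 0) = (A x, 0)) (h2 : ∀ v, (b v).2 = D v.2) {F : K[X]}
    (h : aeval A F = 0 ∧ kerDim D F = 0 ∨ kerDim A F = 0 ∧ aeval D F = 0) :
    kerDim b = kerDim A + kerDim D :=
  kd_tri (LinearMap.inl K M N) (LinearMap.snd K M N) LinearMap.inl_injective
    LinearMap.snd_surjective (fun v => ⟨fun h => ⟨v.1, Prod.ext rfl h.symm⟩,
      fun ⟨_, h⟩ => h ▸ rfl⟩) h1 h2 h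

theorem kd_lower {b : End K (M × N)} {A : End K M} {D : End K N}
    (h1 : ∀ y, b (0, y) = (0, D y)) (h2 : ∀ v, (b v).1 = A v.1) {F : K[X]}
    (h : aeval D F = 0 ∧ kerDim A F = 0 ∨ kerDim D F = 0 ∧ aeval A F = 0) :
    kerDim b = kerDim A + kerDim D :=
  (kd_tri (LinearMap.inr K M N) (LinearMap.fst K M N) LinearMap.inr_injective
    LinearMap.fst_surjective (fun v => ⟨fun h => ⟨v.2, Prod.ext h.symm rfl⟩,
      fun ⟨_, h⟩ => h ▸ rfl⟩) h1 h2 h).trans (add_comm _ _)

theorem kd_mul_le (f : End K V) (p r : K[X]) : kerDim f (p * r) ≤ kerDim f p + kerDim f r := by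
  rw [kerDim, map_mul, End.mul_eq_comp, LinearMap.ker_comp]
  let φ := (aeval f r).domRestrict ((LinearMap.ker (aeval f p)).comap (aeval f r))
  rw [← φ.finrank_range_add_finrank_ker]
  refine add_le_add (Submodule.finrank_mono ?_) ?_
  · rintro _ ⟨v, rfl⟩
    exact v.2
  · refine LinearMap.finrank_le_finrank_of_injective (f := LinearMap.codRestrict _
      (((LinearMap.ker (aeval f p)).comap (aeval f r)).subtype ∘ₗ (LinearMap.ker φ).subtype)
      fun v => v.2) fun a b hab => ?_
    have := congrArg Subtype.val hab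
    exact Subtype.ext (Subtype.ext this)

end

theorem IsT.add {s t : K[X] → ℕ} (hs : IsT s) (ht : IsT t) : IsT (s + t) := by
  obtain ⟨n, A, rfl⟩ := hs
  obtain ⟨m, B, rfl⟩ := ht
  rw [← kd_blk]
  exact isT_kd _

theorem dt_add {s t : K[X] → ℕ} (hs : IsT s) (ht : IsT t) : dt (s + t) = dt s * dt t := by
  obtain ⟨n, A, rfl⟩ := hs
  obtain ⟨m, B, rfl⟩ := ht
  rw [← kd_blk, dt_kd, dt_kd, dt_kd, det_blk_upper]

theorem IsT.mul_le {s : K[X] → ℕ} (hs : IsT s) (p r : K[X]) : s (p * r) ≤ s p + s r := by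
  obtain ⟨n, A, rfl⟩ := hs
  exact kd_mul_le A p r

theorem kd_subsingleton [Subsingleton V] (f : End K V) : kerDim f = 0 :=
  funext fun _ => Module.finrank_zero_of_subsingleton

theorem isT_zero : IsT (0 : K[X] → ℕ) := ⟨0, 1, kd_subsingleton _⟩

theorem dt_zero : dt (0 : K[X] → ℕ) = 1 := by
  rw [← kd_subsingleton (1 : End K (Fin 0 → K)), dt_kd, map_one]

theorem isT_cy {f : K[X]} (hf : f.Monic) : IsT (cy f) := by
  have := hf.finite_adjoinRoot
  exact isT_kd _

theorem dt_cy {f : K[X]} (hf : f.Monic) : dt (cy f) = (-1) ^ f.natDegree * f.coeff 0 := by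
  have := hf.finite_adjoinRoot
  rw [cy, dt_kd, LinearMap.det_eq_sign_charpoly_coeff, charpoly_cyc hf, finrank_adjoinRoot]

theorem cy_zero (f : K[X]) : cy f 0 = f.natDegree := by
  rw [cy, kerDim_zero, finrank_adjoinRoot]

theorem cy_coprime {f p : K[X]} (hf : f.Monic) (h : IsCoprime f p) : cy f p = 0 :=
  kerDim_cyc_of_isCoprime hf.ne_zero h

theorem isT_on (a : K) : IsT (on a) := isT_cy (monic_X_sub_C a)

theorem dt_on (a : K) : dt (on a) = a := by
  rw [on, dt_cy (monic_X_sub_C a)]; simp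

theorem on_zero (a : K) : on a 0 = 1 := by rw [on, cy_zero, natDegree_X_sub_C]

theorem on_of_eval {a : K} {p : K[X]} (h : p.eval a ≠ 0) : on a p = 0 :=
  cy_coprime (monic_X_sub_C a) ((irreducible_X_sub_C a).coprime_iff_not_dvd.2 fun h' =>
    h (dvd_iff_isRoot.1 h'))

theorem cy_one : cy (1 : K[X]) = 0 := by
  have : Subsingleton (AdjoinRoot (1 : K[X])) := ⟨fun a b => by
    obtain ⟨a, rfl⟩ := AdjoinRoot.mk_surjective a
    obtain ⟨b, rfl⟩ := AdjoinRoot.mk_surjective b
    exact AdjoinRoot.mk_eq_mk.2 (one_dvd _)⟩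
  exact kd_subsingleton _

/-- evaluation of polynomials at a vector, on the quotient -/
noncomputable def ev (A : End K V) (v : V) {f : K[X]} (hf : f.Monic) : AdjoinRoot f →ₗ[K] V :=
  (LinearMap.applyₗ v ∘ₗ (aeval A : K[X] →ₐ[K] End K V).toLinearMap) ∘ₗ AdjoinRoot.modByMonicHom hf

theorem ev_mk (A : End K V) (v : V) {f : K[X]} (hf : f.Monic) (r : K[X]) :
    ev A v hf (AdjoinRoot.mk f r) = aeval A (r %ₘ f) v := rfl

theorem ev_mk' {A : End K V} {v : V} {f : K[X]} (hf : f.Monic) (h : aeval A f v = 0) (r : K[X]) :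
    ev A v hf (AdjoinRoot.mk f r) = aeval A r v := by
  conv_rhs => rw [← modByMonic_add_div r f, map_add, mul_comm, map_mul, LinearMap.add_apply,
    End.mul_apply, h, map_zero, add_zero]
  rfl

theorem ev_cyc {A : End K V} {v : V} {f : K[X]} (hf : f.Monic) (h : aeval A f v = 0)
    (x : AdjoinRoot f) : ev A v hf (cyc f x) = A (ev A v hf x) := by
  obtain ⟨r, rfl⟩ := AdjoinRoot.mk_surjective x
  rw [cyc_apply, ← AdjoinRoot.mk_X, ← map_mul, ev_mk' hf h, ev_mk' hf h, map_mul, aeval_X,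
    End.mul_apply]

theorem kd_list [FiniteDimensional K V] (A : End K V) (L : List (K[X] × V))
    (h1 : ∀ x ∈ L, x.1.Monic ∧ aeval A x.1 x.2 = 0)
    (h2 : ∀ p : Submodule K V, (∀ x ∈ L, x.2 ∈ p) → (∀ v ∈ p, A v ∈ p) → p = ⊤)
    (h3 : (L.map fun x => x.1.natDegree).sum = finrank K V) :
    kerDim A = (L.map fun x => cy x.1).sum := by
  have hm : ∀ i : Fin L.length, L[i].1.Monic := fun i => (h1 _ (List.getElem_mem i.2)).1
  have hz : ∀ i : Fin L.length, aeval A L[i].1 L[i].2 = 0 := fun i =>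
    (h1 _ (List.getElem_mem i.2)).2
  have := fun i => (hm i).finite_adjoinRoot
  let φ : (∀ i : Fin L.length, AdjoinRoot L[i].1) →ₗ[K] V :=
    ∑ i : Fin L.length, ev A L[i].2 (hm i) ∘ₗ LinearMap.proj i
  have hφ : ∀ x, φ (model (fun i : Fin L.length => L[i].1) x) = A (φ x) := fun x => by
    simp only [φ, LinearMap.sum_apply, map_sum, LinearMap.comp_apply, LinearMap.proj_apply]
    exact Finset.sum_congr rfl fun i _ => ev_cyc (hm i) (hz i) _
  have hs : Function.Surjective φ := LinearMap.range_eq_top.1 (h2 _ (fun x hx => by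
    obtain ⟨i, rfl⟩ := List.mem_iff_get.1 hx
    refine ⟨Pi.single i 1, ?_⟩
    simp only [φ, LinearMap.sum_apply, LinearMap.comp_apply, LinearMap.proj_apply]
    rw [Finset.sum_eq_single i (fun j _ hj => by rw [Pi.single_eq_of_ne hj, map_zero]) (by simp),
      Pi.single_eq_same, ← map_one (AdjoinRoot.mk _)]
    exact (ev_mk' (hm i) (hz i) 1).trans (by simp)) (by
      rintro _ ⟨x, rfl⟩
      exact ⟨_, hφ x⟩))
  have hd : finrank K (∀ i : Fin L.length, AdjoinRoot L[i].1) = finrank K V := by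
    rw [finrank_model _ fun i => (hm i).ne_zero, ← h3]
    exact Fin.sum_univ_fun_getElem L fun x => x.1.natDegree
  rw [← kd_sim ⟨LinearEquiv.ofBijective φ ⟨(LinearMap.injective_iff_surjective_of_finrank_eq_finrank
    hd).2 hs, hs⟩, hφ⟩, ← Fin.sum_univ_fun_getElem L fun x => cy x.1]
  funext p
  rw [kerDim_model _ fun i => (hm i).ne_zero, Finset.sum_apply]
  rfl

theorem kd_cyc [FiniteDimensional K V] {A : End K V} {v : V} {f : K[X]} (hf : f.Monic)
    (h1 : aeval A f v = 0) (h2 : Cyc A v) (h3 : f.natDegree = finrank K V) : kerDim A = cy f := by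
  simpa using kd_list A [(f, v)] (by simp [hf, h1]) (fun p hp => h2 p (hp (f, v) (by simp)))
    (by simpa)

theorem kd_smul_one (h : finrank K V = 1) (a : K) : kerDim (a • (1 : End K V)) = on a := by
  have : FiniteDimensional K V := Module.finite_of_finrank_eq_succ h
  obtain ⟨v, hv, h2⟩ := finrank_eq_one_iff'.1 h
  refine kd_cyc (v := v) (monic_X_sub_C a) (by simp) (fun p hp _ => ?_) (by simp [h])
  refine Submodule.eq_top_iff'.2 fun w => ?_
  obtain ⟨c, rfl⟩ := h2 w
  exact p.smul_mem _ hp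

theorem exists_smul_one (h : finrank K V = 1) (f : End K V) : ∃ a : K, f = a • 1 := by
  obtain ⟨v, hv, h2⟩ := finrank_eq_one_iff'.1 h
  obtain ⟨a, ha⟩ := h2 (f v)
  refine ⟨a, LinearMap.ext fun w => ?_⟩
  obtain ⟨c, rfl⟩ := h2 w
  simp [← ha, smul_smul, mul_comm]

theorem cy_mul {f g : K[X]} (hf : f.Monic) (hg : g.Monic) (h : IsCoprime f g) :
    cy (f * g) = cy f + cy g := by
  have := (hf.mul hg).finite_adjoinRoot
  have := kd_list (cyc (f * g)) [(f, AdjoinRoot.mk _ g), (g, AdjoinRoot.mk _ f)] (by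
    simp only [List.mem_cons, List.not_mem_nil, or_false, forall_eq_or_imp, forall_eq, hf, hg,
      aeval_cyc_apply, ← map_mul, AdjoinRoot.mk_eq_zero, true_and]
    exact ⟨dvd_rfl, by rw [mul_comm]⟩) (fun p hp h2 => by
      refine cyc_cyc _ p ?_ h2
      obtain ⟨a, b, hab⟩ := h
      have k : ∀ (r : K[X]) (v), v ∈ p → AdjoinRoot.mk (f * g) r * v ∈ p := fun r v hv => by
        rw [← aeval_cyc_apply]
        exact aeval_apply_smul_mem_of_le_comap hv r _ h2 |> fun h => by simpa using h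
      rw [← map_one (AdjoinRoot.mk _), ← hab, map_add, map_mul, map_mul]
      exact p.add_mem (k _ _ (hp (g, _) (by simp))) (k _ _ (hp (f, _) (by simp))))
    (by simp [finrank_adjoinRoot, hf.natDegree_mul hg])
  simpa [cy] using this

/-- scaling of a type -/
noncomputable def sc (β : K) (τ : K[X] → ℕ) : K[X] → ℕ := fun p => τ (p.comp (C β * X))

theorem kd_smul (β : K) (f : End K V) : kerDim (β • f) = sc β (kerDim f) := by
  funext p
  rw [sc, kerDim, kerDim, aeval_comp, map_mul, aeval_C, aeval_X, Algebra.smul_def]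

theorem sc_add (β : K) (s t : K[X] → ℕ) : sc β (s + t) = sc β s + sc β t := rfl

theorem sc_on (β a : K) : sc β (on a) = on (β * a) := by
  rw [← kd_smul_one (V := K) (by simp), ← kd_smul_one (V := K) (by simp), ← kd_smul, smul_smul]

theorem IsT.sc {s : K[X] → ℕ} (hs : IsT s) (β : K) : IsT (sc β s) := by
  obtain ⟨n, A, rfl⟩ := hs
  exact ⟨n, _, kd_smul β A⟩

theorem dt_sc {s : K[X] → ℕ} (hs : IsT s) (β : K) : dt (sc β s) = β ^ s 0 * dt s := by
  obtain ⟨n, A, rfl⟩ := hs
  rw [← kd_smul, dt_kd, dt_kd, LinearMap.det_smul, kerDim_zero]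

/-- there is an elementary divisor of exponent one -/
def CO (τ : K[X] → ℕ) : Prop := ∃ π : K[X], Irreducible π ∧ π.Monic ∧ τ (π ^ 2) < 2 * τ π

theorem CO.add {s t : K[X] → ℕ} (hs : CO s) (ht : IsT t) : CO (s + t) := by
  obtain ⟨π, h1, h2, h3⟩ := hs
  have := ht.mul_le π π
  refine ⟨π, h1, h2, ?_⟩
  rw [Pi.add_apply, Pi.add_apply, sq] at *
  omega

theorem CO.add' {s t : K[X] → ℕ} (hs : CO s) (ht : IsT t) : CO (t + s) :=
  add_comm s t ▸ hs.add ht

theorem co_cy {π : K[X]} (h1 : Irreducible π) (h2 : π.Monic) : CO (cy π) := by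
  refine ⟨π, h1, h2, ?_⟩
  have := h1.natDegree_pos
  rw [cy, kerDim_cyc_of_dvd' h1.ne_zero (dvd_pow_self _ two_ne_zero),
    kerDim_cyc_of_dvd' h1.ne_zero dvd_rfl]
  omega

theorem co_on (a : K) : CO (on a) := co_cy (irreducible_X_sub_C a) (monic_X_sub_C a)

theorem co_sq {f : K[X]} (h1 : f.Monic) (h2 : Squarefree f) (h3 : 0 < f.natDegree) : CO (cy f) := by
  obtain ⟨π, k1, k2, g, rfl⟩ := exists_monic_irreducible_factor f (not_isUnit_of_natDegree_pos _ h3)
  have hg : g.Monic := k1.of_mul_monic_left h1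
  rw [cy_mul k1 hg (k2.coprime_iff_not_dvd.2 fun h => k2.not_isUnit (h2 π (mul_dvd_mul_left _ h)))]
  exact (co_cy k2 k1).add (isT_cy hg)

theorem CO.has [FiniteDimensional K V] {f : End K V} (h : CO (kerDim f)) :
    ∃ u, H64.CN.Has f u ∧ 0 < (u 1).natDegree := by
  classical
  obtain ⟨π, h1, h2, h3⟩ := h
  obtain ⟨t, p, e, hp, hm, he, hs⟩ := exists_model f
  refine ⟨_, ⟨t, p, e, hp, hm, he, hs, fun _ => rfl⟩, ?_⟩
  have k1 := kerDim_model_irred_pow p e hp hm h1 h2 1
  rw [pow_one] at k1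
  rw [hs.kerDim_eq, hs.kerDim_eq, kerDim_model_irred_pow p e hp hm h1 h2, k1,
    ← mul_assoc, Finset.mul_sum] at h3
  obtain ⟨i, -, hi⟩ := Finset.exists_lt_of_sum_lt (lt_of_mul_lt_mul_right h3 (Nat.zero_le _))
  have := he i
  exact lt_of_lt_of_le (hp i).natDegree_pos (natDegree_le_of_dvd (Finset.dvd_prod_of_mem p
    (by simp; omega)) (monic_prod_of_monic _ _ fun j _ => hm j).ne_zero)

end H37.Ore.SU
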