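import Mathlib
import Cfsg.Agent.Base
import Cfsg.Agent.Lib.Ore.SuA

/-! Hermitian spaces and triples of similarity types of unitary products. -/

set_option autoImplicit false

namespace H37.Ore.SU

open Module Polynomial H65 H64.Sour H66 Matrix

universe u
variable {K : Type u} [Field K]

/-- a non-trivial involution -/
class Cj (σ : K →+* K) : Prop where
  inv : ∀ x, σ (σ x) = x
  ne : ∃ a, σ a ≠ a

variable {σ : K →+* K}
variable {V W : Type*} [AddCommGroup V] [Module K V] [AddCommGroup W] [Module K W]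

@[simp] theorem cj_cj [h : Cj σ] (x : K) : σ (σ x) = x := h.inv x

/-- non-degenerate Hermitian form -/
structure Hm (B : V →ₗ[K] V →ₛₗ[σ] K) : Prop where
  sym : ∀ x y, B y x = σ (B x y)
  nd : ∀ x, (∀ y, B x y = 0) → x = 0

/-- isometry -/
def Iso (B : V →ₗ[K] V →ₛₗ[σ] K) (g : End K V) : Prop := ∀ x y, B (g x) (g y) = B x y

theorem Iso.mul {B : V →ₗ[K] V →ₛₗ[σ] K} {g h : End K V} (hg : Iso B g) (hh : Iso B h) :
    Iso B (g * h) := fun x y => (hg _ _).trans (hh x y)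

theorem Iso.pow {B : V →ₗ[K] V →ₛₗ[σ] K} {g : End K V} (hg : Iso B g) (n : ℕ) :
    Iso B (g ^ n) := by
  induction n with
  | zero => exact fun _ _ => rfl
  | succ n ih => rw [pow_succ]; exact ih.mul hg

theorem Iso.inj {B : V →ₗ[K] V →ₛₗ[σ] K} {g : End K V} (hg : Iso B g) (h : Hm B) :
    Function.Injective g := by
  rw [injective_iff_map_eq_zero]
  exact fun x hx => h.nd x fun y => by rw [← hg, hx]; simp

theorem Iso.smul {B : V →ₗ[K] V →ₛₗ[σ] K} {g : End K V} (hg : Iso B g) {β : K}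
    (hβ : β * σ β = 1) : Iso B (β • g) := fun x y => by
  simp only [LinearMap.smul_apply, map_smul, LinearMap.map_smulₛₗ, smul_eq_mul, hg x y]
  linear_combination B x y * hβ

/-- orthogonal sum -/
def pf (B : V →ₗ[K] V →ₛₗ[σ] K) (B' : W →ₗ[K] W →ₛₗ[σ] K) : (V × W) →ₗ[K] (V × W) →ₛₗ[σ] K :=
  LinearMap.mk₂'ₛₗ (RingHom.id K) σ (fun x y => B x.1 y.1 + B' x.2 y.2)
    (fun _ _ _ => by simp; ring) (fun _ _ _ => by simp; ring) (fun _ _ _ => by simp; ring)
    (fun _ _ _ => by simp; ring)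

@[simp] theorem pf_apply (B : V →ₗ[K] V →ₛₗ[σ] K) (B' : W →ₗ[K] W →ₛₗ[σ] K) (x y : V × W) :
    pf B B' x y = B x.1 y.1 + B' x.2 y.2 := rfl

theorem Hm.pf {B : V →ₗ[K] V →ₛₗ[σ] K} {B' : W →ₗ[K] W →ₛₗ[σ] K} (h : Hm B) (h' : Hm B') :
    Hm (pf B B') :=
  ⟨fun x y => by simp [h.sym x.1, h'.sym x.2], fun x hx => Prod.ext
    (h.nd _ fun y => by simpa using hx (y, 0)) (h'.nd _ fun y => by simpa using hx (0, y))⟩

theorem Iso.prod {B : V →ₗ[K] V →ₛₗ[σ] K} {B' : W →ₗ[K] W →ₛₗ[σ] K} {g : End K V} {g' : End K W}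
    (h : Iso B g) (h' : Iso B' g') : Iso (pf B B') (g.prodMap g') := fun x y => by
  simp [h x.1, h' x.2]

variable (σ) in
/-- the standard form -/
def sf (n : Type*) [Fintype n] : (n → K) →ₗ[K] (n → K) →ₛₗ[σ] K :=
  LinearMap.mk₂'ₛₗ (RingHom.id K) σ (fun x y => (σ ∘ y) ⬝ᵥ x)
    (fun _ _ _ => by simp) (fun _ _ _ => by simp)
    (fun _ _ _ => by simp [dotProduct, add_mul, Finset.sum_add_distrib])
    (fun _ _ _ => by simp [dotProduct, Finset.mul_sum, mul_assoc])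

theorem sf_apply {n : Type*} [Fintype n] (x y : n → K) : sf σ n x y = (σ ∘ y) ⬝ᵥ x := rfl

section
variable {n : Type*} [Fintype n] [DecidableEq n]

theorem comp_single (i : n) : σ ∘ (Pi.single i 1 : n → K) = Pi.single i 1 := by
  ext k; by_cases hk : k = i
  · subst hk; simp
  · simp [hk]

theorem sf_mulVec (A A' : Matrix n n K) (x y : n → K) :
    sf σ n (A *ᵥ x) (A' *ᵥ y) = (σ ∘ y) ⬝ᵥ ((cstar σ A' * A) *ᵥ x) := by
  have h2 : σ ∘ (A' *ᵥ y) = A'.map σ *ᵥ (σ ∘ y) := by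
    ext i; exact RingHom.map_mulVec σ A' y i
  rw [sf_apply, h2, ← mulVec_mulVec, dotProduct_mulVec (σ ∘ y), cstar_apply, vecMul_transpose]

theorem iso_iff (A : Matrix n n K) : Iso (sf σ n) (toLin' A) ↔ cstar σ A * A = 1 := by
  constructor
  · intro h
    ext i j
    have := h (Pi.single j 1) (Pi.single i 1)
    rw [toLin'_apply, toLin'_apply, sf_mulVec, sf_apply, comp_single, single_dotProduct,
      single_dotProduct, one_mul, one_mul, mulVec_single_one] at this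
    rw [Matrix.one_apply, ← Pi.single_apply]
    exact this
  · intro h x y
    rw [toLin'_apply, toLin'_apply, sf_mulVec, h, one_mulVec, sf_apply]

theorem hm_sf [Cj σ] : Hm (sf σ n) :=
  ⟨fun x y => by simp [sf_apply, dotProduct, mul_comm], fun x hx => funext fun i => by
    simpa [sf_apply, comp_single] using hx (Pi.single i 1)⟩

end

variable (σ) in
/-- unitary `g`, `b`, `g * b` of the given types exist -/
def Pair (s t u : K[X] → ℕ) : Prop :=
  ∃ (n : ℕ) (g b : Matrix (Fin n) (Fin n) K), cstar σ g * g = 1 ∧ cstar σ b * b = 1 ∧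
    kerDim (toLin' g) = s ∧ kerDim (toLin' b) = t ∧ kerDim (toLin' (g * b)) = u

theorem Pair.isT {s t u : K[X] → ℕ} (h : Pair σ s t u) : IsT s ∧ IsT t ∧ IsT u := by
  obtain ⟨n, g, b, -, -, rfl, rfl, rfl⟩ := h
  exact ⟨isT_kd _, isT_kd _, isT_kd _⟩

theorem Pair.dt {s t u : K[X] → ℕ} (h : Pair σ s t u) :
    dt u = dt s * dt t ∧ dt t * σ (dt t) = 1 ∧ dt s * σ (dt s) = 1 := by
  obtain ⟨n, g, b, h1, h2, rfl, rfl, rfl⟩ := h
  have k1 := congrArg det h1
  have k2 := congrArg det h2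
  rw [det_mul, det_cstar, det_one, mul_comm] at k1 k2
  simp [dt_kd, k1, k2]

theorem Pair.dim {s t u : K[X] → ℕ} (h : Pair σ s t u) : t 0 = s 0 := by
  obtain ⟨n, g, b, -, -, rfl, rfl, rfl⟩ := h
  rw [kerDim_zero, kerDim_zero]

variable [Finite K] [hσ : Cj σ]

theorem h90 {a : K} (ha : a * σ a = 1) : ∃ b : K, b ≠ 0 ∧ a * σ b = b := by
  obtain ⟨a0, ha0⟩ := hσ.ne
  obtain ⟨b, h1, h2⟩ := exists_hilbert90_of_comm σ hσ.inv a0 (sub_ne_zero.2 ha0.symm).isUnit a ha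
  exact ⟨b, h1.ne_zero, h2⟩

theorem exists_nrm {a : K} (ha : σ a = a) : ∃ b : K, b * σ b = a := by
  by_cases h0 : a = 0
  · exact ⟨0, by simp [h0]⟩
  obtain ⟨c, -, h⟩ := exists_cstar_mul_eq hσ.inv hσ.ne (a • (1 : Matrix Unit Unit K))
    (by rw [cstar_smul, cstar_one, ha]) (by simpa [isUnit_iff_isUnit_det] using h0)
  exact ⟨c () (), by simpa [mul_apply, cstar_apply, mul_comm] using congrFun (congrFun h ()) ()⟩

variable [FiniteDimensional K V] [FiniteDimensional K W]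

theorem Hm.exists_on {B : V →ₗ[K] V →ₛₗ[σ] K} (h : Hm B) :
    ∃ e : V ≃ₗ[K] (Fin (finrank K V) → K), ∀ x y, B x y = sf σ _ (e x) (e y) := by
  let b := finBasis K V
  let H : Matrix (Fin (finrank K V)) (Fin (finrank K V)) K := of fun i j => B (b j) (b i)
  have h1 : ∀ x y, B x y = (σ ∘ b.equivFun y) ⬝ᵥ (H *ᵥ b.equivFun x) := fun x y => by
    conv_lhs => rw [← b.sum_repr x, ← b.sum_repr y]
    simp only [map_sum, LinearMap.map_smulₛₗ, LinearMap.sum_apply, LinearMap.smul_apply, dotProduct,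
      mulVec, H, Finset.mul_sum, smul_eq_mul]
    refine Finset.sum_congr rfl fun i _ => Finset.sum_congr rfl fun j _ => ?_
    simp [mul_comm]
  obtain ⟨c, hc, h2⟩ := exists_cstar_mul_eq hσ.inv hσ.ne H
    (by ext i j; exact (h.sym _ _).symm) (by
      rw [← Matrix.mulVec_injective_iff_isUnit]
      refine (injective_iff_map_eq_zero (toLin' H)).2 fun v hv => ?_
      obtain ⟨x, rfl⟩ := b.equivFun.surjective v
      rw [h.nd x fun y => by rw [h1, ← toLin'_apply, hv, dotProduct_zero], map_zero])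
  refine ⟨b.equivFun.trans (toLinearEquiv' c hc.invertible), fun x y => ?_⟩
  rw [h1, ← h2]
  exact (sf_mulVec c c _ _).symm

theorem iso_conj {B : V →ₗ[K] V →ₛₗ[σ] K} {B' : W →ₗ[K] W →ₛₗ[σ] K} (e : V ≃ₗ[K] W)
    (he : ∀ x y, B x y = B' (e x) (e y)) {g : End K V} (hg : Iso B g) : Iso B' (e.conj g) :=
  fun x y => by
  rw [LinearEquiv.conj_apply_apply, LinearEquiv.conj_apply_apply, ← he, hg, he]; simp

theorem Pair.of_abs {B : V →ₗ[K] V →ₛₗ[σ] K} (h : Hm B) {g b : End K V} (hg : Iso B g)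
    (hb : Iso B b) : Pair σ (kerDim g) (kerDim b) (kerDim (g * b)) := by
  obtain ⟨e, he⟩ := h.exists_on
  refine ⟨_, LinearMap.toMatrix' (e.conj g), LinearMap.toMatrix' (e.conj b), (iso_iff _).1 ?_,
    (iso_iff _).1 ?_, ?_, ?_, ?_⟩
  · rw [toLin'_toMatrix']; exact iso_conj e he hg
  · rw [toLin'_toMatrix']; exact iso_conj e he hb
  · rw [toLin'_toMatrix', ← kd_sim (similar_conj g e)]
  · rw [toLin'_toMatrix', ← kd_sim (similar_conj b e)]
  · rw [toLin'_mul, toLin'_toMatrix', toLin'_toMatrix', kd_sim (similar_conj (g * b) e)]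
    congr 1
    exact LinearMap.ext fun v => by simp [LinearEquiv.conj_apply_apply]

theorem Pair.mat {s t u : K[X] → ℕ} (h : Pair σ s t u) {n : ℕ} {w : Matrix (Fin n) (Fin n) K}
    (hw : cstar σ w * w = 1) (hs : kerDim (toLin' w) = s) :
    ∃ b, cstar σ b * b = 1 ∧ kerDim (toLin' b) = t ∧ kerDim (toLin' (w * b)) = u := by
  obtain ⟨m, g, b, h1, h2, rfl, rfl, rfl⟩ := h
  have k1 := sim_of hs
  obtain rfl : n = m := by simpa using k1.finrank_eq
  obtain ⟨P, hP⟩ := (isConj_iff_similar _ _).2 k1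
  obtain ⟨c, c1, c2⟩ := exists_unitary_conj_matrix hσ.inv hσ.ne w g hw h1 P P.isUnit hP.eq
  have c3 : c * cstar σ c = 1 := mul_eq_one_comm.1 c1
  refine ⟨cstar σ c * b * c, ?_, kd_sim ((isConj_iff_similar _ _).1 ⟨⟨c, _, c3, c1⟩, ?_⟩),
    kd_sim ((isConj_iff_similar _ _).1 ⟨⟨c, _, c3, c1⟩, ?_⟩)⟩
  · rw [cstar_mul, cstar_mul, cstar_cstar hσ.inv]
    calc _ = cstar σ c * (cstar σ b * (c * cstar σ c) * b) * c := by simp only [mul_assoc]
      _ = 1 := by rw [c3, mul_one, h2, mul_one, c1]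
  · change c * _ = _ * c
    rw [← mul_assoc, ← mul_assoc, c3, one_mul]
  · change c * _ = _ * c
    rw [← mul_assoc, c2, ← mul_assoc, ← mul_assoc, mul_assoc g c, c3, mul_one]

theorem Pair.use {s t u : K[X] → ℕ} (h : Pair σ s t u) {B : V →ₗ[K] V →ₛₗ[σ] K} (hB : Hm B)
    {w : End K V} (hw : Iso B w) (hs : kerDim w = s) :
    ∃ b, Iso B b ∧ kerDim b = t ∧ kerDim (w * b) = u := by
  obtain ⟨e, he⟩ := hB.exists_on
  obtain ⟨b, h1, h2, h3⟩ := h.mat (w := LinearMap.toMatrix' (e.conj w)) ((iso_iff _).1 (by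
    rw [toLin'_toMatrix']; exact iso_conj e he hw)) (by
    rw [toLin'_toMatrix', ← kd_sim (similar_conj w e), hs])
  refine ⟨e.symm.conj (toLin' b), iso_conj e.symm (fun x y => by simp [he]) ((iso_iff _).2 h1),
    by rw [← kd_sim (similar_conj _ e.symm), h2], ?_⟩
  rw [← h3, toLin'_mul, toLin'_toMatrix', kd_sim (similar_conj (w * _) e)]
  congr 1
  exact LinearMap.ext fun v => by simp [LinearEquiv.conj_apply_apply]

theorem Pair.add {s t u s' t' u' : K[X] → ℕ} (h : Pair σ s t u) (h' : Pair σ s' t' u') :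
    Pair σ (s + s') (t + t') (u + u') := by
  obtain ⟨m, g, b, h1, h2, rfl, rfl, rfl⟩ := h
  obtain ⟨m', g', b', h1', h2', rfl, rfl, rfl⟩ := h'
  have := Pair.of_abs (hm_sf.pf hm_sf) (((iso_iff _).2 h1).prod ((iso_iff _).2 h1'))
    (((iso_iff _).2 h2).prod ((iso_iff _).2 h2'))
  rw [LinearMap.prodMap_mul, kd_prodMap, kd_prodMap, kd_prodMap] at this
  rw [toLin'_mul, toLin'_mul]
  exact this

theorem Pair.sc {s t u : K[X] → ℕ} (h : Pair σ s t u) {β : K} (hβ : β * σ β = 1) :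
    Pair σ s (sc β t) (sc β u) := by
  obtain ⟨m, g, b, h1, h2, rfl, rfl, rfl⟩ := h
  have := Pair.of_abs hm_sf ((iso_iff _).2 h1) (((iso_iff _).2 h2).smul hβ)
  rw [mul_smul_comm, kd_smul, kd_smul] at this
  rw [toLin'_mul]
  exact this

theorem pair_zero : Pair σ 0 0 0 :=
  ⟨0, 1, 1, Subsingleton.elim _ _, Subsingleton.elim _ _, kd_subsingleton _, kd_subsingleton _,
    kd_subsingleton _⟩

theorem pair_on {a b : K} (ha : a * σ a = 1) (hb : b * σ b = 1) :
    Pair σ (on a) (on b) (on (a * b)) := by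
  have h1 : Iso (sf σ Unit) (1 : End K (Unit → K)) := fun _ _ => rfl
  have := Pair.of_abs hm_sf (h1.smul ha) (h1.smul hb)
  rwa [smul_mul_smul_comm, mul_one, kd_smul_one (by simp), kd_smul_one (by simp),
    kd_smul_one (by simp)] at this

/-- the final goal -/
theorem Pair.fin {t : K[X] → ℕ} {n : ℕ} {g : Matrix (Fin n) (Fin n) K} (hg : cstar σ g * g = 1)
    (h : Pair σ (kerDim (toLin' g)) t t) (h1 : SU.dt t = 1) (h2 : CO t) :
    ∃ a b : Matrix (Fin n) (Fin n) K, cstar σ a * a = 1 ∧ cstar σ b * b = 1 ∧ a.det = 1 ∧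
      b.det = 1 ∧ g * b * a = a * b := by
  obtain ⟨b, k1, rfl, k3⟩ := h.mat hg rfl
  obtain ⟨P, hP⟩ := (isConj_iff_similar _ _).2 (sim_of k3.symm)
  obtain ⟨c, c1, c2⟩ := exists_unitary_conj_matrix hσ.inv hσ.ne b (g * b) k1 (by
    rw [cstar_mul, mul_assoc, ← mul_assoc (cstar σ g), hg, one_mul, k1]) P P.isUnit hP.eq
  have c3 := congrArg det c1
  rw [det_mul, det_cstar, det_one] at c3
  obtain ⟨u, hu, hu'⟩ := h2.has
  obtain ⟨w, w1, w2, w3⟩ := H64.Wall.exists_unitary_det hσ.inv hσ.ne k1 hu hu' (a := σ c.det)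
    (by rw [cj_cj, c3])
  rw [dt_kd, LinearMap.det_toLin'] at h1
  refine ⟨c * w, b, ?_, k1, by rw [det_mul, w3, pow_one, mul_comm, c3], h1, ?_⟩
  · rw [cstar_mul, mul_assoc, ← mul_assoc (cstar σ c), c1, one_mul, w1]
  · rw [← mul_assoc, ← c2, mul_assoc, w2.eq, mul_assoc]

end H37.Ore.SU
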