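import Mathlib
import Cfsg.Agent.Base
import Cfsg.Agent.Lib.Ore.SuB

/-! Witt frames, the big cell and the reduction to a Levi factor. -/

set_option autoImplicit false

namespace H37.Ore.SU

open Module Polynomial H65 H64.Sour H66 H64.Wall

universe u
variable {K : Type u} [Field K] {σ : K →+* K}
variable {V M W N : Type*} [AddCommGroup V] [Module K V] [AddCommGroup M] [Module K M]
  [AddCommGroup W] [Module K W] [AddCommGroup N] [Module K N]

/-- pull-back of a form -/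
def pb (B : V →ₗ[K] V →ₛₗ[σ] K) (f : N →ₗ[K] V) (g : M →ₗ[K] V) : N →ₗ[K] M →ₛₗ[σ] K :=
  LinearMap.mk₂'ₛₗ (RingHom.id K) σ (fun x y => B (f x) (g y))
    (fun _ _ _ => by simp) (fun _ _ _ => by simp) (fun _ _ _ => by simp) (fun _ _ _ => by simp)

@[simp] theorem pb_apply (B : V →ₗ[K] V →ₛₗ[σ] K) (f : N →ₗ[K] V) (g : M →ₗ[K] V) (x : N)
    (y : M) : pb B f g x y = B (f x) (g y) := rfl

theorem Hm.zero {B : V →ₗ[K] V →ₛₗ[σ] K} (h : Hm B) {x y : V} (h0 : B x y = 0) : B y x = 0 := by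
  rw [h.sym, h0, map_zero]

section pairing
variable [FiniteDimensional K M] {β : M →ₗ[K] M →ₛₗ[σ] K}

theorem exists_psi (h : ∀ y, (∀ x, β y x = 0) → y = 0) :
    ∃ ψ : M ≃ₗ[K] (Fin (finrank K M) → K), ∀ y k, ψ y k = β y (finBasis K M k) := by
  let φ : M →ₗ[K] (Fin (finrank K M) → K) := LinearMap.pi fun k => β.flip (finBasis K M k)
  have h1 : Function.Injective φ := by
    rw [injective_iff_map_eq_zero]
    refine fun y hy => h y fun x => ?_
    rw [(finBasis K M).ext (f₁ := β y) (f₂ := 0) fun k => congrFun hy k]; rfl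
  exact ⟨LinearEquiv.ofBijective φ ⟨h1, (LinearMap.injective_iff_surjective_of_finrank_eq_finrank
    (by simp)).1 h1⟩, fun _ _ => rfl⟩

theorem exists_rep (h : ∀ y, (∀ x, β y x = 0) → y = 0) (γ : N →ₗ[K] M →ₛₗ[σ] K) :
    ∃ A : N →ₗ[K] M, ∀ z x, β (A z) x = γ z x := by
  obtain ⟨ψ, hψ⟩ := exists_psi h
  refine ⟨ψ.symm.toLinearMap ∘ₗ LinearMap.pi fun k => γ.flip (finBasis K M k), fun z => ?_⟩
  refine LinearMap.congr_fun ((finBasis K M).ext fun k => ?_)
  rw [← hψ]; simp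

theorem sep_left (h : ∀ y, (∀ x, β y x = 0) → y = 0) (x : M) (hx : ∀ y, β y x = 0) : x = 0 := by
  obtain ⟨ψ, hψ⟩ := exists_psi h
  refine (finBasis K M).ext_elem fun k => ?_
  have := hx (ψ.symm (Pi.single k 1))
  rw [← (finBasis K M).sum_repr x, map_sum, Finset.sum_eq_single k (fun l _ hl => by
    simp [← hψ, hl]) (by simp)] at this
  simpa [← hψ] using this

theorem det_adj (h : ∀ y, (∀ x, β y x = 0) → y = 0) {A A' : End K M}
    (hA : ∀ y x, β (A' y) x = β y (A x)) : LinearMap.det A' = σ (LinearMap.det A) := by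
  obtain ⟨ψ, hψ⟩ := exists_psi h
  rw [← LinearMap.det_toMatrix (finBasis K M) A, ← det_cstar, ← LinearMap.det_toLin']
  refine Similar.det_eq ⟨ψ, fun y => funext fun k => ?_⟩
  rw [hψ, hA, ← (finBasis K M).sum_repr (A _), map_sum]
  simp [Matrix.mulVec, dotProduct, cstar_apply, LinearMap.toMatrix_apply, hψ]

omit [FiniteDimensional K M] in
theorem aeval_adj' [Cj σ] {A A' : End K M} (hA : ∀ y x, β (A' y) x = β y (A x)) (p : K[X]) (y x : M) :
    β (aeval A' p y) x = β y (aeval A (p.map σ) x) := by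
  have h1 : ∀ (n : ℕ) y x, β ((A' ^ n) y) x = β y ((A ^ n) x) := fun n => by
    induction n with
    | zero => simp
    | succ n ih => intro y x; rw [pow_succ', End.mul_apply, hA, ih, pow_succ, End.mul_apply]
  induction p using Polynomial.induction_on' with
  | add p q hp hq => simp [hp, hq]
  | monomial n a => simp [aeval_monomial, h1]

theorem exists_dual [Cj σ] (h : ∀ y, (∀ x, β y x = 0) → y = 0) {A : End K M} (hA : IsUnit A) :
    ∃ A' : End K M, (∀ y x, β (A' y) (A x) = β y x) ∧ LinearMap.det A' * σ (LinearMap.det A) = 1 ∧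
      ∀ F, aeval A F = 0 → aeval A' (du σ F) = 0 := by
  obtain ⟨A₀, h0⟩ := hA.exists_right_inv
  have h0' : A₀ * A = 1 := mul_eq_one_comm.1 h0
  obtain ⟨A', h1⟩ := exists_rep h (LinearMap.mk₂'ₛₗ (RingHom.id K) σ (fun y x => β y (A₀ x))
    (fun _ _ _ => by simp) (fun _ _ _ => by simp) (fun _ _ _ => by simp) (fun _ _ _ => by simp))
  have h2 : ∀ y x, β (A' y) x = β y (A₀ x) := h1
  refine ⟨A', fun y x => by rw [h2, ← End.mul_apply, h0', End.one_apply], ?_, fun F hF => ?_⟩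
  · rw [det_adj h h2, ← map_mul, ← map_mul, h0', map_one, map_one]
  · refine LinearMap.ext fun y => h _ fun x => ?_
    have : ((F.map σ).reverse).map σ = F.reverse := by
      ext k; simp [coeff_reverse, natDegree_map]
    rw [aeval_adj' h2, du_apply, Polynomial.map_mul, this, map_mul, H72.Cls.aeval_reverse h0, hF]
    simp

end pairing

/-- a Witt frame -/
structure Fr (B : V →ₗ[K] V →ₛₗ[σ] K) (i i' : M →ₗ[K] V) (j : W →ₗ[K] V) : Prop where
  hm : Hm B
  ii : ∀ x y, B (i x) (i y) = 0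
  ii' : ∀ x y, B (i' x) (i' y) = 0
  ji : ∀ w x, B (j w) (i x) = 0
  ji' : ∀ w x, B (j w) (i' x) = 0
  sep : ∀ y, (∀ x, B (i' y) (i x) = 0) → y = 0
  inj : Function.Injective j
  span : ∀ v, ∃ x w y, v = i x + j w + i' y

section frame
variable [FiniteDimensional K M] {B : V →ₗ[K] V →ₛₗ[σ] K} {i i' : M →ₗ[K] V} {j : W →ₗ[K] V}

theorem sep_left' (hm : Hm B) (h : ∀ y, (∀ x, B (i' y) (i x) = 0) → y = 0) (x : M)
    (hx : ∀ y, B (i x) (i' y) = 0) : x = 0 :=
  sep_left (β := pb B i' i) h x fun y => hm.zero (hx y)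

/-- orthogonal complement of a pair -/
def orth (B : V →ₗ[K] V →ₛₗ[σ] K) (i i' : M →ₗ[K] V) : Submodule K V where
  carrier := {v | (∀ x, B v (i x) = 0) ∧ ∀ x, B v (i' x) = 0}
  add_mem' := fun ha hb => ⟨fun x => by simp [ha.1, hb.1], fun x => by simp [ha.2, hb.2]⟩
  zero_mem' := by simp
  smul_mem' := fun c _ ha => ⟨fun x => by simp [ha.1], fun x => by simp [ha.2]⟩

theorem fr_orth (hm : Hm B) (h1 : ∀ x y, B (i x) (i y) = 0) (h2 : ∀ x y, B (i' x) (i' y) = 0)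
    (h : ∀ y, (∀ x, B (i' y) (i x) = 0) → y = 0) : Fr B i i' (orth B i i').subtype := by
  refine ⟨hm, h1, h2, fun w => w.2.1, fun w => w.2.2, h, Subtype.val_injective, fun v => ?_⟩
  obtain ⟨A, hA⟩ := exists_rep (β := pb B i' i) h (pb B LinearMap.id i)
  obtain ⟨A', hA'⟩ := exists_rep (β := pb B i i') (sep_left' hm h) (pb B LinearMap.id i')
  simp only [pb_apply, LinearMap.id_apply] at hA hA'
  exact ⟨A' v, ⟨v - i (A' v) - i' (A v), fun x => by simp [h1, hA], fun x => by simp [h2, hA']⟩,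
    A v, by simp only [Submodule.subtype_apply]; abel⟩

omit [FiniteDimensional K M] in
theorem Fr.hmW (h : Fr B i i' j) : Hm (pb B j j) :=
  ⟨fun _ _ => h.hm.sym _ _, fun w hw => h.inj (by
    rw [map_zero]
    refine h.hm.nd _ fun v => ?_
    obtain ⟨x, w', y, rfl⟩ := h.span v
    simpa [h.ji, h.ji'] using hw w')⟩

theorem Fr.exists_equiv (h : Fr B i i' j) :
    ∃ Φ : (M × W × M) ≃ₗ[K] V, ∀ p, Φ p = i p.1 + j p.2.1 + i' p.2.2 := by
  refine ⟨LinearEquiv.ofBijective (i.coprod (j.coprod i')) ⟨?_, fun v => ?_⟩, fun p =>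
    (add_assoc _ _ _).symm⟩
  · rw [injective_iff_map_eq_zero]
    rintro ⟨x, w, y⟩ hp
    have h1 : y = 0 := h.sep y fun x' => by simpa [h.ii, h.ji] using congrArg (B · (i x')) hp
    have h2 : x = 0 := sep_left' h.hm h.sep x fun y' => by
      simpa [h.ii', h.ji'] using congrArg (B · (i' y')) hp
    subst h1 h2
    have : w = 0 := h.inj (by simpa using hp)
    simp [this]
  · obtain ⟨x, w, y, rfl⟩ := h.span v
    exact ⟨(x, w, y), by simp [add_assoc]⟩

theorem Fr.finrank [FiniteDimensional K W] (h : Fr B i i' j) :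
    finrank K V = 2 * finrank K M + finrank K W := by
  obtain ⟨Φ, -⟩ := h.exists_equiv
  rw [← Φ.finrank_eq, finrank_prod, finrank_prod]; ring

/-- the Levi component on the middle term -/
theorem Fr.exists_mid (h : Fr B i i' j) {g : End K V} {l : End K M} (hl : IsUnit l)
    (h1 : ∀ x y, B (g (i x)) (i' y) = B (i (l x)) (i' y)) :
    ∃ (m : End K W) (π : V →ₗ[K] W), (∀ w, ∃ x y, g (j w + i x) = j (m w) + i' y) ∧
      (∀ x, π (i x) = 0) ∧ (∀ x, π (i' x) = 0) ∧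
      (∀ v, (∀ x, B v (i x) = 0) → ∃ x, v = i x + j (π v)) ∧
      ∀ w, ∃ x, m w = π (g (j w + i x)) := by
  obtain ⟨Φ, hΦ⟩ := h.exists_equiv
  obtain ⟨l₀, h0⟩ := hl.exists_right_inv
  have h0' : ∀ x, l (l₀ x) = x := LinearMap.congr_fun h0
  have k : ∀ v, v = i (Φ.symm v).1 + j (Φ.symm v).2.1 + i' (Φ.symm v).2.2 := fun v => by
    rw [← hΦ, Φ.apply_symm_apply]
  let π : V →ₗ[K] W := LinearMap.fst K W M ∘ₗ LinearMap.snd K M _ ∘ₗ Φ.symm.toLinearMap
  let ξ : W →ₗ[K] M := -(l₀ ∘ₗ LinearMap.fst K M _ ∘ₗ Φ.symm.toLinearMap ∘ₗ g ∘ₗ j)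
  refine ⟨π ∘ₗ g ∘ₗ (j + i ∘ₗ ξ), π, fun w => ⟨ξ w, (Φ.symm (g (j w + i (ξ w)))).2.2, ?_⟩,
    fun x => ?_, fun x => ?_, fun v hv => ⟨(Φ.symm v).1, ?_⟩, fun w => ⟨ξ w, rfl⟩⟩
  · have : (Φ.symm (g (j w + i (ξ w)))).1 = 0 := sep_left' h.hm h.sep _ fun y => by
      have e1 := congrArg (B · (i' y)) (k (g (j w + i (ξ w))))
      have e2 := congrArg (B · (i' y)) (k (g (j w)))
      simp only [map_add, LinearMap.add_apply, h.ji', h.ii', add_zero, h1] at e1 e2 ⊢
      rw [← e1, e2]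
      simp [ξ, h0']
    conv_lhs => rw [k (g _), this, map_zero, zero_add]
    rfl
  · have : Φ.symm (i x) = (x, 0, 0) := by rw [LinearEquiv.symm_apply_eq, hΦ]; simp
    simp [π, this]
  · have : Φ.symm (i' x) = (0, 0, x) := by rw [LinearEquiv.symm_apply_eq, hΦ]; simp
    simp [π, this]
  · have : (Φ.symm v).2.2 = 0 := h.sep _ fun x => by
      simpa [h.ii, h.ji, hv] using (congrArg (B · (i x)) (k v)).symm
    conv_lhs => rw [k v, this, map_zero, add_zero]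
    rfl

omit [FiniteDimensional K M] in
theorem Fr.iso_mid (h : Fr B i i' j) {g : End K V} (hg : Iso B g) {m : End K W}
    (h2 : ∀ w, ∃ x y, g (j w + i x) = j (m w) + i' y) : Iso (pb B j j) m := fun w w' => by
  obtain ⟨x, y, e⟩ := h2 w
  obtain ⟨x', y', e'⟩ := h2 w'
  have := hg (j w + i x) (j w' + i x')
  rw [e, e'] at this
  simpa [h.ii, h.ii', h.ji, h.ji', h.hm.zero (h.ji _ _), h.hm.zero (h.ji' _ _)] using this

end frame

/-- a commutator `l = [a, A]` in a general linear group -/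
def GLP (lt τ : K[X] → ℕ) (F : K[X]) : Prop :=
  ∃ (n : ℕ) (A a l : End K (Fin n → K)), IsUnit A ∧ IsUnit a ∧ l * A * a = a * A ∧
    kerDim l = lt ∧ kerDim A = τ ∧ aeval A F = 0

theorem glp_conj [FiniteDimensional K M] [FiniteDimensional K N] (e : M ≃ₗ[K] N) {A a l : End K M}
    {F : K[X]} (h1 : IsUnit A) (h2 : IsUnit a) (h3 : l * A * a = a * A) (h4 : aeval A F = 0) :
    IsUnit (e.conj A) ∧ IsUnit (e.conj a) ∧ e.conj l * e.conj A * e.conj a = e.conj a * e.conj A ∧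
      kerDim (e.conj A) = kerDim A ∧ aeval (e.conj A) F = 0 := by
  refine ⟨(similar_conj A e).isUnit_iff.1 h1, (similar_conj a e).isUnit_iff.1 h2,
    LinearMap.ext fun v => ?_, (kd_sim (similar_conj A e)).symm,
    ((similar_conj A e).aeval_eq_zero_iff F).1 h4⟩
  simpa [LinearEquiv.conj_apply_apply] using LinearMap.congr_fun h3 (e.symm v)

theorem GLP.of_abs [FiniteDimensional K M] {A a l : End K M} {F : K[X]} (h1 : IsUnit A)
    (h2 : IsUnit a) (h3 : l * A * a = a * A) (h4 : aeval A F = 0) :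
    GLP (kerDim l) (kerDim A) F := by
  let e := (finBasis K M).equivFun
  obtain ⟨k1, k2, k3, k4, k5⟩ := glp_conj e h1 h2 h3 h4
  exact ⟨_, _, _, _, k1, k2, k3, (kd_sim (similar_conj l e)).symm, k4, k5⟩

theorem GLP.use [FiniteDimensional K M] {lt τ : K[X] → ℕ} {F : K[X]} (h : GLP lt τ F) {l : End K M}
    (hl : kerDim l = lt) : ∃ A a : End K M, IsUnit A ∧ IsUnit a ∧ l * A * a = a * A ∧
      kerDim A = τ ∧ aeval A F = 0 := by
  obtain ⟨n, A, a, l', h1, h2, h3, h4, rfl, h5⟩ := h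
  obtain ⟨e, rfl⟩ := (sim_of (h4.trans hl.symm)).eq_conj
  exact ⟨_, _, glp_conj e h1 h2 h3 h5⟩

theorem GLP.isT {lt τ : K[X] → ℕ} {F : K[X]} (h : GLP lt τ F) : IsT τ := by
  obtain ⟨n, A, a, l', h1, h2, h3, h4, rfl, h5⟩ := h
  exact isT_kd _

theorem GLP.ne {lt τ : K[X] → ℕ} {F : K[X]} (h : GLP lt τ F) : dt τ ≠ 0 := by
  obtain ⟨n, A, a, l', h1, h2, h3, h4, rfl, h5⟩ := h
  rw [dt_kd]
  exact ((LinearMap.isUnit_iff_isUnit_det _).1 h1).ne_zero

theorem GLP.add {lt τ lt' τ' : K[X] → ℕ} {F F' : K[X]} (h : GLP lt τ F) (h' : GLP lt' τ' F') :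
    GLP (lt + lt') (τ + τ') (F * F') := by
  obtain ⟨n, A, a, l, h1, h2, h3, rfl, rfl, h5⟩ := h
  obtain ⟨n', A', a', l', h1', h2', h3', rfl, rfl, h5'⟩ := h'
  rw [← kd_prodMap, ← kd_prodMap]
  rw [LinearMap.isUnit_iff_isUnit_det] at h1 h2 h1' h2'
  refine GLP.of_abs (a := a.prodMap a') ?_ ?_ ?_ (LinearMap.ext fun v => Prod.ext ?_ ?_)
  · rw [LinearMap.isUnit_iff_isUnit_det, LinearMap.det_prodMap]; exact h1.mul h1'
  · rw [LinearMap.isUnit_iff_isUnit_det, LinearMap.det_prodMap]; exact h2.mul h2'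
  · rw [LinearMap.prodMap_mul, LinearMap.prodMap_mul, LinearMap.prodMap_mul, h3, h3']
  · refine (intertwine_aeval (LinearMap.fst K _ _) (f := A.prodMap A') (g := A) (fun _ => rfl) _ v).trans ?_
    rw [mul_comm, map_mul, h5, mul_zero]; rfl
  · refine (intertwine_aeval (LinearMap.snd K _ _) (f := A.prodMap A') (g := A') (fun _ => rfl) _ v).trans ?_
    rw [map_mul, h5', mul_zero]; rfl

theorem glp_zero : GLP (0 : K[X] → ℕ) 0 1 :=
  ⟨0, 1, 1, 1, isUnit_one, isUnit_one, by simp, kd_subsingleton _, kd_subsingleton _,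
    Subsingleton.elim _ _⟩

section siegel
variable [Finite K] [Cj σ] [FiniteDimensional K V] [FiniteDimensional K M] [FiniteDimensional K W]
  {B : V →ₗ[K] V →ₛₗ[σ] K} {i i' : M →ₗ[K] V} {j : W →ₗ[K] V}

theorem Fr.siegel (h : Fr B i i' j) {g : End K V} (hg : Iso B g) {l : End K M} (hl : IsUnit l)
    (h1 : ∀ x y, B (g (i x)) (i' y) = B (i (l x)) (i' y)) {m : End K W}
    (h2 : ∀ w, ∃ x y, g (j w + i x) = j (m w) + i' y) {τ t u : K[X] → ℕ} {F : K[X]}
    (hG : GLP (kerDim l) τ F) (hc : IsCoprime F (du σ F)) (hp : Pair σ (kerDim m) t u)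
    (t1 : t F = 0) (t2 : t (du σ F) = 0) (u1 : u F = 0) (u2 : u (du σ F) = 0) :
    ∃ z, IsT z ∧ dt z * σ (dt τ) = 1 ∧ Pair σ (kerDim g) (τ + (t + z)) (τ + (u + z)) := by
  obtain ⟨A, a, hA, ha, hla, rfl, hF⟩ := hG.use rfl
  obtain ⟨b, hb, rfl, rfl⟩ := hp.use h.hmW (h.iso_mid hg h2) rfl
  obtain ⟨A', A1, A2, A3⟩ := exists_dual (β := pb B i' i) h.sep hA
  obtain ⟨a', a1, a2, -⟩ := exists_dual (β := pb B i' i) h.sep ha
  obtain ⟨l', l1, -, -⟩ := exists_dual (β := pb B i' i) h.sep hl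
  simp only [pb_apply] at A1 a1 l1 hb
  have hb' : ∀ x y, B (j (b x)) (j (b y)) = B (j x) (j y) := hb
  have A4 := A3 F hF
  have s1 : Similar A (l * A) := ⟨LinearEquiv.ofInjectiveEndo a
    ((End.isUnit_iff a).1 ha).1, fun v => (LinearMap.congr_fun hla v).symm⟩
  have s2 : Similar A' (l' * A') := by
    refine ⟨LinearEquiv.ofInjectiveEndo a' ((End.isUnit_iff a').1 ((LinearMap.isUnit_iff_isUnit_det
      _).2 (IsUnit.of_mul_eq_one _ a2))).1, fun y => sub_eq_zero.1 (h.sep _ fun x => ?_)⟩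
    obtain ⟨x, rfl⟩ := ((End.isUnit_iff _).1 (ha.mul hA)).2 x
    change B (i' (a' (A' y) - l' (A' (a' y)))) _ = 0
    rw [map_sub, map_sub, LinearMap.sub_apply, sub_eq_zero]
    conv_rhs => rw [← hla]
    simp only [End.mul_apply, A1, a1, l1]
  obtain ⟨Φ, hΦ⟩ := h.exists_equiv
  let G := LinearEquiv.ofInjectiveEndo g (hg.inj h.hm)
  have hG : ∀ v, g (G.symm v) = v := G.apply_symm_apply
  have hG' : ∀ v w, B v (G.symm w) = B (g v) w := fun v w => by rw [← hg, hG]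
  have hG'' : ∀ v w, B (G.symm w) v = B w (g v) := fun v w => by rw [← hg, hG]
  choose ξ η h2 using h2
  obtain ⟨ξ', hξ⟩ : ∃ ξ' : W →ₗ[K] M, ∀ w, ξ' w = ξ w := by
    obtain ⟨A₀, hA₀⟩ := exists_rep (β := pb B (i ∘ₗ l) i') (fun x hx =>
      ((End.isUnit_iff l).1 hl).1 ((sep_left' h.hm h.sep _ hx).trans (map_zero l).symm))
      (pb B (-(g ∘ₗ j)) i')
    refine ⟨A₀, fun w => ((End.isUnit_iff l).1 hl).1 (sub_eq_zero.1
      (sep_left' h.hm h.sep _ fun y => ?_))⟩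
    have e1 := hA₀ w y
    have e2 := congrArg (B · (i' y)) (h2 w)
    simp [h.ji', h.ii', h1] at e1 e2 ⊢
    linear_combination e1 - e2
  simp only [← hξ] at h2
  let Ψ : (M × W × M) →ₗ[K] V := (i ∘ₗ A).coprod (((j + i ∘ₗ ξ') ∘ₗ b).coprod
    (G.symm.toLinearMap ∘ₗ i' ∘ₗ l' ∘ₗ A'))
  have hΨ : ∀ p, Ψ p = i (A p.1) + (j (b p.2.1) + i (ξ' (b p.2.1))) + G.symm (i' (l' (A' p.2.2))) :=
    fun p => by simp [Ψ, add_assoc]
  have k1 : ∀ y x, B (i' y) (g (i x)) = B (i' y) (i (l x)) := fun y x => by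
    rw [h.hm.sym, h1, ← h.hm.sym]
  have k2 : ∀ y x, B (i (A x)) (G.symm (i' (l' (A' y)))) = B (i x) (i' y) := fun y x => by
    rw [h.hm.sym, hG'', k1, l1, A1, ← h.hm.sym]
  have k3 : ∀ y w, B (j w + i (ξ' w)) (G.symm (i' y)) = 0 := fun y w => by
    rw [hG', h2]; simp [h.ji', h.ii']
  have hiso : Iso B (Ψ ∘ₗ Φ.symm.toLinearMap) := fun v v' => by
    obtain ⟨p, rfl⟩ := Φ.surjective v
    obtain ⟨p', rfl⟩ := Φ.surjective v'
    have e1 : ∀ y y', B (G.symm (i' y)) (G.symm (i' y')) = 0 := fun y y' => by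
      rw [hG', hG, h.ii']
    simp only [LinearMap.comp_apply, LinearEquiv.coe_coe, LinearEquiv.symm_apply_apply]
    simp only [hΨ, hΦ]
    generalize hw : j (b p.2.1) + i (ξ' (b p.2.1)) = w
    generalize hw' : j (b p'.2.1) + i (ξ' (b p'.2.1)) = w'
    have e2 : B w w' = B (j p.2.1) (j p'.2.1) := by
      simp [← hw, ← hw', hb', h.ii, h.ji, h.hm.zero (h.ji _ _)]
    have e3 : ∀ x, B w (i x) = 0 := fun x => by simp [← hw, h.ii, h.ji]
    have e4 : ∀ x, B (i x) w' = 0 := fun x => by simp [← hw', h.ii, h.hm.zero (h.ji _ _)]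
    have e5 : ∀ y, B w (G.symm (i' y)) = 0 := fun y => hw ▸ k3 _ _
    have e6 : ∀ y, B (G.symm (i' y)) w' = 0 := fun y => h.hm.zero (hw' ▸ k3 _ _)
    have e7 : ∀ y x, B (G.symm (i' (l' (A' y)))) (i (A x)) = B (i' y) (i x) := fun y x => by
      rw [h.hm.sym, k2, ← h.hm.sym]
    simp [e1, e2, e3, e4, e5, e6, e7, k2, h.ii, h.ii', h.ji, h.ji', h.hm.zero (h.ji _ _),
      h.hm.zero (h.ji' _ _)]
  have c0 : ∀ v p, v = i p.1 + j p.2.1 + i' p.2.2 → Φ.symm v = p := fun v p e => by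
    rw [LinearEquiv.symm_apply_eq, hΦ, e]
  have k : ∀ v, v = i (Φ.symm v).1 + j (Φ.symm v).2.1 + i' (Φ.symm v).2.2 := fun v => by
    rw [← hΦ, Φ.apply_symm_apply]
  have := Pair.of_abs h.hm hg hiso
  refine ⟨kerDim A', isT_kd _, by rw [dt_kd, dt_kd, A2], ?_⟩
  convert this using 1
  · let b₁ : End K (M × W × M) := Φ.symm.toLinearMap ∘ₗ Ψ
    let D : End K (W × M) := LinearMap.snd K _ _ ∘ₗ b₁ ∘ₗ LinearMap.inr K _ _
    have e1 : ∀ x, b₁ (x, 0) = (A x, 0) := fun x => c0 _ _ (by simp [hΨ])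
    have e2 : kerDim D = kerDim b + kerDim A' := by
      refine kd_upper (fun w => ?_) (fun v => ?_) (Or.inr ⟨t2, A4⟩)
      · exact congrArg Prod.snd (c0 (Ψ (0, w, 0)) (ξ' (b w), b w, 0) (by simp [hΨ, add_comm]))
      · refine sub_eq_zero.1 (h.sep _ fun x => ?_)
        obtain ⟨x, rfl⟩ := ((End.isUnit_iff _).1 hA).2 x
        have := congrArg (B · (i (A x))) (k (Ψ (0, v)))
        simp only [hΨ, map_add, LinearMap.add_apply, h.ii, h.ji, zero_add, hG'', k1, l1] at this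
        rw [map_sub, map_sub, LinearMap.sub_apply, this]
        simp [D, b₁, hΨ]
    rw [← e2, ← kd_upper e1 (fun v => ?_) (Or.inl ⟨hF, by
      rw [e2, Pi.add_apply, t1, kd_of_coprime A4 hc]⟩)]
    · exact kd_sim ⟨Φ, fun v => by simp [b₁]⟩
    · rw [show v = (v.1, 0) + (0, v.2) by simp, map_add, e1]
      simp [D]
  · let c₁ : End K (M × W × M) := Φ.symm.toLinearMap ∘ₗ g ∘ₗ Ψ
    let D : End K (W × M) := LinearMap.snd K _ _ ∘ₗ c₁ ∘ₗ LinearMap.inr K _ _
    have e0 : ∀ v : W × M, c₁ (0, v) = (0, m (b v.1), η (b v.1) + l' (A' v.2)) := fun v =>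
      c0 _ _ (by
        change g (Ψ _) = _
        rw [hΨ, map_add, map_add, h2, hG]
        simp [add_assoc])
    have A5 := (s2.aeval_eq_zero_iff _).1 A4
    have e2 : kerDim D = kerDim (m * b) + kerDim (l' * A') := by
      refine kd_lower (fun y => ?_) (fun v => ?_) (Or.inl ⟨A5, u2⟩)
      · refine (congrArg Prod.snd (c0 (g (Ψ (0, 0, y))) (0, 0, l' (A' y)) ?_))
        simp [hΨ, hG]
      · simp [D, e0]
    rw [kd_sim s1, kd_sim s2, ← e2, ← kd_lower (b := c₁) (fun v => by simp [D, e0]) (fun v => ?_)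
      (Or.inr ⟨by rw [e2, Pi.add_apply, u1, kd_of_coprime A5 hc],
        (s1.aeval_eq_zero_iff _).1 hF⟩)]
    · exact kd_sim ⟨Φ, fun v => by simp [c₁]⟩
    · rw [show v = (v.1, 0) + (0, v.2) by simp, map_add, e0]
      simp only [Prod.fst_add, add_zero, End.mul_apply]
      refine sub_eq_zero.1 (sep_left' h.hm h.sep _ fun y => ?_)
      have := congrArg (B · (i' y)) (k (g (Ψ (v.1, 0))))
      simp only [hΨ, map_add, LinearMap.add_apply, h.ii', h.ji', add_zero, h1, Prod.fst_zero,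
        Prod.snd_zero, map_zero] at this
      rw [map_sub, map_sub, LinearMap.sub_apply, this]
      simp [c₁, hΨ]

end siegel

variable (σ) in
/-- an element of type `s` in the big cell with Levi components of types `lt` and `w` -/
def St (s lt w : K[X] → ℕ) : Prop :=
  ∃ (V M W : Type u) (_ : AddCommGroup V) (_ : Module K V) (_ : FiniteDimensional K V)
    (_ : AddCommGroup M) (_ : Module K M) (_ : FiniteDimensional K M)
    (_ : AddCommGroup W) (_ : Module K W) (_ : FiniteDimensional K W)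
    (B : V →ₗ[K] V →ₛₗ[σ] K) (i i' : M →ₗ[K] V) (j : W →ₗ[K] V) (g : End K V) (l : End K M)
    (m : End K W), Fr B i i' j ∧ Iso B g ∧ IsUnit l ∧
    (∀ x y, B (g (i x)) (i' y) = B (i (l x)) (i' y)) ∧
    (∀ w, ∃ x y, g (j w + i x) = j (m w) + i' y) ∧ kerDim g = s ∧ kerDim l = lt ∧ kerDim m = w

variable (σ) in
/-- the type of a unitary matrix -/
def Un (s : K[X] → ℕ) : Prop :=
  ∃ (n : ℕ) (g : Matrix (Fin n) (Fin n) K), cstar σ g * g = 1 ∧ kerDim (Matrix.toLin' g) = s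

theorem Pair.un {s t u : K[X] → ℕ} (h : Pair σ s t u) : Un σ s := by
  obtain ⟨n, g, b, h1, -, h2, -⟩ := h
  exact ⟨n, g, h1, h2⟩

theorem St.add {s lt w s' lt' w' : K[X] → ℕ} (h : St σ s lt w) (h' : St σ s' lt' w') :
    St σ (s + s') (lt + lt') (w + w') := by
  obtain ⟨V, M, W, _, _, _, _, _, _, _, _, _, B, i, i', j, g, l, m, h1, h2, h3, h4, h5, rfl, rfl,
    rfl⟩ := h
  obtain ⟨V', M', W', _, _, _, _, _, _, _, _, _, B', i₁, i₁', j₁, g', l', m', k1, k2, k3, k4, k5,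
    rfl, rfl, rfl⟩ := h'
  refine ⟨V × V', M × M', W × W', _, _, inferInstance, _, _, inferInstance, _, _, inferInstance,
    pf B B', i.prodMap i₁, i'.prodMap i₁', j.prodMap j₁, g.prodMap g', l.prodMap l', m.prodMap m',
    ⟨h1.hm.pf k1.hm, fun x y => by simp [h1.ii, k1.ii], fun x y => by simp [h1.ii', k1.ii'],
      fun x y => by simp [h1.ji, k1.ji], fun x y => by simp [h1.ji', k1.ji'],
      fun y hy => Prod.ext (h1.sep _ fun x => by simpa using hy (x, 0))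
        (k1.sep _ fun x => by simpa using hy (0, x)), h1.inj.prodMap k1.inj, fun v => ?_⟩,
    h2.prod k2, ?_, fun x y => by simp [h4, k4], fun w => ?_, kd_prodMap _ _, kd_prodMap _ _,
    kd_prodMap _ _⟩
  · obtain ⟨x, w, y, e⟩ := h1.span v.1
    obtain ⟨x', w', y', e'⟩ := k1.span v.2
    exact ⟨(x, x'), (w, w'), (y, y'), Prod.ext e e'⟩
  · rw [LinearMap.isUnit_iff_isUnit_det] at h3 k3 ⊢
    rw [LinearMap.det_prodMap]; exact h3.mul k3
  · obtain ⟨x, y, e⟩ := h5 w.1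
    obtain ⟨x', y', e'⟩ := k5 w.2
    exact ⟨(x, x'), (y, y'), Prod.ext e e'⟩

theorem Un.st [Cj σ] {s : K[X] → ℕ} (h : Un σ s) : St σ s 0 s := by
  obtain ⟨n, g, h1, rfl⟩ := h
  exact ⟨Fin n → K, Fin 0 → K, Fin n → K, _, _, inferInstance, _, _, inferInstance, _, _,
    inferInstance, sf σ _, 0, 0, LinearMap.id, _, 1, _, ⟨hm_sf, by simp, by simp, by simp, by simp,
      fun _ _ => Subsingleton.elim _ _, Function.injective_id, fun v => ⟨0, v, 0, by simp⟩⟩,
    (iso_iff _).2 h1, isUnit_one, by simp, fun w => ⟨0, 0, by simp⟩, rfl, kd_subsingleton _, rfl⟩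

theorem st_scalar [Cj σ] {γ : K} (hγ : γ * σ γ = 1) : St σ (on γ + on γ) (on γ) 0 := by
  let B : (K × K) →ₗ[K] (K × K) →ₛₗ[σ] K := LinearMap.mk₂'ₛₗ (RingHom.id K) σ
    (fun x y => x.1 * σ y.2 + x.2 * σ y.1) (fun _ _ _ => by simp; ring) (fun _ _ _ => by simp; ring)
    (fun _ _ _ => by simp; ring) (fun _ _ _ => by simp; ring)
  have hB : ∀ x y, B x y = x.1 * σ y.2 + x.2 * σ y.1 := fun _ _ => rfl
  refine ⟨K × K, K, Fin 0 → K, _, _, inferInstance, _, _, inferInstance, _, _, inferInstance, B,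
    LinearMap.inl K K K, LinearMap.inr K K K, 0, (γ • 1 : End K K).prodMap (γ • 1), γ • 1, 1,
    ⟨⟨fun x y => by simp [hB]; ring, fun x hx => Prod.ext (by simpa [hB] using hx (0, 1))
      (by simpa [hB] using hx (1, 0))⟩, by simp [hB], by simp [hB], by simp, by simp,
      fun y hy => by simpa [hB] using hy 1, fun _ _ _ => Subsingleton.elim _ _,
      fun v => ⟨v.1, 0, v.2, by simp⟩⟩, fun x y => ?_, ?_, by simp [hB], fun w => ⟨0, 0, by simp⟩,
    by rw [kd_prodMap, kd_smul_one (by simp)], kd_smul_one (by simp) _, kd_subsingleton _⟩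
  · simp [hB]
    linear_combination (x.1 * σ y.2 + x.2 * σ y.1) * hγ
  · rw [LinearMap.isUnit_iff_isUnit_det]
    simpa using left_ne_zero_of_mul_eq_one hγ

variable [Finite K] [Cj σ]

theorem St.un {s lt w : K[X] → ℕ} (h : St σ s lt w) : Un σ w := by
  obtain ⟨V, M, W, _, _, _, _, _, _, _, _, _, B, i, i', j, g, l, m, h1, h2, h3, h4, h5, rfl, rfl,
    rfl⟩ := h
  exact (Pair.of_abs h1.hmW (h1.iso_mid h2 h5) (b := 1) fun _ _ => rfl).un

theorem St.siegel {s lt w τ t u : K[X] → ℕ} {F : K[X]} (h : St σ s lt w)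
    (hG : GLP lt τ F) (hc : IsCoprime F (du σ F)) (hp : Pair σ w t u)
    (t1 : t F = 0) (t2 : t (du σ F) = 0) (u1 : u F = 0) (u2 : u (du σ F) = 0) :
    ∃ z, IsT z ∧ dt z * σ (dt τ) = 1 ∧ Pair σ s (τ + (t + z)) (τ + (u + z)) := by
  obtain ⟨V, M, W, _, _, _, _, _, _, _, _, _, B, i, i', j, g, l, m, h1, h2, h3, h4, h5, rfl, rfl,
    rfl⟩ := h
  exact h1.siegel h2 h3 h4 h5 hG hc hp t1 t2 u1 u2

end H37.Ore.SU
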