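import Mathlib
import Cfsg.Agent.Base
import Cfsg.Agent.Lib.Ore.SuC

/-! Companion states of unitary elements. -/

set_option autoImplicit false

namespace H37.Ore.SU

open Module Polynomial H65 H64.Sour H66 H64.Wall

universe u
variable {K : Type u} [Field K] {σ : K →+* K}

theorem exists_low {p : K[X]} (hp : p.Monic) (h0 : 0 < p.natDegree) (x : AdjoinRoot p) :
    ∃ r : K[X], r.natDegree < p.natDegree ∧ x = AdjoinRoot.mk p r :=
  ⟨AdjoinRoot.modByMonicHom hp x, by
    obtain ⟨r, rfl⟩ := AdjoinRoot.mk_surjective x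
    exact natDegree_modByMonic_lt r hp (by rintro rfl; simp at h0),
    (AdjoinRoot.mk_leftInverse hp x).symm⟩

theorem mod_low {p r : K[X]} (hp : p.Monic) (h : r.natDegree < p.natDegree) : r %ₘ p = r :=
  (modByMonic_eq_self_iff hp).2 (degree_lt_degree h)

theorem isUnit_cyc {p : K[X]} (hp : p.Monic) (h0 : p.coeff 0 ≠ 0) : IsUnit (cyc p) := by
  have := hp.finite_adjoinRoot
  rw [LinearMap.isUnit_iff_isUnit_det, ← dt_kd]
  exact ((dt_cy hp).trans_ne (by simpa using h0)).isUnit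

section state
variable {V : Type u} [AddCommGroup V] [Module K V] {B : V →ₗ[K] V →ₛₗ[σ] K} {g : End K V} {v : V}
  {c : K} {p : K[X]}

theorem ev_low (hp : p.Monic) {r : K[X]} (h : r.natDegree < p.natDegree) :
    ev g v hp (AdjoinRoot.mk p r) = ∑ k ∈ Finset.range p.natDegree, r.coeff k • (g ^ k) v := by
  rw [ev_mk, mod_low hp h, aeval_eq_sum_range' h]
  simp

/-- the data of a companion vector -/
structure CV (B : V →ₗ[K] V →ₛₗ[σ] K) (g : End K V) (v : V) (c : K) (m : ℕ) : Prop where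
  hm : Hm B
  iso : Iso B g
  pos : 0 < m
  ne : c ≠ 0
  low : ∀ j < m, B ((g ^ j) v) v = 0
  top : B ((g ^ m) v) v = c

theorem CV.pw {m : ℕ} (h : CV B g v c m) (a b : ℕ) :
    B ((g ^ (a + b)) v) ((g ^ b) v) = B ((g ^ a) v) v := by
  rw [add_comm, pow_add, End.mul_apply, h.iso.pow]

theorem CV.pw0 {m : ℕ} (h : CV B g v c m) {a b : ℕ} (hb : b ≤ a) (ha : a < m + b) :
    B ((g ^ a) v) ((g ^ b) v) = 0 := by
  obtain ⟨a, rfl⟩ := Nat.exists_eq_add_of_le' hb
  rw [h.pw, h.low _ (by omega)]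

variable (hp : p.Monic) (h : CV B g v c p.natDegree)
include h

theorem CV.ii (x y : AdjoinRoot p) : B (ev g v hp x) (ev g v hp y) = 0 := by
  obtain ⟨r, hr, rfl⟩ := exists_low hp h.pos x
  obtain ⟨s, hs, rfl⟩ := exists_low hp h.pos y
  simp only [ev_low hp hr, ev_low hp hs, map_sum, LinearMap.sum_apply, LinearMap.map_smulₛₗ,
    LinearMap.smul_apply, Finset.smul_sum]
  refine Finset.sum_eq_zero fun a ha => Finset.sum_eq_zero fun b hb => ?_
  rw [Finset.mem_range] at ha hb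
  rcases le_total a b with k | k
  · rw [h.pw0 k (by omega)]; simp
  · rw [h.hm.zero (h.pw0 k (by omega))]; simp

theorem CV.top' {r : K[X]} (hr : r.natDegree < p.natDegree) :
    B ((g ^ p.natDegree) v) (ev g v hp (AdjoinRoot.mk p r)) = σ (r.coeff 0) * c := by
  rw [ev_low hp hr, map_sum, Finset.sum_eq_single 0 (fun k hk h0 => by
    rw [LinearMap.map_smulₛₗ, h.pw0 (Finset.mem_range.1 hk).le (by omega), smul_zero])
    (by simp [h.pos.ne'])]
  simp [h.top]

theorem CV.sep (y : AdjoinRoot p)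
    (hy : ∀ x, B ((g ^ p.natDegree) (ev g v hp y)) (ev g v hp x) = 0) : y = 0 := by
  obtain ⟨r, hr, rfl⟩ := exists_low hp h.pos y
  have := hy (AdjoinRoot.mk p (X ^ r.natDegree))
  rw [ev_mk, ev_mk, mod_low hp hr, mod_low hp (by simpa), aeval_eq_sum_range, map_pow, aeval_X,
    LinearMap.sum_apply, map_sum, map_sum, LinearMap.sum_apply, Finset.sum_range_succ,
    Finset.sum_eq_zero fun k hk => by
      rw [Finset.mem_range] at hk
      rw [LinearMap.smul_apply, map_smul, map_smul, LinearMap.smul_apply, ← End.mul_apply,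
        ← pow_add, h.pw0 (by omega) (by omega), smul_zero]] at this
  rw [LinearMap.smul_apply, map_smul, map_smul, LinearMap.smul_apply, ← End.mul_apply,
    ← pow_add, h.pw, h.top, zero_add, smul_eq_mul, mul_eq_zero, coeff_natDegree,
    leadingCoeff_eq_zero] at this
  rw [this.resolve_right h.ne, map_zero]

omit h in
theorem ev_step (h0 : 0 < p.natDegree) (x : AdjoinRoot p) :
    ∃ a : K, g (ev g v hp x) = ev g v hp (cyc p x) + a • aeval g p v := by
  obtain ⟨r, hr, rfl⟩ := exists_low hp h0 x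
  refine ⟨r.coeff (p.natDegree - 1), ?_⟩
  have h1 : (X * r - C (r.coeff (p.natDegree - 1)) * p) %ₘ p =
      X * r - C (r.coeff (p.natDegree - 1)) * p := by
    rw [modByMonic_eq_self_iff hp, degree_eq_natDegree hp.ne_zero, degree_lt_iff_coeff_zero]
    intro k hk
    obtain ⟨k, rfl⟩ := Nat.exists_eq_succ_of_ne_zero (by omega : k ≠ 0)
    rw [coeff_sub, coeff_X_mul, coeff_C_mul]
    rcases hk.eq_or_lt with e | e
    · rw [← e, hp.coeff_natDegree, e]; simp
    · rw [coeff_eq_zero_of_natDegree_lt e, coeff_eq_zero_of_natDegree_lt (by omega)]; simp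
  have h2 : cyc p (AdjoinRoot.mk p r) =
      AdjoinRoot.mk p (X * r - C (r.coeff (p.natDegree - 1)) * p) := by
    rw [cyc_apply, map_sub, map_mul, map_mul, AdjoinRoot.mk_self, AdjoinRoot.mk_X]; simp
  rw [h2, ev_mk, ev_mk, h1, mod_low hp hr]
  simp

variable [Cj σ]

theorem CV.aux {e : V} (e1 : ∀ x, B e (ev g v hp x) = 0)
    (e2 : ∀ x, B e ((g ^ p.natDegree) (ev g v hp x)) = 0)
    (e3 : B e e = p.coeff 0 * σ c + σ (p.coeff 0) * c) :
    ∃ i' : AdjoinRoot p →ₗ[K] V, (∀ x y, B (i' x) (i' y) = 0) ∧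
      (∀ y, (∀ x, B (i' y) (ev g v hp x) = 0) → y = 0) ∧
      (∀ x y, B (g (ev g v hp x)) (i' y) = B (ev g v hp (cyc p x)) (i' y)) ∧
      (e = 0 → ∃ y, i' y = aeval g p v) := by
  set i := ev g v hp with hi
  set G := g ^ p.natDegree with hG
  have hc := h.ne
  have hc' : σ c ≠ 0 := by simpa using hc
  have hd : (X ^ p.natDegree - p).natDegree < p.natDegree := by
    by_cases h0 : X ^ p.natDegree - p = 0
    · rw [h0, natDegree_zero]; exact h.pos
    · refine (natDegree_lt_iff_degree_lt h0).2 ?_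
      have := degree_sub_lt_left (p := X ^ p.natDegree) (q := p) (by simp [degree_eq_natDegree hp.ne_zero])
        (by simp) (by simp [hp.leadingCoeff])
      simpa using this
  let ζ := AdjoinRoot.mk p (X ^ p.natDegree - p)
  have i1 : i 1 = v := by
    rw [hi, ← map_one (AdjoinRoot.mk p), ev_mk, mod_low hp (by simpa using h.pos)]; simp
  have iζ : aeval g p v = G v - i ζ := by
    rw [hi, ev_mk, mod_low hp hd]; simp [hG]
  have t1 : B (G v) (i ζ) = -(σ (p.coeff 0) * c) := by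
    rw [h.top' hp hd, coeff_sub, coeff_X_pow, if_neg h.pos.ne]; simp
  have t2 : B (i ζ) (G v) = -(p.coeff 0 * σ c) := by rw [h.hm.sym, t1]; simp
  have t3 : B v (G v) = σ c := by rw [h.hm.sym, h.top]
  let α : AdjoinRoot p →ₗ[K] K := c⁻¹ • (B.flip v ∘ₗ G ∘ₗ i)
  let γ : AdjoinRoot p →ₗ[K] K := B.flip (i ζ) ∘ₗ G ∘ₗ i
  have hα : ∀ y, B (G (i y)) v = α y * c := fun y => by simp [α]; field_simp
  have hγ : ∀ y, B (G (i y)) (i ζ) = γ y := fun y => rfl
  have hα' : ∀ y, B v (G (i y)) = σ (α y) * σ c := fun y => by rw [h.hm.sym, hα, map_mul]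
  have hγ' : ∀ y, B (i ζ) (G (i y)) = σ (γ y) := fun y => by rw [h.hm.sym, hγ]
  have ii := h.ii hp
  rw [← hi] at ii
  have iv : ∀ x, B (i x) v = 0 := fun x => i1 ▸ ii x 1
  have vi : ∀ x, B v (i x) = 0 := fun x => i1 ▸ ii 1 x
  have vv : B v v = 0 := i1 ▸ vi 1
  have GG : ∀ x y, B (G (i x)) (G (i y)) = 0 := fun x y => by rw [h.iso.pow, ii]
  have Gv : ∀ x, B (G (i x)) (G v) = 0 := fun x => i1 ▸ GG x 1
  have ev' : B e v = 0 := i1 ▸ e1 1
  have eG : B e (G v) = 0 := i1 ▸ e2 1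
  let i' : AdjoinRoot p →ₗ[K] V := G ∘ₗ i - α.smulRight (i ζ) +
    ((σ c)⁻¹ • γ - p.coeff 0 • α).smulRight v + α.smulRight e
  have hi' : ∀ y, i' y = G (i y) - α y • i ζ + ((σ c)⁻¹ * γ y - p.coeff 0 * α y) • v + α y • e :=
    fun y => rfl
  have key : ∀ y, B (i' y) (aeval g p v) = 0 := fun y => by
    simp [hi', iζ, Gv, hγ, t2, t3, ii, vi, eG, e1]
    field_simp
    ring
  refine ⟨i', fun x y => ?_, fun y hy => h.sep hp y fun x => ?_, fun x y => ?_, fun h0 => ⟨1, ?_⟩⟩
  · simp [hi', GG, hα, hγ, hα', hγ', ii, iv, vi, vv, e1, e2, e3, ev', h.hm.zero (e1 _),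
      h.hm.zero (e2 _), h.hm.zero ev']
    field_simp
    ring
  · simpa [hi', ii, vi, e1] using hy x
  · obtain ⟨a, ha⟩ := ev_step (g := g) (v := v) hp h.pos x
    rw [ha]
    simp [h.hm.zero (key y), hi]
  · have a1 : α 1 = 1 := mul_right_cancel₀ hc (by rw [← hα, i1, h.top, one_mul])
    have a2 : (σ c)⁻¹ * γ 1 - p.coeff 0 = 0 := by
      rw [← hγ, i1, t1]
      subst h0
      have : p.coeff 0 * σ c + σ (p.coeff 0) * c = 0 := by rw [← e3]; simp
      field_simp
      linear_combination -this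
    simp [hi', a1, a2, h0, i1, iζ]

variable [Finite K] [FiniteDimensional K V]

include hp in
theorem CV.free (h0 : p.coeff 0 ≠ 0) (hn : 2 * p.natDegree < finrank K V) :
    ∃ w, St σ (kerDim g) (cy p) w ∧ w 0 + 2 * p.natDegree = finrank K V := by
  have := hp.finite_adjoinRoot
  have f0 := fr_orth (i' := (g ^ p.natDegree) ∘ₗ ev g v hp) h.hm (h.ii hp)
    (fun x y => by simp [h.iso.pow _ _ _, h.ii hp]) (h.sep hp)
  have f1 := f0.finrank
  rw [finrank_adjoinRoot] at f1
  obtain ⟨ε, hε⟩ := f0.hmW.exists_on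
  obtain ⟨κ, hκ⟩ := exists_nrm (σ := σ) (a := p.coeff 0 * σ c + σ (p.coeff 0) * c)
    (by simp [add_comm])
  let e := ε.symm (κ • Pi.single ⟨0, by omega⟩ 1)
  obtain ⟨i', k1, k2, k3, -⟩ := h.aux hp (e := e) e.2.1 e.2.2 (by
    refine (hε e e).trans ?_
    rw [← hκ]
    simp [e, sf_apply, comp_single, mul_comm])
  have f2 := fr_orth h.hm (h.ii hp) k1 k2
  obtain ⟨m, π, m1, -⟩ := f2.exists_mid (isUnit_cyc hp h0) k3
  refine ⟨kerDim m, ⟨V, _, _, _, _, inferInstance, _, _, inferInstance, _, _, inferInstance, B, _,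
    _, _, g, _, m, f2, h.iso, isUnit_cyc hp h0, k3, m1, rfl, rfl, rfl⟩, ?_⟩
  rw [kerDim_zero, f2.finrank, finrank_adjoinRoot, add_comm]

omit [Finite K] in
theorem CV.isot (h0 : p.coeff 0 ≠ 0) (ht : p.coeff 0 * σ c + σ (p.coeff 0) * c = 0) :
    ∃ (W : Submodule K V) (m : End K W) (π : V →ₗ[K] W), St σ (kerDim g) (cy p) (kerDim m) ∧
      finrank K V = 2 * p.natDegree + finrank K W ∧ (∀ x, π (ev g v hp x) = 0) ∧
      ∀ w, (∀ x, B w (ev g v hp x) = 0) →
        (π w = 0 → ∃ x, w = ev g v hp x) ∧ m (π w) = π (g w) := by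
  have := hp.finite_adjoinRoot
  obtain ⟨i', k1, k2, k3, k4⟩ := h.aux hp (e := 0) (by simp) (by simp) (by simp [ht])
  obtain ⟨y, hy⟩ := k4 rfl
  have f2 := fr_orth h.hm (h.ii hp) k1 k2
  obtain ⟨m, π, m1, m2, m3, m4, m5⟩ := f2.exists_mid (isUnit_cyc hp h0) k3
  have m6 : ∀ x, π (g (ev g v hp x)) = 0 := fun x => by
    obtain ⟨a, ha⟩ := ev_step (g := g) (v := v) hp h.pos x
    simp [ha, ← hy, m2, m3]
  refine ⟨_, m, π, ⟨V, _, _, _, _, inferInstance, _, _, inferInstance, _, _, inferInstance, B, _,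
    _, _, g, _, m, f2, h.iso, isUnit_cyc hp h0, k3, m1, rfl, rfl, rfl⟩,
    by rw [f2.finrank, finrank_adjoinRoot], m2, fun w hw => ?_⟩
  obtain ⟨x, hx⟩ := m4 w hw
  obtain ⟨x', hx'⟩ := m5 (π w)
  refine ⟨fun h0 => ⟨x, by rw [hx, h0, map_zero, add_zero]⟩, ?_⟩
  rw [hx']
  conv_rhs => rw [hx]
  simp [m6]

end state

theorem CV.prod {V W : Type u} [AddCommGroup V] [Module K V] [AddCommGroup W] [Module K W]
    {B : V →ₗ[K] V →ₛₗ[σ] K} {g : End K V} {v : V} {c : K} {m : ℕ} (h : CV B g v c m)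
    {B' : W →ₗ[K] W →ₛₗ[σ] K} {g' : End K W} (h1 : Hm B') (h2 : Iso B' g') :
    CV (pf B B') (g.prodMap g') (v, 0) c m := by
  have k : ∀ j : ℕ, ((g.prodMap g') ^ j) (v, 0) = ((g ^ j) v, 0) := fun j =>
    (intertwine_pow (LinearMap.inl K V W) (f := g) (g := g.prodMap g') (fun _ => by simp) j v).symm
  exact ⟨h.hm.pf h1, h.iso.prod h2, h.pos, h.ne, fun j hj => by simp [k, h.low j hj],
    by simp [k, h.top]⟩

section model
variable [Cj σ] {f : K[X]}

/-- self-dual monic polynomials -/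
structure SD (σ : K →+* K) (f : K[X]) : Prop where
  monic : f.Monic
  ne : f.coeff 0 ≠ 0
  du : du σ f = f

omit [Cj σ] in
theorem SD.nrm (h : SD σ f) : f.coeff 0 * σ (f.coeff 0) = 1 := by
  have := du_coeff_zero (σ := σ) h.monic
  rw [h.du] at this
  nth_rewrite 1 [this]
  exact inv_mul_cancel₀ (by simpa using h.ne)

omit [Cj σ] in
theorem SD.rev (h : SD σ f) : (f.map σ).reverse = C (σ (f.coeff 0)) * f := by
  have := h.du
  rw [du_apply] at this
  nth_rewrite 3 [← this]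
  rw [← mul_assoc, ← C_mul, mul_inv_cancel₀ (by simpa using h.ne), C_1, one_mul]

omit [Cj σ] in
theorem SD.mul {g : K[X]} (h : SD σ f) (h' : SD σ g) : SD σ (f * g) :=
  ⟨h.monic.mul h'.monic, by rw [mul_coeff_zero]; exact mul_ne_zero h.ne h'.ne,
    by rw [map_mul, h.du, h'.du]⟩

omit [Cj σ] in
theorem sd_one : SD σ (1 : K[X]) := ⟨monic_one, by simp, map_one _⟩

omit [Cj σ] in
theorem SD.pow (h : SD σ f) (n : ℕ) : SD σ (f ^ n) := by
  induction n with
  | zero => rw [pow_zero]; exact sd_one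
  | succ n ih => rw [pow_succ]; exact ih.mul h

/-- the top coefficient functional -/
noncomputable def lam (hf : f.Monic) : AdjoinRoot f →ₗ[K] K :=
  lcoeff K (f.natDegree - 1) ∘ₗ AdjoinRoot.modByMonicHom hf

omit [Cj σ] in
theorem lam_mk (hf : f.Monic) {r : K[X]} (h : r.natDegree < f.natDegree) :
    lam hf (AdjoinRoot.mk f r) = r.coeff (f.natDegree - 1) :=
  congrArg (coeff · _) (mod_low hf h)

omit [Cj σ] in
theorem lam_nd (hf : f.Monic) (h0 : 0 < f.natDegree) (z : AdjoinRoot f)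
    (hz : ∀ w, lam hf (z * w) = 0) : z = 0 := by
  obtain ⟨r, hr, rfl⟩ := exists_low hf h0 z
  by_cases hr0 : r = 0
  · simp [hr0]
  have := hz (AdjoinRoot.mk f (X ^ (f.natDegree - 1 - r.natDegree)))
  rw [← map_mul, lam_mk hf (by rw [natDegree_mul_X_pow _ hr0]; omega), coeff_mul_X_pow',
    if_pos (by omega), show f.natDegree - 1 - (f.natDegree - 1 - r.natDegree) = r.natDegree by omega,
    coeff_natDegree, leadingCoeff_eq_zero] at this
  exact absurd this hr0

theorem SD.exists_bar (hf : SD σ f) (h2 : 2 ≤ f.natDegree) :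
    ∃ (bar : AdjoinRoot f →+* AdjoinRoot f), AdjoinRoot.root f * bar (AdjoinRoot.root f) = 1 ∧
      (∀ x, bar (bar x) = x) ∧ (∀ (a : K) x, bar (a • x) = σ a • bar x) ∧
      (∀ h : K[X], SD σ h → bar (AdjoinRoot.mk f h) * AdjoinRoot.root f ^ h.natDegree =
        σ (h.coeff 0) • AdjoinRoot.mk f h) ∧
      ∀ z, σ (lam hf.monic (bar z)) =
        -f.coeff 0 * lam hf.monic (AdjoinRoot.root f ^ (f.natDegree - 2) * z) := by
  set t := AdjoinRoot.root f with ht
  let ti : AdjoinRoot f := -(f.coeff 0)⁻¹ • AdjoinRoot.mk f (divX f)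
  have h1 : t * ti = 1 := by
    have := congrArg (AdjoinRoot.mk f) (X_mul_divX_add f)
    rw [AdjoinRoot.mk_self, map_add, map_mul, AdjoinRoot.mk_X, AdjoinRoot.mk_C,
      add_eq_zero_iff_eq_neg] at this
    rw [mul_smul_comm, this, ← AdjoinRoot.algebraMap_eq, Algebra.algebraMap_eq_smul_one, smul_neg,
      neg_smul, neg_neg, smul_smul, inv_mul_cancel₀ hf.ne, one_smul]
  have h1' : ti * t = 1 := by rw [mul_comm, h1]
  have h3 : ∀ h : K[X], SD σ h → aeval ti (h.map σ) * t ^ h.natDegree =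
      σ (h.coeff 0) • AdjoinRoot.mk f h := fun h hh => by
    have := H72.Cls.aeval_reverse h1' (h.map σ)
    rw [hh.rev, natDegree_map, map_mul, aeval_C, AdjoinRoot.aeval_eq] at this
    rw [← this, Algebra.smul_def]
  have h4 : ∀ r : K[X], r.eval₂ ((algebraMap K (AdjoinRoot f)).comp σ) ti = aeval ti (r.map σ) :=
    fun r => by rw [aeval_def, eval₂_map]
  have h5 : f.eval₂ ((algebraMap K (AdjoinRoot f)).comp σ) ti = 0 := by
    have := h3 f hf
    rw [AdjoinRoot.mk_self, smul_zero] at this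
    rw [h4, ← mul_one (aeval ti _), ← one_pow f.natDegree, ← h1, mul_pow, ← mul_assoc, this,
      zero_mul]
  let bar := AdjoinRoot.lift _ ti h5
  have b1 : bar t = ti := AdjoinRoot.lift_root h5
  have b2 : bar ti = t := by
    have := congrArg bar h1
    rw [map_mul, b1, map_one] at this
    rw [← one_mul (bar ti), ← h1, mul_assoc, this, mul_one]
  have b3 : ∀ (a : K) x, bar (a • x) = σ a • bar x := fun a x => by
    rw [Algebra.smul_def, Algebra.smul_def, map_mul]
    congr 1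
    exact AdjoinRoot.lift_of h5
  refine ⟨bar, by rw [b1, h1], fun x => ?_, b3, fun h hh => by
    rw [← h3 h hh, ← h4]; rfl, fun z => ?_⟩
  · refine RingHom.congr_fun (f := bar.comp bar) (g := RingHom.id _)
      (AdjoinRoot.ringHom_ext (RingHom.ext fun a => ?_) (by simp [← ht, b1, b2])) x
    have := b3 (σ a) 1
    have := b3 a 1
    simp_all [← AdjoinRoot.algebraMap_eq, Algebra.algebraMap_eq_smul_one]
  · obtain ⟨w, rfl⟩ : ∃ w, z = ti ^ (f.natDegree - 2) * w :=
      ⟨t ^ (f.natDegree - 2) * z, by rw [← mul_assoc, ← mul_pow, h1', one_pow, one_mul]⟩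
    rw [← mul_assoc, ← mul_pow, h1, one_pow, one_mul]
    obtain ⟨r, hr, rfl⟩ := exists_low hf.monic (by omega) w
    rw [lam_mk _ hr, ← AdjoinRoot.aeval_eq, aeval_eq_sum_range' hr, Finset.mul_sum, map_sum,
      map_sum, map_sum, Finset.sum_eq_single (f.natDegree - 1) (fun k hk hk' => ?_)
      (by simp; omega)]
    · have : t ^ (f.natDegree - 2) * ti ^ (f.natDegree - 1) = ti := by
        rw [show f.natDegree - 1 = f.natDegree - 2 + 1 by omega, pow_succ, ← mul_assoc, ← mul_pow,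
          h1, one_pow, one_mul]
      rw [mul_smul_comm, b3, map_mul, map_pow, map_pow, b1, b2, this, map_smul (lam _),
        map_smul (lam _), lam_mk _ (by rw [natDegree_divX_eq_natDegree_tsub_one]; omega), coeff_divX,
        show f.natDegree - 1 + 1 = f.natDegree by omega, hf.monic.coeff_natDegree]
      have := hf.nrm
      have h0 : σ (f.coeff 0) ≠ 0 := by simpa using hf.ne
      simp
      field_simp
      linear_combination -r.coeff (f.natDegree - 1) * this
    · rw [Finset.mem_range] at hk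
      have : t ^ (f.natDegree - 2) * ti ^ k = AdjoinRoot.mk f (X ^ (f.natDegree - 2 - k)) := by
        conv_lhs => rw [show f.natDegree - 2 = f.natDegree - 2 - k + k by omega, pow_add, mul_assoc,
          ← mul_pow, h1, one_pow, mul_one]
        rw [map_pow, AdjoinRoot.mk_X]
      rw [mul_smul_comm, b3, map_mul, map_pow, map_pow, b1, b2, this, map_smul,
        lam_mk _ (by simp; omega), coeff_X_pow, if_neg (by omega)]
      simp

theorem cyc_pow (j : ℕ) (x : AdjoinRoot f) : (cyc f ^ j) x = AdjoinRoot.root f ^ j * x := by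
  simpa using aeval_cyc_apply f (X ^ j) x

variable [Finite K]

theorem SD.model (hf : SD σ f) {h : K[X]} (hh : SD σ h) (hc : IsCoprime f h) {m : ℕ} (hm : 0 < m)
    (hn : f.natDegree = 2 * m + h.natDegree) :
    ∃ (B : AdjoinRoot f →ₗ[K] AdjoinRoot f →ₛₗ[σ] K) (c : K), CV B (cyc f) 1 c m ∧
      -(f.coeff 0 * σ (h.coeff 0)) * σ c = c ∧
      ∀ (x) (r : K[X]), AdjoinRoot.mk f h * x = AdjoinRoot.mk f r → r.natDegree ≤ h.natDegree →
        ∀ j < m, B x ((cyc f ^ j) 1) = 0 := by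
  obtain ⟨bar, b1, b2, b3, b4, b5⟩ := hf.exists_bar (by omega)
  obtain ⟨c, hc0, hc1⟩ := h90 (σ := σ) (a := -(f.coeff 0 * σ (h.coeff 0))) (by
    simp only [map_neg, map_mul, cj_cj]
    linear_combination (h.coeff 0 * σ (h.coeff 0)) * hf.nrm + hh.nrm)
  set t := AdjoinRoot.root f with ht
  set y₀ : AdjoinRoot f := c • (t ^ (m - 1) * AdjoinRoot.mk f h) with hy
  have b6 : ∀ j, t ^ j * bar t ^ j = 1 := fun j => by rw [← mul_pow, b1, one_pow]
  have y1 : (-f.coeff 0) • (t ^ (f.natDegree - 2) * bar y₀) = y₀ := by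
    have : t ^ (f.natDegree - 2) * (bar t ^ (m - 1) * bar (AdjoinRoot.mk f h)) =
        t ^ (m - 1) * (bar (AdjoinRoot.mk f h) * t ^ h.natDegree) := by
      rw [show f.natDegree - 2 = (m - 1) + (m - 1) + h.natDegree by omega]
      linear_combination t ^ (m - 1) * (bar (AdjoinRoot.mk f h) * t ^ h.natDegree) * b6 (m - 1)
    rw [hy, b3, map_mul, map_pow, mul_smul_comm, this, b4 h hh, mul_smul_comm, smul_smul, smul_smul]
    congr 1
    linear_combination hc1
  let B : AdjoinRoot f →ₗ[K] AdjoinRoot f →ₛₗ[σ] K := LinearMap.mk₂'ₛₗ (RingHom.id K) σ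
    (fun x y => lam hf.monic (y₀ * x * bar y)) (fun _ _ _ => by simp [mul_add, add_mul])
    (fun _ _ _ => by simp) (fun _ _ _ => by simp [mul_add]) (fun _ _ _ => by simp [b3])
  have hB : ∀ x y, B x y = lam hf.monic (y₀ * x * bar y) := fun _ _ => rfl
  have low : ∀ (a : ℕ) (r : K[X]), a + r.natDegree < f.natDegree →
      lam hf.monic (c • (t ^ a * AdjoinRoot.mk f r)) = c * (X ^ a * r).coeff (f.natDegree - 1) :=
    fun a r har => by
      rw [map_smul, ← lam_mk hf.monic (natDegree_mul_le.trans_lt (by simpa using har)),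
        map_mul (AdjoinRoot.mk f), map_pow (AdjoinRoot.mk f), AdjoinRoot.mk_X, smul_eq_mul]
  have e1 : ∀ j, B ((cyc f ^ j) 1) 1 = c * (X ^ (m - 1 + j) * h).coeff (f.natDegree - 1) ∨
      m < j := fun j => by
    refine (le_or_gt j m).imp_left fun hj => ?_
    rw [← low _ _ (by omega), hB, cyc_pow, map_one, hy, pow_add, smul_mul_assoc, smul_mul_assoc]
    congr 2; ring
  refine ⟨B, c, ⟨⟨fun x y => ?_, fun x hx => ?_⟩, fun x y => ?_, hm, hc0, fun j hj => ?_, ?_⟩, hc1,
    fun x r hx hr j hj => ?_⟩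
  · rw [hB, hB, ← b2 (y₀ * x * bar y), b5, ← smul_eq_mul (-f.coeff 0), ← map_smul (lam _), map_mul bar,
      map_mul bar, b2]
    conv_lhs => rw [← y1]
    congr 1
    simp only [smul_mul_assoc]
    congr 1; ring
  · have := lam_nd hf.monic (by omega) (y₀ * x) fun w => by rw [← b2 w]; exact hx _
    obtain ⟨a, b, hab⟩ := hc
    have k := congrArg (AdjoinRoot.mk f) hab
    rw [map_add, map_mul, map_mul, AdjoinRoot.mk_self, map_one] at k
    rw [hy, smul_mul_assoc, smul_eq_zero_iff_right hc0] at this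
    linear_combination (bar t ^ (m - 1) * AdjoinRoot.mk f b) * this - x * k -
      AdjoinRoot.mk f b * AdjoinRoot.mk f h * x * b6 (m - 1)
  · rw [hB, hB, cyc_apply, cyc_apply, map_mul bar]
    congr 1
    linear_combination y₀ * x * bar y * b1
  · rw [(e1 j).resolve_right (by omega), coeff_eq_zero_of_natDegree_lt
      (natDegree_mul_le.trans_lt (by simp; omega)), mul_zero]
  · rw [(e1 m).resolve_right (by omega), show f.natDegree - 1 = h.natDegree + (m - 1 + m) by omega,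
      coeff_X_pow_mul, hh.monic.coeff_natDegree, mul_one]
  · have : y₀ * x * bar ((cyc f ^ j) 1) = c • (t ^ (m - 1 - j) * AdjoinRoot.mk f r) := by
      rw [cyc_pow, mul_one, map_pow, hy, ← hx, smul_mul_assoc, smul_mul_assoc]
      congr 1
      rw [show m - 1 = m - 1 - j + j by omega, pow_add, Nat.add_sub_cancel]
      linear_combination t ^ (m - 1 - j) * AdjoinRoot.mk f h * x * b6 j
    rw [hB, this, low _ _ (by omega), coeff_eq_zero_of_natDegree_lt
      (natDegree_mul_le.trans_lt (by simp; omega)), mul_zero]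

theorem st_free (hf : SD σ f) {h p : K[X]} (hh : SD σ h) (hc : IsCoprime f h) (hp : p.Monic)
    (h0 : p.coeff 0 ≠ 0) (hm : 0 < p.natDegree) (hn : f.natDegree = 2 * p.natDegree + h.natDegree)
    {s : K[X] → ℕ} (hs : Un σ s) (hk : 0 < h.natDegree + s 0) :
    ∃ w, St σ (cy f + s) (cy p) w ∧ w 0 = h.natDegree + s 0 := by
  have := hf.monic.finite_adjoinRoot
  obtain ⟨B, c, h1, -⟩ := hf.model hh hc hm hn
  obtain ⟨n, g, h2, rfl⟩ := hs
  rw [kerDim_zero] at hk ⊢
  obtain ⟨w, h3, h4⟩ := (h1.prod hm_sf ((iso_iff _).2 h2)).free hp h0 (by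
    rw [finrank_prod, finrank_adjoinRoot]; omega)
  rw [kd_prodMap] at h3
  rw [finrank_prod, finrank_adjoinRoot] at h4
  exact ⟨w, h3, by omega⟩

theorem st_iso (hf : SD σ f) {h p : K[X]} (hh : SD σ h) (hc : IsCoprime f h) (hp : p.Monic)
    (h0 : p.coeff 0 ≠ 0) (hm : 0 < p.natDegree) (hn : f.natDegree = 2 * p.natDegree + h.natDegree)
    (hd : p.coeff 0 * h.coeff 0 = σ (p.coeff 0) * f.coeff 0) : St σ (cy f) (cy p) (cy h) := by
  have := hf.monic.finite_adjoinRoot
  have := hh.monic.finite_adjoinRoot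
  obtain ⟨B, c, h1, h2, h3⟩ := hf.model hh hc hm hn
  obtain ⟨W, m, π, k1, k2, k3, k4⟩ := h1.isot hp h0 (by
    linear_combination -σ (p.coeff 0) * h2 + σ c * σ (h.coeff 0) * hd - p.coeff 0 * σ c * hh.nrm)
  obtain ⟨a, b, hab⟩ := hc
  have k := congrArg (AdjoinRoot.mk f) hab
  rw [map_add, map_mul, map_mul, AdjoinRoot.mk_self, map_one, mul_zero, zero_add] at k
  have e0 : ∀ r : K[X], r.natDegree < p.natDegree →
      ev (cyc f) 1 hp (AdjoinRoot.mk p r) = AdjoinRoot.mk f r := fun r hr => by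
    rw [ev_mk, mod_low hp hr, aeval_cyc_apply, mul_one]
  have e1 : ∀ r : K[X], (X * (r %ₘ h)).natDegree ≤ h.natDegree := fun r => by
    by_cases hr : r %ₘ h = 0
    · simp [hr]
    · rw [natDegree_X_mul hr]
      exact natDegree_lt_natDegree hr (degree_modByMonic_lt r hh.monic)
  have e2 : ∀ r : K[X], (r %ₘ h).natDegree ≤ h.natDegree := fun r =>
    natDegree_le_natDegree (degree_modByMonic_lt r hh.monic).le
  have e3 := fun r : K[X] => k4 (AdjoinRoot.mk f b * AdjoinRoot.mk f (r %ₘ h)) fun x => by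
    obtain ⟨s, hs, rfl⟩ := exists_low hp hm x
    rw [ev_low hp hs, map_sum]
    refine Finset.sum_eq_zero fun j hj => ?_
    rw [LinearMap.map_smulₛₗ, h3 _ _ (by rw [← mul_assoc, mul_comm _ (AdjoinRoot.mk f b), k,
      one_mul]) (e2 r) j (Finset.mem_range.1 hj), smul_zero]
  let φ : AdjoinRoot h →ₗ[K] W := π ∘ₗ ev (cyc f) (AdjoinRoot.mk f b) hh.monic
  have hφ : ∀ r, φ (AdjoinRoot.mk h r) = π (AdjoinRoot.mk f b * AdjoinRoot.mk f (r %ₘ h)) :=
    fun r => by rw [mul_comm, ← aeval_cyc_apply]; rfl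
  have inj : Function.Injective φ := by
    rw [injective_iff_map_eq_zero]
    intro x hx
    obtain ⟨r, rfl⟩ := AdjoinRoot.mk_surjective x
    obtain ⟨x, e⟩ := (e3 r).1 (hφ r ▸ hx)
    obtain ⟨s, hs, rfl⟩ := exists_low hp hm x
    rw [e0 s hs] at e
    have e4 : f ∣ r %ₘ h - h * s := by
      rw [← AdjoinRoot.mk_eq_mk, map_mul, ← e, ← mul_assoc, mul_comm _ (AdjoinRoot.mk f b), k,
        one_mul]
    have e5 := eq_zero_of_dvd_of_natDegree_lt e4 ((natDegree_sub_le _ _).trans_lt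
      (max_lt ((e2 r).trans_lt (by omega)) (natDegree_mul_le.trans_lt (by omega))))
    rw [AdjoinRoot.mk_eq_zero, ← modByMonic_add_div r h, sub_eq_zero.1 e5]
    exact dvd_add (dvd_mul_right _ _) (dvd_mul_right _ _)
  suffices H : cy h = kerDim m by rw [H]; exact k1
  refine kd_sim ⟨LinearEquiv.ofBijective φ ⟨inj, (LinearMap.injective_iff_surjective_of_finrank_eq_finrank
    (by rw [finrank_adjoinRoot] at k2 ⊢; omega)).1 inj⟩, fun x => ?_⟩
  obtain ⟨r, rfl⟩ := AdjoinRoot.mk_surjective x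
  change φ _ = m (φ _)
  have e6 : cyc h (AdjoinRoot.mk h r) = AdjoinRoot.mk h (X * (r %ₘ h)) := by
    rw [map_mul, AdjoinRoot.mk_X, cyc_apply]
    congr 1
    exact (AdjoinRoot.mk_leftInverse hh.monic _).symm
  have e7 := k3 (AdjoinRoot.mk p (X * (r %ₘ h) /ₘ h))
  rw [e0 _ (by rw [natDegree_divByMonic _ hh.monic, Nat.sub_eq_zero_of_le (e1 r)]; exact hm)] at e7
  rw [e6, hφ, hφ, (e3 r).2, modByMonic_eq_sub_mul_div (X * _), map_sub, mul_sub, map_sub,
    map_mul _ h, ← mul_assoc, k, one_mul, e7, sub_zero, cyc_apply,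
    map_mul (AdjoinRoot.mk f), AdjoinRoot.mk_X, mul_left_comm]

end model

end H37.Ore.SU
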