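import Mathlib
import Cfsg.Agent.Base
import Cfsg.Agent.Lib.Ore.SuD

/-! Commutators in general linear groups and the calculus of marked types. -/

set_option autoImplicit false

namespace H37.Ore.SU

open Module Polynomial H65 H64.Sour H66 H64.Wall

universe u
variable {K : Type u} [Field K] {σ : K →+* K}

section gl2
variable {R : Type u} [CommRing R] [Algebra K R]

variable (K) in
/-- a two by two matrix over `R` as a `K`-linear map -/
def m2 (a b c d : R) : End K (R × R) :=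
  blk (LinearMap.mul K R a) (LinearMap.mul K R b) (LinearMap.mul K R c) (LinearMap.mul K R d)

theorem m2_apply (a b c d : R) (v : R × R) : m2 K a b c d v = (a * v.1 + b * v.2, c * v.1 + d * v.2) :=
  rfl

theorem m2_smul (a b c d r : R) (v : R × R) : m2 K a b c d (r • v) = r • m2 K a b c d v := by
  simp only [m2_apply, Prod.smul_mk, Prod.smul_fst, Prod.smul_snd, smul_eq_mul, Prod.mk.injEq]
  constructor <;> ring

theorem m2_unit [FiniteDimensional K R] {a b c d w : R} (h : (a * d - b * c) * w = 1) :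
    IsUnit (m2 K a b c d) :=
  IsUnit.of_mul_eq_one (m2 K (d * w) (-b * w) (-c * w) (a * w)) (LinearMap.ext fun v => by
    simp only [End.mul_apply, m2_apply, End.one_apply]
    ext
    · linear_combination v.1 * h
    · linear_combination v.2 * h)

theorem m2_quad (a b c d : R) (τ δ : K) (v : R × R) :
    aeval (m2 K a b c d) (X ^ 2 - C τ * X + C δ) v = (a + d - algebraMap K R τ) • m2 K a b c d v +
      (algebraMap K R δ - (a * d - b * c)) • v := by
  simp only [map_add, map_sub, map_mul, map_pow, aeval_X, aeval_C, sq, LinearMap.add_apply,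
    LinearMap.sub_apply, End.mul_apply, Module.algebraMap_end_apply, m2_apply]
  ext <;> simp [Algebra.smul_def] <;> ring

theorem gl2 [FiniteDimensional K R] {e N : K} (T : K) (he : e ≠ 0) (hN : N ≠ 0) (β : R) :
    GLP (kerDim (m2 K (algebraMap K R N⁻¹ * (β * algebraMap K R (T * e⁻¹ - T) +
      β ^ 2 * algebraMap K R e⁻¹) + algebraMap K R e) (β * algebraMap K R e⁻¹)
      (algebraMap K R N⁻¹ * (algebraMap K R (T * e⁻¹ - T) + β * algebraMap K R e⁻¹))
      (algebraMap K R e⁻¹)))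
      (kerDim (m2 K 0 (-algebraMap K R N) 1 (algebraMap K R T))) (X ^ 2 - C T * X + C N) := by
  have h1 : algebraMap K R e * algebraMap K R e⁻¹ = 1 := by
    rw [← map_mul, mul_inv_cancel₀ he, map_one]
  have h2 : algebraMap K R N * algebraMap K R N⁻¹ = 1 := by
    rw [← map_mul, mul_inv_cancel₀ hN, map_one]
  refine GLP.of_abs (a := m2 K (algebraMap K R e) β 0 1) (m2_unit (w := algebraMap K R N⁻¹)
    (by linear_combination h2)) (m2_unit (w := algebraMap K R e⁻¹) (by linear_combination h1))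
    (LinearMap.ext fun v => ?_) (LinearMap.ext fun v => by rw [m2_quad]; simp)
  simp only [End.mul_apply, m2_apply, map_sub, map_mul, Prod.mk.injEq]
  generalize algebraMap K R e = a at *
  generalize algebraMap K R e⁻¹ = a' at *
  generalize algebraMap K R N = n at *
  generalize algebraMap K R N⁻¹ = n' at *
  constructor <;> grind

end gl2

theorem monic_quad (T N : K) : (X ^ 2 - C T * X + C N).Monic := by monicity!

theorem natDegree_quad (T N : K) : (X ^ 2 - C T * X + C N).natDegree = 2 := by compute_degree!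

theorem kd_comp (T N : K) : kerDim (m2 K 0 (-N) 1 T) = cy (X ^ 2 - C T * X + C N) := by
  refine kd_cyc (v := (1, 0)) (monic_quad T N) (by rw [m2_quad]; simp) (fun p h1 h2 => ?_)
    (by rw [natDegree_quad]; simp)
  refine Submodule.eq_top_iff'.2 fun v => ?_
  have := p.add_mem (p.smul_mem v.1 h1) (p.smul_mem v.2 (h2 _ h1))
  simpa [m2_apply] using this

theorem glp_pair {e N : K} (T : K) (he : e ≠ 0) (h1 : e = 1 ∨ e ≠ e⁻¹) (hN : N ≠ 0) :
    GLP (on e + on e⁻¹) (cy (X ^ 2 - C T * X + C N)) (X ^ 2 - C T * X + C N) := by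
  have := gl2 T he hN (0 : K)
  simp only [Algebra.algebraMap_self, RingHom.id_apply] at this
  rw [kd_comp] at this
  convert this using 1
  rw [← kd_smul_one (V := K) (by simp), ← kd_smul_one (V := K) (by simp)]
  rcases h1 with rfl | h1
  · rw [← kd_prodMap]
    congr 1
    exact LinearMap.ext fun v => by simp [m2_apply]
  · refine (kd_lower (F := X - C e⁻¹) (fun y => by simp [m2_apply]) (fun v => by simp [m2_apply])
      (Or.inl ⟨by simp [Algebra.algebraMap_eq_smul_one], ?_⟩)).symm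
    rw [kd_smul_one (by simp), on_of_eval (by simpa [sub_eq_zero] using h1)]

theorem glp_one {x : K} (hx : x ≠ 0) : GLP (on 1) (on x) (X - C x) := by
  have := GLP.of_abs (A := (x • 1 : End K K)) (a := 1) (l := (1 : K) • 1) (F := X - C x)
    (by rw [LinearMap.isUnit_iff_isUnit_det]; simpa) isUnit_one (by simp)
    (by simp [Algebra.algebraMap_eq_smul_one])
  rwa [kd_smul_one (by simp), kd_smul_one (by simp)] at this

theorem glp_Q (j : ℕ) {e N T b : K} (he : e ≠ 0) (hN : N ≠ 0) (h1 : T * e⁻¹ - T + 2 * b * e⁻¹ ≠ 0)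
    (h2 : T * e⁻¹ - T + b * e⁻¹ ≠ 0) : ∃ τ, GLP (cy ((X ^ 2 - C (N⁻¹ * (b * (T * e⁻¹ - T) +
      b ^ 2 * e⁻¹) + e + e⁻¹) * X + C 1) ^ j)) τ (X ^ 2 - C T * X + C N) := by
  let R := AdjoinRoot (X ^ j : K[X])
  have : FiniteDimensional K R := (monic_X_pow j).finite_adjoinRoot
  let s : R := AdjoinRoot.root _
  have hs : s ^ j = 0 := by
    change AdjoinRoot.mk _ X ^ j = 0
    rw [← map_pow, AdjoinRoot.mk_self]
  have := gl2 T he hN (algebraMap K R b + s)
  refine ⟨_, Eq.mp (congrArg (GLP · _ _) ?_) this⟩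
  have k1 : algebraMap K R e * algebraMap K R e⁻¹ = 1 := by
    rw [← map_mul, mul_inv_cancel₀ he, map_one]
  set l₁ := algebraMap K R N⁻¹ * ((algebraMap K R b + s) * algebraMap K R (T * e⁻¹ - T) +
      (algebraMap K R b + s) ^ 2 * algebraMap K R e⁻¹) + algebraMap K R e with hl₁
  set l₃ := algebraMap K R N⁻¹ * (algebraMap K R (T * e⁻¹ - T) +
    (algebraMap K R b + s) * algebraMap K R e⁻¹) with hl₃
  set l := m2 K l₁ ((algebraMap K R b + s) * algebraMap K R e⁻¹) l₃ (algebraMap K R e⁻¹) with hl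
  set Q := X ^ 2 - C (N⁻¹ * (b * (T * e⁻¹ - T) + b ^ 2 * e⁻¹) + e + e⁻¹) * X + C (1 : K) with hQ
  let κ₀ := N⁻¹ * (T * e⁻¹ - T + 2 * b * e⁻¹)
  let κ := algebraMap K R κ₀ + s * algebraMap K R (N⁻¹ * e⁻¹)
  have d1 : l₁ * algebraMap K R e⁻¹ - (algebraMap K R b + s) * algebraMap K R e⁻¹ * l₃ = 1 := by
    rw [hl₁, hl₃]; linear_combination k1
  have q1 : ∀ v, aeval l Q v = (s * κ) • l v := fun v => by
    rw [hQ, hl, m2_quad, d1, map_one, sub_self, zero_smul, add_zero]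
    congr 1
    simp only [hl₁, κ, κ₀, map_add, map_mul, map_sub, map_pow, map_ofNat]
    ring
  have q2 : ∀ (k : ℕ) v, aeval l (Q ^ k) v = (s * κ) ^ k • (l ^ k) v := fun k => by
    induction k with
    | zero => simp
    | succ k ih =>
      intro v
      rw [pow_succ', map_mul, End.mul_apply, ih, q1, hl, m2_smul, smul_smul, ← pow_succ', ← hl,
        pow_succ' l, End.mul_apply]
  refine kd_cyc (v := (1, 0)) ((monic_quad _ _).pow j) (by rw [q2, mul_pow, hs]; simp)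
    (fun p p1 p2 => ?_) (by
      rw [natDegree_pow, natDegree_quad, finrank_prod, finrank_adjoinRoot, natDegree_X_pow]; ring)
  have hu : IsUnit l := m2_unit (w := 1) (by rw [mul_one, d1])
  have p3 := (LinearMap.injective_iff_surjective (f := l.restrict p2)).1 fun x y h =>
    Subtype.ext (((End.isUnit_iff l).1 hu).1 (congrArg Subtype.val h))
  let A : Subalgebra K R :=
    { carrier := {r | ∀ x ∈ p, r • x ∈ p}
      mul_mem' := fun ha hb x hx => by rw [mul_smul]; exact ha _ (hb x hx)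
      add_mem' := fun ha hb x hx => by rw [add_smul]; exact p.add_mem (ha x hx) (hb x hx)
      algebraMap_mem' := fun r x hx => by rw [algebraMap_smul]; exact p.smul_mem r hx }
  have a1 : s * κ ∈ A := fun x hx => by
    obtain ⟨y, hy⟩ := p3 ⟨x, hx⟩
    obtain rfl : l y = x := congrArg Subtype.val hy
    rw [← q1]
    simpa using aeval_apply_smul_mem_of_le_comap y.2 Q l p2
  have a2 : ∀ i r, s ^ (j - i) * r ∈ A := fun i => by
    induction i with
    | zero => intro r; rw [Nat.sub_zero, hs, zero_mul]; exact A.zero_mem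
    | succ i ih =>
      intro r
      rcases le_or_gt j i with h | h
      · rw [show j - (i + 1) = j - i by omega]; exact ih r
      rw [show j - i = j - (i + 1) + 1 by omega] at ih
      generalize j - (i + 1) = k at ih
      obtain ⟨r, rfl⟩ := AdjoinRoot.mk_surjective r
      obtain ⟨r₂, hr⟩ : s ∣ κ ^ k - algebraMap K R κ₀ ^ k :=
        (Dvd.intro _ (add_sub_cancel_left _ _).symm).trans (sub_dvd_pow_sub_pow _ _ k)
      have h0 : κ₀ ≠ 0 := mul_ne_zero (inv_ne_zero hN) h1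
      have k2 : algebraMap K R (κ₀ ^ k)⁻¹ * algebraMap K R κ₀ ^ k = 1 := by
        rw [← map_pow, ← map_mul, inv_mul_cancel₀ (pow_ne_zero _ h0), map_one]
      have := A.add_mem (A.mul_mem (A.algebraMap_mem (r.coeff 0 * (κ₀ ^ k)⁻¹))
        (A.sub_mem (A.pow_mem a1 k) (ih r₂))) (ih (AdjoinRoot.mk _ r.divX))
      convert this using 1
      conv_lhs => rw [← X_mul_divX_add r, map_add, map_mul, AdjoinRoot.mk_X, AdjoinRoot.mk_C,
        ← AdjoinRoot.algebraMap_eq]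
      rw [map_mul, mul_pow s κ]
      clear_value κ κ₀
      linear_combination (-algebraMap K R (r.coeff 0) * algebraMap K R (κ₀ ^ k)⁻¹ * s ^ k) * hr -
        algebraMap K R (r.coeff 0) * s ^ k * k2
  have a3 : ∀ (r : R) x, x ∈ p → r • x ∈ p := fun r => by
    have := a2 j r
    rwa [Nat.sub_self, pow_zero, one_mul] at this
  obtain ⟨w, hw⟩ : IsUnit l₃ := by
    have : l₃ = s * algebraMap K R (N⁻¹ * e⁻¹) + algebraMap K R (N⁻¹ * (T * e⁻¹ - T + b * e⁻¹)) := by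
      simp only [hl₃, map_add, map_mul]; ring
    rw [this]
    exact IsNilpotent.isUnit_add_right_of_commute ((Commute.all _ _).isNilpotent_mul_right ⟨j, hs⟩)
      ((mul_ne_zero (inv_ne_zero hN) h2).isUnit.map _) (Commute.all _ _)
  refine Submodule.eq_top_iff'.2 fun v => ?_
  convert p.add_mem (a3 (v.1 - v.2 * w⁻¹ * l₁) _ p1) (a3 (v.2 * w⁻¹) _ (p2 _ p1)) using 1
  ext <;> simp [hl, m2_apply, ← hw]

theorem du_eval {F : K[X]} {ν : K} (h : σ ν * ν = 1) :
    (du σ F).eval ν = (σ (F.coeff 0))⁻¹ * (σ (F.eval ν) * ν ^ F.natDegree) := by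
  have := H72.Cls.aeval_reverse h (F.map σ)
  rw [coe_aeval_eq_eval, coe_aeval_eq_eval, natDegree_map, eval_map, eval₂_at_apply] at this
  rw [du_apply, eval_mul, eval_C, this]

theorem eval_ne_of_coprime {F : K[X]} (h : IsCoprime F (du σ F)) {ν : K} (hν : ν * σ ν = 1) :
    F.eval ν ≠ 0 ∧ (du σ F).eval ν ≠ 0 := by
  obtain ⟨a, b, hab⟩ := h
  have h1 := congrArg (eval ν) hab
  have h2 := congrArg (eval 0) hab
  rw [eval_add, eval_mul, eval_mul, eval_one] at h1 h2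
  have h3 := du_eval (F := F) ((mul_comm _ _).trans hν)
  have h4 : F.eval ν ≠ 0 := fun h => by simp [h3, h] at h1
  refine ⟨h4, ?_⟩
  rw [h3]
  refine mul_ne_zero (fun h => ?_) (mul_ne_zero (by simpa) (pow_ne_zero _
    (left_ne_zero_of_mul_eq_one hν)))
  have h5 : F.coeff 0 = 0 := by simpa using h
  rw [du_apply, h, ← coeff_zero_eq_eval_zero F, h5] at h2
  simp at h2

theorem du_X_sub_C (a : K) (ha : a ≠ 0) : du σ (X - C a) = X - C (σ a)⁻¹ := by
  refine eq_of_monic_of_dvd_of_natDegree_le (monic_X_sub_C _) (du_monic (by simpa)) ?_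
    (by rw [du_natDegree (by simpa)]; simp) 
  rw [dvd_iff_isRoot, IsRoot, du_apply, eval_mul]
  have := H72.Cls.aeval_reverse (x := (σ a)⁻¹) (y := σ a) (mul_inv_cancel₀ (by simpa))
    ((X - C a).map σ)
  rw [coe_aeval_eq_eval, coe_aeval_eq_eval] at this
  rw [this]; simp

theorem sd_lin {a : K} (ha : a * σ a = 1) : SD σ (X - C a) :=
  have h0 := left_ne_zero_of_mul_eq_one ha
  ⟨monic_X_sub_C a, by simpa, by rw [du_X_sub_C a h0, ← eq_inv_of_mul_eq_one_left ha]⟩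

/-- the type has all its eigenvalues in `S` -/
def Av (S : K → Prop) (t : K[X] → ℕ) : Prop := ∀ F : K[X], (∀ ν, S ν → F.eval ν ≠ 0) → t F = 0

theorem Av.add {S : K → Prop} {s t : K[X] → ℕ} (h : Av S s) (h' : Av S t) : Av S (s + t) :=
  fun F hF => by rw [Pi.add_apply, h F hF, h' F hF]

theorem av_zero (S : K → Prop) : Av S 0 := fun _ _ => rfl

theorem av_on {S : K → Prop} {a : K} (h : S a) : Av S (on a) := fun _ hF => on_of_eval (hF a h)

theorem Av.sc {S : K → Prop} {s : K[X] → ℕ} (h : Av S s) {β : K} (hβ : ∀ ν, S ν → S (β * ν)) :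
    Av S (sc β s) := fun F hF => h _ fun ν hν => by simpa using hF _ (hβ ν hν)

theorem Av.mono {S S' : K → Prop} {s : K[X] → ℕ} (h : Av S s) (h' : ∀ ν, S ν → S' ν) : Av S' s :=
  fun F hF => h F fun ν hν => hF ν (h' ν hν)

variable (σ) in
/-- norm one -/
def N1 (a : K) : Prop := a * σ a = 1

theorem N1.mul {a b : K} (ha : N1 σ a) (hb : N1 σ b) : N1 σ (a * b) := by
  unfold N1 at *
  rw [map_mul]; linear_combination (b * σ b) * ha + hb

theorem n1_one : N1 σ 1 := by simp [N1]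

theorem N1.pow {a : K} (ha : N1 σ a) (n : ℕ) : N1 σ (a ^ n) := by
  unfold N1 at *
  rw [map_pow, ← mul_pow, ha, one_pow]

theorem N1.ne {a : K} (ha : N1 σ a) : a ≠ 0 := left_ne_zero_of_mul_eq_one ha

theorem N1.inv {a : K} (ha : N1 σ a) : N1 σ a⁻¹ := by
  unfold N1 at *
  rw [map_inv₀, ← mul_inv, ha, inv_one]

theorem N1.neg {a : K} (ha : N1 σ a) : N1 σ (-a) := by simpa [N1] using ha

theorem N1.cj {a : K} (ha : N1 σ a) : σ a = a⁻¹ := eq_inv_of_mul_eq_one_right ha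

variable (σ) in
/-- marked pair -/
def MK (s t u : K[X] → ℕ) : Prop := Pair σ s t u ∧ t + on (dt s) = u + on 1

variable (σ) in
/-- marked types -/
def MM (s : K[X] → ℕ) : Prop := ∃ t u, MK σ s t u

variable (σ) in
/-- marked types with controlled eigenvalues -/
def MA (S : K → Prop) (s : K[X] → ℕ) : Prop := ∃ t u, MK σ s t u ∧ Av S t ∧ Av S u

variable (σ) in
/-- marked types with free determinant -/
def MP (s : K[X] → ℕ) : Prop := ∀ ε, N1 σ ε → ∃ t u, MK σ s t u ∧ dt t = ε ∧ CO t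

variable (σ) in
/-- the goal -/
def FN (s : K[X] → ℕ) : Prop := dt s = 1 → ∃ t, Pair σ s t t ∧ dt t = 1 ∧ CO t

theorem MK.of {s t u : K[X] → ℕ} {δ : K} (h : Pair σ s t u) (h' : t + on δ = u + on 1) :
    dt s = δ ∧ MK σ s t u := by
  have h1 := congrArg dt h'
  rw [dt_add h.isT.2.1 (isT_on _), dt_add h.isT.2.2 (isT_on _), dt_on, dt_on, h.dt.1, mul_one,
    mul_comm] at h1
  have h2 := mul_right_cancel₀ (left_ne_zero_of_mul_eq_one h.dt.2.1) h1
  exact ⟨h2.symm, h, h2 ▸ h'⟩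

theorem MA.mm {S : K → Prop} {s : K[X] → ℕ} (h : MA σ S s) : MM σ s :=
  let ⟨t, u, h1, _⟩ := h; ⟨t, u, h1⟩

theorem MA.mono {S S' : K → Prop} {s : K[X] → ℕ} (h : MA σ S s) (h' : ∀ ν, S ν → S' ν) :
    MA σ S' s := let ⟨t, u, h1, h2, h3⟩ := h; ⟨t, u, h1, h2.mono h', h3.mono h'⟩

theorem MP.mm {s : K[X] → ℕ} (h : MP σ s) : MM σ s :=
  let ⟨t, u, h1, _⟩ := h 1 n1_one; ⟨t, u, h1⟩

theorem MP.fn {s : K[X] → ℕ} (h : MP σ s) : FN σ s := fun h1 => by
  obtain ⟨t, u, ⟨h2, h3⟩, h4, h5⟩ := h 1 n1_one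
  rw [h1] at h3
  obtain rfl := add_right_cancel h3
  exact ⟨t, h2, h4, h5⟩

variable [Finite K] [Cj σ]

theorem MK.add {s t u s' t' u' : K[X] → ℕ} (h : MK σ s t u) (h' : MK σ s' t' u') :
    MK σ (s + s') (t + sc (dt s) t') (u + sc (dt s) u') := by
  refine (MK.of (δ := dt s * dt s') (h.1.add (h'.1.sc h.1.dt.2.2)) ?_).2
  have := congrArg (sc (dt s)) h'.2
  rw [sc_add, sc_add, sc_on, sc_on, mul_one] at this
  rw [add_assoc, this, add_left_comm, h.2]; abel

theorem MM.add {s s' : K[X] → ℕ} (h : MM σ s) (h' : MM σ s') : MM σ (s + s') :=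
  let ⟨_, _, h1⟩ := h; let ⟨_, _, h2⟩ := h'; ⟨_, _, h1.add h2⟩

theorem MA.add {S : K → Prop} (hS : ∀ β ν, N1 σ β → S ν → S (β * ν)) {s s' : K[X] → ℕ}
    (h : MA σ S s) (h' : MA σ S s') : MA σ S (s + s') :=
  let ⟨_, _, h1, h2, h3⟩ := h; let ⟨_, _, k1, k2, k3⟩ := h'
  ⟨_, _, h1.add k1, h2.add (k2.sc fun ν => hS _ ν h1.1.dt.2.2),
    h3.add (k3.sc fun ν => hS _ ν h1.1.dt.2.2)⟩

theorem MP.add {s s' : K[X] → ℕ} (h : MP σ s) (h' : MM σ s') : MP σ (s + s') := fun ε hε => by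
  obtain ⟨t', u', k⟩ := h'
  obtain ⟨_, _, k0⟩ := h.mm
  have h1 : N1 σ (dt s ^ t' 0 * dt t') := (N1.pow k0.1.dt.2.2 _).mul k.1.dt.2.1
  obtain ⟨t, u, h2, h3, h4⟩ := h _ (hε.mul h1.inv)
  refine ⟨_, _, h2.add k, ?_, h4.add (k.1.isT.2.1.sc _)⟩
  rw [dt_add h2.1.isT.2.1 (k.1.isT.2.1.sc _), dt_sc k.1.isT.2.1, h3, inv_mul_cancel_right₀ h1.ne]

theorem mk_zero : MK σ 0 0 0 := ⟨pair_zero, by rw [dt_zero]⟩

theorem ma_zero (S : K → Prop) : MA σ S 0 := ⟨0, 0, mk_zero, av_zero S, av_zero S⟩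

theorem ma_on {a : K} (ha : N1 σ a) : MA σ (N1 σ) (on a) :=
  ⟨_, _, (MK.of (δ := a) (pair_on ha n1_one) (by rw [mul_one, add_comm])).2, av_on n1_one,
    av_on (ha.mul n1_one)⟩

theorem ma_add {s s' : K[X] → ℕ} (h : MA σ (N1 σ) s) (h' : MA σ (N1 σ) s') :
    MA σ (N1 σ) (s + s') := h.add (fun _ _ => N1.mul) h'

theorem mp_one : MP σ (on 1) := fun ε hε =>
  ⟨_, _, (MK.of (δ := 1) (pair_on n1_one hε) (by rw [one_mul])).2, dt_on _, co_on _⟩

theorem Un.on {s : K[X] → ℕ} (h : Un σ s) (h1 : s 0 = 1) : ∃ μ, N1 σ μ ∧ s = on μ := by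
  obtain ⟨n, g, h2, rfl⟩ := h
  rw [kerDim_zero] at h1
  obtain ⟨a, ha⟩ := exists_smul_one h1 (Matrix.toLin' g)
  have := (Pair.of_abs hm_sf ((iso_iff _).2 h2) (b := 1) fun _ _ => rfl).dt.2.2
  rw [ha, kd_smul_one h1] at this ⊢
  exact ⟨a, dt_on a ▸ this, rfl⟩

theorem St.core {s lt w τ t u : K[X] → ℕ} {F : K[X]} {δ : K} (h : St σ s lt w)
    (hG : GLP lt τ F) (hc : IsCoprime F (du σ F)) (hp : Pair σ w t u) (hd : t + on δ = u + on 1)
    (t1 : t F = 0) (t2 : t (du σ F) = 0) (u1 : u F = 0) (u2 : u (du σ F) = 0) :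
    dt s = δ ∧ ∃ t' u', MK σ s t' u' ∧ dt t' * σ (dt τ) = dt τ * dt t ∧ (CO τ ∨ CO t → CO t') := by
  obtain ⟨z, h1, h2, h3⟩ := h.siegel hG hc hp t1 t2 u1 u2
  have := MK.of (δ := δ) h3 (by
    rw [add_assoc τ, add_assoc τ, add_right_comm t, add_right_comm u, hd])
  refine ⟨this.1, _, _, this.2, ?_, fun h => h.elim (fun h => h.add (hp.isT.2.1.add h1))
    fun h => (h.add h1).add' hG.isT⟩
  rw [dt_add hG.isT (hp.isT.2.1.add h1), dt_add hp.isT.2.1 h1]
  linear_combination dt τ * dt t * h2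

variable (σ) in
/-- a commutator with fixed-point-free action -/
def GG (lt : K[X] → ℕ) : Prop := ∃ τ F, GLP lt τ F ∧ IsCoprime F (du σ F)

variable (σ) in
/-- the same with free determinant -/
def GF (S : K → Prop) (lt : K[X] → ℕ) : Prop := ∀ ε, N1 σ ε → ∃ τ F, GLP lt τ F ∧
  IsCoprime F (du σ F) ∧ (∀ ν, S ν → F.eval ν ≠ 0 ∧ (du σ F).eval ν ≠ 0) ∧
  dt τ = ε * σ (dt τ) ∧ CO τ

omit [Finite K] [Cj σ] in
theorem GF.gg {S : K → Prop} {lt : K[X] → ℕ} (h : GF σ S lt) : GG σ lt :=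
  let ⟨τ, F, h1, h2, _⟩ := h 1 n1_one; ⟨τ, F, h1, h2⟩

theorem St.mm {s lt w : K[X] → ℕ} (h : St σ s lt w) (hG : GG σ lt) (hw : MA σ (N1 σ) w) :
    dt s = dt w ∧ MM σ s := by
  obtain ⟨τ, F, h1, h2⟩ := hG
  obtain ⟨t, u, k1, k2, k3⟩ := hw
  have e1 := fun ν (hν : N1 σ ν) => (eval_ne_of_coprime h2 hν).1
  have e2 := fun ν (hν : N1 σ ν) => (eval_ne_of_coprime h2 hν).2
  obtain ⟨a, t', u', b, -⟩ := h.core h1 h2 k1.1 k1.2 (k2 _ e1) (k2 _ e2) (k3 _ e1) (k3 _ e2)
  exact ⟨a, t', u', b⟩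

theorem St.mp {S : K → Prop} {s lt w : K[X] → ℕ} (h : St σ s lt w) (hG : GF σ S lt)
    (hw : MA σ S w) : MP σ s := fun ε hε => by
  obtain ⟨t, u, k1, k2, k3⟩ := hw
  have h0 : N1 σ (dt t) := k1.1.dt.2.1
  obtain ⟨τ, F, h1, h2, h3, h4, h5⟩ := hG _ (hε.mul h0.inv)
  have e1 := fun ν hν => (h3 ν hν).1
  have e2 := fun ν hν => (h3 ν hν).2
  obtain ⟨-, t', u', a, b, c⟩ := h.core h1 h2 k1.1 k1.2 (k2 _ e1) (k2 _ e2) (k3 _ e1) (k3 _ e2)
  refine ⟨t', u', a, mul_right_cancel₀ (b := σ (dt τ)) (by simpa using h1.ne) ?_, c (Or.inl h5)⟩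
  rw [b]
  nth_rewrite 1 [h4]
  have := h0.ne
  field_simp

/-- freedom from an eigenvalue one in the middle term -/
theorem St.mp_one {s lt w : K[X] → ℕ} (h : St σ s lt (on 1 + w)) (hG : GG σ lt)
    (hw : MA σ (N1 σ) w) : MP σ s := fun ε hε => by
  obtain ⟨τ, F, h1, h2⟩ := hG
  obtain ⟨t, u, k1, k2, k3⟩ := hw
  have e1 := fun ν (hν : N1 σ ν) => (eval_ne_of_coprime h2 hν).1
  have e2 := fun ν (hν : N1 σ ν) => (eval_ne_of_coprime h2 hν).2
  have h0 : N1 σ (dt t) := k1.1.dt.2.1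
  have h3 := h1.ne
  have h3' : σ (dt τ) ≠ 0 := by simpa
  have h4 : N1 σ (ε * (dt t)⁻¹ * (σ (dt τ) / dt τ)) := (hε.mul h0.inv).mul (by
    simp only [N1, map_div₀, cj_cj]; field_simp)
  have k4 := (av_on h4).add k2
  have k5 := (av_on h4).add k3
  obtain ⟨-, t', u', a, b, c⟩ := h.core (δ := dt w) h1 h2 ((pair_on n1_one h4).add k1.1) (by
    rw [add_assoc, k1.2, one_mul, add_assoc]) (k4 _ e1) (k4 _ e2) (by rw [one_mul]; exact k5 _ e1)
    (by rw [one_mul]; exact k5 _ e2)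
  refine ⟨t', u', a, mul_right_cancel₀ h3' ?_, c (Or.inr ((co_on _).add k1.1.isT.2.1))⟩
  rw [b, dt_add (isT_on _) k1.1.isT.2.1, dt_on]
  have := h0.ne
  field_simp

end H37.Ore.SU
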