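import Mathlib
import Cfsg.Agent.Base
import Cfsg.Agent.Lib.Ore.SuE

/-! Blocks of unitary elements and small marked types. -/

set_option autoImplicit false

namespace H37.Ore.SU

open Module Polynomial H65 H64.Sour H66 H64.Wall

universe u
variable {K : Type u} [Field K] {σ : K →+* K}

/-- indecomposable unitary blocks -/
structure Blk (σ : K →+* K) (f : K[X]) : Prop where
  sd : SD σ f
  pos : 0 < f.natDegree
  root : ∀ ρ, N1 σ ρ → f.eval ρ = 0 → f = (X - C ρ) ^ f.natDegree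

/-- the type of a family of cyclic blocks -/
noncomputable def ty (L : Multiset K[X]) : K[X] → ℕ := (L.map cy).sum

@[simp] theorem ty_zero : ty (0 : Multiset K[X]) = 0 := rfl

@[simp] theorem ty_cons (f : K[X]) (L : Multiset K[X]) : ty (f ::ₘ L) = cy f + ty L := by
  simp [ty]

@[simp] theorem ty_add (L L' : Multiset K[X]) : ty (L + L') = ty L + ty L' := by simp [ty]

theorem ty_dim (L : Multiset K[X]) : ty L 0 = (L.map natDegree).sum := by
  induction L using Multiset.induction_on with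
  | empty => rfl
  | cons f L ih => simp [ih, cy_zero]

theorem eq_lin {p : K[X]} (h1 : Irreducible p) (h2 : p.Monic) {ρ : K} (h : p.eval ρ = 0) :
    p = X - C ρ :=
  (eq_of_monic_of_associated (monic_X_sub_C ρ) h2 ((irreducible_X_sub_C ρ).associated_of_dvd h1
    (dvd_iff_isRoot.2 h))).symm

theorem dec_aux [Cj σ] {k : ℕ} (hk : 0 < k) (P : Multiset K[X])
    (h1 : ∀ p ∈ P, Irreducible p ∧ p.Monic ∧ p.coeff 0 ≠ 0) (h2 : P.map (du σ) = P) :
    ∃ L : Multiset K[X], (∀ f ∈ L, Blk σ f) ∧ (P.map fun p => cy (p ^ k)).sum = ty L := by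
  classical
  induction P using Multiset.strongInductionOn with
  | ih P ih =>
  rcases P.empty_or_exists_mem with rfl | ⟨p, hp⟩
  · exact ⟨0, by simp, rfl⟩
  obtain ⟨a1, a2, a3⟩ := h1 p hp
  obtain ⟨P, rfl⟩ := Multiset.exists_cons_of_mem hp
  by_cases h : du σ p = p
  · rw [Multiset.map_cons, h, Multiset.cons_inj_right] at h2
    obtain ⟨L, k1, k2⟩ := ih P (Multiset.lt_cons_self _ _)
      (fun r hr => h1 r (Multiset.mem_cons_of_mem hr)) h2
    refine ⟨p ^ k ::ₘ L, Multiset.forall_mem_cons.2 ⟨⟨SD.pow ⟨a2, a3, h⟩ k, ?_, fun ρ _ h3 => ?_⟩,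
      k1⟩, by simp [k2]⟩
    · rw [natDegree_pow]; exact Nat.mul_pos hk a1.natDegree_pos
    · rw [eval_pow] at h3
      rw [eq_lin a1 a2 (pow_eq_zero_iff hk.ne' |>.1 h3)]
      simp
  · have h3 : du σ p ∈ P := (Multiset.mem_cons.1 (h2 ▸ Multiset.mem_map_of_mem _ hp)).resolve_left h
    obtain ⟨P, rfl⟩ := Multiset.exists_cons_of_mem h3
    rw [Multiset.map_cons, Multiset.map_cons, du_du Cj.inv a2 a3, Multiset.cons_swap,
      Multiset.cons_inj_right, Multiset.cons_inj_right] at h2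
    obtain ⟨L, k1, k2⟩ := ih P ((Multiset.lt_cons_self _ _).trans (Multiset.lt_cons_self _ _))
      (fun r hr => h1 r (Multiset.mem_cons_of_mem (Multiset.mem_cons_of_mem hr))) h2
    have b1 := du_irreducible (σ := σ) Cj.inv a1 a2 a3
    have b2 := du_monic (σ := σ) a3
    refine ⟨(p * du σ p) ^ k ::ₘ L, Multiset.forall_mem_cons.2 ⟨⟨SD.pow ⟨a2.mul b2, ?_, ?_⟩ k, ?_,
      fun ρ hρ h3 => absurd ?_ h⟩, k1⟩, ?_⟩
    · rw [mul_coeff_zero]; exact mul_ne_zero a3 (du_ne a2 a3)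
    · rw [map_mul, du_du Cj.inv a2 a3, mul_comm]
    · rw [natDegree_pow, a2.natDegree_mul b2]
      exact Nat.mul_pos hk (Nat.add_pos_left a1.natDegree_pos _)
    · rw [eval_pow, pow_eq_zero_iff hk.ne', eval_mul, mul_eq_zero] at h3
      rcases h3 with h3 | h3
      · rw [eq_lin a1 a2 h3, (sd_lin hρ).du]
      · have := du_du (σ := σ) Cj.inv a2 a3
        rw [eq_lin b1 b2 h3, (sd_lin hρ).du] at this
        rw [← this, (sd_lin hρ).du]
    · rw [ty_cons, mul_pow, cy_mul (a2.pow k) (b2.pow k)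
        (isCoprime_of_monic_irreducible_ne a1 a2 b1 b2 (Ne.symm h)).pow, ← k2]
      simp [add_assoc]

theorem Un.dec [Finite K] [Cj σ] {s : K[X] → ℕ} (h : Un σ s) :
    ∃ L : Multiset K[X], (∀ f ∈ L, Blk σ f) ∧ s = ty L := by
  classical
  obtain ⟨n, g, h1, rfl⟩ := h
  obtain ⟨u, hu⟩ := H64.CN.exists_has (Matrix.toLin' g)
  have hd := du_eq_of_pres Cj.inv isUnit_one (by rw [mul_one, h1]) hu
  have hUu : IsUnit (Matrix.toLin' g) :=
    (IsUnit.of_mul_eq_one_right _ h1).map (Matrix.toLinAlgEquiv' (R := K) (n := Fin n))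
  have h2 := (hu.isD ((LinearMap.isUnit_iff_isUnit_det _).1 hUu).ne_zero).ne
  obtain ⟨t, p, e, hp, hm, he, hs, hu⟩ := hu
  have h0 : ∀ i, (p i).coeff 0 ≠ 0 := fun i h3 => h2 (e i) (by
    rw [hu, ← X_dvd_iff]
    exact (X_dvd_iff.2 h3).trans (Finset.dvd_prod_of_mem _ (by simp)))
  have h3 : kerDim (Matrix.toLin' g) = ∑ k ∈ Finset.univ.image e, ∑ i with e i = k, cy (p i ^ k) := by
    rw [kd_sim hs, Finset.sum_congr rfl fun k _ => Finset.sum_congr rfl fun i hi =>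
      congrArg (fun k => cy (p i ^ k)) (Finset.mem_filter.1 hi).2.symm,
      Finset.sum_fiberwise_of_maps_to fun i _ => Finset.mem_image_of_mem e (Finset.mem_univ i)]
    funext r
    rw [kerDim_model _ fun i => pow_ne_zero _ (hp i).ne_zero, Finset.sum_apply]
    rfl
  rw [h3]
  refine Finset.sum_induction _ (fun s => ∃ L : Multiset K[X], (∀ f ∈ L, Blk σ f) ∧ s = ty L)
    (fun a b ⟨L, a1, a2⟩ ⟨L', b1, b2⟩ => ⟨L + L', fun f hf => (Multiset.mem_add.1 hf).elim (a1 f)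
      (b1 f), by rw [a2, b2, ty_add]⟩) ⟨0, by simp, rfl⟩ fun k hk => ?_
  obtain ⟨i, -, rfl⟩ := Finset.mem_image.1 hk
  have key : ∀ P : Multiset K[X], (∀ r ∈ P, Irreducible r ∧ r.Monic) →
      UniqueFactorizationMonoid.normalizedFactors P.prod = P := fun P hP => by
    rw [UniqueFactorizationMonoid.normalizedFactors_prod_eq _ fun r hr => (hP r hr).1,
      Multiset.map_congr rfl fun r hr => (hP r hr).2.normalize_eq_self, Multiset.map_id']
  have h4 : ∀ r ∈ (Finset.univ.filter fun j => e j = e i).val.map p,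
      Irreducible r ∧ r.Monic ∧ r.coeff 0 ≠ 0 := fun r hr => by
    obtain ⟨j, -, rfl⟩ := Multiset.mem_map.1 hr
    exact ⟨hp j, hm j, h0 j⟩
  obtain ⟨L, a1, a2⟩ := dec_aux (σ := σ) (he i) _ h4 (by
    rw [← key (Multiset.map (du σ) _) fun r hr => ?_, ← map_multiset_prod]
    · have := hd (e i)
      rw [hu] at this
      exact (congrArg _ this).trans (key _ fun r hr => ⟨(h4 r hr).1, (h4 r hr).2.1⟩)
    · obtain ⟨r', hr', rfl⟩ := Multiset.mem_map.1 hr
      obtain ⟨a, b, c⟩ := h4 r' hr'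
      exact ⟨du_irreducible Cj.inv a b c, du_monic c⟩)
  exact ⟨L, a1, by rw [← a2, Multiset.map_map]; rfl⟩

theorem SD.lin {f : K[X]} (h : SD σ f) (h1 : f.natDegree = 1) : ∃ a, N1 σ a ∧ f = X - C a :=
  ⟨-f.coeff 0, N1.neg h.nrm, by rw [C_neg, sub_neg_eq_add]; exact h.monic.eq_X_add_C h1⟩

theorem SD.coeff {f : K[X]} (h : SD σ f) {i : ℕ} (hi : i ≤ f.natDegree) :
    f.coeff i = f.coeff 0 * σ (f.coeff (f.natDegree - i)) := by
  conv_lhs => rw [← h.du, du_coeff, revAt_le hi, ← eq_inv_of_mul_eq_one_left h.nrm]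

theorem eq_quad {f : K[X]} (h : f.Monic) (h2 : f.natDegree = 2) :
    f = X ^ 2 - C (-f.coeff 1) * X + C (f.coeff 0) := by
  conv_lhs => rw [h.as_sum, h2]
  simp [Finset.sum_range_succ]; ring

theorem quad_eq (a b : K) : (X - C a) * (X - C b) = X ^ 2 - C (a + b) * X + C (a * b) := by
  simp only [C_add, C_mul]; ring

theorem cy_lin2 {a b : K} (h : a ≠ b) : cy ((X - C a) * (X - C b)) = on a + on b :=
  cy_mul (monic_X_sub_C a) (monic_X_sub_C b) (isCoprime_X_sub_C_of_isUnit_sub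
    (sub_ne_zero.2 h).isUnit)

theorem kd_m2 (a b : K) {c : K} (d : K) (hc : c ≠ 0) :
    kerDim (m2 K a b c d) = cy (X ^ 2 - C (a + d) * X + C (a * d - b * c)) := by
  refine kd_cyc (v := (1, 0)) (monic_quad _ _) (by rw [m2_quad]; simp) (fun p h1 h2 => ?_)
    (by rw [natDegree_quad]; simp)
  refine Submodule.eq_top_iff'.2 fun v => ?_
  have := p.add_mem (p.smul_mem (v.1 - v.2 / c * a) h1) (p.smul_mem (v.2 / c) (h2 _ h1))
  simpa [m2_apply, hc] using this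

theorem kd_diag (a d : K) : kerDim (m2 K a 0 0 d) = on a + on d := by
  rw [← kd_smul_one (V := K) (by simp), ← kd_smul_one (V := K) (by simp), ← kd_prodMap]
  congr 1
  exact LinearMap.ext fun v => by simp [m2_apply]

theorem m2_mul (a b c d a' b' c' d' : K) : m2 K a b c d * m2 K a' b' c' d' =
    m2 K (a * a' + b * c') (a * b' + b * d') (c * a' + d * c') (c * b' + d * d') :=
  LinearMap.ext fun v => by
    simp only [End.mul_apply, m2_apply, Prod.mk.injEq]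
    constructor <;> ring

variable (σ) in
/-- the standard form on a plane -/
def h2 : (K × K) →ₗ[K] (K × K) →ₛₗ[σ] K := LinearMap.mk₂'ₛₗ (RingHom.id K) σ
  (fun x y => x.1 * σ y.1 + x.2 * σ y.2) (fun _ _ _ => by simp; ring) (fun _ _ _ => by simp; ring)
  (fun _ _ _ => by simp; ring) (fun _ _ _ => by simp; ring)

theorem h2_apply (x y : K × K) : h2 σ x y = x.1 * σ y.1 + x.2 * σ y.2 := rfl

theorem kd_scalar {V : Type*} [AddCommGroup V] [Module K V] (γ : K) :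
    kerDim (γ • 1 : End K V) = finrank K V • on γ := by
  have key : ∀ (W : Type _) [AddCommGroup W] [Module K W] (p : K[X]),
      aeval (γ • 1 : End K W) p = p.eval γ • 1 := fun W _ _ p => by
    rw [← Algebra.algebraMap_eq_smul_one, aeval_algebraMap_apply, coe_aeval_eq_eval,
      Algebra.algebraMap_eq_smul_one]
  funext p
  rw [Pi.smul_apply, kerDim, key]
  by_cases h : p.eval γ = 0
  · rw [on, cy, kerDim_cyc_of_dvd' (X_sub_C_ne_zero γ) (dvd_iff_isRoot.2 h), h, zero_smul,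
      LinearMap.ker_zero, finrank_top]
    simp
  · rw [on_of_eval h, LinearMap.ker_smul _ _ h, End.one_eq_id, LinearMap.ker_id, finrank_bot]
    simp

theorem sd_X_pow {n : ℕ} (hn : n ≠ 0) {c : K} (hc : N1 σ c) : SD σ (X ^ n - C c) := by
  have h0 : (X ^ n - C c).coeff 0 = -c := by simp [coeff_X_pow, hn.symm]
  refine ⟨monic_X_pow_sub_C c hn, by simpa [h0] using hc.ne, ?_⟩
  rw [du_apply, h0, Polynomial.map_sub, Polynomial.map_pow, map_X, map_C, reverse,
    natDegree_X_pow_sub_C, reflect_sub, reflect_monomial, reflect_C, revAt_le le_rfl, Nat.sub_self,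
    map_neg, hc.cj, mul_sub, ← mul_assoc, ← C_mul]
  simp [hc.ne]
  ring

variable [Cj σ]

theorem hm_h2 : Hm (h2 σ) :=
  ⟨fun x y => by simp [h2_apply, mul_comm], fun x hx => Prod.ext
    (by simpa [h2_apply] using hx (1, 0)) (by simpa [h2_apply] using hx (0, 1))⟩

theorem iso_m2 {a b c d : K} (k1 : a * σ a + c * σ c = 1) (k2 : b * σ b + d * σ d = 1)
    (k3 : a * σ b + c * σ d = 0) : Iso (h2 σ) (m2 K a b c d) := fun x y => by
  have k4 := congrArg σ k3
  simp only [map_add, map_mul, cj_cj, map_zero] at k4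
  simp only [h2_apply, m2_apply, map_add, map_mul]
  linear_combination x.1 * σ y.1 * k1 + x.2 * σ y.2 * k2 + x.1 * σ y.2 * k3 + x.2 * σ y.1 * k4

variable [Finite K]

theorem ma_two {f : K[X]} (hf : SD σ f) (h2 : f.natDegree = 2) {ν : K} (hν : N1 σ ν) (n1 : ν ≠ 1)
    (n2 : ν ≠ f.coeff 0) (e1 : f.eval 1 ≠ 0) (e2 : f.eval ν ≠ 0) : MA σ (N1 σ) (cy f) := by
  have h3 := hf.coeff (i := 1) (by omega)
  have h4 : N1 σ (f.coeff 0) := hf.nrm
  rw [h2] at h3
  rw [eq_quad hf.monic h2] at e1 e2 ⊢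
  simp only [eval_add, eval_sub, eval_mul, eval_pow, eval_X, eval_C] at e1 e2
  generalize f.coeff 0 = δ at *
  generalize f.coeff (2 - 1) = T at *
  have a1 := hν.ne
  have a2 := h4.ne
  have a3 := sub_ne_zero.2 n1
  have a4 := sub_ne_zero.2 n2.symm
  have a5 : σ T = T / δ := by rw [eq_div_iff a2, mul_comm, ← h3]
  obtain ⟨s, hs⟩ : ∃ s, s = -(ν ^ 2 + T * ν + δ) / ((δ - ν) * (ν - 1)) := ⟨_, rfl⟩
  have s1 : σ s = s := by
    have b3 : 1 - ν ≠ 0 := sub_ne_zero.2 n1.symm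
    have b4 : ν - δ ≠ 0 := sub_ne_zero.2 n2
    simp only [hs, map_div₀, map_neg, map_add, map_mul, map_sub, map_pow, map_one, hν.cj, h4.cj, a5]
    field_simp
    ring
  have s2 : s * (1 - s) ≠ 0 := by
    refine mul_ne_zero ?_ ?_
    · rw [hs]
      exact div_ne_zero (neg_ne_zero.2 fun h => e2 (by linear_combination h)) (mul_ne_zero a4 a3)
    · have : 1 - s = ν * (1 + T + δ) / ((δ - ν) * (ν - 1)) := by rw [hs]; field_simp; ring
      rw [this]
      exact div_ne_zero (mul_ne_zero a1 fun h => e1 (by linear_combination h)) (mul_ne_zero a4 a3)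
  obtain ⟨z, hz⟩ := exists_nrm (σ := σ) (a := s * (1 - s)) (by simp [s1])
  have z1 : (δ - ν) * σ z ≠ 0 := mul_ne_zero a4 (right_ne_zero_of_mul (hz ▸ s2))
  have hν' : ν * σ ν = 1 := hν
  have h4' : δ * σ δ = 1 := h4
  have i1 : Iso (SU.h2 σ) (m2 K (ν + (δ - ν) * s) ((δ - ν) * z) ((δ - ν) * σ z)
      (ν + (δ - ν) * (1 - s))) := by
    refine iso_m2 ?_ ?_ ?_ <;> simp only [map_add, map_mul, map_sub, map_one, cj_cj, s1]
    · linear_combination (δ - ν) * (σ δ - σ ν) * hz + (1 - s) * hν' + s * h4'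
    · linear_combination (δ - ν) * (σ δ - σ ν) * hz + s * hν' + (1 - s) * h4'
    · linear_combination σ z * h4' - σ z * hν'
  have i2 : Iso (SU.h2 σ) (m2 K 1 0 0 ν) := iso_m2 (by simp) (by simpa) (by simp)
  have i3 : Iso (SU.h2 σ) (m2 K 1 0 0 (σ ν)) := iso_m2 (by simp) (by simpa [mul_comm]) (by simp)
  have := Pair.of_abs hm_h2 (i1.mul i3) i2
  rw [mul_assoc, m2_mul 1, m2_mul, m2_mul, kd_diag, kd_m2 _ _ _ (by simpa using z1),
    kd_m2 _ _ _ (by simpa using z1)] at this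
  refine ⟨_, on δ + on ν, (MK.of (δ := δ) ?_ (by abel)).2, (av_on n1_one).add (av_on hν),
    (av_on h4).add (av_on hν)⟩
  rw [← cy_lin2 n2.symm, quad_eq]
  have c1 : ∀ {a b a' b' : K}, a = a' → b = b' →
      cy (X ^ 2 - C a * X + C b) = cy (X ^ 2 - C a' * X + C b') := fun h h' => by rw [h, h']
  convert this using 1 <;> refine c1 ?_ ?_
  · rw [hν.cj, hs]; field_simp; ring
  · linear_combination (δ - ν) ^ 2 * σ ν * hz - δ * hν'
  · linear_combination -(ν + (δ - ν) * (1 - s)) * hν'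
  · linear_combination ((δ - ν) ^ 2 * σ ν * ν) * hz - δ * ν * hν'

theorem pair_mono {a b c : K} (ha : N1 σ a) (hb : N1 σ b) (hc : N1 σ c) (h : a * b = 1) :
    Pair σ (on a + on b) (cy (X ^ 2 - C c)) (cy (X ^ 2 - C c)) := by
  have := Pair.of_abs hm_h2 (iso_m2 (σ := σ) (a := a) (b := 0) (c := 0) (d := b) (by simpa)
    (by simpa) (by simp)) (iso_m2 (σ := σ) (a := 0) (b := c) (c := 1) (d := 0) (by simp)
    (by simpa) (by simp))
  rw [m2_mul, kd_diag, kd_m2 _ _ _ one_ne_zero, kd_m2 _ _ _ (by simpa using hb.ne)] at this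
  simpa [sub_eq_add_neg, mul_right_comm a c, h] using this

theorem SD.un {f : K[X]} (hf : SD σ f) (h0 : 0 < f.natDegree) : Un σ (cy f) := by
  rcases Nat.lt_or_ge 1 f.natDegree with h | h
  swap
  · obtain ⟨a, ha, rfl⟩ := hf.lin (by omega)
    exact (pair_on ha ha).un
  have := hf.monic.finite_adjoinRoot
  have : Finite (AdjoinRoot f) := Module.finite_of_finite K
  obtain ⟨bar, b1, b2, b3, -, b5⟩ := hf.exists_bar h
  set t := AdjoinRoot.root f with ht
  obtain ⟨a, ha⟩ := Cj.ne (σ := σ)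
  obtain ⟨y₀, y0, y1⟩ := exists_hilbert90_of_comm bar b2 (a • 1) (by
    rw [b3, map_one, ← sub_smul, ← Algebra.algebraMap_eq_smul_one]
    exact (sub_ne_zero.2 ha.symm).isUnit.map _) ((-f.coeff 0) • t ^ (f.natDegree - 2)) (by
    rw [b3, map_pow, smul_mul_smul_comm, ← mul_pow, b1, map_neg, neg_mul_neg, hf.nrm]; simp)
  let B : AdjoinRoot f →ₗ[K] AdjoinRoot f →ₛₗ[σ] K := LinearMap.mk₂'ₛₗ (RingHom.id K) σ
    (fun x y => lam hf.monic (y₀ * x * bar y)) (fun _ _ _ => by simp [mul_add, add_mul])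
    (fun _ _ _ => by simp) (fun _ _ _ => by simp [mul_add]) (fun _ _ _ => by simp [b3])
  have hB : ∀ x y, B x y = lam hf.monic (y₀ * x * bar y) := fun _ _ => rfl
  refine (Pair.of_abs (B := B) ⟨fun x y => ?_, fun x hx => ?_⟩ (fun x y => ?_) (b := 1)
    fun _ _ => rfl).un
  · rw [hB, hB, ← b2 (y₀ * x * bar y), b5, ← smul_eq_mul (-f.coeff 0), ← map_smul (lam _),
      map_mul bar, map_mul bar, b2]
    conv_lhs => rw [← y1]
    congr 1
    simp only [smul_mul_assoc]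
    congr 1; ring
  · exact y0.mul_right_eq_zero.1 (lam_nd hf.monic h0 (y₀ * x) fun w => by rw [← b2 w]; exact hx _)
  · rw [hB, hB, cyc_apply, cyc_apply, map_mul bar]
    congr 1
    linear_combination y₀ * x * bar y * b1

theorem mp_scalar {γ : K} (hγ : N1 σ γ) {n : ℕ} (hn : (n : K) ≠ 0) (h : γ ^ n = 1) :
    MP σ (n • on γ) := fun ε hε => by
  have h0 : n ≠ 0 := by rintro rfl; simp at hn
  have hc : N1 σ (-((-1) ^ n * ε)) := ((n1_one.neg.pow n).mul hε).neg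
  set c := -((-1) ^ n * ε) with hc'
  have h1 := sd_X_pow h0 hc
  have := h1.monic.finite_adjoinRoot
  obtain ⟨m, b, k1, k2⟩ := h1.un (by rw [natDegree_X_pow_sub_C]; omega)
  have k3 := Pair.of_abs hm_sf (Iso.smul (g := 1) (fun _ _ => rfl) hγ) ((iso_iff _).2 k1)
  have k4 : sc γ (cy (X ^ n - C c)) = cy (X ^ n - C c) := by
    rw [cy, ← kd_smul]
    refine kd_cyc (v := 1) h1.monic ?_ (fun p p1 p2 => cyc_cyc _ p p1 fun v hv => ?_)
      (finrank_adjoinRoot _).symm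
    · have := aeval_cyc_apply (X ^ n - C c) (X ^ n - C c) 1
      rw [AdjoinRoot.mk_self, zero_mul] at this
      simpa [_root_.smul_pow, h] using this
    · simpa [hγ.ne] using p.smul_mem γ⁻¹ (p2 v hv)
  have k5 := congrFun k2 0
  rw [kerDim_zero, cy_zero, natDegree_X_pow_sub_C] at k5
  rw [smul_mul_assoc, one_mul, kd_smul γ (Matrix.toLin' b), k2, k4, kd_scalar, k5] at k3
  refine ⟨_, _, (MK.of k3 rfl).2, ?_, co_sq h1.monic (separable_X_pow_sub_C c hn hc.ne).squarefree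
    (by rw [natDegree_X_pow_sub_C]; omega)⟩
  rw [dt_cy h1.monic, natDegree_X_pow_sub_C, coeff_sub, coeff_X_pow, if_neg h0.symm, coeff_C_zero,
    hc']
  simp [← mul_assoc, ← mul_pow]

omit [Finite K] [Cj σ] in
theorem cop_lin {x : K} (h0 : x ≠ 0) (h1 : x * σ x ≠ 1) : IsCoprime (X - C x) (du σ (X - C x)) := by
  rw [du_X_sub_C x h0]
  exact isCoprime_X_sub_C_of_isUnit_sub (sub_ne_zero.2 fun h => h1 (by
    rw [← mul_inv_cancel₀ (show σ x ≠ 0 by simpa), ← h, mul_comm])).isUnit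

theorem St.fn_four {s : K[X] → ℕ} {μ γ x : K} (h : St σ s (on 1) (on μ + on γ)) (hμ : N1 σ μ)
    (hγ : N1 σ γ) (h0 : x ≠ 0) (h1 : x * σ x ≠ 1) (h3 : x ^ 3 ≠ -σ x) : FN σ s := fun hs => by
  have k1 := (h.mm ⟨_, _, glp_one h0, cop_lin h0 h1⟩ (ma_add (ma_on hμ) (ma_on hγ))).1
  rw [hs, dt_add (isT_on _) (isT_on _), dt_on, dt_on] at k1
  have h0' : σ x ≠ 0 := by simpa
  have hc : N1 σ (-(σ x / x)) := N1.neg (by simp only [N1, map_div₀, cj_cj]; field_simp)
  have h2 := sd_X_pow two_ne_zero hc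
  have e : ∀ y, y ^ 2 ≠ -(σ x / x) → cy (X ^ 2 - C (-(σ x / x))) (X - C y) = 0 := fun y hy =>
    cy_coprime h2.monic ((irreducible_X_sub_C y).coprime_iff_not_dvd.2 fun h =>
      hy (by
        have := dvd_iff_isRoot.1 h
        rwa [IsRoot, eval_sub, eval_pow, eval_X, eval_C, sub_eq_zero] at this)).symm
  have e1 := e x fun h => h3 (by field_simp at h; linear_combination h)
  have e2 := e (σ x)⁻¹ fun h => h3 (by
    have := congrArg σ h
    simp only [map_pow, map_inv₀, map_neg, map_div₀, cj_cj] at this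
    field_simp at this
    linear_combination this)
  rw [← du_X_sub_C x h0] at e2
  obtain ⟨-, t, u, ⟨a, b⟩, c, d⟩ := h.core (glp_one h0) (cop_lin h0 h1) (pair_mono hμ hγ hc k1.symm)
    rfl e1 e2 e1 e2
  rw [hs] at b
  obtain rfl := add_right_cancel b
  refine ⟨t, a, mul_right_cancel₀ h0' ?_, d (Or.inl (co_on _))⟩
  rw [dt_on, dt_cy h2.monic, natDegree_X_pow_sub_C] at c
  rw [c]
  simp [coeff_X_pow]
  field_simp

omit [Finite K] in
theorem gf_add {lt lt' τ' : K[X] → ℕ} {F' : K[X]} (h' : GLP lt' τ' F')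
    (h : ∀ ε, N1 σ ε → ∃ τ F, GLP lt τ F ∧ IsCoprime (F * F') (du σ (F * F')) ∧
      dt τ = ε * σ (dt τ) ∧ CO τ) : GF σ (N1 σ) (lt + lt') := fun ε hε => by
  have h0 := h'.ne
  have h0' : σ (dt τ') ≠ 0 := by simpa
  obtain ⟨τ, F, h1, h2, h3, h4⟩ := h (ε * (σ (dt τ') / dt τ')) (hε.mul (by
    simp only [N1, map_div₀, cj_cj]; field_simp))
  refine ⟨_, _, h1.add h', h2, fun ν hν => eval_ne_of_coprime h2 hν, ?_, h4.add h'.isT⟩
  rw [dt_add h1.isT h'.isT, map_mul]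
  nth_rewrite 1 [h3]
  field_simp

variable (σ) in
/-- irreducible quadratics of free norm -/
def HP : Prop := ∀ ε, N1 σ ε → ∃ T N : K, N ≠ 0 ∧ N = ε * σ N ∧
  Irreducible (X ^ 2 - C T * X + C N) ∧ du σ (X ^ 2 - C T * X + C N) ≠ X ^ 2 - C T * X + C N

omit [Finite K] [Cj σ] in
theorem dt_quad (T N : K) : dt (cy (X ^ 2 - C T * X + C N)) = N := by
  rw [dt_cy (monic_quad T N), natDegree_quad]; simp

omit [Finite K] [Cj σ] in
theorem eval_ne_of_irr {p : K[X]} (h1 : Irreducible p) (h2 : 1 < p.natDegree) (ν : K) :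
    p.eval ν ≠ 0 := fun h => by
  have := degree_eq_one_of_irreducible_of_root h1 h
  rw [natDegree_eq_of_degree_eq_some this] at h2
  exact lt_irrefl _ h2

omit [Finite K] in
theorem HP.gf (h : HP σ) {e : K} (he : e ≠ 0) (h1 : e = 1 ∨ e ≠ e⁻¹) (S : K → Prop) :
    GF σ S (on e + on e⁻¹) := fun ε hε => by
  obtain ⟨T, N, a1, a2, a3, a4⟩ := h ε hε
  have a5 : (X ^ 2 - C T * X + C N).coeff 0 ≠ 0 := by simpa
  have a6 := du_irreducible (σ := σ) Cj.inv a3 (monic_quad T N) a5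
  exact ⟨_, _, glp_pair T he h1 a1, isCoprime_of_monic_irreducible_ne a3 (monic_quad T N) a6
    (du_monic a5) a4.symm, fun ν _ => ⟨eval_ne_of_irr a3 (by rw [natDegree_quad]; simp) ν,
      eval_ne_of_irr a6 (by rw [du_natDegree a5, natDegree_quad]; simp) ν⟩,
    by rw [dt_quad, ← a2], co_cy a3 (monic_quad T N)⟩

/-- a free unit -/
def FU (σ : K →+* K) (s : K[X] → ℕ) : Prop := ∀ d : K, d ≠ 0 → ∃ μ, N1 σ μ ∧ St σ s (on d) (on μ)

/-- a fixed unit -/
def XU (σ : K →+* K) (s : K[X] → ℕ) : Prop := ∃ d : K, d ≠ 0 ∧ (d = 1 ∨ d ≠ d⁻¹) ∧ St σ s (on d) 0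

omit [Finite K] [Cj σ] in
theorem cop_X_sub {f : K[X]} {ρ : K} (h : f.eval ρ ≠ 0) : IsCoprime f (X - C ρ) :=
  ((irreducible_X_sub_C ρ).coprime_iff_not_dvd.2 fun h' => h (dvd_iff_isRoot.1 h')).symm

omit [Finite K] [Cj σ] in
theorem Blk.exists_ne {f : K[X]} (h : Blk σ f) {a b : K} (ha : N1 σ a) (hb : N1 σ b) (hab : a ≠ b) :
    ∃ ρ, N1 σ ρ ∧ f.eval ρ ≠ 0 := by
  by_cases h1 : f.eval a = 0
  · refine ⟨b, hb, ?_⟩
    rw [h.root a ha h1]
    simp [sub_eq_zero, hab.symm]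
  · exact ⟨a, ha, h1⟩

theorem st_odd {f p : K[X]} (hf : SD σ f) {ρ : K} (hρ : N1 σ ρ) (h1 : f.eval ρ ≠ 0) (hp : p.Monic)
    (h0 : p.coeff 0 ≠ 0) (hm : 0 < p.natDegree) (hn : f.natDegree = 2 * p.natDegree + 1) :
    ∃ μ, N1 σ μ ∧ St σ (cy f) (cy p) (on μ) := by
  obtain ⟨w, h2, h3⟩ := st_free hf (sd_lin hρ) (cop_X_sub h1) hp h0 hm (by simpa) pair_zero.un
    (by simp)
  obtain ⟨μ, h4, rfl⟩ := h2.un.on (by simpa using h3)
  exact ⟨μ, h4, by simpa using h2⟩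

theorem st_conv {f p : K[X]} (hf : SD σ f) {ρ : K} (hρ : N1 σ ρ) (hp : p.Monic)
    (h0 : p.coeff 0 ≠ 0) (hm : 0 < p.natDegree) (hn : f.natDegree = 2 * p.natDegree) :
    ∃ μ, N1 σ μ ∧ St σ (cy f + on ρ) (cy p) (on μ) := by
  obtain ⟨w, h2, h3⟩ := st_free hf sd_one isCoprime_one_right hp h0 hm (by simpa)
    (pair_on hρ hρ).un (by simp [on_zero])
  obtain ⟨μ, h4, rfl⟩ := h2.un.on (by simpa [on_zero] using h3)
  exact ⟨μ, h4, h2⟩

theorem fu_three {f : K[X]} (hf : SD σ f) (h3 : f.natDegree = 3) {ρ : K} (hρ : N1 σ ρ)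
    (h1 : f.eval ρ ≠ 0) : FU σ (cy f) := fun d hd =>
  st_odd hf hρ h1 (monic_X_sub_C d) (by simpa) (by simp) (by simpa)

theorem fu_two {f : K[X]} (hf : SD σ f) (h2 : f.natDegree = 2) {ρ : K} (hρ : N1 σ ρ) :
    FU σ (cy f + on ρ) := fun d hd =>
  st_conv hf hρ (monic_X_sub_C d) (by simpa) (by simp) (by simpa)

theorem st_two {f : K[X]} (hf : SD σ f) (h2 : f.natDegree = 2) {d : K} (hd : d ≠ 0)
    (h : f.coeff 0 * σ d = d) : St σ (cy f) (on d) 0 := by
  have := st_iso hf sd_one isCoprime_one_right (monic_X_sub_C d) (by simpa) (by simp) (by simpa)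
    (by simp [mul_comm, h])
  rwa [cy_one] at this

theorem exists_d {δ : K} (h : N1 σ δ) : ∃ d : K, d ≠ 0 ∧ (d = 1 ∨ d ≠ d⁻¹) ∧ δ * σ d = d := by
  by_cases h1 : δ = 1
  · exact ⟨1, one_ne_zero, Or.inl rfl, by simp [h1]⟩
  obtain ⟨d, h2, h3⟩ := h90 h
  refine ⟨d, h2, Or.inr fun h4 => h1 (mul_right_cancel₀ h2 ?_), h3⟩
  have : d * d = 1 := by nth_rewrite 2 [h4]; exact mul_inv_cancel₀ h2
  rcases mul_self_eq_one_iff.1 this with rfl | rfl <;> simpa using h3

theorem xu_two {f : K[X]} (hf : SD σ f) (h2 : f.natDegree = 2) : XU σ (cy f) :=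
  let ⟨d, a, b, c⟩ := exists_d hf.nrm; ⟨d, a, b, st_two hf h2 a c⟩

theorem mp_fx (hP : HP σ) {s s' : K[X] → ℕ} (h : FU σ s) (h' : XU σ s') : MP σ (s' + s) := by
  obtain ⟨d, a, b, c⟩ := h'
  obtain ⟨μ, e, f⟩ := h d⁻¹ (inv_ne_zero a)
  exact (c.add f).mp (hP.gf a b _) (by rw [zero_add]; exact ma_on e)

theorem mp_ff (hP : HP σ) {s s' : K[X] → ℕ} (h : FU σ s) (h' : FU σ s') : MP σ (s + s') := by
  obtain ⟨μ, a, b⟩ := h 1 one_ne_zero
  obtain ⟨μ', a', b'⟩ := h' 1⁻¹ (by simp)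
  exact (b.add b').mp (hP.gf one_ne_zero (Or.inl rfl) _) (ma_add (ma_on a) (ma_on a'))

end H37.Ore.SU
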