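import Mathlib
import Cfsg.Agent.Base
import Cfsg.Agent.Lib.Ore.SuF

/-! Commutators in special unitary groups over fields with more than four elements. -/

set_option autoImplicit false

namespace H37.Ore.SU

open Module Polynomial H65 H64.Sour H66 H64.Wall

universe u
variable {K : Type u} [Field K] {σ : K →+* K}

/-- consequences of `q ≥ 3` -/
structure Big (σ : K →+* K) : Prop where
  four : ∀ a b c : K, ∃ ρ, N1 σ ρ ∧ ρ ≠ a ∧ ρ ≠ b ∧ ρ ≠ c
  fix : ∃ κ, σ κ = κ ∧ κ ≠ 0 ∧ κ ≠ 1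
  sq : (2 : K) ≠ 0 → ∀ x, σ x = x → IsSquare x
  alt : (∃ κ, σ κ = κ ∧ κ ≠ 0 ∧ κ * κ ≠ 1) ∨ ((∀ x, σ x = x ^ 3) ∧ (2 : K) ≠ 0)
  five : ∀ a b c d : K, ∃ e, e ≠ a ∧ e ≠ b ∧ e ≠ c ∧ e ≠ d

theorem GLP.dvd {lt τ : K[X] → ℕ} {F G : K[X]} (h : GLP lt τ F) (h' : F ∣ G) : GLP lt τ G := by
  obtain ⟨n, A, a, l, h1, h2, h3, h4, h5, h6⟩ := h
  obtain ⟨c, rfl⟩ := h'
  exact ⟨n, A, a, l, h1, h2, h3, h4, h5, by rw [map_mul, h6, zero_mul]⟩

theorem irr_of {p : K[X]} (h : p.Monic) (h2 : 2 ≤ p.natDegree) (h3 : p.natDegree ≤ 3)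
    (h4 : ∀ y, p.eval y ≠ 0) : Irreducible p :=
  (h.irreducible_iff_roots_eq_zero_of_degree_le_three h2 h3).2
    (Multiset.eq_zero_of_forall_notMem fun y hy => h4 y (isRoot_of_mem_roots hy))

theorem exists_irr [Finite K] {N : K} (hN : N ≠ 0) : ∃ T, ∀ y, (X ^ 2 - C T * X + C N).eval y ≠ 0 := by
  classical
  let φ : K → K := fun y => if y = 0 then 1 + N else y + N / y
  have : ¬Function.Surjective φ := fun h =>
    zero_ne_one (Finite.injective_iff_surjective.2 h (by simp [φ] : φ 0 = φ 1))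
  obtain ⟨T, hT⟩ := not_forall.1 this
  refine ⟨T, fun y hy => ?_⟩
  simp only [eval_add, eval_sub, eval_mul, eval_pow, eval_X, eval_C] at hy
  have h0 : y ≠ 0 := by rintro rfl; exact hN (by simpa using hy)
  exact hT ⟨y, by simp only [φ, if_neg h0]; field_simp; linear_combination hy⟩

theorem IsT.on {z : K[X] → ℕ} (h : IsT z) (h1 : z 0 = 1) : ∃ a, z = on a := by
  obtain ⟨n, A, rfl⟩ := h
  rw [kerDim_zero] at h1
  obtain ⟨a, rfl⟩ := exists_smul_one h1 A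
  exact ⟨a, kd_smul_one h1 a⟩

theorem Blk.coeff {f : K[X]} (h : Blk σ f) {ρ : K} (h1 : N1 σ ρ) (h2 : f.eval ρ = 0) :
    f.coeff 0 = (-ρ) ^ f.natDegree := by
  conv_lhs => rw [h.root ρ h1 h2, coeff_zero_eq_eval_zero]
  simp

theorem Blk.eval_ne {f : K[X]} (h : Blk σ f) {ρ ν : K} (h1 : N1 σ ρ) (h2 : f.eval ρ = 0)
    (h3 : ν ≠ ρ) : f.eval ν ≠ 0 := by
  rw [h.root ρ h1 h2]
  simp [sub_eq_zero, h3]

theorem Blk.one {f : K[X]} (h : Blk σ f) (h1 : Even f.natDegree) (h2 : f.coeff 0 ≠ 1) :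
    f.eval 1 ≠ 0 := fun h3 => h2 (by rw [h.coeff n1_one h3, h1.neg_one_pow])

theorem blk_lin {a : K} (h : N1 σ a) : Blk σ (X - C a) :=
  ⟨sd_lin h, by simp, fun ρ _ h1 => by rw [← sub_eq_zero.1 (by simpa using h1 : ρ - a = 0)]; simp⟩

theorem ty_replicate (n : ℕ) (f : K[X]) : ty (Multiset.replicate n f) = n • cy f := by simp [ty]

theorem dt_nsmul (n : ℕ) (a : K) : IsT (n • on a) ∧ dt (n • on a) = a ^ n := by
  rw [← finrank_fin_fun K (n := n), ← kd_scalar, dt_kd]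
  exact ⟨isT_kd _, by simp⟩

variable [Finite K] [Cj σ]

theorem st_pair {f p : K[X]} (hf : SD σ f) {a b : K} (ha : N1 σ a) (hb : N1 σ b) (hab : a ≠ b)
    (h1 : f.eval a ≠ 0) (h2 : f.eval b ≠ 0) (hp : p.Monic) (h0 : p.coeff 0 ≠ 0)
    (hm : 0 < p.natDegree) (hn : f.natDegree = 2 * p.natDegree + 2)
    (hd : p.coeff 0 * (a * b) = σ (p.coeff 0) * f.coeff 0) : St σ (cy f) (cy p) (on a + on b) := by
  rw [← cy_lin2 hab]
  exact st_iso hf ((sd_lin ha).mul (sd_lin hb)) ((cop_X_sub h1).mul_right (cop_X_sub h2)) hp h0 hm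
    (by rw [quad_eq, natDegree_quad, hn]) (by simpa)

theorem st_zero {f p : K[X]} (hf : SD σ f) (hp : p.Monic) (h0 : p.coeff 0 ≠ 0)
    (hm : 0 < p.natDegree) (hn : f.natDegree = 2 * p.natDegree)
    (hd : p.coeff 0 = σ (p.coeff 0) * f.coeff 0) : St σ (cy f) (cy p) 0 := by
  rw [← cy_one]
  exact st_iso hf sd_one isCoprime_one_right hp h0 hm (by simpa) (by simpa)

theorem mp_order {γ : K} (hγ : N1 σ γ) : MP σ (orderOf γ • on γ) := by
  have := Fintype.ofFinite K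
  refine mp_scalar hγ (fun h => ?_) (pow_orderOf_eq_one γ)
  obtain ⟨c, hc⟩ := orderOf_dvd_of_pow_eq_one (FiniteField.pow_card_sub_one_eq_one γ hγ.ne)
  have := congrArg (Nat.cast : ℕ → K) hc
  rw [Nat.cast_sub Fintype.card_pos, FiniteField.cast_card_eq_zero, Nat.cast_mul, h] at this
  simp at this

theorem fn_two (hP : HP σ) {f g : K[X]} (hf : SD σ f) (h2 : f.natDegree = 2) (hg : SD σ g)
    (h2' : g.natDegree = 2) : FN σ (cy f + cy g) := fun h => by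
  have h1 := h
  rw [dt_add (isT_cy hf.monic) (isT_cy hg.monic), dt_cy hf.monic, dt_cy hg.monic, h2, h2'] at h1
  obtain ⟨d, a, b, c⟩ := exists_d hf.nrm
  refine (((st_two hf h2 a c).add (st_two hg h2' (inv_ne_zero a) ?_)).mp (hP.gf a b (N1 σ))
    (by rw [add_zero]; exact ma_zero _)).fn h
  have : σ d ≠ 0 := by simpa
  rw [map_inv₀]
  field_simp
  linear_combination -g.coeff 0 * c + σ d * h1

namespace Big
variable (H : Big σ)
include H

theorem exists_x : ∃ x : K, x ≠ 0 ∧ x * σ x ≠ 1 := by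
  obtain ⟨κ, a, b, c⟩ := H.fix
  obtain ⟨x, rfl⟩ := exists_nrm a
  exact ⟨x, left_ne_zero_of_mul b, c⟩

theorem exists_x4 : ∃ x : K, x ≠ 0 ∧ x * σ x ≠ 1 ∧ x ^ 3 ≠ -σ x := by
  rcases H.alt with ⟨κ, a, b, c⟩ | ⟨a, b⟩
  · obtain ⟨x, rfl⟩ := exists_nrm a
    refine ⟨x, left_ne_zero_of_mul b, fun h => c (by rw [h, one_mul]), fun h => c ?_⟩
    have := congrArg σ h
    rw [map_pow, map_neg, cj_cj] at this
    exact mul_left_cancel₀ b (by linear_combination (σ x) ^ 3 * h - σ x * this)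
  · obtain ⟨x, c, d⟩ := H.exists_x
    refine ⟨x, c, d, fun h => mul_ne_zero b (pow_ne_zero 3 c) ?_⟩
    rw [a] at h
    linear_combination h

theorem hp : HP σ := fun ε hε => by
  have key : ∀ N : K, N ≠ 0 → N = ε * σ N → (N * σ N = 1 → (2 : K) ≠ 0) → ∃ T N : K, N ≠ 0 ∧
      N = ε * σ N ∧ Irreducible (X ^ 2 - C T * X + C N) ∧
      du σ (X ^ 2 - C T * X + C N) ≠ X ^ 2 - C T * X + C N := fun N h0 h1 h2 => by
    obtain ⟨T, hT⟩ := exists_irr h0
    refine ⟨T, N, h0, h1, irr_of (monic_quad T N) (natDegree_quad T N).ge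
      (by rw [natDegree_quad]; simp) hT, fun h => ?_⟩
    have hs : SD σ (X ^ 2 - C T * X + C N) := ⟨monic_quad T N, by simpa, h⟩
    have a1 : N * σ N = 1 := by simpa using hs.nrm
    have a2 := hs.coeff (i := 1) (by rw [natDegree_quad]; simp)
    rw [natDegree_quad] at a2
    simp at a2
    obtain ⟨η, a3, a4⟩ := h90 a1
    have a5 := congrArg σ a4
    rw [map_mul, cj_cj] at a5
    obtain ⟨r, hr⟩ := H.sq (h2 a1) ((T * σ η) ^ 2 - 4 * (η * σ η)) (by
      simp only [map_sub, map_pow, map_mul, map_ofNat, cj_cj]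
      linear_combination (σ T * η + T * σ η) * (-σ η * a2 - σ T * a4))
    have a6 : σ η ≠ 0 := by simpa
    have := h2 a1
    refine hT ((T + r / σ η) / 2) ?_
    simp only [eval_add, eval_sub, eval_mul, eval_pow, eval_X, eval_C]
    field_simp
    linear_combination -hr + 4 * σ η * a4
  obtain ⟨N, h0, h1⟩ := h90 hε
  by_cases h2 : N * σ N = 1 → (2 : K) ≠ 0
  · exact key N h0 h1.symm h2
  · push Not at h2
    obtain ⟨κ, a, b, c⟩ := H.fix
    refine key (κ * N) (mul_ne_zero b h0) (by rw [map_mul, a, mul_left_comm, h1]) fun h => absurd ?_ c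
    rw [map_mul, a] at h
    exact sub_eq_zero.1 (pow_eq_zero_iff two_ne_zero |>.1 (by
      linear_combination h - κ ^ 2 * h2.1 + (1 - κ) * h2.2))

theorem gg_one : GG σ (on 1) :=
  let ⟨_, a, b⟩ := H.exists_x; ⟨_, _, glp_one a, cop_lin a b⟩

theorem gf_big {m : ℕ} (hm : 2 ≤ m) : ∃ p : K[X], p.Monic ∧ p.natDegree = m ∧ p.coeff 0 ≠ 0 ∧
    σ (p.coeff 0) = p.coeff 0 ∧ GF σ (N1 σ) (cy p) := by
  obtain ⟨x, x0, x1⟩ := H.exists_x
  obtain ⟨ζ, z1, z2, -⟩ := H.four (-1) 0 0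
  obtain ⟨d, d0, d1, d2, -⟩ := H.five 0 1 (-1) 0
  obtain ⟨e, e0, e1, e2, e3⟩ := H.five 0 1 d d⁻¹
  have d3 : d ≠ d⁻¹ := fun h => by
    have : d * d = 1 := by nth_rewrite 2 [h]; exact mul_inv_cancel₀ d0
    exact (mul_self_eq_one_iff.1 this).elim d1 d2
  have z0 := z1.ne
  have t0 : (x + x * ζ) * e⁻¹ - (x + x * ζ) ≠ 0 := by
    rw [← mul_sub_one, ← mul_one_add]
    exact mul_ne_zero (mul_ne_zero x0 fun h => z2 (by linear_combination h))
      (sub_ne_zero.2 (by simpa))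
  obtain ⟨τ, hQ⟩ := glp_Q ((m - 2) / 2) (b := 0) e0 (mul_ne_zero x0 (mul_ne_zero x0 z0))
    (by simpa using t0) (by simpa using t0)
  rw [← quad_eq, show (x * (x * ζ))⁻¹ * (0 * ((x + x * ζ) * e⁻¹ - (x + x * ζ)) + 0 ^ 2 * e⁻¹) + e +
    e⁻¹ = e + e⁻¹ by simp, ← mul_inv_cancel₀ e0, ← quad_eq] at hQ
  set Q := ((X - C e) * (X - C e⁻¹)) ^ ((m - 2) / 2) with hQ'
  have q1 : Q.Monic := ((monic_X_sub_C _).mul (monic_X_sub_C _)).pow _
  have q2 : Q.natDegree = (m - 2) / 2 * 2 := by rw [hQ', natDegree_pow, quad_eq, natDegree_quad]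
  have q3 : Q.coeff 0 = 1 := by simp [hQ', coeff_zero_eq_eval_zero, e0]
  have q4 : ∀ y, y ≠ e → y ≠ e⁻¹ → Q.eval y ≠ 0 := fun y a b => by simp [hQ', sub_eq_zero, a, b]
  obtain ⟨p, τ', p1, p2, p3, p4, p5, p6⟩ : ∃ (p : K[X]) (τ' : K[X] → ℕ), p.Monic ∧
      p.natDegree = m - 2 ∧ (p.coeff 0 = 1 ∨ p.coeff 0 = -1) ∧ p.eval d ≠ 0 ∧ p.eval d⁻¹ ≠ 0 ∧
      GLP (cy p) τ' (((X - C x) * (X - C (x * ζ))) ^ 2) := by
    have a1 := q4 d e2.symm (fun h => e3 (by rw [h, inv_inv]))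
    have a2 := q4 d⁻¹ e3.symm (fun h => e2 (inv_injective h).symm)
    rcases Nat.even_or_odd m with h | h
    · exact ⟨Q, τ, q1, by rw [q2]; obtain ⟨k, rfl⟩ := h; omega, Or.inl q3, a1, a2,
        hQ.dvd (dvd_pow_self _ two_ne_zero)⟩
    · refine ⟨(X - C 1) * Q, on x + τ, (monic_X_sub_C _).mul q1, by
        rw [(monic_X_sub_C _).natDegree_mul q1, q2, natDegree_X_sub_C]; obtain ⟨k, rfl⟩ := h; omega,
        Or.inr (by simp [q3]), by simp [a1, sub_eq_zero, d1], by simp [a2, sub_eq_zero, d1], ?_⟩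
      rw [cy_mul (monic_X_sub_C _) q1 (cop_X_sub (q4 1 e1.symm (by simpa using e1))).symm]
      exact ((glp_one x0).add hQ).dvd ⟨X - C (x * ζ), by ring⟩
  refine ⟨(X - C d) * (X - C d⁻¹) * p, ((monic_X_sub_C _).mul (monic_X_sub_C _)).mul p1, by
    rw [((monic_X_sub_C _).mul (monic_X_sub_C _)).natDegree_mul p1, quad_eq, natDegree_quad, p2]
    omega, by rcases p3 with h | h <;> simp [h, d0], by rcases p3 with h | h <;> simp [h, d0], ?_⟩
  rw [cy_mul ((monic_X_sub_C _).mul (monic_X_sub_C _)) p1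
    ((cop_X_sub p4).mul_right (cop_X_sub p5)).symm, cy_lin2 d3]
  refine gf_add p6 fun ε hε => ?_
  obtain ⟨T, N, a1, a2, a3, a4⟩ := H.hp ε hε
  have a5 : (X ^ 2 - C T * X + C N).coeff 0 ≠ 0 := by simpa
  have a6 := du_irreducible (σ := σ) Cj.inv a3 (monic_quad T N) a5
  have a7 := eval_ne_of_irr a3 (by rw [natDegree_quad]; simp)
  have a8 := eval_ne_of_irr a6 (by rw [du_natDegree a5, natDegree_quad]; simp)
  refine ⟨_, _, glp_pair T d0 (Or.inr d3) a1, ?_, by rw [dt_quad, ← a2], co_cy a3 (monic_quad T N)⟩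
  have x2 : x * ζ ≠ 0 := mul_ne_zero x0 z0
  have x3 : x * σ (x * ζ) ≠ 1 := fun h => by
    rw [map_mul, z1.cj, ← mul_assoc, mul_inv_eq_one₀ z0] at h
    have h2 : σ ζ = ζ := by rw [← h, map_mul, cj_cj, mul_comm]
    have : ζ * ζ = 1 := by nth_rewrite 2 [← h2]; exact z1
    exact (mul_self_eq_one_iff.1 this).elim (fun k => x1 (h.trans k)) z2
  have c1 : ∀ a b : K, b ≠ 0 → a * σ b ≠ 1 → IsCoprime (X - C a) (X - C (σ b)⁻¹) :=
    fun a b h0 h1 => isCoprime_X_sub_C_of_isUnit_sub (sub_ne_zero.2 fun h => h1 (by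
      rw [h, inv_mul_cancel₀ (by simpa)])).isUnit
  rw [map_mul (du σ), map_pow (du σ), map_mul (du σ), du_X_sub_C _ x0, du_X_sub_C _ x2]
  refine IsCoprime.mul_left (IsCoprime.mul_right (isCoprime_of_monic_irreducible_ne a3
    (monic_quad T N) a6 (du_monic a5) a4.symm)
    ((cop_X_sub (a7 _)).mul_right (cop_X_sub (a7 _))).pow_right) (IsCoprime.mul_right
    ((cop_X_sub (a8 _)).mul_right (cop_X_sub (a8 _))).symm.pow_left (IsCoprime.pow
      (((c1 _ _ x0 x1).mul_right (c1 _ _ x2 x3)).mul_left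
        ((c1 _ _ x0 fun h => x3 ?_).mul_right (c1 _ _ x2 fun h => x1 ?_)))))
  · simpa [mul_comm] using congrArg σ h
  · rw [map_mul] at h
    have z3 : ζ * σ ζ = 1 := z1
    linear_combination h - x * σ x * z3

theorem gg_any {m : ℕ} (hm : 0 < m) : ∃ p : K[X], p.Monic ∧ p.natDegree = m ∧ p.coeff 0 ≠ 0 ∧
    σ (p.coeff 0) = p.coeff 0 ∧ GG σ (cy p) := by
  rcases Nat.lt_or_ge 1 m with h | h
  · obtain ⟨p, a, b, c, d, e⟩ := H.gf_big h
    exact ⟨p, a, b, c, d, e.gg⟩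
  · exact ⟨X - C 1, monic_X_sub_C 1, by rw [natDegree_X_sub_C]; omega, by simp, by simp, H.gg_one⟩

omit [Finite K] [Cj σ] in
theorem exists_ne {f : K[X]} (h : Blk σ f) : ∃ ρ, N1 σ ρ ∧ f.eval ρ ≠ 0 :=
  let ⟨_, a, b, _⟩ := H.four 1 1 1; h.exists_ne a n1_one b

omit [Finite K] [Cj σ] in
theorem exists_pair {f : K[X]} (h : Blk σ f) (h1 : Even f.natDegree) (h2 : f.coeff 0 ≠ 1) :
    ∃ a b, N1 σ a ∧ N1 σ b ∧ a ≠ b ∧ f.eval a ≠ 0 ∧ f.eval b ≠ 0 ∧ a * b = f.coeff 0 := by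
  have h3 : N1 σ (f.coeff 0) := h.sd.nrm
  by_cases h4 : f.eval (f.coeff 0) = 0
  swap
  · exact ⟨1, _, n1_one, h3, h2.symm, h.one h1 h2, h4, one_mul _⟩
  have h5 := h.coeff h3 h4
  obtain ⟨k, hk⟩ := h1
  rw [hk, pow_add] at h5
  obtain ⟨ρ, a, b, c, d⟩ : ∃ ρ, N1 σ ρ ∧ ρ ≠ 1 ∧ ρ ≠ f.coeff 0 ∧ ρ * ρ ≠ f.coeff 0 := by
    by_cases h6 : (2 : K) = 0
    · obtain ⟨ρ, a, b, c, d⟩ := H.four 1 (f.coeff 0) ((-f.coeff 0) ^ k)
      refine ⟨ρ, a, b, c, fun h => d ?_⟩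
      generalize (-f.coeff 0) ^ k = s at *
      exact sub_eq_zero.1 (pow_eq_zero_iff two_ne_zero |>.1 (by
        linear_combination h + h5 + (s * s - ρ * s) * h6))
    · exact ⟨-1, n1_one.neg, fun h => h6 (by linear_combination -h), fun h => h2 (by
        rw [h5, ← h]; simp), by simpa using h2.symm⟩
  have := a.ne
  refine ⟨ρ, f.coeff 0 * ρ⁻¹, a, h3.mul a.inv, fun h => d (by
    nth_rewrite 2 [h]; field_simp), h.eval_ne h3 h4 c, h.eval_ne h3 h4 fun h => b ?_, by field_simp⟩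
  simpa [h3.ne] using h

theorem ma_blk2 {f : K[X]} (h : Blk σ f) (h1 : f.natDegree = 2) (h2 : f.coeff 0 ≠ 1) :
    MA σ (N1 σ) (cy f) := by
  by_cases h3 : ∃ ρ, N1 σ ρ ∧ f.eval ρ = 0
  · obtain ⟨ρ, a, b⟩ := h3
    obtain ⟨ν, c, d, e, g⟩ := H.four 1 (f.coeff 0) ρ
    exact ma_two h.sd h1 c d e (h.one (by simp [h1]) h2) (h.eval_ne a b g)
  · obtain ⟨ν, c, d, e, -⟩ := H.four 1 (f.coeff 0) 1
    exact ma_two h.sd h1 c d e (h.one (by simp [h1]) h2) fun k => h3 ⟨ν, c, k⟩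

theorem mm_blk {f : K[X]} (h : Blk σ f) : MM σ (cy f) := by
  have := h.pos
  rcases Nat.even_or_odd f.natDegree with h1 | ⟨m, h1⟩
  · obtain ⟨m, h2⟩ := id h1
    by_cases h3 : f.coeff 0 = 1
    · obtain ⟨p, a, b, c, d, e⟩ := H.gg_any (m := m) (by omega)
      exact ((st_zero h.sd a c (by omega) (by omega) (by rw [h3, d, mul_one])).mm e (ma_zero _)).2
    rcases Nat.lt_or_ge 1 m with h4 | h4
    · obtain ⟨p, a, b, c, d, e⟩ := H.gg_any (m := m - 1) (by omega)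
      obtain ⟨x, y, x1, y1, x2, x3, y3, x4⟩ := H.exists_pair h h1 h3
      exact ((st_pair h.sd x1 y1 x2 x3 y3 a c (by omega) (by omega) (by rw [x4, d])).mm e
        (ma_add (ma_on x1) (ma_on y1))).2
    · exact (H.ma_blk2 h (by omega) h3).mm
  · rcases m.eq_zero_or_pos with rfl | h2
    · obtain ⟨a, ha, rfl⟩ := h.sd.lin h1
      exact (ma_on ha).mm
    · obtain ⟨p, a, b, c, d, e⟩ := H.gg_any h2
      obtain ⟨ρ, r1, r2⟩ := H.exists_ne h
      obtain ⟨μ, m1, m2⟩ := st_odd h.sd r1 r2 a c (by omega) (by omega)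
      exact (m2.mm e (ma_on m1)).2

theorem mm_ty {L : Multiset K[X]} (h : ∀ f ∈ L, Blk σ f) : MM σ (ty L) := by
  induction L using Multiset.induction_on with
  | empty => exact (ma_zero (N1 σ)).mm
  | cons f L ih =>
    rw [Multiset.forall_mem_cons] at h
    rw [ty_cons]
    exact (H.mm_blk h.1).add (ih h.2)

theorem mp_big {f : K[X]} (h : Blk σ f) (h4 : 4 ≤ f.natDegree) : MP σ (cy f) := by
  rcases Nat.even_or_odd f.natDegree with h1 | ⟨m, h1⟩
  · obtain ⟨m, h2⟩ := id h1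
    by_cases h3 : f.coeff 0 = 1
    · obtain ⟨p, a, b, c, d, e⟩ := H.gf_big (m := m) (by omega)
      exact (st_zero h.sd a c (by omega) (by omega) (by rw [h3, d, mul_one])).mp e (ma_zero _)
    obtain ⟨x, y, x1, y1, x2, x3, y3, x4⟩ := H.exists_pair h h1 h3
    rcases Nat.lt_or_ge 2 m with h4 | h4
    · obtain ⟨p, a, b, c, d, e⟩ := H.gf_big (m := m - 1) (by omega)
      exact (st_pair h.sd x1 y1 x2 x3 y3 a c (by omega) (by omega) (by rw [x4, d])).mp e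
        (ma_add (ma_on x1) (ma_on y1))
    have h5 : N1 σ (f.coeff 0) := h.sd.nrm
    by_cases h6 : f.eval (f.coeff 0) = 0
    · have h7 := h.coeff h5 h6
      rw [show f.natDegree = 4 by omega] at h7
      refine (st_pair h.sd x1 y1 x2 x3 y3 (monic_X_sub_C 1) (by simp) (natDegree_X_sub_C _).ge
        (by rw [natDegree_X_sub_C]; omega) (by simp [x4])).mp (fun ε hε => ?_) (ma_add (ma_on x1) (ma_on y1))
      obtain ⟨z, z0, z1, z2⟩ : ∃ z, z ≠ 0 ∧ ε * σ z = z ∧ z * σ z ≠ 1 := by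
        obtain ⟨z, z0, z1⟩ := h90 hε
        by_cases z2 : z * σ z = 1
        swap
        · exact ⟨z, z0, z1, z2⟩
        rcases H.alt with ⟨κ, a, b, c⟩ | ⟨a, -⟩
        · exact ⟨κ * z, mul_ne_zero b z0, by rw [map_mul, a, mul_left_comm, z1], fun h => c (by
            rw [map_mul, a] at h
            linear_combination h - κ * κ * z2)⟩
        · refine absurd ?_ h3
          have := h5
          rw [N1, a] at this
          linear_combination h7 + this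
      exact ⟨_, _, glp_one z0, cop_lin z0 z2, fun ν hν => eval_ne_of_coprime (cop_lin z0 z2) hν,
        by rw [dt_on, z1], co_on _⟩
    · exact (st_pair h.sd n1_one h5 (Ne.symm h3) (h.one h1 h3) h6 (monic_X_sub_C 1) (by simp)
        (natDegree_X_sub_C _).ge (by rw [natDegree_X_sub_C]; omega) (by simp)).mp_one H.gg_one (ma_on h5)
  · obtain ⟨p, a, b, c, d, e⟩ := H.gf_big (m := m) (by omega)
    obtain ⟨ρ, r1, r2⟩ := H.exists_ne h
    obtain ⟨μ, m1, m2⟩ := st_odd h.sd r1 r2 a c (by omega) (by omega)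
    exact m2.mp e (ma_on m1)

theorem ma_plane {w : K[X] → ℕ} (h : Un σ w) (h2 : w 0 = 2) : MA σ (fun _ => True) w := by
  obtain ⟨L, h1, rfl⟩ := h.dec
  rw [ty_dim] at h2
  rcases L.empty_or_exists_mem with rfl | ⟨f, hf⟩
  · simp at h2
  obtain ⟨L, rfl⟩ := Multiset.exists_cons_of_mem hf
  rw [Multiset.forall_mem_cons] at h1
  have := h1.1.pos
  rcases L.empty_or_exists_mem with rfl | ⟨g, hg⟩
  · simp only [Multiset.map_cons, Multiset.map_zero, Multiset.sum_cons, Multiset.sum_zero,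
      add_zero, ty_cons, ty_zero] at h2 ⊢
    by_cases h3 : f.coeff 0 = 1
    swap
    · exact (H.ma_blk2 h1.1 h2 h3).mono fun _ _ => trivial
    obtain ⟨x, a, b⟩ := H.exists_x
    obtain ⟨z, z1, -, z2⟩ := (st_two h1.1.sd h2 one_ne_zero (by simp [h3])).siegel (glp_one a)
      (cop_lin a b) pair_zero rfl rfl rfl rfl
    have z3 := z2.dim
    rw [cy_zero, h2, zero_add, Pi.add_apply, on_zero] at z3
    obtain ⟨y, rfl⟩ := z1.on (by omega)
    have z4 : Av (fun _ => True) (on x + (0 + on y)) :=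
      (av_on trivial).add ((av_zero _).add (av_on trivial))
    exact ⟨_, _, (MK.of z2 rfl).2, z4, z4⟩
  · obtain ⟨L, rfl⟩ := Multiset.exists_cons_of_mem hg
    rw [Multiset.forall_mem_cons] at h1
    have := h1.2.1.pos
    rcases L.empty_or_exists_mem with rfl | ⟨k, hk⟩
    · simp only [Multiset.map_cons, Multiset.map_zero, Multiset.sum_cons, Multiset.sum_zero,
        add_zero, ty_cons, ty_zero] at h2 ⊢
      obtain ⟨a, ha, rfl⟩ := h1.1.sd.lin (by omega)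
      obtain ⟨b, hb, rfl⟩ := h1.2.1.sd.lin (by omega)
      exact (ma_add (ma_on ha) (ma_on hb)).mono fun _ _ => trivial
    · have := (h1.2.2 k hk).pos
      obtain ⟨L, rfl⟩ := Multiset.exists_cons_of_mem hk
      simp at h2
      omega

theorem mp_triple {f g k : K[X]} (hf : SD σ f) (h2 : f.natDegree = 2) (hg : SD σ g)
    (h2' : g.natDegree = 2) (hk : SD σ k) (h2'' : k.natDegree = 2) :
    MP σ (cy f + (cy g + cy k)) := by
  obtain ⟨d, a, b, c⟩ := xu_two hf h2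
  obtain ⟨w, w1, w2⟩ := st_free hg sd_one isCoprime_one_right (monic_X_sub_C d⁻¹) (by simpa)
    (by simp) (by simpa) (hk.un (by omega)) (by simp [cy_zero, h2''])
  exact (c.add w1).mp (H.hp.gf a b _) (by
    rw [zero_add]; exact H.ma_plane w1.un (by simpa [cy_zero, h2''] using w2))

theorem fn_fu {s : K[X] → ℕ} (hs : FU σ s) {L : Multiset K[X]} (h : ∀ f ∈ L, Blk σ f)
    (h3 : ∀ f ∈ L, f.natDegree ≤ 3) : FN σ (s + ty L) := by
  obtain ⟨μ, m1, m2⟩ := hs 1 one_ne_zero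
  obtain ⟨m3, m4⟩ := m2.mm H.gg_one (ma_on m1)
  by_cases h2 : ∃ f ∈ L, f.natDegree ≠ 1
  · obtain ⟨f, hf, h2⟩ := h2
    have a := h f hf
    have := h3 f hf
    have := a.pos
    obtain ⟨L, rfl⟩ := Multiset.exists_cons_of_mem hf
    rw [ty_cons, ← add_assoc]
    refine (MP.add ?_ (H.mm_ty fun g hg => h g (Multiset.mem_cons_of_mem hg))).fn
    by_cases h4 : f.natDegree = 2
    · rw [add_comm]; exact mp_fx H.hp hs (xu_two a.sd h4)
    · obtain ⟨ρ, r1, r2⟩ := H.exists_ne a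
      exact mp_ff H.hp hs (fu_three a.sd (by omega) r1 r2)
  push Not at h2
  rcases L.empty_or_exists_mem with rfl | ⟨f, hf⟩
  · intro h1
    rw [ty_zero, add_zero] at h1 ⊢
    rw [h1, dt_on] at m3
    subst m3
    exact (St.mp_one (w := 0) (by rwa [add_zero]) H.gg_one (ma_zero _)).fn h1
  obtain ⟨a, ha, rfl⟩ := (h f hf).sd.lin (h2 f hf)
  obtain ⟨L, rfl⟩ := Multiset.exists_cons_of_mem hf
  rw [Multiset.forall_mem_cons] at h h2
  rcases L.empty_or_exists_mem with rfl | ⟨f, hf⟩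
  · obtain ⟨x, x0, x1, x2⟩ := H.exists_x4
    rw [ty_cons, ty_zero, add_zero]
    have := m2.add (pair_on ha ha).un.st
    rw [add_zero] at this
    exact this.fn_four m1 ha x0 x1 x2
  obtain ⟨b, hb, rfl⟩ := (h.2 f hf).sd.lin (h2.2 f hf)
  obtain ⟨L, rfl⟩ := Multiset.exists_cons_of_mem hf
  rw [ty_cons, ty_cons, ← add_assoc (cy _), ← add_assoc, add_comm s]
  refine (MP.add ?_ (H.mm_ty fun g hg => h.2 g (Multiset.mem_cons_of_mem hg))).fn
  by_cases hab : a = b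
  swap
  · refine mp_fx H.hp hs ?_
    have := xu_two ((sd_lin ha).mul (sd_lin hb)) (by rw [quad_eq, natDegree_quad])
    rwa [cy_lin2 hab] at this
  subst hab
  by_cases h4 : a = 1 ∨ a ≠ a⁻¹
  · exact mp_fx H.hp hs ⟨a, ha.ne, h4, st_scalar ha⟩
  push Not at h4
  have h5 : a * a = 1 := by nth_rewrite 2 [h4.2]; exact mul_inv_cancel₀ ha.ne
  have := mp_scalar ha (n := 2) (fun h => h4.1 (sub_eq_zero.1 (pow_eq_zero_iff two_ne_zero |>.1 (by
    push_cast at h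
    linear_combination h5 + (1 - a) * h)))) (by rw [pow_two, h5])
  rw [two_nsmul] at this
  exact this.add m4

theorem fn_ty {L : Multiset K[X]} (h : ∀ f ∈ L, Blk σ f) (hn : 3 ≤ (L.map natDegree).sum) :
    FN σ (ty L) := by
  by_cases h4 : ∃ f ∈ L, 4 ≤ f.natDegree
  · obtain ⟨f, hf, h4⟩ := h4
    obtain ⟨L, rfl⟩ := Multiset.exists_cons_of_mem hf
    rw [Multiset.forall_mem_cons] at h
    rw [ty_cons]
    exact ((H.mp_big h.1 h4).add (H.mm_ty h.2)).fn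
  push Not at h4
  by_cases h3 : ∃ f ∈ L, f.natDegree = 3
  · obtain ⟨f, hf, h3⟩ := h3
    obtain ⟨L, rfl⟩ := Multiset.exists_cons_of_mem hf
    rw [Multiset.forall_mem_cons] at h h4
    obtain ⟨ρ, r1, r2⟩ := H.exists_ne h.1
    rw [ty_cons]
    exact H.fn_fu (fu_three h.1.sd h3 r1 r2) h.2 fun g hg => Nat.le_of_lt_succ (h4.2 g hg)
  push Not at h3
  by_cases h2 : ∃ f ∈ L, f.natDegree = 2
  · obtain ⟨f, hf, h2⟩ := h2
    obtain ⟨L, rfl⟩ := Multiset.exists_cons_of_mem hf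
    rw [Multiset.forall_mem_cons] at h h4 h3
    by_cases h1 : ∃ g ∈ L, g.natDegree = 1
    · obtain ⟨g, hg, h1⟩ := h1
      obtain ⟨a, ha, rfl⟩ := (h.2 g hg).sd.lin h1
      obtain ⟨L, rfl⟩ := Multiset.exists_cons_of_mem hg
      rw [Multiset.forall_mem_cons] at h h4
      rw [ty_cons, ty_cons, ← add_assoc]
      exact H.fn_fu (fu_two h.1.sd h2 ha) h.2.2 fun g hg => Nat.le_of_lt_succ (h4.2.2 g hg)
    push Not at h1
    have h5 : ∀ g ∈ L, g.natDegree = 2 := fun g hg => by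
      have := h1 g hg; have := h3.2 g hg; have := h4.2 g hg; have := (h.2 g hg).pos; omega
    rcases L.empty_or_exists_mem with rfl | ⟨g, hg⟩
    · simp [h2] at hn
    obtain ⟨L, rfl⟩ := Multiset.exists_cons_of_mem hg
    rw [Multiset.forall_mem_cons] at h h5
    rcases L.empty_or_exists_mem with rfl | ⟨k, hk⟩
    · rw [ty_cons, ty_cons, ty_zero, add_zero]
      exact fn_two H.hp h.1.sd h2 h.2.1.sd h5.1
    obtain ⟨L, rfl⟩ := Multiset.exists_cons_of_mem hk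
    rw [Multiset.forall_mem_cons] at h h5
    rw [ty_cons, ty_cons, ty_cons, ← add_assoc (cy g), ← add_assoc]
    exact ((H.mp_triple h.1.sd h2 h.2.1.sd h5.1 h.2.2.1.sd h5.2.1).add (H.mm_ty h.2.2.2)).fn
  push Not at h2
  have h5 : ∀ g ∈ L, g.natDegree = 1 := fun g hg => by
    have := h2 g hg; have := h3 g hg; have := h4 g hg; have := (h g hg).pos; omega
  rw [Multiset.map_congr rfl h5, Multiset.map_const', Multiset.sum_replicate, smul_eq_mul,
    mul_one] at hn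
  obtain ⟨f, hf⟩ := Multiset.card_pos_iff_exists_mem.1 (by omega : 0 < L.card)
  obtain ⟨a, ha, rfl⟩ := (h f hf).sd.lin (h5 f hf)
  by_cases h6 : ∀ g ∈ L, g = X - C a
  · rw [Multiset.eq_replicate_card.2 h6, ty_replicate]
    intro h7
    obtain ⟨c, hc⟩ := orderOf_dvd_of_pow_eq_one ((dt_nsmul _ a).2.symm.trans h7)
    obtain ⟨c, rfl⟩ := Nat.exists_eq_succ_of_ne_zero (by rintro rfl; omega : c ≠ 0)
    rw [hc, Nat.mul_succ, add_comm, add_nsmul] at h7 ⊢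
    refine ((mp_order ha).add ?_).fn h7
    rw [← ty_replicate]
    exact H.mm_ty fun g hg => Multiset.eq_of_mem_replicate hg ▸ blk_lin ha
  push Not at h6
  obtain ⟨g, hg, h6⟩ := h6
  obtain ⟨b, hb, rfl⟩ := (h g hg).sd.lin (h5 g hg)
  obtain ⟨L, rfl⟩ := Multiset.exists_cons_of_mem hf
  obtain ⟨L, rfl⟩ := Multiset.exists_cons_of_mem ((Multiset.mem_cons.1 hg).resolve_left h6)
  obtain ⟨k, hk⟩ := Multiset.card_pos_iff_exists_mem.1 (by simp at hn; omega : 0 < L.card)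
  obtain ⟨L, rfl⟩ := Multiset.exists_cons_of_mem hk
  simp only [Multiset.forall_mem_cons] at h h4 h5
  obtain ⟨c, hc, rfl⟩ := h.2.2.1.sd.lin h5.2.2.1
  have := fu_two ((sd_lin ha).mul (sd_lin hb)) (by rw [quad_eq, natDegree_quad]) hc
  rw [cy_lin2 fun e => h6 (by rw [e])] at this
  rw [ty_cons, ty_cons, ty_cons, ← add_assoc, ← add_assoc]
  exact H.fn_fu this h.2.2.2 fun g hg => Nat.le_of_lt_succ (h4.2.2.2 g hg)

end Big

end H37.Ore.SU
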