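import Mathlib
import Cfsg.Agent.Base
import Cfsg.Agent.Lib.Ore.SuG

/-! Certificates over the field with four elements. -/

set_option autoImplicit false

namespace H37.Ore.SU

open Module Polynomial H65 H64.Sour H66 H64.Wall

universe u
variable {K : Type u} [Field K] {σ : K →+* K}

/-- product in the field with four elements -/
def mu (a b : ℕ) : ℕ := (0x9c78e400 >>> (2 * (4 * (a % 4) + b % 4))) % 4

/-- sum -/
def sm : ℕ → (ℕ → ℕ) → ℕ
  | 0, _ => 0
  | k + 1, f => sm k f ^^^ f k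

/-- bounded quantifier -/
def al : ℕ → (ℕ → Bool) → Bool
  | 0, _ => true
  | k + 1, f => al k f && f k

/-- entry of a packed matrix -/
def en (n N i j : ℕ) : ℕ := (N >>> (2 * (n * i + j))) % 4

/-- identity matrix -/
def idm (i j : ℕ) : ℕ := if i = j then 1 else 0

/-- product check -/
def eqMul (n : ℕ) (A B C : ℕ → ℕ → ℕ) : Bool :=
  al n fun i => al n fun j => sm n (fun k => mu (A i k) (B k j)) == C i j

/-- unitarity check -/
def uni (n : ℕ) (A : ℕ → ℕ → ℕ) : Bool := eqMul n (fun i j => mu (A j i) (A j i)) A idm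

/-- value of a polynomial at a column -/
def res (n : ℕ) (A P : ℕ → ℕ → ℕ) : ℕ → List ℕ → ℕ → ℕ
  | o, [], i => P i o
  | o, a :: l, i => mu a (P i o) ^^^
      (if l.isEmpty then sm n (fun k => mu (A i k) (P k o)) else res n A P (o + 1) l i)

/-- Krylov chain check -/
def chain (n : ℕ) (A P : ℕ → ℕ → ℕ) : ℕ → List ℕ → Bool
  | _, [] => true
  | o, _ :: l => l.isEmpty ||
      (al n (fun i => sm n (fun k => mu (A i k) (P k o)) == P i (o + 1)) && chain n A P (o + 1) l)

/-- all blocks -/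
def chkB (n : ℕ) (A P : ℕ → ℕ → ℕ) : ℕ → List (List ℕ) → Bool
  | o, [] => o == n
  | o, l :: ls => chain n A P o l && al n (fun i => res n A P o l i == 0) &&
      chkB n A P (o + l.length) ls

/-- type check -/
def chkT (n : ℕ) (A : ℕ → ℕ → ℕ) (P Q : ℕ) (ls : List (List ℕ)) : Bool :=
  eqMul n (en n P) (en n Q) idm && chkB n A (en n P) 0 ls

/-- evaluation -/
def evl : List ℕ → ℕ → ℕ
  | [], _ => 1
  | a :: l, x => a ^^^ mu x (evl l x)

/-- product of the constant terms -/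
def cst : List (List ℕ) → ℕ
  | [] => 1
  | l :: ls => mu (l.headD 1) (cst ls)

/-- irreducibility check -/
def irr (l : List ℕ) : Bool :=
  l.length == 1 || ((l.length == 2 || l.length == 3) && al 4 fun x => evl l x % 4 != 0)

/-- a certificate -/
structure Cert where
  (n g b c pg qg pb qb pc qc : ℕ)
  (s z : List (List ℕ))
  (π π' : List ℕ)

/-- checking a certificate -/
def Cert.chk (C : Cert) : Bool :=
  uni C.n (en C.n C.g) && uni C.n (en C.n C.b) && eqMul C.n (en C.n C.g) (en C.n C.b) (en C.n C.c) &&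
    chkT C.n (en C.n C.g) C.pg C.qg C.s && chkT C.n (en C.n C.b) C.pb C.qb (C.π :: C.z) &&
    chkT C.n (en C.n C.c) C.pc C.qc (C.π' :: C.z) && irr C.π &&
    ((C.π == [1] && C.π'.length == 1) || C.π == C.π')

/-- all blocks have size one -/
def Cert.neu (C : Cert) : Bool :=
  (C.π :: C.π' :: C.z).all fun l => l.length == 1 && l.headD 1 % 4 != 0

theorem al_iff {n : ℕ} {f : ℕ → Bool} : al n f = true ↔ ∀ i < n, f i = true := by
  induction n with
  | zero => simp [al]
  | succ n ih =>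
    rw [al, Bool.and_eq_true, ih]
    exact ⟨fun h i hi => (Nat.lt_succ_iff_lt_or_eq.1 hi).elim (h.1 i) fun e => e ▸ h.2,
      fun h => ⟨fun i hi => h i (Nat.lt_succ_of_lt hi), h n (Nat.lt_succ_self n)⟩⟩

/-- the embedding -/
def ph (ω : K) (a : ℕ) : K :=
  if a % 4 = 0 then 0 else if a % 4 = 1 then 1 else if a % 4 = 2 then ω else ω + 1

/-- the field with four elements -/
structure Sm (σ : K →+* K) (ω : K) : Prop where
  two : (2 : K) = 0
  sq : ω * ω = ω + 1
  cj : ∀ x, σ x = x * x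
  all : ∀ x, ∃ a < 4, ph ω a = x

/-- matrices -/
def Mat (ω : K) (n : ℕ) (A : ℕ → ℕ → ℕ) : Matrix (Fin n) (Fin n) K :=
  Matrix.of fun i j => ph ω (A i j)

/-- polynomials -/
noncomputable def toP (ω : K) : List ℕ → K[X]
  | [] => 1
  | a :: l => C (ph ω a) + X * toP ω l

/-- types -/
noncomputable def tyL (ω : K) (ls : List (List ℕ)) : K[X] → ℕ := (ls.map fun l => cy (toP ω l)).sum

/-- columns -/
def col (ω : K) (n : ℕ) (P : ℕ → ℕ → ℕ) (o : ℕ) : Fin n → K := fun i => ph ω (P i o)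

/-- generators -/
noncomputable def prs (ω : K) (n : ℕ) (P : ℕ → ℕ → ℕ) : ℕ → List (List ℕ) → List (K[X] × (Fin n → K))
  | _, [] => []
  | o, l :: ls => (toP ω l, col ω n P o) :: prs ω n P (o + l.length) ls

variable {ω : K}

@[simp] theorem ph_zero : ph ω 0 = 0 := rfl
@[simp] theorem ph_one : ph ω 1 = 1 := rfl
theorem ph_two : ph ω 2 = ω := rfl
theorem ph_three : ph ω 3 = ω + 1 := rfl

theorem toP_spec (l : List ℕ) : (toP ω l).Monic ∧ (toP ω l).natDegree = l.length := by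
  induction l with
  | nil => simp [toP]
  | cons a l ih =>
    have h1 : (X * toP ω l).Monic := monic_X.mul ih.1
    have h2 : (X * toP ω l).natDegree = l.length + 1 := by rw [natDegree_X_mul ih.1.ne_zero, ih.2]
    have h3 : (C (ph ω a)).degree < (X * toP ω l).degree :=
      degree_lt_degree (by rw [h2, natDegree_C]; omega)
    exact ⟨h1.add_of_right h3, by rw [toP, natDegree_C_add, h2, List.length_cons]⟩

theorem toP_coeff (l : List ℕ) : (toP ω l).coeff 0 = ph ω (l.headD 1) := by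
  cases l <;> simp [toP]

@[simp] theorem tyL_nil : tyL ω [] = 0 := rfl

@[simp] theorem tyL_cons (l : List ℕ) (ls : List (List ℕ)) :
    tyL ω (l :: ls) = cy (toP ω l) + tyL ω ls := by simp [tyL]

theorem mat_idm (n : ℕ) : Mat ω n idm = 1 := by
  ext i j
  by_cases h : i = j <;> simp [Mat, idm, h, Fin.ext_iff.not.1, Matrix.one_apply, Fin.val_inj]

theorem isT_tyL (ls : List (List ℕ)) : IsT (tyL ω ls) := by
  induction ls with
  | nil => exact isT_zero
  | cons l ls ih => rw [tyL_cons]; exact (isT_cy (toP_spec l).1).add ih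

namespace Sm
variable (H : Sm σ ω)
include H

theorem ph_xor (a b : ℕ) : ph ω (a ^^^ b) = ph ω a + ph ω b := by
  have h2 := H.two
  have h := Nat.xor_mod_two_pow (a := a) (b := b) (n := 2)
  have ha : a % 4 < 4 := Nat.mod_lt _ (by norm_num)
  have hb : b % 4 < 4 := Nat.mod_lt _ (by norm_num)
  norm_num at h
  unfold ph
  rw [h]
  generalize a % 4 = i at *
  generalize b % 4 = j at *
  interval_cases i <;> interval_cases j <;> simp <;> grind

theorem ph_mu (a b : ℕ) : ph ω (mu a b) = ph ω a * ph ω b := by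
  have h2 := H.two
  have h3 := H.sq
  have ha : a % 4 < 4 := Nat.mod_lt _ (by norm_num)
  have hb : b % 4 < 4 := Nat.mod_lt _ (by norm_num)
  unfold ph mu
  generalize a % 4 = i at *
  generalize b % 4 = j at *
  interval_cases i <;> interval_cases j <;> simp <;> grind

theorem ph_ne {a : ℕ} (h : a % 4 ≠ 0) : ph ω a ≠ 0 := by
  have h2 := H.two
  have h3 := H.sq
  unfold ph
  split_ifs <;> grind

theorem ph_inj {a b : ℕ} (ha : a < 4) (hb : b < 4) (h : ph ω a = ph ω b) : a = b := by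
  have := H.ph_xor a b
  rw [h, ← two_mul, H.two, zero_mul] at this
  have h1 : (a ^^^ b) % 4 = 0 := not_not.1 fun k => H.ph_ne k this
  interval_cases a <;> interval_cases b <;> simp_all

theorem n1 {x : K} (h : x ≠ 0) : N1 σ x := by
  have h2 := H.two
  have h3 := H.sq
  obtain ⟨a, ha, rfl⟩ := H.all x
  rw [N1, H.cj]
  interval_cases a <;> simp [ph] at h ⊢ <;> grind

theorem unit {x : K} (h : x ≠ 0) : ∃ a ∈ [1, 2, 3], ph ω a = x := by
  obtain ⟨a, ha, rfl⟩ := H.all x
  interval_cases a <;> simp_all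

theorem neg (x : K) : -x = x := by linear_combination -x * H.two

theorem ph_sm (n : ℕ) (f : ℕ → ℕ) : ph ω (sm n f) = ∑ i : Fin n, ph ω (f i) := by
  induction n with
  | zero => rfl
  | succ n ih => rw [sm, H.ph_xor, ih, Fin.sum_univ_castSucc]; rfl

theorem mat_mul {n : ℕ} {A B C : ℕ → ℕ → ℕ} (h : eqMul n A B C = true) :
    Mat ω n A * Mat ω n B = Mat ω n C := by
  ext i j
  have := al_iff.1 (al_iff.1 h i i.2) j j.2
  simp [Mat, Matrix.mul_apply, ← eq_of_beq this, H.ph_sm, H.ph_mu]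

theorem mat_uni {n : ℕ} {A : ℕ → ℕ → ℕ} (h : uni n A = true) :
    cstar σ (Mat ω n A) * Mat ω n A = 1 := by
  rw [← mat_idm (ω := ω), ← H.mat_mul h]
  congr 1
  ext i j
  simp [cstar_apply, Mat, H.ph_mu, H.cj]

theorem toP_lin (a : ℕ) : toP ω [a] = X - C (ph ω a) := by
  rw [toP, toP, mul_one, sub_eq_add_neg, ← C_neg, H.neg, add_comm]

theorem mul_col {n : ℕ} (A P : ℕ → ℕ → ℕ) (o : ℕ) (i : Fin n) :
    Matrix.toLin' (Mat ω n A) (col ω n P o) i = ph ω (sm n fun k => mu (A i k) (P k o)) := by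
  simp [Mat, col, Matrix.mulVec, dotProduct, H.ph_sm, H.ph_mu]

theorem chain_spec {n : ℕ} {A P : ℕ → ℕ → ℕ} (l : List ℕ) (o : ℕ) (h : chain n A P o l = true) :
    (∀ i : Fin n, aeval (Matrix.toLin' (Mat ω n A)) (toP ω l) (col ω n P o) i =
      ph ω (res n A P o l i)) ∧ ∀ p : Submodule K (Fin n → K), col ω n P o ∈ p →
      (∀ v ∈ p, Matrix.toLin' (Mat ω n A) v ∈ p) → ∀ j < l.length, col ω n P (o + j) ∈ p := by
  induction l generalizing o with
  | nil => exact ⟨fun i => by simp [toP, res, col], fun _ _ _ j hj => absurd hj (by simp)⟩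
  | cons a l ih =>
    have e : ∀ i, aeval (Matrix.toLin' (Mat ω n A)) (toP ω (a :: l)) (col ω n P o) i =
        ph ω a * ph ω (P i o) + aeval (Matrix.toLin' (Mat ω n A)) (toP ω l)
          (Matrix.toLin' (Mat ω n A) (col ω n P o)) i := fun i => by
      rw [toP, mul_comm X, map_add, map_mul, aeval_X, aeval_C]; rfl
    cases l with
    | nil =>
      refine ⟨fun i => ?_, fun p hp _ j hj => by rwa [show j = 0 by simpa using hj]⟩
      rw [e, res, H.ph_xor, H.ph_mu, toP, map_one, End.one_apply, H.mul_col]; rfl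
    | cons a' l =>
      simp only [chain, List.isEmpty_cons, Bool.false_or, Bool.and_eq_true, al_iff] at h
      have e2 : Matrix.toLin' (Mat ω n A) (col ω n P o) = col ω n P (o + 1) := funext fun i => by
        rw [H.mul_col, eq_of_beq (h.1 i i.2)]; rfl
      obtain ⟨k1, k2⟩ := ih (o + 1) (by simpa [chain, al_iff] using h.2)
      refine ⟨fun i => ?_, fun p hp hp' j hj => ?_⟩
      · rw [e, res, H.ph_xor, H.ph_mu, e2, k1]; rfl
      · rcases j with _ | j
        · exact hp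
        · rw [add_comm j, ← add_assoc]
          exact k2 p (e2 ▸ hp' _ hp) hp' j (by simpa using hj)

theorem chkB_spec {n : ℕ} {A P : ℕ → ℕ → ℕ} (ls : List (List ℕ)) (o : ℕ)
    (h : chkB n A P o ls = true) :
    (∀ x ∈ prs ω n P o ls, x.1.Monic ∧ aeval (Matrix.toLin' (Mat ω n A)) x.1 x.2 = 0) ∧
      o + ((prs ω n P o ls).map fun x => x.1.natDegree).sum = n ∧
      ((prs ω n P o ls).map fun x => cy x.1).sum = tyL ω ls ∧
      ∀ p : Submodule K (Fin n → K), (∀ x ∈ prs ω n P o ls, x.2 ∈ p) →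
      (∀ v ∈ p, Matrix.toLin' (Mat ω n A) v ∈ p) → ∀ j, o ≤ j → j < n → col ω n P j ∈ p := by
  induction ls generalizing o with
  | nil =>
    have : o = n := eq_of_beq h
    exact ⟨by simp [prs], by simpa [prs], rfl, fun _ _ _ j _ _ => by omega⟩
  | cons l ls ih =>
    simp only [chkB, Bool.and_eq_true, al_iff] at h
    obtain ⟨k1, k2, k3, k4⟩ := ih _ h.2
    obtain ⟨c1, c2⟩ := H.chain_spec l o h.1.1
    refine ⟨List.forall_mem_cons.2 ⟨⟨(toP_spec l).1, funext fun i => ?_⟩, k1⟩, ?_, ?_,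
      fun p hp hp' j hj hj' => ?_⟩
    · rw [c1, eq_of_beq (h.1.2 i i.2)]; rfl
    · rw [prs, List.map_cons, List.sum_cons, (toP_spec l).2, ← add_assoc, k2]
    · rw [prs, List.map_cons, List.sum_cons, k3, tyL_cons]
    · rw [prs, List.forall_mem_cons] at hp
      rcases lt_or_ge j (o + l.length) with k | k
      · obtain ⟨j, rfl⟩ := Nat.exists_eq_add_of_le hj
        exact c2 p hp.1 hp' j (by omega)
      · exact k4 p hp.2 hp' j k hj'

theorem chkT_spec {n : ℕ} {A : ℕ → ℕ → ℕ} {P Q : ℕ} {ls : List (List ℕ)}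
    (h : chkT n A P Q ls = true) : kerDim (Matrix.toLin' (Mat ω n A)) = tyL ω ls := by
  rw [chkT, Bool.and_eq_true] at h
  obtain ⟨k1, k2, k3, k4⟩ := H.chkB_spec ls 0 h.2
  rw [← k3]
  refine kd_list _ _ k1 (fun p hp hp' => Submodule.eq_top_iff'.2 fun v => ?_) (by simpa using k2)
  have e := H.mat_mul h.1
  rw [mat_idm] at e
  have : v = ∑ j : Fin n, (Mat ω n (en n Q)).mulVec v j • col ω n (en n P) j := by
    conv_lhs => rw [← Matrix.one_mulVec v, ← e, ← Matrix.mulVec_mulVec]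
    funext i
    simp [Matrix.mulVec, dotProduct, Mat, col, mul_comm]
  rw [this]
  exact p.sum_mem fun j _ => p.smul_mem _ (k4 p hp hp' j (Nat.zero_le _) j.2)

theorem dt_tyL (ls : List (List ℕ)) : dt (tyL ω ls) = ph ω (cst ls) := by
  induction ls with
  | nil => exact dt_zero
  | cons l ls ih =>
    rw [tyL_cons, dt_add (isT_cy (toP_spec l).1) (isT_tyL ls), ih, dt_cy (toP_spec l).1, H.neg,
      one_pow, one_mul, toP_coeff, cst, H.ph_mu]

theorem eval_toP (l : List ℕ) (x : ℕ) : (toP ω l).eval (ph ω x) = ph ω (evl l x) := by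
  induction l with
  | nil => simp [toP, evl]
  | cons a l ih => simp [toP, evl, ih, H.ph_xor, H.ph_mu]

theorem irr_spec {l : List ℕ} (h : irr l = true) : Irreducible (toP ω l) := by
  simp only [irr, Bool.or_eq_true, Bool.and_eq_true, beq_iff_eq, al_iff, bne_iff_ne] at h
  rcases h with h | ⟨h, h'⟩
  · exact (toP_spec l).1.irreducible_of_degree_eq_one (by
      rw [degree_eq_natDegree (toP_spec l).1.ne_zero, (toP_spec l).2, h]; rfl)
  · refine irr_of (toP_spec l).1 (by rw [(toP_spec l).2]; omega) (by rw [(toP_spec l).2]; omega)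
      fun y => ?_
    obtain ⟨a, ha, rfl⟩ := H.all y
    rw [H.eval_toP]
    exact H.ph_ne (h' a ha)

theorem av_tyL {ls : List (List ℕ)} (h : ∀ l ∈ ls, l.length = 1 ∧ l.headD 1 % 4 ≠ 0) :
    Av (N1 σ) (tyL ω ls) := by
  induction ls with
  | nil => exact av_zero _
  | cons l ls ih =>
    rw [List.forall_mem_cons] at h
    obtain ⟨a, rfl⟩ := List.length_eq_one_iff.1 h.1.1
    rw [tyL_cons, H.toP_lin]
    exact (av_on (H.n1 (H.ph_ne h.1.2))).add (ih h.2)

theorem cert {C : Cert} (h : C.chk = true) : ∃ t u, MK σ (tyL ω C.s) t u ∧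
    dt t = ph ω (cst (C.π :: C.z)) ∧ CO t ∧ (C.neu = true → Av (N1 σ) t ∧ Av (N1 σ) u) := by
  simp only [Cert.chk, Bool.and_eq_true, Bool.or_eq_true, beq_iff_eq] at h
  obtain ⟨⟨⟨⟨⟨⟨⟨h1, h2⟩, h3⟩, h4⟩, h5⟩, h6⟩, h7⟩, h8⟩ := h
  have hp : Pair σ (tyL ω C.s) (tyL ω (C.π :: C.z)) (tyL ω (C.π' :: C.z)) :=
    ⟨_, _, _, H.mat_uni h1, H.mat_uni h2, H.chkT_spec h4, H.chkT_spec h5, by
      rw [H.mat_mul h3, H.chkT_spec h6]⟩
  refine ⟨_, tyL ω (C.π' :: C.z), ?_, H.dt_tyL _, by
    rw [tyL_cons]; exact (co_cy (H.irr_spec h7) (toP_spec _).1).add (isT_tyL _), fun h => ?_⟩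
  · rcases h8 with ⟨a, b⟩ | a
    · obtain ⟨d, b⟩ := List.length_eq_one_iff.1 b
      refine (MK.of (δ := ph ω d) hp ?_).2
      rw [a, b, tyL_cons, tyL_cons, H.toP_lin, H.toP_lin, ph_one]
      simp only [on]; abel
    · exact (MK.of hp (by rw [a])).2
  · simp only [Cert.neu, List.all_eq_true, Bool.and_eq_true, beq_iff_eq, bne_iff_ne,
      List.forall_mem_cons] at h
    exact ⟨H.av_tyL (List.forall_mem_cons.2 ⟨h.1, h.2.2⟩), H.av_tyL (List.forall_mem_cons.2 h.2)⟩

end Sm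

/-- a certificate for a marked type -/
def hasM (T : List Cert) (s : List (List ℕ)) : Bool := T.any fun C => C.s.isPerm s

/-- a neutral certificate -/
def hasN (T : List Cert) (s : List (List ℕ)) : Bool := T.any fun C => C.s.isPerm s && C.neu

/-- certificates for all determinants -/
def hasP (T : List Cert) (s : List (List ℕ)) : Bool :=
  [1, 2, 3].all fun e => T.any fun C => C.s.isPerm s && cst (C.π :: C.z) == e

theorem tyL_perm {s t : List (List ℕ)} (h : s.isPerm t = true) : tyL ω s = tyL ω t :=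
  ((List.isPerm_iff.1 h).map _).sum_eq

theorem Sm.mm (H : Sm σ ω) {T : List Cert} (hT : T.all Cert.chk = true) {s : List (List ℕ)}
    (h : hasM T s = true) : MM σ (tyL ω s) := by
  simp only [hasM, List.any_eq_true, List.all_eq_true] at h hT
  obtain ⟨C, h1, h0⟩ := h
  obtain ⟨t, u, h2, -⟩ := H.cert (hT C h1)
  exact ⟨t, u, tyL_perm (ω := ω) h0 ▸ h2⟩

theorem Sm.ma (H : Sm σ ω) {T : List Cert} (hT : T.all Cert.chk = true) {s : List (List ℕ)}
    (h : hasN T s = true) : MA σ (N1 σ) (tyL ω s) := by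
  simp only [hasN, List.any_eq_true, List.all_eq_true, Bool.and_eq_true] at h hT
  obtain ⟨C, h1, h0, h3⟩ := h
  obtain ⟨t, u, h2, -, -, h4⟩ := H.cert (hT C h1)
  exact ⟨t, u, tyL_perm (ω := ω) h0 ▸ h2, h4 h3⟩

theorem Sm.mp (H : Sm σ ω) {T : List Cert} (hT : T.all Cert.chk = true) {s : List (List ℕ)}
    (h : hasP T s = true) : MP σ (tyL ω s) := fun ε hε => by
  simp only [hasP, List.any_eq_true, beq_iff_eq, List.all_eq_true, Bool.and_eq_true] at h hT
  obtain ⟨e, he, rfl⟩ := H.unit hε.ne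
  obtain ⟨C, h1, h0, rfl⟩ := h e he
  obtain ⟨t, u, h2, h3, h4, -⟩ := H.cert (hT C h1)
  exact ⟨t, u, tyL_perm (ω := ω) h0 ▸ h2, h3, h4⟩

/-- add a constant -/
def adc (b : ℕ) : List ℕ → List ℕ
  | [] => []
  | c :: l => (b ^^^ c) :: l

/-- multiply by a linear factor -/
def mx (a : ℕ) : List ℕ → List ℕ
  | [] => [a]
  | b :: l => mu a b :: adc b (mx a l)

/-- powers of linear polynomials -/
def pw (a : ℕ) : ℕ → List ℕ
  | 0 => []
  | k + 1 => mx a (pw a k)

/-- self-duality check -/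
def sdc (l : List ℕ) : Bool := l.headD 1 % 4 != 0 && al l.length fun i => i == 0 ||
  (l.getD i 0 ^^^ mu (l.headD 1) (mu (l.getD (l.length - i) 0) (l.getD (l.length - i) 0))) % 4 == 0

/-- quantifier over coefficient lists -/
def allL : ℕ → (List ℕ → Bool) → Bool
  | 0, f => f []
  | n + 1, f => al 4 fun a => allL n fun l => f (a :: l)

/-- a certificate in the general linear group -/
structure GC where
  (n l A a ai B D pl ql pa qa : ℕ)
  (s : List (List ℕ))
  (F : List ℕ)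

/-- checking it -/
def GC.chk (G : GC) : Bool :=
  eqMul G.n (en G.n G.l) (en G.n G.A) (en G.n G.B) &&
    eqMul G.n (en G.n G.B) (en G.n G.a) (en G.n G.D) &&
    eqMul G.n (en G.n G.a) (en G.n G.A) (en G.n G.D) && eqMul G.n (en G.n G.a) (en G.n G.ai) idm &&
    chkT G.n (en G.n G.l) G.pl G.ql G.s && chkT G.n (en G.n G.A) G.pa G.qa [G.F] &&
    G.F.length == G.n && irr G.F && !sdc G.F && G.F.headD 1 % 4 != 0 &&
    (G.F == [1, 2] || G.F.length != 2 || (G.F.headD 1 ^^^ 1) % 4 != 0)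

/-- certificates for all determinants -/
def hasG (T : List GC) (s : List (List ℕ)) : Bool :=
  [1, 2, 3].all fun e => T.any fun G => G.s.isPerm s && G.F.headD 1 == e

theorem toP_getD (l : List ℕ) {i : ℕ} (h : i < l.length) : (toP ω l).coeff i = ph ω (l.getD i 0) := by
  induction l generalizing i with
  | nil => simp at h
  | cons a l ih =>
    rcases i with _ | i
    · simp [toP]
    · rw [toP, coeff_add, coeff_C_succ, zero_add, coeff_X_mul, ih (by simpa using h)]; rfl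

theorem ph_of_mod {a : ℕ} (h : a % 4 = 0) : ph ω a = 0 := if_pos h

namespace Sm
variable (H : Sm σ ω)
include H

theorem toP_mx (a : ℕ) (l : List ℕ) : toP ω (mx a l) = (X - C (ph ω a)) * toP ω l := by
  induction l with
  | nil => rw [mx, H.toP_lin, toP, mul_one]
  | cons b l ih =>
    have e : toP ω (adc b (mx a l)) = C (ph ω b) + toP ω (mx a l) := by
      cases l <;> simp [mx, adc, toP, H.ph_xor, add_assoc]
    rw [mx, toP, e, ih, toP, H.ph_mu, sub_eq_add_neg, ← C_neg, H.neg, C_mul]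
    ring

theorem toP_pw (a k : ℕ) : toP ω (pw a k) = (X - C (ph ω a)) ^ k := by
  induction k with
  | zero => rfl
  | succ k ih => rw [pw, H.toP_mx, ih, pow_succ']

theorem mod_of_eq {a b : ℕ} (h : ph ω a = ph ω b) : (a ^^^ b) % 4 = 0 :=
  not_not.1 fun k => H.ph_ne k (by rw [H.ph_xor, h, ← two_mul, H.two, zero_mul])

theorem sdc_of [Cj σ] {l : List ℕ} (h : SD σ (toP ω l)) : sdc l = true := by
  simp only [sdc, Bool.and_eq_true, bne_iff_ne, al_iff, Bool.or_eq_true, beq_iff_eq]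
  refine ⟨fun k => h.ne (by rw [toP_coeff, ph_of_mod k]), fun i hi => (Nat.eq_zero_or_pos i).imp id
    fun h0 => H.mod_of_eq ?_⟩
  have := h.coeff (i := i) (by rw [(toP_spec l).2]; omega)
  rw [(toP_spec l).2, toP_coeff, toP_getD l hi, toP_getD l (by omega), H.cj] at this
  rw [this, H.ph_mu, H.ph_mu]

theorem cover_aux (n : ℕ) {φ : List ℕ → Bool} (h : allL n φ = true) {f : K[X]} (hf : f.Monic)
    (hn : f.natDegree = n) : ∃ l, f = toP ω l ∧ φ l = true := by
  induction n generalizing f φ with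
  | zero => exact ⟨[], hf.natDegree_eq_zero.1 hn, h⟩
  | succ n ih =>
    obtain ⟨a, ha, e⟩ := H.all (f.coeff 0)
    have h1 : f.divX.natDegree = n := by rw [natDegree_divX_eq_natDegree_tsub_one, hn]; rfl
    obtain ⟨l, h2, h3⟩ := ih (al_iff.1 h a ha) (f := f.divX) (by
      rw [Monic, leadingCoeff, h1, coeff_divX, ← hn]; exact hf) h1
    exact ⟨a :: l, by rw [toP, ← h2, e, add_comm, X_mul_divX_add], h3⟩

theorem cover [Cj σ] {n : ℕ} {φ : List ℕ → Bool} (h : allL n (fun l => !sdc l || φ l) = true)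
    {f : K[X]} (hf : SD σ f) (hn : f.natDegree = n) : ∃ l, f = toP ω l ∧ φ l = true := by
  obtain ⟨l, rfl, h1⟩ := H.cover_aux n h hf.monic hn
  exact ⟨l, rfl, by simpa [H.sdc_of hf] using h1⟩

theorem nsd [Cj σ] {l : List ℕ} (h0 : l.headD 1 % 4 ≠ 0) (h : sdc l = false) :
    du σ (toP ω l) ≠ toP ω l := fun k => by
  simpa [h] using H.sdc_of ⟨(toP_spec l).1, by rw [toP_coeff]; exact H.ph_ne h0, k⟩

theorem glq (j : ℕ) : ∃ τ, GLP (cy (toP ω [1, 2] ^ j)) τ (toP ω [1, 2]) := by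
  have h2 := H.two
  have h3 := H.sq
  have h0 : ω ≠ 0 := H.ph_ne (a := 2) (by norm_num)
  have h4 : ω⁻¹ = ω + 1 := inv_eq_of_mul_eq_one_right (by grind)
  have := glp_Q j (T := ω) (b := ω) h0 one_ne_zero (by rw [h4]; grind) (by rw [h4]; grind)
  rw [show 1⁻¹ * (ω * (ω * ω⁻¹ - ω) + ω ^ 2 * ω⁻¹) + ω + ω⁻¹ = ω by rw [h4]; grind] at this
  have e : toP ω [1, 2] = X ^ 2 - C ω * X + C 1 := by
    rw [toP, H.toP_lin, ph_two, ph_one]; ring
  rwa [e]

theorem gf [Cj σ] {T : List GC} (hT : T.all GC.chk = true) {s : List (List ℕ)}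
    (h : hasG T s = true) (j : ℕ) : GF σ (N1 σ) (tyL ω s + cy (toP ω [1, 2] ^ j)) := by
  obtain ⟨τ', h'⟩ := H.glq j
  refine gf_add h' fun ε hε => ?_
  simp only [hasG, List.any_eq_true, beq_iff_eq, List.all_eq_true, Bool.and_eq_true] at h hT
  obtain ⟨e, he, he'⟩ := H.unit hε.inv.ne
  obtain ⟨G, h1, h0, rfl⟩ := h e he
  have := hT G h1
  simp only [GC.chk, Bool.and_eq_true, Bool.or_eq_true, beq_iff_eq, bne_iff_ne,
    Bool.not_eq_true'] at this
  obtain ⟨⟨⟨⟨⟨⟨⟨⟨⟨⟨k1, k2⟩, k3⟩, k4⟩, k5⟩, k6⟩, k7⟩, k8⟩, k9⟩, k10⟩, k11⟩ := this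
  have a1 := H.chkT_spec k6
  rw [tyL_cons, tyL_nil, add_zero] at a1
  have a2 : dt (cy (toP ω G.F)) = ε⁻¹ := by
    rw [dt_cy (toP_spec _).1, H.neg, one_pow, one_mul, toP_coeff, he']
  have a3 := GLP.of_abs (A := Matrix.toLin' (Mat ω G.n (en G.n G.A)))
    (a := Matrix.toLin' (Mat ω G.n (en G.n G.a))) (l := Matrix.toLin' (Mat ω G.n (en G.n G.l)))
    (F := toP ω G.F) (by
      rw [LinearMap.isUnit_iff_isUnit_det, ← dt_kd, a1, a2]; exact hε.inv.ne.isUnit)
    ((IsUnit.of_mul_eq_one _ ((H.mat_mul k4).trans (mat_idm _))).map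
      (Matrix.toLinAlgEquiv' (R := K) (n := Fin G.n)))
    (by simp only [End.mul_eq_comp, ← Matrix.toLin'_mul, H.mat_mul k1, H.mat_mul k2, H.mat_mul k3])
    (LinearMap.ker_eq_top.1 (Submodule.eq_top_of_finrank_eq (by
      have := congrFun a1 (toP ω G.F)
      rw [cy, kerDim_cyc_of_dvd' (toP_spec _).1.ne_zero dvd_rfl, (toP_spec _).2, k7] at this
      simpa [kerDim] using this)))
  rw [H.chkT_spec k5, tyL_perm h0, a1] at a3
  have b1 := H.irr_spec k8
  have b2 := H.irr_spec (l := [1, 2]) (by decide)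
  have b3 : (toP ω G.F).coeff 0 ≠ 0 := by rw [toP_coeff]; exact H.ph_ne k10
  have b4 : (toP ω [1, 2]).coeff 0 ≠ 0 := by rw [toP_coeff]; exact one_ne_zero
  have b5 := H.nsd (l := [1, 2]) (by decide) (by decide)
  have b6 : du σ (toP ω G.F) ≠ toP ω [1, 2] := fun k => by
    rcases k11 with (k' | k') | k'
    · exact b5 (k' ▸ k)
    · exact k' (by rw [← (toP_spec (ω := ω) G.F).2, ← du_natDegree (σ := σ) b3, k, (toP_spec _).2]; rfl)
    · have := congrArg (coeff · 0) k
      simp only [du_coeff_zero (toP_spec G.F).1, toP_coeff, inv_eq_one, List.headD_cons, ph_one,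
        map_eq_one_iff σ σ.injective] at this
      exact k' (H.mod_of_eq this)
  have c : ∀ {p r : K[X]}, Irreducible p → p.Monic → Irreducible r → r.Monic → r.coeff 0 ≠ 0 →
      du σ r ≠ p → IsCoprime p (du σ r) := fun p1 p2 r1 r2 r3 h =>
    isCoprime_of_monic_irreducible_ne p1 p2 (du_irreducible Cj.inv r1 r2 r3) (du_monic r3) h.symm
  refine ⟨_, _, a3, ?_, by rw [a2, hε.inv.cj, inv_inv, ← H.cj, hε.cj], co_cy b1 (toP_spec _).1⟩
  rw [map_mul]
  exact ((c b1 (toP_spec _).1 b1 (toP_spec _).1 b3 (H.nsd k10 k9)).mul_right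
    (c b1 (toP_spec _).1 b2 (toP_spec _).1 b4 fun k => b6 (by
      rw [← k, du_du Cj.inv (toP_spec _).1 b4]))).mul_left
    ((c b2 (toP_spec _).1 b1 (toP_spec _).1 b3 b6).mul_right
      (c b2 (toP_spec _).1 b2 (toP_spec _).1 b4 b5))

end Sm

end H37.Ore.SU
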