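import Mathlib
import Cfsg.Agent.Base
import Cfsg.Agent.Lib.Ore.SuI
import Cfsg.Agent.Lib.Unitary.Field

/-! Commutators in special unitary groups over the field with four elements. -/

set_option autoImplicit false

namespace H37.Ore.SU

open Module Polynomial H65 H64.Sour H66 H64.Wall

universe u
variable {K : Type u} [Field K] {σ : K →+* K} {ω : K}

/-- the cyclic part of a commutator -/
noncomputable def lp (ω : K) (j : ℕ) : List ℕ → K[X]
  | [] => toP ω [1, 2] ^ j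
  | a :: l => (X - C (ph ω a)) * lp ω j l

/-- Jordan blocks -/
def JJ (ω : K) (k : ℕ) (f : K[X]) : Prop := ∃ a ∈ [1, 2, 3], f = toP ω (pw a k)

variable (σ) in
/-- families of commutators -/
def Fam (lt : K[X] → ℕ) (κ : K) (k : ℕ) : Prop := ∀ m, k ≤ m → ∃ p : K[X], p.Monic ∧
  p.natDegree = m ∧ p.coeff 0 = κ ∧ GF σ (N1 σ) (lt + cy p)

variable (σ) in
/-- robust cores -/
def RC (ω : K) (s : K[X] → ℕ) : Prop := MP σ s ∧ ∀ g, JJ ω 2 g → MP σ (s + cy g)

theorem ex_cons {α : Type*} {L : Multiset α} {n : ℕ} (h : n + 1 ≤ L.card) :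
    ∃ a L', L = a ::ₘ L' ∧ n ≤ L'.card := by
  obtain ⟨a, ha⟩ := Multiset.card_pos_iff_exists_mem.1 (by omega : 0 < L.card)
  obtain ⟨L, rfl⟩ := Multiset.exists_cons_of_mem ha
  exact ⟨a, L, rfl, by simpa using h⟩

namespace Sm
variable (H : Sm σ ω)
include H

theorem lp_spec (j : ℕ) {l : List ℕ} (h1 : l.Nodup) (h2 : ∀ a ∈ l, a < 4) :
    (lp ω j l).Monic ∧ (lp ω j l).natDegree = l.length + 2 * j ∧
      (lp ω j l).coeff 0 = ph ω (cst (l.map fun a => [a])) ∧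
      (∀ x < 4, x ∉ l → (lp ω j l).eval (ph ω x) ≠ 0) ∧
      cy (lp ω j l) = tyL ω (l.map fun a => [a]) + cy (toP ω [1, 2] ^ j) := by
  induction l with
  | nil =>
    refine ⟨(toP_spec _).1.pow j, by simp [lp, (toP_spec _).2, mul_comm], ?_, fun x _ _ => ?_,
      by simp [lp]⟩
    · simp [lp, toP, cst, coeff_zero_eq_eval_zero]
    · rw [lp, eval_pow]
      exact pow_ne_zero _ (eval_ne_of_irr (H.irr_spec (by decide)) (by simp [(toP_spec _).2]) _)
  | cons a l ih =>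
    rw [List.nodup_cons] at h1
    rw [List.forall_mem_cons] at h2
    obtain ⟨k1, k2, k3, k4, k5⟩ := ih h1.2 h2.2
    refine ⟨(monic_X_sub_C _).mul k1, ?_, ?_, fun x x1 x2 => ?_, ?_⟩
    · rw [lp, (monic_X_sub_C _).natDegree_mul k1, k2, natDegree_X_sub_C, List.length_cons]; ring
    · simp [lp, k3, cst, H.ph_mu, H.neg]
    · rw [List.mem_cons, not_or] at x2
      rw [lp, eval_mul, eval_sub, eval_X, eval_C]
      exact mul_ne_zero (sub_ne_zero.2 fun h => x2.1 (H.ph_inj x1 h2.1 h)) (k4 x x1 x2.2)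
    · rw [lp, cy_mul (monic_X_sub_C _) k1 (cop_X_sub (k4 a h2.1 h1.1)).symm, k5, List.map_cons,
        tyL_cons, H.toP_lin, add_assoc]

theorem cube {x : K} (h : x ≠ 0) : x ^ 3 = 1 := by
  have := H.n1 h
  rw [N1, H.cj] at this
  linear_combination this

theorem unit_ne {a : ℕ} (h : a ∈ [1, 2, 3]) : ph ω a ≠ 0 := H.ph_ne (by
  simp only [List.mem_cons, List.not_mem_nil, or_false] at h
  omega)

theorem jj {k : ℕ} {f : K[X]} (h : Blk σ f) (hk : f.natDegree = k) {ρ : K} (h0 : ρ ≠ 0)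
    (h1 : f.eval ρ = 0) : JJ ω k f := by
  obtain ⟨a, ha, rfl⟩ := H.unit h0
  exact ⟨a, ha, by rw [H.toP_pw, ← hk]; exact h.root _ (H.n1 h0) h1⟩

theorem jj_rt {l : List ℕ} (h : Blk σ (toP ω l)) (h1 : rt l = true) {k : ℕ}
    (hk : (toP ω l).natDegree = k) : JJ ω k (toP ω l) := by
  simp only [rt, List.any_eq_true, beq_iff_eq] at h1
  obtain ⟨x, hx, h1⟩ := h1
  exact H.jj h hk (H.unit_ne hx) (by rw [H.eval_toP, ph_of_mod h1])

variable [Cj σ]

theorem fam_aux {l₀ l : List ℕ} {k : ℕ} (h : adm l₀ l k = true) (j : ℕ) : ∃ p : K[X], p.Monic ∧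
    p.natDegree = l.length + 2 * j ∧ p.coeff 0 = ph ω k ∧
      GF σ (N1 σ) (tyL ω (l₀.map fun a => [a]) + cy p) := by
  simp only [adm, Bool.and_eq_true, decide_eq_true_eq, List.all_eq_true, beq_iff_eq] at h
  obtain ⟨⟨⟨h1, h2⟩, h3⟩, rfl⟩ := h
  obtain ⟨k1, k2, k3, -, k5⟩ := H.lp_spec j h2 h3
  refine ⟨_, k1, k2, k3, ?_⟩
  have := H.gf TG_ok h1 j
  rwa [List.map_append, tyL, List.map_append, List.sum_append, add_assoc, ← tyL, ← tyL, ← k5] at this

theorem fam1 : Fam σ 0 1 2 := fun m hm => by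
  rcases Nat.even_or_odd' m with ⟨k, rfl | rfl⟩
  · obtain ⟨p, a, b, c⟩ := H.fam_aux adm1.1 (k - 1)
    exact ⟨p, a, by rw [b]; simp; omega, c⟩
  · obtain ⟨p, a, b, c⟩ := H.fam_aux adm1.2 (k - 1)
    exact ⟨p, a, by rw [b]; simp; omega, c⟩

theorem fam2 {a : ℕ} (ha : a ∈ [1, 2, 3]) : Fam σ (on (ph ω a)) (ph ω a * ph ω a) 1 := fun m hm => by
  have e : tyL ω ([a].map fun a => [a]) = on (ph ω a) := by simp [H.toP_lin, on]
  rw [← e, ← H.ph_mu]
  rcases Nat.even_or_odd' m with ⟨k, rfl | rfl⟩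
  · obtain ⟨p, b, c, d⟩ := H.fam_aux (adm2 a ha).2.1 (k - 1)
    exact ⟨p, b, by rw [c, (adm2 a ha).2.2]; omega, d⟩
  · obtain ⟨p, b, c, d⟩ := H.fam_aux (adm2 a ha).1 k
    exact ⟨p, b, by rw [c]; simp; omega, d⟩

theorem one {f : K[X]} (h : Blk σ f) (h1 : f.natDegree = 1) : JJ ω 1 f := by
  obtain ⟨a, ha, e⟩ := h.sd.lin h1
  exact H.jj h h1 ha.ne (by simp [e])

theorem two' {f : K[X]} (h : Blk σ f) (h1 : f.natDegree = 2) : JJ ω 2 f := by
  obtain ⟨l, rfl, e⟩ := H.cover cov2 h.sd h1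
  exact H.jj_rt h e h1

theorem three {f : K[X]} (h : Blk σ f) (h1 : f.natDegree = 3) : MP σ (cy f) ∨ JJ ω 3 f := by
  obtain ⟨l, rfl, e⟩ := H.cover cov3 h.sd h1
  exact (Bool.or_eq_true_iff.1 e).symm.imp (fun e => by simpa using H.mp T3_ok e)
    fun e => H.jj_rt h e h1

variable [Finite K]

theorem ma_cube {b : K} (h0 : b ≠ 0) (h1 : b ≠ 1) : MA σ (N1 σ) (cy (X ^ 3 - C b)) := by
  obtain ⟨a, ha, rfl⟩ := H.unit h0
  have := H.ma T3_ok ((n3 a ha).resolve_left fun h => h1 (by rw [h, ph_one]))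
  rwa [tyL_cons, tyL_nil, add_zero, show toP ω [a, 0, 0] = X ^ 3 - C (ph ω a) by
    simp only [toP, ph_zero, C_0]; rw [sub_eq_add_neg, ← C_neg, H.neg]; ring] at this

theorem gen {s lt : K[X] → ℕ} {κ : K} {k : ℕ} (hk : 0 < k) (hs : St σ s lt 0) (hG : Fam σ lt κ k)
    (h0 : κ ≠ 0) {f : K[X]} (hf : Blk σ f) (h1 : 2 * k ≤ f.natDegree)
    (h2 : f.natDegree = 2 * k → f.coeff 0 * κ = 1)
    (h3 : f.natDegree = 2 * k + 2 → f.coeff 0 * κ = 1 ∨
      (f.eval 1 ≠ 0 ∧ f.eval (f.coeff 0 * κ) ≠ 0)) : MP σ (s + cy f) := by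
  have key : ∀ {m : ℕ} {w : K[X] → ℕ}, k ≤ m → MA σ (N1 σ) w → (∀ p : K[X], p.Monic →
      p.natDegree = m → p.coeff 0 = κ → St σ (cy f) (cy p) w) → MP σ (s + cy f) :=
    fun hm hw h => by
      obtain ⟨p, a, b, c, d⟩ := hG _ hm
      exact (hs.add (h p a b c)).mp d (by rwa [zero_add])
  rcases Nat.even_or_odd' f.natDegree with ⟨m, hm | hm⟩
  swap
  · obtain ⟨p, a, b, c, d⟩ := hG m (by omega)
    obtain ⟨ρ, r1, r2⟩ := hf.exists_ne n1_one (H.n1 (H.ph_ne (a := 2) (by norm_num))) fun h =>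
      absurd (H.ph_inj (a := 1) (b := 2) (by norm_num) (by norm_num) h) (by norm_num)
    obtain ⟨μ, m1, m2⟩ := st_odd hf.sd r1 r2 a (c ▸ h0) (by omega) (by omega)
    exact (hs.add m2).mp d (by rw [zero_add]; exact ma_on m1)
  by_cases h4 : f.coeff 0 * κ = 1
  · exact key (m := m) (by omega) (ma_zero _) fun p a b c => st_zero hf.sd a (c ▸ h0) (by omega)
      (by omega) (by rw [c, H.cj]; linear_combination -κ * h4)
  have h5 : f.coeff 0 * κ ≠ 0 := mul_ne_zero hf.sd.ne h0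
  by_cases h6 : f.eval 1 ≠ 0 ∧ f.eval (f.coeff 0 * κ) ≠ 0
  · exact key (m := m - 1) (by by_contra; exact h4 (h2 (by omega)))
      (ma_add (ma_on n1_one) (ma_on (H.n1 h5))) fun p a b c => st_pair hf.sd n1_one (H.n1 h5)
        (Ne.symm h4) h6.1 h6.2 a (c ▸ h0) (by by_contra; exact h4 (h2 (by omega)))
        (by by_contra; exact h4 (h2 (by omega))) (by rw [c, H.cj]; ring)
  have h7 : k + 2 ≤ m := by
    by_contra
    exact h4 ((Nat.lt_or_ge k m).elim (fun _ => (h3 (by omega)).resolve_right h6)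
      fun _ => h2 (by omega))
  obtain ⟨ρ, a, b, r0, r1, a0, a1, b0, b1, ab⟩ : ∃ ρ a b : K, ρ ≠ 0 ∧ f.eval ρ = 0 ∧ a ≠ 0 ∧ a ≠ ρ ∧
      b ≠ 0 ∧ b ≠ 1 ∧ a * b = f.coeff 0 * κ := by
    have c3 := H.cube h5
    generalize f.coeff 0 * κ = δ at *
    have : δ * δ ≠ 1 := fun h => h4 (by linear_combination c3 - δ * h)
    by_cases h8 : f.eval 1 = 0
    · exact ⟨1, δ * δ, δ * δ, one_ne_zero, h8, mul_ne_zero h5 h5, this, mul_ne_zero h5 h5, this,
        by linear_combination δ * c3⟩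
    · exact ⟨δ, 1, δ, h5, not_not.1 fun h => h6 ⟨h8, h⟩, one_ne_zero, Ne.symm h4, h5, h4, one_mul _⟩
  have c1 : ∀ x : K, x ≠ 0 → IsCoprime (X ^ 3 - C b) (X - C x) := fun x hx =>
    cop_X_sub (by simpa [H.cube hx, sub_eq_zero] using b1.symm)
  have c2 := sd_X_pow three_ne_zero (H.n1 b0)
  refine key (m := m - 2) (by omega) (ma_add (ma_on (H.n1 a0)) (H.ma_cube b0 b1)) fun p p1 p2 p3 => ?_
  rw [on, ← cy_mul (monic_X_sub_C a) c2.monic (c1 a a0).symm]
  refine st_iso hf.sd ((sd_lin (H.n1 a0)).mul c2) ((cop_X_sub (hf.eval_ne (H.n1 r0) r1 a1)).mul_right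
    (by rw [hf.root ρ (H.n1 r0) r1]; exact (c1 ρ r0).symm.pow_left)) p1 (p3 ▸ h0) (by omega) ?_ ?_
  · rw [(monic_X_sub_C a).natDegree_mul c2.monic, natDegree_X_sub_C, natDegree_X_pow_sub_C]; omega
  · simp only [p3, H.cj, coeff_zero_eq_eval_zero (_ * _), eval_mul, eval_sub, eval_X, eval_C, eval_pow]
    linear_combination κ * ab

theorem mp_big {f : K[X]} (h : Blk σ f) (h4 : 4 ≤ f.natDegree) : MP σ (cy f) := by
  by_cases h1 : f.natDegree = 4 ∧ f.coeff 0 ≠ 1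
  · obtain ⟨l, rfl, e⟩ := H.cover cov4 h.sd h1.1
    refine (Bool.or_eq_true_iff.1 e).elim (fun e => absurd ?_ h1.2)
      fun e => by simpa using H.mp T4_ok e
    rw [toP_coeff, eq_of_beq e, ph_one]
  have := H.gen two_pos pair_zero.un.st H.fam1 one_ne_zero h h4
    (fun e => by rw [mul_one]; exact not_not.1 fun k => h1 ⟨e, k⟩) fun e => by
      rw [mul_one]
      refine or_iff_not_imp_left.2 fun k => ⟨h.one ⟨3, e⟩ k, fun k' => k ?_⟩
      rw [h.coeff (H.n1 h.sd.ne) k', e, H.neg, show 2 * 2 + 2 = 3 * 2 from rfl, pow_mul,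
        H.cube h.sd.ne, one_pow]
  rwa [zero_add] at this

theorem mm1 {f : K[X]} (h : JJ ω 1 f) : MM σ (cy f) := by
  obtain ⟨a, ha, rfl⟩ := h
  rw [H.toP_pw, pow_one]
  exact (ma_on (H.n1 (H.unit_ne ha))).mm

theorem mm_blk {f : K[X]} (h : Blk σ f) (h2 : f.natDegree ≠ 2) : MM σ (cy f) := by
  have := h.pos
  rcases Nat.lt_or_ge f.natDegree 4 with h4 | h4
  swap
  · exact (H.mp_big h h4).mm
  by_cases h3 : f.natDegree = 3
  · rcases H.three h h3 with k | ⟨a, ha, rfl⟩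
    · exact k.mm
    · simpa using H.mm T3_ok (t3 a ha)
  · exact H.mm1 (H.one h (by omega))

theorem mp_jf {g f : K[X]} (hg : JJ ω 2 g) (h : Blk σ f) (h3 : 3 ≤ f.natDegree) :
    MP σ (cy g + cy f) := by
  obtain ⟨a, ha, rfl⟩ := hg
  by_cases h1 : JJ ω 4 f
  · obtain ⟨b, hb, rfl⟩ := h1
    simpa using H.mp T42_ok (t42 a ha b hb)
  have a0 := H.unit_ne ha
  have a1 := mul_ne_zero a0 a0
  refine H.gen one_pos (st_two (by rw [H.toP_pw]; exact (sd_lin (H.n1 a0)).pow 2)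
    (by rw [H.toP_pw]; simp) a0 ?_) (H.fam2 ha) a1 h (by omega) (by omega)
    fun e => Or.inr ⟨fun k => h1 (H.jj h e one_ne_zero k),
      fun k => h1 (H.jj h e (mul_ne_zero h.sd.ne a1) k)⟩
  rw [H.toP_pw, H.cj, coeff_zero_eq_eval_zero]
  simp only [eval_pow, eval_sub, eval_X, eval_C]
  linear_combination ph ω a * H.cube a0

theorem mp22 {f g : K[X]} (hf : JJ ω 2 f) (hg : JJ ω 2 g) : RC σ ω (cy f + cy g) := by
  obtain ⟨a, ha, rfl⟩ := hf
  obtain ⟨b, hb, rfl⟩ := hg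
  refine ⟨by simpa using H.mp T22_ok (t22 a ha b hb), ?_⟩
  rintro _ ⟨c, hc, rfl⟩
  simpa [add_assoc] using H.mp T222_ok (t222 a ha b hb c hc)

theorem rc_ty {s : K[X] → ℕ} (hs : RC σ ω s) {L : Multiset K[X]} (h : ∀ f ∈ L, Blk σ f) :
    MP σ (s + ty L) := by
  have : MM σ (ty L) ∨ ∃ g t, JJ ω 2 g ∧ MM σ t ∧ ty L = cy g + t := by
    induction L using Multiset.induction_on with
    | empty => exact Or.inl (ma_zero (N1 σ)).mm
    | cons f L ih =>
      rw [Multiset.forall_mem_cons] at h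
      rw [ty_cons]
      by_cases h2 : f.natDegree = 2
      · rcases ih h.2 with k | ⟨g, t, k1, k2, k3⟩
        · exact Or.inr ⟨f, _, H.two' h.1 h2, k, rfl⟩
        · rw [k3, ← add_assoc]
          exact Or.inl ((H.mp22 (H.two' h.1 h2) k1).1.mm.add k2)
      · exact (ih h.2).imp (H.mm_blk h.1 h2).add fun ⟨g, t, k1, k2, k3⟩ =>
          ⟨g, _, k1, (H.mm_blk h.1 h2).add k2, by rw [k3, add_left_comm]⟩
  rcases this with k | ⟨g, t, k1, k2, k3⟩
  · exact hs.1.add k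
  · rw [k3, ← add_assoc]
    exact (hs.2 g k1).add k2

theorem rc_three {f g : K[X]} (hf : Blk σ f) (h3 : JJ ω 3 f) (h3' : f.natDegree = 3)
    (hg : Blk σ g) : RC σ ω (cy f + cy g) := by
  have m1 := H.mm_blk hf (by omega)
  by_cases h2 : g.natDegree = 2
  · refine ⟨add_comm (cy g) _ ▸ H.mp_jf (H.two' hg h2) hf h3'.ge, fun k hk => ?_⟩
    rw [add_assoc, add_comm]
    exact (H.mp22 (H.two' hg h2) hk).1.add m1
  refine ⟨?_, fun k hk => ?_⟩
  swap
  · rw [add_comm, ← add_assoc]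
    exact (H.mp_jf hk hf h3'.ge).add (H.mm_blk hg h2)
  have := hg.pos
  obtain ⟨a, ha, rfl⟩ := h3
  rcases Nat.lt_or_ge g.natDegree 4 with h4 | h4
  swap
  · exact add_comm (cy g) _ ▸ (H.mp_big hg h4).add m1
  by_cases h5 : g.natDegree = 3
  · rcases H.three hg h5 with k | ⟨b, hb, rfl⟩
    · exact add_comm (cy g) _ ▸ k.add m1
    · simpa using H.mp T33_ok (t33 a ha b hb)
  · obtain ⟨b, hb, rfl⟩ := H.one hg (by omega)
    simpa using H.mp T31_ok (t31 a ha b hb)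

theorem rc111 {f g k : K[X]} (hf : JJ ω 1 f) (hg : JJ ω 1 g) (hk : JJ ω 1 k) :
    RC σ ω (cy f + (cy g + cy k)) := by
  have m1 := H.mm1 hg
  have m2 := H.mm1 hk
  obtain ⟨a, ha, rfl⟩ := hf
  obtain ⟨b, hb, rfl⟩ := hg
  obtain ⟨c, hc, rfl⟩ := hk
  refine ⟨by simpa using H.mp T111_ok (t111 a ha b hb c hc), ?_⟩
  rintro _ ⟨d, hd, rfl⟩
  rw [add_comm]
  rcases t211 d hd a ha b hb with k | ⟨rfl, rfl, -⟩
  · simpa [add_assoc] using (H.mp T211_ok k).add m2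
  rcases t211 b hb b hb c hc with k | ⟨-, rfl, -⟩
  · convert (H.mp T211_ok k).add m1 using 1
    simp only [tyL_cons, tyL_nil]; abel
  · simpa using H.mp T2111_ok (t2111 c hc)

theorem fn_ty {L : Multiset K[X]} (h : ∀ f ∈ L, Blk σ f) (hn : 4 ≤ (L.map natDegree).sum) :
    FN σ (ty L) := by
  classical
  by_cases h3 : ∃ f ∈ L, 3 ≤ f.natDegree
  · obtain ⟨f, hf, h3⟩ := h3
    obtain ⟨L, rfl⟩ := Multiset.exists_cons_of_mem hf
    rw [Multiset.forall_mem_cons] at h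
    rw [ty_cons]
    by_cases h4 : MP σ (cy f)
    · exact (H.rc_ty ⟨h4, fun g hg => add_comm (cy g) _ ▸ H.mp_jf hg h.1 h3⟩ h.2).fn
    have h5 : f.natDegree = 3 := by by_contra; exact h4 (H.mp_big h.1 (by omega))
    rcases L.empty_or_exists_mem with rfl | ⟨g, hg⟩
    · simp [h5] at hn
    obtain ⟨L, rfl⟩ := Multiset.exists_cons_of_mem hg
    rw [Multiset.forall_mem_cons] at h
    rw [ty_cons, ← add_assoc]
    exact (H.rc_ty (H.rc_three h.1 ((H.three h.1 h5).resolve_left h4) h5 h.2.1) h.2.2).fn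
  push Not at h3
  obtain ⟨A, B, rfl, hA, hB⟩ : ∃ A B, L = A + B ∧ (∀ f ∈ A, f.natDegree = 2) ∧
      ∀ f ∈ B, f.natDegree = 1 := ⟨L.filter (·.natDegree = 2), L.filter (¬·.natDegree = 2),
    (Multiset.filter_add_not _ L).symm, fun f hf => (Multiset.mem_filter.1 hf).2, fun f hf => by
      have h1 := Multiset.mem_filter.1 hf
      have := h3 f h1.1; have := (h f h1.1).pos; omega⟩
  rw [Multiset.map_add, Multiset.sum_add, Multiset.map_congr rfl hA, Multiset.map_congr rfl hB] at hn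
  simp only [Multiset.map_const', Multiset.sum_replicate, smul_eq_mul] at hn
  rcases Nat.lt_or_ge A.card 2 with h2 | h2
  swap
  · obtain ⟨f, A, rfl, e⟩ := ex_cons h2
    obtain ⟨g, A, rfl, -⟩ := ex_cons e
    simp only [Multiset.cons_add, Multiset.forall_mem_cons] at h hA
    rw [Multiset.cons_add, Multiset.cons_add, ty_cons, ty_cons, ← add_assoc]
    exact (H.rc_ty (H.mp22 (H.two' h.1 hA.1) (H.two' h.2.1 hA.2.1)) h.2.2).fn
  rcases Nat.lt_or_ge B.card 3 with h1 | h1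
  swap
  · obtain ⟨f, B, rfl, e⟩ := ex_cons h1
    obtain ⟨g, B, rfl, e'⟩ := ex_cons e
    obtain ⟨k, B, rfl, -⟩ := ex_cons e'
    simp only [Multiset.add_cons, Multiset.forall_mem_cons] at h hB
    rw [Multiset.add_cons, Multiset.add_cons, Multiset.add_cons, ty_cons, ty_cons, ty_cons,
      ← add_assoc (cy g), ← add_assoc]
    exact (H.rc_ty (H.rc111 (H.one h.1 hB.1) (H.one h.2.1 hB.2.1) (H.one h.2.2.1 hB.2.2.1))
      h.2.2.2).fn
  obtain ⟨f, rfl⟩ := Multiset.card_eq_one.1 (by omega : A.card = 1)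
  obtain ⟨g, k, rfl⟩ := Multiset.card_eq_two.1 (by omega : B.card = 2)
  obtain ⟨a, ha, rfl⟩ := H.two' (h f (by simp)) (hA f (by simp))
  obtain ⟨b, hb, rfl⟩ := H.one (h g (by simp)) (hB g (by simp))
  obtain ⟨c, hc, rfl⟩ := H.one (h k (by simp)) (hB k (by simp))
  have e : ty ({toP ω (pw a 2)} + {toP ω (pw b 1), toP ω (pw c 1)}) =
    tyL ω [pw a 2, pw b 1, pw c 1] := by simp [ty, add_left_comm]
  rw [e]
  rcases t211 a ha b hb c hc with k | ⟨-, -, k⟩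
  · exact (H.mp T211_ok k).fn
  · exact fun h1 => absurd (H.mod_of_eq ((H.dt_tyL _).symm.trans h1)) k

end Sm

section fin
variable {F : Type u} [Field F] [Fintype F] {q : ℕ} [H11.U.IsSq F q]

theorem exists_avoid {α : Type*} {p : α → Prop} (l : List α) (h : l.length < Nat.card {x // p x}) :
    ∃ x, p x ∧ x ∉ l := by
  classical
  by_contra! k
  have : Finite {x // p x} := Nat.finite_of_card_ne_zero (by omega)
  have := Nat.card_le_card_of_injective (fun x : {x // p x} => (⟨x.1, by simpa using k x.1 x.2⟩ :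
    l.toFinset)) fun a b h => Subtype.ext (by simpa using h)
  rw [Nat.card_eq_finsetCard] at this
  have := l.toFinset_card_le
  omega

theorem big_of (hq : q ≠ 2) : Big (H11.U.cj q : F →+* F) := by
  have h2 := H11.U.two_le_q F q
  have h0 : (q : F) = 0 := pow_eq_zero_iff two_ne_zero |>.1 (by
    rw [← Nat.cast_pow, ← H11.U.IsSq.card_eq (F := F), FiniteField.cast_card_eq_zero])
  refine ⟨fun a b c => ?_, H11.U.exists_fixed_ne hq 1, fun h x hx => ?_, ?_, fun a b c d => ?_⟩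
  · simpa [N1] using exists_avoid (p := fun x : F => x * H11.U.cj q x = 1) [a, b, c] (by
      rw [H11.U.card_norm_eq one_ne_zero (map_one _)]; simp; omega)
  · obtain ⟨y, rfl⟩ := H11.U.exists_norm_eq hx
    obtain ⟨k, hk⟩ : Odd q := by
      have := FiniteField.odd_card_of_char_ne_two (F := F) fun e => h (by
        simpa using (ringChar.spec F 2).2 (e ▸ dvd_rfl))
      rw [H11.U.IsSq.card_eq (q := q), ← Nat.odd_iff, Nat.odd_pow_iff two_ne_zero] at this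
      exact this
    exact ⟨y ^ (k + 1), by rw [H11.U.mul_cj, ← pow_add, hk]; ring_nf⟩
  · by_cases h3 : q = 3
    · subst h3
      exact Or.inr ⟨fun _ => rfl, fun h => one_ne_zero (by push_cast at h0; linear_combination h0 - h)⟩
    · obtain ⟨x, x1, x2⟩ := exists_avoid (p := fun x : F => H11.U.cj q x = x) [0, 1, -1] (by
        rw [H11.U.card_fixed]; simp; omega)
      exact Or.inl ⟨x, x1, by simpa [mul_self_eq_one_iff] using x2⟩
  · simpa using exists_avoid (p := fun _ : F => True) [a, b, c, d] (by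
      rw [Nat.card_congr (Equiv.subtypeUnivEquiv fun _ => trivial), Nat.card_eq_fintype_card,
        H11.U.IsSq.card_eq (q := q)]
      simp only [List.length_cons, List.length_nil]
      nlinarith [show 3 ≤ q by omega])

theorem sm_of [H11.U.IsSq F 2] : ∃ ω, Sm (H11.U.cj 2 : F →+* F) ω := by
  have h0 : (2 : F) = 0 := pow_eq_zero_iff two_ne_zero |>.1 (by
    have := FiniteField.cast_card_eq_zero F
    rwa [H11.U.IsSq.card_eq (q := 2), Nat.cast_pow] at this)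
  have h4 : ∀ x : F, (x ^ 2) ^ 2 = x := H11.U.cj_cj (q := 2)
  obtain ⟨ω, h1⟩ := H11.U.exists_cj_ne F 2
  have h2 : ω * ω = ω + 1 := mul_left_cancel₀ (sub_ne_zero.2 h1) (by
    rw [H11.U.cj_apply]; linear_combination h4 ω + (ω - ω ^ 3) * h0)
  refine ⟨ω, h0, h2, fun x => sq x, fun x => ?_⟩
  have : x * (x - 1) * (x - ω) * (x - (ω + 1)) = 0 := by
    have := h4 x
    grind
  simp only [mul_eq_zero, sub_eq_zero] at this
  rcases this with ((h | h) | h) | h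
  exacts [⟨0, by simp, h.symm⟩, ⟨1, by simp, h.symm⟩, ⟨2, by simp, h.symm⟩, ⟨3, by simp, h.symm⟩]

theorem ore_su {n : ℕ} (hn : 3 ≤ n) (hex : ¬(n = 3 ∧ q = 2)) (g : Cfsg.SU n F q) :
    ∃ a b : Cfsg.SU n F q, g = a * b * a⁻¹ * b⁻¹ := by
  have : Cj (H11.U.cj q : F →+* F) := ⟨H11.U.cj_cj, H11.U.exists_cj_ne F q⟩
  have hm := mem_SU_iff (n := n) (σ := (H11.U.cj q : F →+* F)) fun _ => rfl
  have hg := (hm g).1 g.2
  obtain ⟨L, h1, h2⟩ := Un.dec ⟨n, _, hg, rfl⟩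
  have h3 : (L.map natDegree).sum = n := by rw [← ty_dim, ← h2, kerDim_zero]; simp
  have h4 : FN (H11.U.cj q : F →+* F) (ty L) := by
    by_cases hq : q = 2
    · subst hq
      obtain ⟨ω, H⟩ := sm_of (F := F)
      exact H.fn_ty h1 (by omega)
    · exact (big_of hq).fn_ty h1 (by omega)
  obtain ⟨t, k1, k2, k3⟩ := h4 (by rw [← h2, dt_kd]; simp)
  obtain ⟨a, b, a1, b1, a2, b2, e⟩ := Pair.fin hg (h2 ▸ k1) k2 k3
  refine ⟨⟨⟨a, a2⟩, (hm _).2 a1⟩, ⟨⟨b, b2⟩, (hm _).2 b1⟩, ?_⟩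
  rw [mul_assoc, ← mul_inv_rev, eq_mul_inv_iff_mul_eq, ← mul_assoc]
  exact Subtype.ext (Subtype.ext e)

end fin

end H37.Ore.SU
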